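import Mathlib

/-!
Every element of `GL₃(2)` is a quotient of two elements of order seven.
-/

set_option autoImplicit false

namespace Cfsg.Agent.Comm.OGL32

open Matrix

/-- Some elements of order seven. -/
def L : List (Matrix (Fin 3) (Fin 3) (ZMod 2)) := [!![0, 1, 1; 1, 0, 0; 0, 1, 0],
  !![1, 0, 1; 1, 0, 0; 0, 1, 1], !![1, 1, 1; 1, 1, 0; 1, 0, 0], !![0, 0, 1; 1, 1, 0; 0, 1, 1],
  !![1, 1, 0; 1, 0, 1; 1, 1, 1], !![0, 0, 1; 0, 1, 1; 1, 1, 1], !![1, 0, 1; 1, 1, 0; 0, 1, 0],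
  !![0, 1, 0; 0, 1, 1; 1, 0, 1], !![1, 1, 0; 0, 0, 1; 1, 0, 1], !![1, 1, 1; 1, 0, 0; 1, 0, 1],
  !![0, 0, 1; 1, 0, 0; 1, 1, 0], !![0, 0, 1; 1, 0, 1; 0, 1, 0], !![0, 1, 1; 1, 1, 1; 1, 0, 1],
  !![0, 1, 0; 1, 0, 1; 1, 0, 0], !![0, 1, 0; 1, 1, 1; 0, 1, 1], !![1, 1, 0; 0, 1, 1; 1, 0, 0]]

/-- The trace. -/
def t₁ {R : Type*} [CommRing R] (N : Matrix (Fin 3) (Fin 3) R) : R := N 0 0 + N 1 1 + N 2 2

/-- The second coefficient. -/
def t₂ {R : Type*} [CommRing R] (N : Matrix (Fin 3) (Fin 3) R) : R :=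
  N 0 0 * N 1 1 - N 0 1 * N 1 0 + (N 0 0 * N 2 2 - N 0 2 * N 2 0) + (N 1 1 * N 2 2 - N 1 2 * N 2 1)

theorem ch {R : Type*} [CommRing R] (N : Matrix (Fin 3) (Fin 3) R) :
    N ^ 3 = t₁ N • N ^ 2 - t₂ N • N + N.det • 1 := by
  ext i j
  fin_cases i <;> fin_cases j <;>
    simp [pow_succ, mul_apply, Fin.sum_univ_three, t₁, t₂, det_fin_three] <;> ring

theorem mem_L : ∀ a ∈ L, a * a * a + a + 1 = 0 ∧ a.det = 1 := by
  simp only [det_fin_three]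
  decide +kernel

theorem cover : ∀ a b c d e f g h i : ZMod 2,
    a * e * i - a * f * h - b * d * i + b * f * g + c * d * h - c * e * g = 1 →
    ∃ x ∈ L, t₁ (!![a, b, c; d, e, f; g, h, i] * x) + t₂ (!![a, b, c; d, e, f; g, h, i] * x) = 1 := by
  decide +kernel

theorem exists_zmod (M : Matrix (Fin 3) (Fin 3) (ZMod 2)) (hM : M.det = 1) :
    ∃ x : Matrix (Fin 3) (Fin 3) (ZMod 2), x ^ 3 + x + 1 = 0 ∧
      ((M * x) ^ 3 + M * x + 1 = 0 ∨ 1 + (M * x) ^ 2 + (M * x) ^ 3 = 0) := by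
  obtain ⟨x, hx, h⟩ := cover _ _ _ _ _ _ _ _ _ (by rw [← det_fin_three M, hM])
  rw [← eta_fin_three M] at h
  obtain ⟨h1, h2⟩ := mem_L x hx
  refine ⟨x, by rw [pow_three, ← mul_assoc, h1], ?_⟩
  have h3 : ∀ y : Matrix (Fin 3) (Fin 3) (ZMod 2), y + y = 0 := fun y => by
    ext i j; exact CharTwo.add_self_eq_zero _
  have h4 : ∀ s t : ZMod 2, s + t = 1 → (s = 0 ∧ t = 1) ∨ (s = 1 ∧ t = 0) := by decide
  rw [ch, det_mul, hM, h2]
  rcases h4 _ _ h with ⟨h5, h6⟩ | ⟨h5, h6⟩ <;> rw [h5, h6]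
  · left
    simp only [one_smul, zero_smul, mul_one]
    exact Eq.trans (by abel) (h3 1)
  · right
    simp only [one_smul, zero_smul, sub_zero, mul_one]
    rw [← add_assoc, add_assoc 1, h3, add_zero, h3]

theorem exists_card_two {F : Type*} [Field F] [Fintype F] (hF : Fintype.card F = 2)
    (M : Matrix (Fin 3) (Fin 3) F) (hM : M.det = 1) :
    ∃ x : Matrix (Fin 3) (Fin 3) F, x ^ 3 + x + 1 = 0 ∧
      ((M * x) ^ 3 + M * x + 1 = 0 ∨ 1 + (M * x) ^ 2 + (M * x) ^ 3 = 0) := by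
  let φ := ZMod.ringEquivOfPrime F Nat.prime_two hF
  let ψ : Matrix (Fin 3) (Fin 3) (ZMod 2) ≃+* Matrix (Fin 3) (Fin 3) F := φ.mapMatrix
  obtain ⟨M, rfl⟩ := ψ.surjective M
  obtain ⟨x, h1, h2⟩ := exists_zmod M (φ.injective (by
    rw [map_one, ← hM]; exact RingEquiv.map_det φ M))
  refine ⟨ψ x, by simpa using congrArg ψ h1, h2.imp (fun h => ?_) fun h => ?_⟩
  · simpa using congrArg ψ h
  · simpa using congrArg ψ h

end Cfsg.Agent.Comm.OGL32
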