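import Mathlib
import Cfsg.Agent.Comm.Sp4

/-!
Factorisations `b = a₁ a₂⁻¹` of diagonal sign matrices with `a₁`, `a₂` acting without fixed points
on bilinear forms, and the resulting commutators in the symplectic group.
-/

set_option autoImplicit false

namespace Cfsg.Agent.Comm.SpW

open Matrix Polynomial Cfsg.Agent.Comm.Sp4

variable {F : Type*} [Field F]

/-- `p'` is the reverse of `p` with respect to the degree `d`. -/
def Rev (d : ℕ) (p p' : F[X]) : Prop :=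
  ∀ (l : Type) [Fintype l] [DecidableEq l] (a R : Matrix l l F), aᵀ * R * a = R →
    R * aeval a p' = aeval aᵀ p * R * a ^ d

theorem Rev.X_pow (k j : ℕ) : Rev (k + j) (X ^ k : F[X]) (X ^ j) := by
  intro l _ _ a R h
  have : ∀ k : ℕ, aᵀ ^ k * R * a ^ k = R := by
    intro k
    induction k with
    | zero => simp
    | succ k ih =>
      calc aᵀ ^ (k + 1) * R * a ^ (k + 1) = aᵀ ^ k * (aᵀ * R * a) * a ^ k := by
            rw [pow_succ, pow_succ']; simp only [Matrix.mul_assoc]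
        _ = R := by rw [h, ih]
  simp only [map_pow, aeval_X]
  rw [pow_add, ← Matrix.mul_assoc, this]

theorem Rev.add {d : ℕ} {p p' q q' : F[X]} (h : Rev d p p') (h' : Rev d q q') :
    Rev d (p + q) (p' + q') := by
  intro l _ _ a R e
  simp only [map_add, Matrix.mul_add, Matrix.add_mul, h l a R e, h' l a R e]

theorem Rev.sub {d : ℕ} {p p' q q' : F[X]} (h : Rev d p p') (h' : Rev d q q') :
    Rev d (p - q) (p' - q') := by
  intro l _ _ a R e
  simp only [map_sub, Matrix.mul_sub, Matrix.sub_mul, h l a R e, h' l a R e]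

theorem Rev.C_mul {d : ℕ} {p p' : F[X]} (c : F) (h : Rev d p p') : Rev d (C c * p) (C c * p') := by
  intro l _ _ a R e
  simp only [map_mul, aeval_C, Algebra.algebraMap_eq_smul_one, Matrix.smul_mul, Matrix.one_mul,
    Matrix.mul_smul, h l a R e]

theorem Rev.mul {d d' : ℕ} {p p' q q' : F[X]} (h : Rev d p p') (h' : Rev d' q q') :
    Rev (d' + d) (p * q) (p' * q') := by
  intro l _ _ a R e
  have hc : a ^ d * aeval a q' = aeval a q' * a ^ d := by
    have := congrArg (aeval a) (mul_comm (X ^ d) q')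
    simpa using this
  rw [map_mul, map_mul, ← Matrix.mul_assoc, h l a R e, Matrix.mul_assoc, hc, ← Matrix.mul_assoc,
    Matrix.mul_assoc _ R, h' l a R e, pow_add]
  simp only [Matrix.mul_assoc]

/-- Polynomials coprime to their reverse. -/
def Cop (p : F[X]) : Prop := p.coeff 0 ≠ 0 ∧ ∃ d p', Rev d p p' ∧ IsCoprime p p'

section
variable {l : Type} [Fintype l] [DecidableEq l]

theorem aeval_transpose (a : Matrix l l F) (p : F[X]) : aeval aᵀ p = (aeval a p)ᵀ := by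
  induction p using Polynomial.induction_on' with
  | add p q hp hq => simp [hp, hq]
  | monomial n c => simp [aeval_monomial, Algebra.algebraMap_eq_smul_one, transpose_pow]

theorem Cop.inj {p : F[X]} (h : Cop p) {a : Matrix l l F} (ha : aeval a p = 0)
    (R : Matrix l l F) (hR : aᵀ * R * a = R) : R = 0 := by
  obtain ⟨-, d, p', h1, u, w, h2⟩ := h
  have h3 := h1 l a R hR
  rw [aeval_transpose, ha, transpose_zero, Matrix.zero_mul, Matrix.zero_mul] at h3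
  have h4 := congrArg (aeval a) h2
  rw [mul_comm w, map_add, map_mul, map_mul, ha, mul_zero, zero_add, map_one] at h4
  rw [← Matrix.mul_one R, ← h4, ← Matrix.mul_assoc, h3, Matrix.zero_mul]

theorem Cop.det_ne {p : F[X]} (h : Cop p) {a : Matrix l l F} (ha : aeval a p = 0) : a.det ≠ 0 := by
  rw [← X_mul_divX_add p, map_add, map_mul, aeval_X, aeval_C, add_eq_zero_iff_eq_neg,
    Algebra.algebraMap_eq_smul_one, ← neg_smul] at ha
  have := congrArg Matrix.det ha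
  rw [det_mul, det_smul, det_one, mul_one] at this
  intro h0
  rw [h0, zero_mul] at this
  exact pow_ne_zero _ (neg_ne_zero.2 h.1) this.symm

/-- The factorisation property. -/
def W (p : F[X]) (τ : Bool) (b : Matrix l l F) : Prop :=
  ∃ a₂ a₃ h h' : Matrix l l F, h' * h = 1 ∧ h * (b * a₂) = a₃ * h ∧ aeval a₂ p = 0 ∧
    (if τ then a₂ᵀ * a₃ = 1 else a₃ = a₂)

/-- Commutators. -/
def IsComm {G : Type*} [Group G] (g : G) : Prop := ∃ a b : G, g = a * b * a⁻¹ * b⁻¹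

theorem IsComm.of_isConj {G : Type*} [Group G] {g g' : G} (h : IsConj g g') (h' : IsComm g') :
    IsComm g := by
  obtain ⟨c, rfl⟩ := isConj_iff.1 h
  obtain ⟨a, b, e⟩ := h'
  refine ⟨c⁻¹ * a * c, c⁻¹ * b * c, ?_⟩
  have : g = c⁻¹ * (a * b * a⁻¹ * b⁻¹) * c := by rw [← e]; group
  rw [this]; group

theorem isConj_inv' {G : Type*} [Group G] {g g' : G} (h : IsConj g g') : IsConj g⁻¹ g'⁻¹ := by
  obtain ⟨c, rfl⟩ := isConj_iff.1 h
  exact isConj_iff.2 ⟨c, by group⟩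

theorem isConj_J (a : Matrix l l F) (ha : a.det ≠ 0) :
    IsConj (lev a⁻¹ (by simpa using ha)) (lev aᵀ (by simpa using ha)) :=
  isConj_iff.2 ⟨SymplecticGroup.symJ l F, by rw [mul_inv_eq_iff_eq_mul, J_mul_lev a ha]⟩

theorem W.isComm [Finite F] {p : F[X]} (hp : Cop p) {τ : Bool} {g : Matrix.symplecticGroup l F}
    {A B C D : Matrix l l F} (hg : g.1 = fromBlocks A B C D) (hA : W p τ A) : IsComm g := by
  obtain ⟨a₂, a₃, h, h', e1, e2, e3, e4⟩ := hA
  have e1' : h * h' = 1 := mul_eq_one_comm.1 e1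
  have d2 : a₂.det ≠ 0 := hp.det_ne e3
  have u2 : IsUnit a₂.det := isUnit_iff_ne_zero.2 d2
  have dh : h.det ≠ 0 := fun h0 => by simpa [h0] using congrArg Matrix.det e1
  have i2 : ∀ R : Matrix l l F, a₂ᵀᵀ * R * a₂ᵀ = R → R = 0 :=
    hp.inj (by rw [aeval_transpose, e3, transpose_zero])
  obtain ⟨d3, i3, c3⟩ : ∃ d3 : a₃.det ≠ 0, (∀ R : Matrix l l F, a₃ᵀ * R * a₃ = R → R = 0) ∧
      IsConj (lev a₃ d3) (lev a₂ d2) := by
    cases τ
    · simp only [Bool.false_eq_true, ↓reduceIte] at e4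
      subst e4
      exact ⟨d2, hp.inj e3, IsConj.refl _⟩
    · simp only [↓reduceIte] at e4
      have e4' : a₃ * a₂ᵀ = 1 := mul_eq_one_comm.1 e4
      have e5 : a₂ * a₃ᵀ = 1 := by simpa using congrArg transpose e4'
      have d3 : a₃.det ≠ 0 := fun h0 => by simpa [h0] using congrArg Matrix.det e4'
      refine ⟨d3, fun R hR => i2 R ?_, ?_⟩
      · conv_lhs => rw [← hR]
        rw [transpose_transpose, ← Matrix.mul_assoc, ← Matrix.mul_assoc, e5, Matrix.one_mul,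
          Matrix.mul_assoc, e4', Matrix.mul_one]
      · have := isConj_J a₂ᵀ (by simpa using d2)
        rwa [lev_congr _ d3 (Matrix.inv_eq_right_inv e4), lev_congr _ d2 (transpose_transpose a₂)]
          at this
  have d1 : (A * a₂).det ≠ 0 := by
    have := congrArg Matrix.det e2
    rw [det_mul, det_mul a₃] at this
    intro h0
    rw [h0, mul_zero] at this
    exact mul_ne_zero d3 dh this.symm
  have dA : A.det ≠ 0 := fun h0 => d1 (by rw [det_mul, h0, zero_mul])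
  have i1 : ∀ R : Matrix l l F, (A * a₂)ᵀ * R * (A * a₂) = R → R = 0 := by
    intro R hR
    have e6 : A * a₂ * h' = h' * a₃ := by
      calc A * a₂ * h' = h' * (h * (A * a₂)) * h' := by
            rw [← Matrix.mul_assoc h', e1, Matrix.one_mul]
        _ = h' * a₃ := by rw [e2, ← Matrix.mul_assoc, Matrix.mul_assoc _ h, e1', Matrix.mul_one]
    have e7 := i3 (h'ᵀ * R * h') (by
      calc a₃ᵀ * (h'ᵀ * R * h') * a₃ = (h' * a₃)ᵀ * R * (h' * a₃) := by
            simp only [transpose_mul, Matrix.mul_assoc]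
        _ = h'ᵀ * ((A * a₂)ᵀ * R * (A * a₂)) * h' := by
            rw [← e6]; simp only [transpose_mul, Matrix.mul_assoc]
        _ = h'ᵀ * R * h' := by rw [hR])
    calc R = (h' * h)ᵀ * R * (h' * h) := by rw [e1]; simp
      _ = hᵀ * (h'ᵀ * R * h') * h := by simp only [transpose_mul, Matrix.mul_assoc]
      _ = 0 := by rw [e7]; simp
  obtain ⟨S, T, hS, hT, rfl⟩ := gauss hg dA
  have c1 : IsConj (lev a₂ d2) (lo S hS * lev (A * a₂) d1) :=
    c3.symm.trans ((isConj_lev d1 d3 dh e2).symm.trans (isConj_lo_lev d1 i1 S hS))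
  have c2 : IsConj (lev a₂ d2)⁻¹ (lev a₂⁻¹ (by simpa using d2) * up T hT) := by
    have k1 : (lev a₂ d2)⁻¹ = lev a₂⁻¹ (by simpa using d2) := by
      rw [inv_eq_iff_mul_eq_one, lev_mul, ← lev_one]
      exact lev_congr _ _ (Matrix.mul_nonsing_inv _ u2)
    rw [k1]
    refine (isConj_J a₂ d2).trans ((isConj_lo_lev _ i2 (-T) (by simp [hT])).trans ?_)
    have h2 : IsConj (lo (-T) (by simp [hT]) * lev a₂ᵀ (by simpa using d2))
        (lev a₂ᵀ (by simpa using d2) * lo (-T) (by simp [hT])) := by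
      rw [isConj_iff]
      exact ⟨lev a₂ᵀ (by simpa using d2), by group⟩
    refine h2.trans (IsConj.symm ?_)
    rw [isConj_iff]
    refine ⟨SymplecticGroup.symJ l F, ?_⟩
    rw [mul_inv_eq_iff_eq_mul, ← mul_assoc, J_mul_lev a₂ d2, mul_assoc, J_mul_up, mul_assoc]
  obtain ⟨c, hc⟩ := isConj_iff.1 ((isConj_inv' c1).symm.trans c2)
  refine ⟨lo S hS * lev (A * a₂) d1, c, ?_⟩
  rw [mul_assoc _ c, mul_assoc _ (c * _), hc, ← mul_assoc, mul_assoc (lo S hS) _ (lev a₂⁻¹ _),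
    lev_mul]
  congr 2
  exact lev_congr _ _ (Matrix.mul_nonsing_inv_cancel_right _ _ u2).symm

theorem W.of_dvd {p q : F[X]} (hpq : p ∣ q) {τ : Bool} {b : Matrix l l F} (h : W p τ b) :
    W q τ b := by
  obtain ⟨a₂, a₃, h, h', e1, e2, e3, e4⟩ := h
  obtain ⟨c, rfl⟩ := hpq
  exact ⟨a₂, a₃, h, h', e1, e2, by rw [map_mul, e3, zero_mul], e4⟩

variable {l' : Type} [Fintype l'] [DecidableEq l']

theorem aeval_fromBlocks (a : Matrix l l F) (a' : Matrix l' l' F) (p : F[X]) :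
    aeval (fromBlocks a 0 0 a') p = fromBlocks (aeval a p) 0 0 (aeval a' p) := by
  induction p using Polynomial.induction_on' with
  | add p q hp hq => simp [hp, hq, fromBlocks_add]
  | monomial n c =>
    simp [aeval_monomial, Algebra.algebraMap_eq_smul_one, fromBlocks_diagonal_pow, fromBlocks_smul]

theorem W.sum {p : F[X]} {τ : Bool} {b : Matrix l l F} {b' : Matrix l' l' F} (h : W p τ b)
    (h' : W p τ b') : W p τ (fromBlocks b 0 0 b') := by
  obtain ⟨a₂, a₃, h, h', e1, e2, e3, e4⟩ := h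
  obtain ⟨c₂, c₃, k, k', f1, f2, f3, f4⟩ := ‹W p τ b'›
  refine ⟨fromBlocks a₂ 0 0 c₂, fromBlocks a₃ 0 0 c₃, fromBlocks h 0 0 k, fromBlocks h' 0 0 k',
    ?_, ?_, ?_, ?_⟩
  · simp [fromBlocks_multiply, e1, f1]
  · simp [fromBlocks_multiply, e2, f2]
  · simp [aeval_fromBlocks, e3, f3]
  · cases τ
    · simp only [Bool.false_eq_true, ↓reduceIte] at e4 f4 ⊢
      rw [e4, f4]
    · simp only [↓reduceIte] at e4 f4 ⊢
      simp [fromBlocks_transpose, fromBlocks_multiply, e4, f4]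

theorem W.submatrix {p : F[X]} {τ : Bool} {b : Matrix l l F} (h : W p τ b) (e : l' ≃ l) :
    W p τ (b.submatrix e e) := by
  obtain ⟨a₂, a₃, h, h', e1, e2, e3, e4⟩ := h
  refine ⟨a₂.submatrix e e, a₃.submatrix e e, h.submatrix e e, h'.submatrix e e, ?_, ?_, ?_, ?_⟩
  · simp [e1]
  · simp [e2]
  · have := aeval_algHom_apply (Matrix.reindexAlgEquiv F F e.symm) a₂ p
    rw [e3, map_zero] at this
    simpa using this
  · cases τ
    · simp only [Bool.false_eq_true, ↓reduceIte] at e4 ⊢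
      rw [e4]
    · simp only [↓reduceIte] at e4 ⊢
      simp [e4]

theorem W.map {K : Type*} [Field K] (φ : K →+* F) {p : K[X]} {τ : Bool} {b : Matrix l l K}
    (h : W p τ b) : W (p.map φ) τ (b.map φ) := by
  obtain ⟨a₂, a₃, h, h', e1, e2, e3, e4⟩ := h
  refine ⟨a₂.map φ, a₃.map φ, h.map φ, h'.map φ, ?_, ?_, ?_, ?_⟩
  · rw [← Matrix.map_mul, e1]; simp
  · rw [← Matrix.map_mul, ← Matrix.map_mul, e2, Matrix.map_mul]
  · have key : ∀ q : K[X], aeval (a₂.map φ) (q.map φ) = (aeval a₂ q).map φ := by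
      intro q
      induction q using Polynomial.induction_on' with
      | add p q hp hq => simp [hp, hq, Matrix.map_add]
      | monomial n c =>
        have : (a₂ ^ n).map φ = a₂.map φ ^ n := map_pow φ.mapMatrix a₂ n
        simp only [Polynomial.map_monomial, aeval_monomial, Algebra.algebraMap_eq_smul_one,
          Matrix.smul_mul, Matrix.one_mul, ← this]
        ext i j
        simp
    rw [key, e3]; simp
  · cases τ
    · simp only [Bool.false_eq_true, ↓reduceIte] at e4 ⊢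
      rw [e4]
    · simp only [↓reduceIte] at e4 ⊢
      rw [← transpose_map, ← Matrix.map_mul, e4]; simp

end

/-- The signs. -/
def sgn (F : Type*) [Field F] {l : Type} (σ : l → Bool) : l → F := fun i => if σ i then -1 else 1

/-- The factorisation property for `s` signs `+1` and `n` signs `-1`. -/
def G (p : F[X]) (τ : Bool) (s n : ℕ) : Prop :=
  ∃ (ι : Type) (_ : Fintype ι) (_ : DecidableEq ι) (σ : ι → Bool),
    (Finset.univ.filter fun i => σ i = false).card = s ∧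
    (Finset.univ.filter fun i => σ i = true).card = n ∧ W p τ (diagonal (sgn F σ))

theorem G.zero (p : F[X]) (τ : Bool) : G p τ 0 0 :=
  ⟨Empty, inferInstance, inferInstance, fun _ => true, by simp, by simp, 1, 1, 1, 1,
    Subsingleton.elim _ _, Subsingleton.elim _ _, Subsingleton.elim _ _, by simp⟩

theorem G.add {p : F[X]} {τ : Bool} {s n s' n' : ℕ} (h : G p τ s n) (h' : G p τ s' n') :
    G p τ (s + s') (n + n') := by
  obtain ⟨ι, _, _, σ, h1, h2, h3⟩ := h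
  obtain ⟨ι', _, _, σ', k1, k2, k3⟩ := h'
  refine ⟨ι ⊕ ι', inferInstance, inferInstance, Sum.elim σ σ', ?_, ?_, ?_⟩
  · rw [← h1, ← k1]; simp only [Finset.card_filter, Fintype.sum_sum_type]; rfl
  · rw [← h2, ← k2]; simp only [Finset.card_filter, Fintype.sum_sum_type]; rfl
  · have := h3.sum k3
    rw [fromBlocks_diagonal] at this
    convert this using 2
    ext (i | i) <;> rfl

theorem G.nsmul {p : F[X]} {τ : Bool} {s n : ℕ} (h : G p τ s n) (k : ℕ) :
    G p τ (k * s) (k * n) := by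
  induction k with
  | zero => simpa using G.zero p τ
  | succ k ih => simpa [add_mul] using ih.add h

theorem G.cast {p : F[X]} {τ : Bool} {s n s' n' : ℕ} (h : G p τ s n) (h1 : s = s') (h2 : n = n') :
    G p τ s' n' := h1 ▸ h2 ▸ h

theorem G.of_dvd {p q : F[X]} (hpq : p ∣ q) {τ : Bool} {s n : ℕ} (h : G p τ s n) : G q τ s n := by
  obtain ⟨ι, _, _, σ, h1, h2, h3⟩ := h
  exact ⟨ι, _, _, σ, h1, h2, h3.of_dvd hpq⟩

theorem G.map {K : Type*} [Field K] (φ : K →+* F) {p : K[X]} {τ : Bool} {s n : ℕ}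
    (h : G p τ s n) : G (p.map φ) τ s n := by
  obtain ⟨ι, _, _, σ, h1, h2, h3⟩ := h
  refine ⟨ι, inferInstance, inferInstance, σ, h1, h2, ?_⟩
  have := h3.map φ
  rw [diagonal_map (map_zero φ)] at this
  convert this using 2
  ext i
  simp only [sgn]
  split_ifs <;> simp

theorem G.w {p : F[X]} {τ : Bool} {l : Type} [Fintype l] [DecidableEq l] (σ : l → Bool)
    (h : G p τ (Finset.univ.filter fun i => σ i = false).card
      (Finset.univ.filter fun i => σ i = true).card) : W p τ (diagonal (sgn F σ)) := by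
  obtain ⟨ι, _, _, σ', h1, h2, h3⟩ := h
  have hc : ∀ c : Bool, Fintype.card {a // σ a = c} = Fintype.card {a // σ' a = c} := by
    intro c
    rw [Fintype.card_subtype, Fintype.card_subtype]
    cases c
    · exact h1.symm
    · exact h2.symm
  let e : l ≃ ι := Equiv.ofFiberEquiv fun c => Fintype.equivOfCardEq (hc c)
  have he : ∀ a, σ' (e a) = σ a := fun a => Equiv.ofFiberEquiv_map _ a
  have := h3.submatrix e
  rw [submatrix_diagonal_equiv] at this
  convert this using 2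
  ext i
  simp [sgn, he]

theorem G.of_fin {p : F[X]} {τ : Bool} {k : ℕ} (σ : Fin k → Bool) {s n : ℕ}
    (h1 : (Finset.univ.filter fun i => σ i = false).card = s)
    (h2 : (Finset.univ.filter fun i => σ i = true).card = n) (a₂ a₃ h h' : Matrix (Fin k) (Fin k) F)
    (e1 : h' * h = 1) (e2 : h * (diagonal (sgn F σ) * a₂) = a₃ * h) (e3 : aeval a₂ p = 0)
    (e4 : if τ then a₂ᵀ * a₃ = 1 else a₃ = a₂) : G p τ s n :=
  ⟨Fin k, inferInstance, inferInstance, σ, h1, h2, a₂, a₃, h, h', e1, e2, e3, e4⟩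

/-! ### Fields with at least four elements -/

theorem G_one (μ : F) : G (X - C μ) false 1 0 := by
  refine G.of_fin (k := 1) (fun _ => false) (by simp) (by simp) (μ • 1) (μ • 1) 1 1 (by simp) ?_ ?_
    (by simp)
  · have : sgn F (fun _ : Fin 1 => false) = fun _ => 1 := rfl
    simp [this]
  · simp [Algebra.algebraMap_eq_smul_one]

theorem G_neg (δ : F) : G (X ^ 2 - C δ) false 0 2 := by
  refine G.of_fin (k := 2) (fun _ => true) (by simp) (by simp) !![0, δ; 1, 0] !![0, δ; 1, 0]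
    !![1, 0; 0, -1] !![1, 0; 0, -1] ?_ ?_ ?_ (by simp)
  · ext i j; fin_cases i <;> fin_cases j <;> simp
  · have : sgn F (fun _ : Fin 2 => true) = fun _ => -1 := rfl
    rw [this, ← smul_one_eq_diagonal]
    ext i j; fin_cases i <;> fin_cases j <;> simp
  · simp only [map_sub, map_pow, aeval_X, aeval_C, Algebra.algebraMap_eq_smul_one, sq]
    ext i j; fin_cases i <;> fin_cases j <;> simp

theorem rev_lin (μ : F) : Rev 1 (X - C μ) (1 - C μ * X) := by
  simpa using (Rev.X_pow (F := F) 1 0).sub ((Rev.X_pow 0 1).C_mul μ)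

theorem rev_quad (δ : F) : Rev 2 (X ^ 2 - C δ) (1 - C δ * X ^ 2) := by
  simpa using (Rev.X_pow (F := F) 2 0).sub ((Rev.X_pow 0 2).C_mul δ)

theorem isCoprime_of_C {p q u w : F[X]} {c : F} (hc : c ≠ 0) (h : u * p + w * q = C c) :
    IsCoprime p q :=
  ⟨C c⁻¹ * u, C c⁻¹ * w, by rw [mul_assoc, mul_assoc, ← mul_add, h, ← C_mul, inv_mul_cancel₀ hc,
    C_1]⟩

theorem cop_lin {μ : F} (h0 : μ ≠ 0) (h1 : μ ^ 2 ≠ 1) : Cop (X - C μ) :=
  ⟨by simpa using h0, _, _, rev_lin μ,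
    isCoprime_of_C (sub_ne_zero.2 h1.symm) (u := C μ) (w := 1) (by simp; ring)⟩

theorem cop_big {μ δ : F} (h0 : μ ≠ 0) (h1 : μ ^ 2 ≠ 1) (h2 : δ ≠ 0) (h3 : δ ^ 2 ≠ 1)
    (h4 : μ ^ 2 * δ ≠ 1) : Cop ((X - C μ) * (X ^ 2 - C δ)) := by
  refine ⟨by simp [h0, h2], _, _, (rev_lin μ).mul (rev_quad δ), ?_⟩
  refine IsCoprime.mul_left (IsCoprime.mul_right ?_ ?_) (IsCoprime.mul_right ?_ ?_)
  · exact isCoprime_of_C (sub_ne_zero.2 h1.symm) (u := C μ) (w := 1) (by simp; ring)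
  · exact isCoprime_of_C (sub_ne_zero.2 h4.symm) (u := C δ * (X + C μ)) (w := 1) (by simp; ring)
  · exact isCoprime_of_C (sub_ne_zero.2 h4.symm) (u := C μ ^ 2) (w := 1 + C μ * X)
      (by simp; ring)
  · exact isCoprime_of_C (sub_ne_zero.2 h3.symm) (u := C δ) (w := 1) (by simp; ring)

theorem exists_notMem [Fintype F] (s : Finset F) (h : s.card < Fintype.card F) : ∃ x, x ∉ s := by
  obtain ⟨x, -, hx⟩ := Finset.exists_mem_notMem_of_card_lt_card (t := Finset.univ) h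
  exact ⟨x, hx⟩

theorem G_big [Fintype F] (h4 : 4 ≤ Fintype.card F) {s n : ℕ} (hn : Even n)
    (h2 : (2 : F) = 0 → n = 0) : ∃ p : F[X], Cop p ∧ G p false s n := by
  classical
  obtain ⟨μ, hμ⟩ := exists_notMem ({0, 1, -1} : Finset F)
    (lt_of_le_of_lt Finset.card_le_three (by omega))
  simp only [Finset.mem_insert, Finset.mem_singleton, not_or] at hμ
  have hμ2 : μ ^ 2 ≠ 1 := fun h => by
    rcases sq_eq_one_iff.1 h with h | h
    · exact hμ.2.1 h
    · exact hμ.2.2 h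
  rcases KSG.M2.two_eq_zero_or_odd (F := F) with h | h
  · obtain rfl := h2 h
    exact ⟨_, cop_lin hμ.1 hμ2, ((G_one μ).nsmul s).cast (by simp) (by simp)⟩
  · rw [Nat.card_eq_fintype_card, Nat.odd_iff] at h
    obtain ⟨δ, hδ⟩ := exists_notMem ({0, 1, -1, (μ ^ 2)⁻¹} : Finset F)
      (lt_of_le_of_lt Finset.card_le_four (by omega))
    simp only [Finset.mem_insert, Finset.mem_singleton, not_or] at hδ
    have hδ2 : δ ^ 2 ≠ 1 := fun h => by
      rcases sq_eq_one_iff.1 h with h | h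
      · exact hδ.2.1 h
      · exact hδ.2.2.1 h
    obtain ⟨k, rfl⟩ := hn
    refine ⟨_, cop_big hμ.1 hμ2 hδ.1 hδ2 (fun h => hδ.2.2.2 (eq_inv_of_mul_eq_one_right h)), ?_⟩
    exact ((((G_one μ).of_dvd (dvd_mul_right _ _)).nsmul s).add
      (((G_neg δ).of_dvd (dvd_mul_left _ _)).nsmul k)).cast (by simp) (by omega)

/-! ### The field with two elements -/

theorem G2_3 : G (X ^ 3 + X + 1 : (ZMod 2)[X]) false 3 0 :=
  G.of_fin (k := 3) (fun _ => false) (by simp) (by simp) !![0, 0, 1; 1, 0, 1; 0, 1, 0]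
    !![0, 0, 1; 1, 0, 1; 0, 1, 0] 1 1 (by simp) (by decide)
    (by simp only [map_add, map_pow, aeval_X, map_one]; decide) (by simp)

theorem G2_4 : G (X ^ 4 + X + 1 : (ZMod 2)[X]) false 4 0 :=
  G.of_fin (k := 4) (fun _ => false) (by simp) (by simp)
    !![0, 0, 0, 1; 1, 0, 0, 1; 0, 1, 0, 0; 0, 0, 1, 0]
    !![0, 0, 0, 1; 1, 0, 0, 1; 0, 1, 0, 0; 0, 0, 1, 0] 1 1 (by simp) (by decide)
    (by simp only [map_add, map_pow, aeval_X, map_one]; decide +kernel) (by simp)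

theorem G2_5 : G (X ^ 5 + X ^ 2 + 1 : (ZMod 2)[X]) false 5 0 :=
  G.of_fin (k := 5) (fun _ => false) (by simp) (by simp)
    !![0, 0, 0, 0, 1; 1, 0, 0, 0, 0; 0, 1, 0, 0, 1; 0, 0, 1, 0, 0; 0, 0, 0, 1, 0]
    !![0, 0, 0, 0, 1; 1, 0, 0, 0, 0; 0, 1, 0, 0, 1; 0, 0, 1, 0, 0; 0, 0, 0, 1, 0] 1 1 (by simp)
    (by decide +kernel) (by simp only [map_add, map_pow, aeval_X, map_one]; decide +kernel) (by simp)

theorem cop_two (h2 : (2 : F) = 0) :
    Cop ((X ^ 3 + X + 1) * (X ^ 4 + X + 1) * (X ^ 5 + X ^ 2 + 1) : F[X]) := by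
  have r3 : Rev 3 (X ^ 3 + X + 1 : F[X]) (1 + X ^ 2 + X ^ 3) := by
    simpa using ((Rev.X_pow (F := F) 3 0).add (Rev.X_pow 1 2)).add (Rev.X_pow 0 3)
  have r4 : Rev 4 (X ^ 4 + X + 1 : F[X]) (1 + X ^ 3 + X ^ 4) := by
    simpa using ((Rev.X_pow (F := F) 4 0).add (Rev.X_pow 1 3)).add (Rev.X_pow 0 4)
  have r5 : Rev 5 (X ^ 5 + X ^ 2 + 1 : F[X]) (1 + X ^ 3 + X ^ 5) := by
    simpa using ((Rev.X_pow (F := F) 5 0).add (Rev.X_pow 2 3)).add (Rev.X_pow 0 5)
  have h2' : (2 : F[X]) = 0 := by rw [← map_ofNat C 2, h2, C_0]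
  refine ⟨by simp, _, _, (r3.mul r4).mul r5,
    1 + X ^ 2 + X ^ 3 + X ^ 6 + X ^ 7 + X ^ 9 + X ^ 10 + X ^ 11,
    X ^ 2 + X ^ 5 + X ^ 8 + X ^ 10 + X ^ 11, ?_⟩
  linear_combination (X + 2 * X ^ 2 + 3 * X ^ 3 + 4 * X ^ 4 + 6 * X ^ 5 + 6 * X ^ 6 + 8 * X ^ 7 +
    10 * X ^ 8 + 10 * X ^ 9 + 11 * X ^ 10 + 13 * X ^ 11 + 13 * X ^ 12 + 14 * X ^ 13 + 13 * X ^ 14 +
    12 * X ^ 15 + 13 * X ^ 16 + 10 * X ^ 17 + 8 * X ^ 18 + 7 * X ^ 19 + 5 * X ^ 20 + 3 * X ^ 21 +
    2 * X ^ 22 + X ^ 23) * h2'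

theorem G_two [CharP F 2] {s : ℕ} (hs : 3 ≤ s) : ∃ p : F[X], Cop p ∧ G p false s 0 := by
  refine ⟨_, cop_two (CharP.cast_eq_zero F 2), ?_⟩
  have key : G ((X ^ 3 + X + 1) * (X ^ 4 + X + 1) * (X ^ 5 + X ^ 2 + 1) : (ZMod 2)[X]) false s 0 := by
    have g3 := G2_3.of_dvd ((dvd_mul_right _ (X ^ 4 + X + 1)).mul_right (X ^ 5 + X ^ 2 + 1))
    have g4 := G2_4.of_dvd ((dvd_mul_left _ (X ^ 3 + X + 1)).mul_right (X ^ 5 + X ^ 2 + 1))
    have g5 := G2_5.of_dvd (dvd_mul_left _ ((X ^ 3 + X + 1) * (X ^ 4 + X + 1)))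
    rcases (show s % 3 = 0 ∨ s % 3 = 1 ∨ s % 3 = 2 by omega) with h | h | h
    · exact (g3.nsmul (s / 3)).cast (by omega) (by simp)
    · exact ((g3.nsmul (s / 3 - 1)).add g4).cast (by omega) (by simp)
    · exact ((g3.nsmul (s / 3 - 1)).add g5).cast (by omega) (by simp)
  simpa using key.map (ZMod.castHom (dvd_refl 2) F)

/-! ### The field with three elements -/

theorem G3_B1 : G (X ^ 2 - X - 1 : (ZMod 3)[X]) false 2 0 :=
  G.of_fin (k := 2) (fun _ => false) (by simp) (by simp) !![0, 1; 1, 1] !![0, 1; 1, 1] 1 1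
    (by simp) (by decide) (by simp only [map_sub, map_pow, aeval_X, map_one]; decide) (by simp)

theorem G3_N : G (X ^ 2 - X - 1 : (ZMod 3)[X]) true 0 2 :=
  G.of_fin (k := 2) (fun _ => true) (by simp) (by simp) !![0, 1; 1, 1] !![2, 1; 1, 0]
    !![2, 1; 1, 1] !![1, 2; 2, 2]
    (by decide) (by decide) (by simp only [map_sub, map_pow, aeval_X, map_one]; decide) (by decide)

theorem G3_B2 : G (X ^ 3 - X - 1 : (ZMod 3)[X]) false 3 0 :=
  G.of_fin (k := 3) (fun _ => false) (by simp) (by simp) !![0, 0, 1; 1, 0, 1; 0, 1, 0]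
    !![0, 0, 1; 1, 0, 1; 0, 1, 0] 1 1
    (by simp) (by decide) (by simp only [map_sub, map_pow, aeval_X, map_one]; decide) (by simp)

theorem G3_B3 : G (X ^ 3 - X - 1 : (ZMod 3)[X]) false 1 2 :=
  G.of_fin (k := 3) ![false, true, true] (by decide) (by decide) !![0, 2, 2; 1, 2, 0; 2, 1, 1]
    !![0, 2, 2; 1, 2, 0; 2, 1, 1] !![0, 0, 2; 1, 0, 2; 0, 2, 0] !![2, 1, 0; 0, 0, 2; 2, 0, 0]
    (by decide) (by decide) (by simp only [map_sub, map_pow, aeval_X, map_one]; decide) (by simp)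

theorem G3_B4 : G (X ^ 4 + X ^ 2 - 1 : (ZMod 3)[X]) false 0 4 :=
  G.of_fin (k := 4) (fun _ => true) (by simp) (by simp)
    !![0, 0, 0, 1; 1, 0, 0, 0; 0, 1, 0, 2; 0, 0, 1, 0]
    !![0, 0, 0, 1; 1, 0, 0, 0; 0, 1, 0, 2; 0, 0, 1, 0]
    !![1, 0, 0, 0; 0, 2, 0, 0; 0, 0, 1, 0; 0, 0, 0, 2]
    !![1, 0, 0, 0; 0, 2, 0, 0; 0, 0, 1, 0; 0, 0, 0, 2]
    (by decide +kernel) (by decide +kernel)
    (by simp only [map_sub, map_add, map_pow, aeval_X, map_one]; decide +kernel) (by simp)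

theorem G3_B6 : G (X ^ 4 + X ^ 2 - 1 : (ZMod 3)[X]) false 2 2 :=
  G.of_fin (k := 4) ![false, false, true, true] (by decide) (by decide)
    !![0, 0, 0, 2; 0, 0, 1, 2; 1, 2, 1, 1; 0, 2, 1, 2]
    !![0, 0, 0, 2; 0, 0, 1, 2; 1, 2, 1, 1; 0, 2, 1, 2]
    !![1, 1, 2, 0; 2, 2, 2, 2; 0, 2, 2, 0; 2, 1, 1, 1]
    !![0, 1, 0, 1; 2, 1, 1, 1; 1, 2, 1, 2; 0, 1, 1, 2]
    (by decide +kernel) (by decide +kernel)
    (by simp only [map_sub, map_add, map_pow, aeval_X, map_one]; decide +kernel) (by simp)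

theorem G3_B7 : G ((X ^ 2 - X - 1) * (X ^ 3 - X - 1) : (ZMod 3)[X]) false 1 4 :=
  G.of_fin (k := 5) ![false, true, true, true, true] (by decide) (by decide)
    !![1, 0, 0, 0, 1; 0, 0, 1, 2, 1; 2, 1, 0, 2, 0; 0, 1, 2, 1, 0; 0, 0, 1, 2, 2]
    !![1, 0, 0, 0, 1; 0, 0, 1, 2, 1; 2, 1, 0, 2, 0; 0, 1, 2, 1, 0; 0, 0, 1, 2, 2]
    !![1, 1, 1, 2, 2; 1, 1, 0, 0, 2; 0, 0, 0, 2, 1; 0, 2, 1, 2, 2; 1, 2, 1, 0, 0]
    !![1, 1, 2, 0, 2; 0, 1, 2, 1, 2; 2, 0, 0, 1, 1; 1, 1, 0, 1, 1; 1, 1, 1, 1, 1]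
    (by decide +kernel) (by decide +kernel)
    (by simp only [map_sub, map_mul, map_pow, aeval_X, map_one]; decide +kernel) (by simp)

theorem cop_three (h3 : (3 : F) = 0) :
    Cop ((X ^ 2 - X - 1) * (X ^ 3 - X - 1) * (X ^ 4 + X ^ 2 - 1) : F[X]) := by
  have r2 : Rev 2 (X ^ 2 - X - 1 : F[X]) (1 - X - X ^ 2) := by
    simpa using ((Rev.X_pow (F := F) 2 0).sub (Rev.X_pow 1 1)).sub (Rev.X_pow 0 2)
  have r3 : Rev 3 (X ^ 3 - X - 1 : F[X]) (1 - X ^ 2 - X ^ 3) := by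
    simpa using ((Rev.X_pow (F := F) 3 0).sub (Rev.X_pow 1 2)).sub (Rev.X_pow 0 3)
  have r4 : Rev 4 (X ^ 4 + X ^ 2 - 1 : F[X]) (1 + X ^ 2 - X ^ 4) := by
    simpa using ((Rev.X_pow (F := F) 4 0).add (Rev.X_pow 2 2)).sub (Rev.X_pow 0 4)
  have h3' : (3 : F[X]) = 0 := by rw [← map_ofNat C 3, h3, C_0]
  refine ⟨by simp, _, _, (r2.mul r3).mul r4,
    -1 + X ^ 3 - X ^ 4 + X ^ 5 + X ^ 7, X - X ^ 2 - X ^ 3 - X ^ 4 + X ^ 5 + X ^ 7, ?_⟩
  linear_combination (X - X ^ 2 - 2 * X ^ 3 - X ^ 4 + 2 * X ^ 5 + 2 * X ^ 6 + X ^ 7 - 2 * X ^ 8 -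
    3 * X ^ 9 + 2 * X ^ 11 + 2 * X ^ 12 - X ^ 15) * h3'

theorem G_three [CharP F 3] {s n : ℕ} (hs : 2 ≤ s + n) (hn : Even n) :
    ∃ (p : F[X]) (τ : Bool), Cop p ∧ G p τ s n := by
  have key : ∃ τ, G ((X ^ 2 - X - 1) * (X ^ 3 - X - 1) * (X ^ 4 + X ^ 2 - 1) : (ZMod 3)[X]) τ
      s n := by
    have d2 : (X ^ 2 - X - 1 : (ZMod 3)[X]) ∣
        (X ^ 2 - X - 1) * (X ^ 3 - X - 1) * (X ^ 4 + X ^ 2 - 1) := (dvd_mul_right _ _).mul_right _
    have d3 : (X ^ 3 - X - 1 : (ZMod 3)[X]) ∣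
        (X ^ 2 - X - 1) * (X ^ 3 - X - 1) * (X ^ 4 + X ^ 2 - 1) := (dvd_mul_left _ _).mul_right _
    have d4 : (X ^ 4 + X ^ 2 - 1 : (ZMod 3)[X]) ∣
        (X ^ 2 - X - 1) * (X ^ 3 - X - 1) * (X ^ 4 + X ^ 2 - 1) := dvd_mul_left _ _
    have b1 := G3_B1.of_dvd d2
    have bn := G3_N.of_dvd d2
    have b2 := G3_B2.of_dvd d3
    have b3 := G3_B3.of_dvd d3
    have b4 := G3_B4.of_dvd d4
    have b6 := G3_B6.of_dvd d4
    have b7 := G3_B7.of_dvd (dvd_mul_right _ (X ^ 4 + X ^ 2 - 1))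
    have one : ∀ s, s ≠ 1 → G ((X ^ 2 - X - 1) * (X ^ 3 - X - 1) * (X ^ 4 + X ^ 2 - 1) :
        (ZMod 3)[X]) false s 0 := by
      intro s hs
      rcases Nat.mod_two_eq_zero_or_one s with h | h
      · exact (b1.nsmul (s / 2)).cast (by omega) (by simp)
      · exact ((b1.nsmul (s / 2 - 1)).add b2).cast (by omega) (by simp)
    rw [Nat.even_iff] at hn
    by_cases h0 : s = 0
    · exact ⟨true, (bn.nsmul (n / 2)).cast (by omega) (by omega)⟩
    refine ⟨false, ?_⟩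
    by_cases h4 : n % 4 = 0
    · by_cases h1 : s = 1
      · exact (b7.add (b4.nsmul (n / 4 - 1))).cast (by omega) (by omega)
      · exact ((one s h1).add (b4.nsmul (n / 4))).cast (by omega) (by omega)
    · by_cases h2 : s = 2
      · exact (b6.add (b4.nsmul (n / 4))).cast (by omega) (by omega)
      · exact ((b3.add (one (s - 1) (by omega))).add (b4.nsmul (n / 4))).cast (by omega) (by omega)
  obtain ⟨τ, key⟩ := key
  refine ⟨_, τ, cop_three (CharP.cast_eq_zero F 3), ?_⟩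
  simpa using key.map (ZMod.castHom (dvd_refl 3) F)

end Cfsg.Agent.Comm.SpW
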