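import Mathlib
import Cfsg.Agent.Comm.SpW
import Cfsg.Agent.Class.Orth.OmegaCrit

/-!
Unipotent radicals of stabilisers of subspaces in orthogonal groups, and elements acting on them
without fixed points.
-/

set_option autoImplicit false

namespace Cfsg.Agent.Comm.OFpf

open QuadraticMap Polynomial Module Cfsg.Agent.Class.Orth Cfsg.Agent.Comm.SpW
open scoped commutatorElement

variable {F V : Type*} [Field F] [AddCommGroup V] [Module F V] {Q : QuadraticForm F V}

/-- The underlying endomorphism. -/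
abbrev en (g : OG Q) : End F V := (g.1 : V →ₗ[F] V)

theorem perp_inv {L : Submodule F V} {w : OG Q} (h : ∀ x ∈ L, w.1 x ∈ L) {x : V}
    (hx : x ∈ perp Q L) : (w⁻¹).1 x ∈ perp Q L := fun u hu => by
  rw [← OG.polar_apply_left]; exact hx _ (h u hu)

/-- Isometries stabilising `L`. -/
def PL (Q : QuadraticForm F V) (L : Submodule F V) : Subgroup (OG Q) where
  carrier := {w | ∀ x, w.1 x ∈ L ↔ x ∈ L}
  mul_mem' {a b} ha hb x := (ha _).trans (hb x)
  one_mem' _ := Iff.rfl
  inv_mem' {a} ha x := by rw [← ha, OG.apply_inv_apply]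

theorem PL.perp {L : Submodule F V} {w : OG Q} (h : w ∈ PL Q L) {x : V} (hx : x ∈ perp Q L) :
    w.1 x ∈ perp Q L := by
  have := perp_inv (w := w⁻¹) (fun x hx => ((PL Q L).inv_mem h x).2 hx) hx
  rwa [inv_inv] at this

/-- Isometries stabilising `L` and trivial on `L^⊥ / L`. -/
def P0 (Q : QuadraticForm F V) (L : Submodule F V) : Subgroup (OG Q) where
  carrier := {w | w ∈ PL Q L ∧ ∀ x ∈ perp Q L, w.1 x - x ∈ L}
  mul_mem' {a b} ha hb := ⟨(PL Q L).mul_mem ha.1 hb.1, fun x hx => by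
    have : (a * b).1 x - x = (a.1 (b.1 x) - b.1 x) + (b.1 x - x) := by rw [OG.mul_apply]; abel
    rw [this]
    exact L.add_mem (ha.2 _ (PL.perp hb.1 hx)) (hb.2 x hx)⟩
  one_mem' := ⟨(PL Q L).one_mem, fun x _ => by simp⟩
  inv_mem' {a} ha := ⟨(PL Q L).inv_mem ha.1, fun x hx => by
    have := L.neg_mem (ha.2 _ (PL.perp ((PL Q L).inv_mem ha.1) hx))
    rwa [OG.apply_inv_apply, neg_sub] at this⟩

theorem mem_PL_of_fix {L : Submodule F V} {w : OG Q} (h : ∀ x ∈ L, w.1 x = x) : w ∈ PL Q L :=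
  fun x => ⟨fun hx => by
    have := h _ hx
    rwa [← w.1.injective this], fun hx => by rwa [h x hx]⟩

/-- Isometries trivial on `L` and on `L^⊥ / L`. -/
def UG (Q : QuadraticForm F V) (L : Submodule F V) : Subgroup (OG Q) where
  carrier := {w | (∀ x ∈ L, w.1 x = x) ∧ ∀ x ∈ perp Q L, w.1 x - x ∈ L}
  mul_mem' {a b} ha hb := ⟨fun x hx => by rw [OG.mul_apply, hb.1 x hx, ha.1 x hx],
    ((P0 Q L).mul_mem ⟨mem_PL_of_fix ha.1, ha.2⟩ ⟨mem_PL_of_fix hb.1, hb.2⟩).2⟩
  one_mem' := ⟨fun _ _ => rfl, fun x _ => by simp⟩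
  inv_mem' {a} ha := ⟨fun x hx => by rw [OG.inv_apply_eq_iff, ha.1 x hx],
    ((P0 Q L).inv_mem ⟨mem_PL_of_fix ha.1, ha.2⟩).2⟩

theorem UG_le_P0 (L : Submodule F V) : UG Q L ≤ P0 Q L := fun _ h => ⟨mem_PL_of_fix h.1, h.2⟩

theorem P0_le_PL (L : Submodule F V) : P0 Q L ≤ PL Q L := fun _ h => h.1

theorem conj_mem_P0 {L : Submodule F V} {l w : OG Q} (hl : l ∈ PL Q L) (hw : w ∈ P0 Q L) :
    l * w * l⁻¹ ∈ P0 Q L := by
  have hi := (PL Q L).inv_mem hl
  refine ⟨(PL Q L).mul_mem ((PL Q L).mul_mem hl hw.1) hi, fun x hx => ?_⟩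
  have := (hl _).2 (hw.2 _ (PL.perp hi hx))
  rwa [map_sub, OG.apply_inv_apply] at this

theorem conj_mem_UG {L : Submodule F V} {l w : OG Q} (hl : l ∈ PL Q L) (hw : w ∈ UG Q L) :
    l * w * l⁻¹ ∈ UG Q L :=
  ⟨fun x hx => by
    rw [OG.mul_apply, OG.mul_apply, hw.1 _ (((PL Q L).inv_mem hl x).2 hx), OG.apply_inv_apply],
    (conj_mem_P0 hl (UG_le_P0 L hw)).2⟩

theorem UG.sub_mem_perp {L : Submodule F V} {w : OG Q} (hw : w ∈ UG Q L) (v : V) :
    w.1 v - v ∈ perp Q L := fun u hu => by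
  rw [polar_sub_right, ← hw.1 u hu, OG.map_polar, hw.1 u hu, sub_self]

theorem Rev.polar [FiniteDimensional F V] {d : ℕ} {p p' : F[X]} (h : Rev d p p') (l : OG Q)
    (x y : V) : polar Q (aeval (en l) p x) ((en l ^ d) y) = polar Q x (aeval (en l) p' y) := by
  classical
  let b := Module.finBasis F V
  let B : LinearMap.BilinForm F V := polarBilin Q
  have h1 : B.comp (en l) (en l) = B := by ext x y; simp [B]
  have h2 := h _ (LinearMap.toMatrix b b (en l)) (LinearMap.BilinForm.toMatrix b B) (by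
    rw [← LinearMap.BilinForm.toMatrix_comp b b, h1])
  have h3 : ∀ f : F[X], aeval (LinearMap.toMatrix b b (en l)) f =
      LinearMap.toMatrix b b (aeval (en l) f) := fun f =>
    aeval_algHom_apply (LinearMap.toMatrixAlgEquiv b) (en l) f
  have h4 : LinearMap.toMatrix b b (en l) ^ d = LinearMap.toMatrix b b (en l ^ d) :=
    (map_pow (LinearMap.toMatrixAlgEquiv b) (en l) d).symm
  rw [aeval_transpose, h3, h3, h4, ← LinearMap.BilinForm.toMatrix_comp b b,
    ← LinearMap.BilinForm.toMatrix_compRight b] at h2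
  have := LinearMap.congr_fun₂ ((LinearMap.BilinForm.toMatrix b).injective h2) x y
  simpa [B] using this.symm

theorem comm_aeval {S k : End F V} (h : Commute k S) (a : F[X]) (y : V) :
    k (aeval S a y) = aeval S a (k y) := by
  have : Commute k (aeval S a) := by
    induction a using Polynomial.induction_on' with
    | add p q hp hq => rw [map_add]; exact hp.add_right hq
    | monomial n c =>
      rw [aeval_monomial]
      exact (Algebra.commute_algebraMap_right c k).mul_right (h.pow_right n)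
  rw [← End.mul_apply, this.eq, End.mul_apply]

/-- `l` normalises `UG Q L` and acts on it without fixed points. -/
def Fpf (L : Submodule F V) (l : OG Q) : Prop :=
  l ∈ PL Q L ∧ ∀ w ∈ UG Q L, w * l = l * w → w = 1

theorem eq_zero_of_mul {φ ψ : V →ₗ[F] F} (h : ∀ v, φ v * ψ v = 0) : φ = 0 ∨ ψ = 0 := by
  by_contra hc
  push Not at hc
  obtain ⟨a, ha⟩ := DFunLike.ne_iff.1 hc.1
  obtain ⟨b, hb⟩ := DFunLike.ne_iff.1 hc.2
  have h1 : ψ a = 0 := (mul_eq_zero.1 (h a)).resolve_left ha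
  have h2 : φ b = 0 := (mul_eq_zero.1 (h b)).resolve_right hb
  have := h (a + b)
  rw [map_add, map_add, h1, h2, add_zero, zero_add] at this
  exact mul_ne_zero ha hb this

theorem fpf_of [FiniteDimensional F V] (hQ : ND Q) {L : Submodule F V} (hL : TS Q L) {l : OG Q}
    (hl : l ∈ PL Q L) {π π' ρ u u' : F[X]} (h1 : ∀ x ∈ L, aeval (en l) π x = 0)
    (h2 : ∀ x ∈ perp Q L, ∃ y ∈ perp Q L, x - aeval (en l) π y ∈ L)
    (h3 : ∀ v, aeval (en l) π' v ∈ perp Q L) (h4 : u * π + u' * π' = ρ)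
    (h5 : (∃ d, ∀ x ∈ L, aeval (en l) ρ x = 0 → x ∈ F ∙ d) ∨
      ∃ e, ∀ v, ∃ (a : F) (v' : V), v - a • e - aeval (en l) ρ v' ∈ perp Q L) : Fpf L l := by
  refine ⟨hl, fun w hw hc => ?_⟩
  let N : End F V := en w - 1
  have hN : ∀ v, N v = w.1 v - v := fun v => rfl
  have cN : Commute N (en l) := by
    refine Commute.sub_left ?_ (Commute.one_left _)
    exact LinearMap.ext fun v => congrArg (fun g : OG Q => g.1 v) hc
  have a1 : ∀ x ∈ perp Q L, N x = 0 := by
    intro x hx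
    obtain ⟨y, hy, hy'⟩ := h2 x hx
    have e1 : N (x - aeval (en l) π y) = 0 := by rw [hN, hw.1 _ hy', sub_self]
    rw [map_sub, comm_aeval cN, h1 (N y) (hw.2 y hy), sub_zero] at e1
    exact e1
  have a1' : ∀ x ∈ perp Q L, w.1 x = x := fun x hx => sub_eq_zero.1 (a1 x hx)
  have a2 : ∀ v, N v ∈ L := by
    intro v
    rw [← hQ.perp_perp L]
    intro y hy
    rw [hN, polar_sub_right, ← a1' y hy, OG.map_polar, a1' y hy, sub_self]
  have a3 : ∀ v, aeval (en l) ρ (N v) = 0 := by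
    intro v
    rw [← h4, map_add, map_mul, map_mul, LinearMap.add_apply, End.mul_apply, End.mul_apply,
      h1 _ (a2 v), ← comm_aeval cN π', a1 _ (h3 v), map_zero, map_zero, add_zero]
  have a4 : ∀ v, polar Q v (N v) = 0 := by
    intro v
    have := OG.map_Q w v
    rw [show w.1 v = v + N v by rw [hN]; abel, Q_add, hL _ (a2 v)] at this
    linear_combination this
  have a5 : ∀ x y, polar Q (N x) y = - polar Q x (N y) := by
    intro x y
    have := a4 (x + y)
    rw [map_add, polar_add_left, polar_add_right, polar_add_right, a4, a4, polar_comm Q y] at this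
    linear_combination this
  suffices h : ∀ v, N v = 0 from OG.ext fun v => sub_eq_zero.1 (h v)
  rcases h5 with ⟨d, hd⟩ | ⟨e, he⟩
  · by_cases hd0 : d = 0
    · intro v
      simpa [hd0] using hd _ (a2 v) (a3 v)
    obtain ⟨z, hz⟩ := hQ.exists_polar_eq hd0 1
    have a6 : ∀ v, N v = polar Q z (N v) • d := by
      intro v
      obtain ⟨c, hc⟩ := Submodule.mem_span_singleton.1 (hd _ (a2 v) (a3 v))
      rw [← hc, polar_smul_right', polar_comm, hz, mul_one]
    rcases eq_zero_of_mul (φ := polarBilin Q z ∘ₗ N) (ψ := polarBilin Q d) (fun v => by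
      have := a4 v
      rw [a6, polar_smul_right'] at this
      simpa [polar_comm Q d] using this) with h | h
    · intro v
      have : polar Q z (N v) = 0 := by simpa using LinearMap.congr_fun h v
      rw [a6, this, zero_smul]
    · have : polar Q d z = 0 := by simpa using LinearMap.congr_fun h z
      rw [hz] at this
      exact absurd this one_ne_zero
  · have a6 : ∀ v, ∃ a : F, N v = a • N e := by
      intro v
      obtain ⟨a, v', h⟩ := he v
      have := a1 _ h
      rw [map_sub, map_sub, comm_aeval cN, a3, sub_zero, map_smul, sub_eq_zero] at this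
      exact ⟨a, this⟩
    have a7 : N e = 0 := hQ _ fun y => by
      obtain ⟨a, ha⟩ := a6 y
      rw [a5, ha, polar_smul_right', a4, mul_zero, neg_zero]
    intro v
    obtain ⟨a, ha⟩ := a6 v
    rw [ha, a7, smul_zero]

theorem finite_OG [Finite F] [FiniteDimensional F V] : Finite (OG Q) := by
  have : Finite V := Module.finite_of_finite F
  exact Finite.of_injective (fun g : OG Q => (g.1 : V → V))
    fun g h e => OG.ext (congrFun e)

theorem Fpf.conj [Finite F] [FiniteDimensional F V] {L : Submodule F V} {l : OG Q} (h : Fpf L l)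
    {u : OG Q} (hu : u ∈ UG Q L) : ∃ v ∈ UG Q L, u * l = v * l * v⁻¹ := by
  have := finite_OG (Q := Q)
  let φ : UG Q L → UG Q L := fun v =>
    ⟨v.1 * (l * (v.1)⁻¹ * l⁻¹), (UG Q L).mul_mem v.2 (conj_mem_UG h.1 ((UG Q L).inv_mem v.2))⟩
  have hi : Function.Injective φ := by
    intro a b e
    have e1 : a.1 * (l * (a.1)⁻¹ * l⁻¹) = b.1 * (l * (b.1)⁻¹ * l⁻¹) := congrArg Subtype.val e
    have := h.2 ((b.1)⁻¹ * a.1) ((UG Q L).mul_mem ((UG Q L).inv_mem b.2) a.2) (by
      calc (b.1)⁻¹ * a.1 * l = (b.1)⁻¹ * (a.1 * (l * (a.1)⁻¹ * l⁻¹)) * l * a.1 := by group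
        _ = _ := by rw [e1]; group)
    exact Subtype.ext (inv_mul_eq_one.1 this).symm
  obtain ⟨v, hv⟩ := Finite.injective_iff_surjective.1 hi ⟨u, hu⟩
  have e1 : v.1 * (l * (v.1)⁻¹ * l⁻¹) = u := congrArg Subtype.val hv
  exact ⟨v.1, v.2, by rw [← e1]; group⟩

theorem Fpf.le [Finite F] [FiniteDimensional F V] {L : Submodule F V} {l : OG Q} (h : Fpf L l) :
    UG Q L ≤ commutator (OG Q) := by
  intro u hu
  obtain ⟨v, -, hv⟩ := h.conj hu
  have : u = ⁅v, l⁆ := by rw [commutatorElement_def, ← hv]; group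
  rw [this]
  exact Subgroup.commutator_mem_commutator (Subgroup.mem_top _) (Subgroup.mem_top _)

/-- Commutators of elements of the derived subgroup. -/
def OComm {G : Type*} [Group G] (g : G) : Prop :=
  ∃ a ∈ commutator G, ∃ b ∈ commutator G, g = a * b * a⁻¹ * b⁻¹

theorem OComm.of_conj {G : Type*} [Group G] {g : G} (c : G) (h : OComm (c * g * c⁻¹)) :
    OComm g := by
  obtain ⟨a, ha, b, hb, e⟩ := h
  have hn : (commutator G).Normal := inferInstance
  refine ⟨c⁻¹ * a * c⁻¹⁻¹, hn.conj_mem _ ha _, c⁻¹ * b * c⁻¹⁻¹, hn.conj_mem _ hb _, ?_⟩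
  have : g = c⁻¹ * (a * b * a⁻¹ * b⁻¹) * c := by rw [← e]; group
  rw [this]; group

theorem OComm.of_isConj {G : Type*} [Group G] {g g' : G} (h : IsConj g g') (h' : OComm g') :
    OComm g := by
  obtain ⟨c, rfl⟩ := isConj_iff.1 h
  exact h'.of_conj c

theorem OComm.result {G H : Type*} [Group G] [Group H] (e : G ≃* H)
    (h : ∀ g ∈ commutator H, OComm g) (g : commutator G) :
    ∃ a b : commutator G, g = a * b * a⁻¹ * b⁻¹ := by
  obtain ⟨a, ha, b, hb, h1⟩ := h (e g) ((mem_commutator_equiv e g).2 g.2)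
  refine ⟨⟨e.symm a, (mem_commutator_equiv e.symm a).2 ha⟩,
    ⟨e.symm b, (mem_commutator_equiv e.symm b).2 hb⟩, Subtype.ext (e.injective ?_)⟩
  simp [h1]

theorem oComm_of_fpf [Finite F] [FiniteDimensional F V] {L L' : Submodule F V} {l₁ l₂ k u u' : OG Q}
    (h₁ : Fpf L' l₁) (h₂ : Fpf L l₂) (hl : l₂ ∈ commutator (OG Q)) (hk : k ∈ commutator (OG Q))
    (e : l₁ = k * l₂ * k⁻¹) (hu : u ∈ UG Q L) (hu' : u' ∈ UG Q L') :
    OComm (u' * (l₁ * l₂⁻¹) * u) := by
  obtain ⟨v', hv', e1⟩ := h₁.conj hu'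
  obtain ⟨v, hv, e2⟩ := h₂.conj ((UG Q L).inv_mem hu)
  have hn : (commutator (OG Q)).Normal := inferInstance
  refine ⟨v' * k * v⁻¹, mul_mem (mul_mem (h₁.le hv') hk) (inv_mem (h₂.le hv)), v * l₂ * v⁻¹,
    hn.conj_mem _ hl _, ?_⟩
  calc u' * (l₁ * l₂⁻¹) * u = (u' * l₁) * (u⁻¹ * l₂)⁻¹ := by group
    _ = _ := by rw [e1, e2, e]; group

end Cfsg.Agent.Comm.OFpf
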