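import Mathlib
import Cfsg.Agent.Comm.OFpf
import Cfsg.Agent.Class.Orth.Levi
import Cfsg.Agent.Class.Orth.StdOrder
import Cfsg.Agent.Class.Orth.OmegaIndex

/-!
The orthogonal space `L ⊕ L' ⊕ A` with `A` anisotropic: Levi elements, swaps, the big cell.
-/

set_option autoImplicit false

namespace Cfsg.Agent.Comm.OModel

open QuadraticMap Module Matrix Cfsg.Agent.Class.Orth Cfsg.Agent.Comm.OFpf

/-- The underlying space. -/
abbrev VV (m : ℕ) (F A : Type*) := (Fin m ⊕ Fin m → F) × A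

variable {F A : Type*} [Field F] [AddCommGroup A] [Module F A] {m : ℕ}

/-- Projection to `L`. -/
def pL : VV m F A →ₗ[F] (Fin m → F) := LinearMap.funLeft F F Sum.inl ∘ₗ LinearMap.fst F _ _

/-- Projection to `L'`. -/
def pR : VV m F A →ₗ[F] (Fin m → F) := LinearMap.funLeft F F Sum.inr ∘ₗ LinearMap.fst F _ _

/-- Projection to `A`. -/
def pA : VV m F A →ₗ[F] A := LinearMap.snd F _ _

/-- Inclusion of `L`. -/
def iL : (Fin m → F) →ₗ[F] VV m F A where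
  toFun x := (Sum.elim x 0, 0)
  map_add' x y := Prod.ext (funext fun i => by cases i <;> simp) (by simp)
  map_smul' c x := Prod.ext (funext fun i => by cases i <;> simp) (by simp)

/-- Inclusion of `L'`. -/
def iR : (Fin m → F) →ₗ[F] VV m F A where
  toFun x := (Sum.elim 0 x, 0)
  map_add' x y := Prod.ext (funext fun i => by cases i <;> simp) (by simp)
  map_smul' c x := Prod.ext (funext fun i => by cases i <;> simp) (by simp)

/-- Inclusion of `A`. -/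
def iA : A →ₗ[F] VV m F A := LinearMap.inr F _ _

@[simp] theorem pL_iL (x : Fin m → F) : pL (iL x : VV m F A) = x := rfl
@[simp] theorem pR_iL (x : Fin m → F) : pR (iL x : VV m F A) = 0 := rfl
@[simp] theorem pA_iL (x : Fin m → F) : pA (F := F) (iL x : VV m F A) = 0 := rfl
@[simp] theorem pL_iR (x : Fin m → F) : pL (iR x : VV m F A) = 0 := rfl
@[simp] theorem pR_iR (x : Fin m → F) : pR (iR x : VV m F A) = x := rfl
@[simp] theorem pA_iR (x : Fin m → F) : pA (F := F) (iR x : VV m F A) = 0 := rfl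
@[simp] theorem pL_iA (a : A) : pL (iA (F := F) a : VV m F A) = 0 := rfl
@[simp] theorem pR_iA (a : A) : pR (iA (F := F) a : VV m F A) = 0 := rfl
@[simp] theorem pA_iA (a : A) : pA (F := F) (iA (F := F) a : VV m F A) = a := rfl

theorem ext3 {v w : VV m F A} (h1 : pL v = pL w) (h2 : pR v = pR w)
    (h3 : pA (F := F) v = pA (F := F) w) : v = w :=
  Prod.ext (funext fun i => by
    rcases i with i | i
    · exact congrFun h1 i
    · exact congrFun h2 i) h3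

theorem decomp (v : VV m F A) : v = iL (pL v) + iR (pR v) + iA (F := F) (pA (F := F) v) :=
  ext3 (by simp) (by simp) (by simp)

variable {Q₀ : QuadraticForm F A}

theorem Q_eq (v : VV m F A) : sumQF m Q₀ v = pL v ⬝ᵥ pR v + Q₀ (pA (F := F) v) := by
  rw [sumQF_apply]; rfl

theorem polar_eq (v w : VV m F A) : polar (sumQF m Q₀) v w =
    pL v ⬝ᵥ pR w + pR v ⬝ᵥ pL w + polar Q₀ (pA (F := F) v) (pA (F := F) w) := by
  rw [polar_sumQF, Finset.sum_add_distrib]; rfl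

/-- The subspace `L`. -/
def LL (m : ℕ) (F A : Type*) [Field F] [AddCommGroup A] [Module F A] : Submodule F (VV m F A) :=
  LinearMap.ker pR ⊓ LinearMap.ker pA

/-- The subspace `L'`. -/
def RR (m : ℕ) (F A : Type*) [Field F] [AddCommGroup A] [Module F A] : Submodule F (VV m F A) :=
  LinearMap.ker pL ⊓ LinearMap.ker pA

theorem mem_LL {v : VV m F A} : v ∈ LL m F A ↔ pR v = 0 ∧ pA (F := F) v = 0 := Iff.rfl

theorem mem_RR {v : VV m F A} : v ∈ RR m F A ↔ pL v = 0 ∧ pA (F := F) v = 0 := Iff.rfl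

theorem iL_mem (x : Fin m → F) : iL x ∈ LL m F A := ⟨rfl, rfl⟩

theorem iR_mem (x : Fin m → F) : iR x ∈ RR m F A := ⟨rfl, rfl⟩

theorem eq_iL {v : VV m F A} (h : v ∈ LL m F A) : v = iL (pL v) := ext3 rfl h.1 h.2

theorem eq_iR {v : VV m F A} (h : v ∈ RR m F A) : v = iR (pR v) := ext3 h.1 rfl h.2

theorem eq_zero_of_dot {x : Fin m → F} (h : ∀ y, y ⬝ᵥ x = 0) : x = 0 :=
  funext fun i => by simpa using h (Pi.single i 1)

theorem mem_perp_LL {v : VV m F A} : v ∈ perp (sumQF m Q₀) (LL m F A) ↔ pR v = 0 :=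
  ⟨fun h => eq_zero_of_dot fun y => by simpa [polar_eq] using h _ (iL_mem y),
    fun h u hu => by simp [polar_eq, h, (mem_LL.1 hu).1, (mem_LL.1 hu).2]⟩

theorem mem_perp_RR {v : VV m F A} : v ∈ perp (sumQF m Q₀) (RR m F A) ↔ pL v = 0 :=
  ⟨fun h => eq_zero_of_dot fun y => by simpa [polar_eq] using h _ (iR_mem y),
    fun h u hu => by simp [polar_eq, h, (mem_RR.1 hu).1, (mem_RR.1 hu).2]⟩

theorem ts_LL : TS (sumQF m Q₀) (LL m F A) := fun v hv => by
  simp [Q_eq, (mem_LL.1 hv).1, (mem_LL.1 hv).2]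

theorem ts_RR : TS (sumQF m Q₀) (RR m F A) := fun v hv => by
  simp [Q_eq, (mem_RR.1 hv).1, (mem_RR.1 hv).2]

theorem pR_UG {u : OG (sumQF m Q₀)} (hu : u ∈ UG _ (LL m F A)) (v : VV m F A) :
    pR (u.1 v) = pR v := by
  have := mem_perp_LL.1 (UG.sub_mem_perp hu v)
  rwa [map_sub, sub_eq_zero] at this

theorem pL_UG {u : OG (sumQF m Q₀)} (hu : u ∈ UG _ (RR m F A)) (v : VV m F A) :
    pL (u.1 v) = pL v := by
  have := mem_perp_RR.1 (UG.sub_mem_perp hu v)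
  rwa [map_sub, sub_eq_zero] at this

theorem mem_PL_of_equiv {g : OG (sumQF m Q₀)} (b : (Fin m → F) ≃ₗ[F] (Fin m → F))
    (h : ∀ x, g.1 (iL x) = iL (b x)) : g ∈ PL _ (LL m F A) := fun v =>
  ⟨fun hv => by
    have : g.1 v = g.1 (iL (b.symm (pL (g.1 v)))) := by rw [h, b.apply_symm_apply, ← eq_iL hv]
    rw [g.1.injective this]; exact iL_mem _,
  fun hv => by rw [eq_iL hv, h]; exact iL_mem _⟩

/-- The `L`-block. -/
noncomputable def bL (g : OG (sumQF m Q₀)) : End F (Fin m → F) := pL ∘ₗ en g ∘ₗ iL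

theorem bL_apply (g : OG (sumQF m Q₀)) (x : Fin m → F) : bL g x = pL (g.1 (iL x)) := rfl

theorem apply_iL {g : OG (sumQF m Q₀)} (h : g ∈ PL _ (LL m F A)) (x : Fin m → F) :
    g.1 (iL x) = iL (bL g x) := eq_iL ((h _).2 (iL_mem x))

theorem bL_inj {g : OG (sumQF m Q₀)} (h : g ∈ PL _ (LL m F A)) : Function.Injective (bL g) := by
  intro x y e
  have : g.1 (iL x) = g.1 (iL y) := by rw [apply_iL h, apply_iL h, e]
  simpa using congrArg pL (g.1.injective this)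

theorem mem_PL_of {g : OG (sumQF m Q₀)} (h : ∀ x, g.1 (iL x) ∈ LL m F A) :
    g ∈ PL _ (LL m F A) := by
  have hi : Function.Injective (bL g) := by
    intro x y e
    have : g.1 (iL x) = g.1 (iL y) := by rw [eq_iL (h x), eq_iL (h y), ← bL_apply, e]; rfl
    simpa using congrArg pL (g.1.injective this)
  exact mem_PL_of_equiv (LinearEquiv.ofInjectiveEndo _ hi) fun x => eq_iL (h x)

theorem bL_mul (g : OG (sumQF m Q₀)) {p : OG (sumQF m Q₀)} (h : p ∈ PL _ (LL m F A)) :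
    bL (g * p) = bL g * bL p :=
  LinearMap.ext fun x => by rw [bL_apply, OG.mul_apply, apply_iL h]; rfl

theorem bL_UG {u : OG (sumQF m Q₀)} (h : u ∈ UG _ (LL m F A)) : bL u = 1 :=
  LinearMap.ext fun x => by rw [bL_apply, h.1 _ (iL_mem x)]; rfl

theorem bL_UG' {u : OG (sumQF m Q₀)} (h : u ∈ UG _ (RR m F A)) (g : OG (sumQF m Q₀)) :
    bL (u * g) = bL g :=
  LinearMap.ext fun x => by rw [bL_apply, OG.mul_apply, pL_UG h]; rfl

/-! ### Levi elements -/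

/-- Levi elements. -/
noncomputable def lv (m : ℕ) (Q₀ : QuadraticForm F A) :
    ((Fin m → F) ≃ₗ[F] (Fin m → F)) × OG Q₀ →* OG (sumQF m Q₀) :=
  (prodHom (plusQF m F) Q₀).comp
    (((leviHom m F).comp (glEquiv (Fin m) F).symm.toMonoidHom).prodMap (MonoidHom.id _))

theorem lv_gl (M : GL (Fin m) F) (γ : OG Q₀) (v : VV m F A) :
    (lv m Q₀ (glEquiv (Fin m) F M, γ)).1 v = (leviMat M *ᵥ v.1, γ.1 v.2) := by
  change (leviMat ((glEquiv (Fin m) F).symm (glEquiv (Fin m) F M)) *ᵥ v.1, γ.1 v.2) = _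
  rw [MulEquiv.symm_apply_apply]

section
variable (a : (Fin m → F) ≃ₗ[F] (Fin m → F)) (γ : OG Q₀) (v : VV m F A)

@[simp] theorem pL_lv : pL ((lv m Q₀ (a, γ)).1 v) = a (pL v) := by
  obtain ⟨M, rfl⟩ := (glEquiv (Fin m) F).surjective a
  rw [lv_gl, leviMat_mulVec]; rfl

@[simp] theorem pA_lv : pA (F := F) ((lv m Q₀ (a, γ)).1 v) = γ.1 (pA (F := F) v) := rfl

theorem pR_lv (h : pR v = 0) : pR ((lv m Q₀ (a, γ)).1 v) = 0 := by
  obtain ⟨M, rfl⟩ := (glEquiv (Fin m) F).surjective a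
  have h' : v.1 ∘ Sum.inr = 0 := h
  rw [lv_gl, leviMat_mulVec, h', mulVec_zero]; rfl

theorem lv_iL (x : Fin m → F) : (lv m Q₀ (a, γ)).1 (iL x) = iL (a x) :=
  ext3 (by simp) (pR_lv _ _ _ rfl) (by simp)

theorem lv_iA (z : A) : (lv m Q₀ (a, γ)).1 (iA (F := F) z) = iA (F := F) (γ.1 z) :=
  ext3 (by simp) (pR_lv _ _ _ rfl) (by simp)

theorem lv_mem_PL : lv m Q₀ (a, γ) ∈ PL _ (LL m F A) := mem_PL_of_equiv a (lv_iL a γ)

theorem lv_mem_PL' : lv m Q₀ (a, γ) ∈ PL _ (RR m F A) := fun v => by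
  simp [mem_RR]

theorem bL_lv : bL (lv m Q₀ (a, γ)) = (a : End F (Fin m → F)) :=
  LinearMap.ext fun x => by simp [bL_apply]

theorem lv_mem_P0 : lv m Q₀ (a, 1) ∈ P0 _ (LL m F A) :=
  ⟨lv_mem_PL a 1, fun x hx => ⟨by
    have := mem_perp_LL.1 hx
    simp [pR_lv _ _ _ this, this], by simp⟩⟩

theorem lv_one_iR (y : Fin m → F) : (lv m Q₀ (1, γ)).1 (iR y) = iR y := by
  rw [← map_one (glEquiv (Fin m) F), lv_gl, leviMat_one, one_mulVec]
  exact Prod.ext rfl (map_zero γ.1)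

theorem pR_lv_one : pR ((lv m Q₀ (1, γ)).1 v) = pR v := by
  conv_lhs => rw [decomp v]
  simp [lv_iL, lv_one_iR, lv_iA]

end

theorem eq_one_of_fix {g : OG (sumQF m Q₀)} (h1 : ∀ x, g.1 (iL x) = iL x)
    (h2 : ∀ z, g.1 (iA (F := F) z) = iA (F := F) z) (h3 : g ∈ PL _ (RR m F A)) : g = 1 := by
  have h4 : ∀ y, g.1 (iR y) = iR y := by
    intro y
    have h5 := (h3 _).2 (iR_mem y)
    refine ext3 h5.1 (sub_eq_zero.1 (eq_zero_of_dot fun x => ?_)) h5.2
    have := OG.map_polar g (iL x) (iR y)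
    rw [h1] at this
    simpa [polar_eq, sub_eq_zero] using this
  refine OG.ext fun v => ?_
  conv_lhs => rw [decomp v]
  rw [map_add, map_add, h1, h2, h4, ← decomp, OG.one_apply]

theorem exists_lv_mul {p : OG (sumQF m Q₀)} (hp : p ∈ P0 _ (LL m F A)) :
    ∃ (b : (Fin m → F) ≃ₗ[F] (Fin m → F)), (b : End F (Fin m → F)) = bL p ∧
      ∃ u ∈ UG _ (LL m F A), p = lv m Q₀ (b, 1) * u := by
  let b := LinearEquiv.ofInjectiveEndo _ (bL_inj hp.1)
  refine ⟨b, rfl, (lv m Q₀ (b, 1))⁻¹ * p, ⟨fun x hx => ?_,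
    ((P0 _ _).mul_mem ((P0 _ _).inv_mem (lv_mem_P0 b)) hp).2⟩, by group⟩
  rw [eq_iL hx, OG.mul_apply, OG.inv_apply_eq_iff, apply_iL hp.1, lv_iL]; rfl

/-! ### Swaps -/

/-- Symmetric idempotents. -/
structure Proj (E : End F (Fin m → F)) : Prop where
  idem : ∀ x, E (E x) = E x
  symm : ∀ x y, E x ⬝ᵥ y = x ⬝ᵥ E y

theorem proj_one : Proj (1 : End F (Fin m → F)) := ⟨fun _ => rfl, fun _ _ => rfl⟩

/-- The swap as a linear map. -/
def wL (A : Type*) [AddCommGroup A] [Module F A] (E : End F (Fin m → F)) : End F (VV m F A) :=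
  1 - (iL - iR) ∘ₗ E ∘ₗ (pL - pR)

theorem wL_apply (E : End F (Fin m → F)) (v : VV m F A) :
    wL A E v = v - (iL (E (pL v - pR v)) - iR (E (pL v - pR v))) := rfl

/-- The swap along `E`. -/
noncomputable def wE (Q₀ : QuadraticForm F A) {E : End F (Fin m → F)} (h : Proj E) : OG (sumQF m Q₀) :=
  ⟨LinearEquiv.ofInvolutive (wL A E) fun v =>
    ext3 (by simp [wL_apply, h.idem]; abel) (by simp [wL_apply, h.idem]; abel) (by simp [wL_apply]),
   fun v => by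
    change sumQF m Q₀ (wL A E v) = _
    simp [Q_eq, wL_apply, h.idem, h.symm]
    rw [dotProduct_comm (pR v) (E (pL v)), h.symm]
    ring⟩

section
variable {E : End F (Fin m → F)} (h : Proj E) (v : VV m F A)

theorem wE_apply : (wE Q₀ h).1 v = v - (iL (E (pL v - pR v)) - iR (E (pL v - pR v))) := rfl

@[simp] theorem pL_wE : pL ((wE Q₀ h).1 v) = pL v - E (pL v) + E (pR v) := by
  simp [wE_apply]; abel

@[simp] theorem pR_wE : pR ((wE Q₀ h).1 v) = pR v - E (pR v) + E (pL v) := by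
  simp [wE_apply]; abel

@[simp] theorem pA_wE : pA (F := F) ((wE Q₀ h).1 v) = pA (F := F) v := by simp [wE_apply]

theorem wE_mul_self : wE Q₀ h * wE Q₀ h = 1 :=
  OG.ext fun v => ext3 (by simp [h.idem]) (by simp [h.idem]) (by simp)

theorem wE_inv : (wE Q₀ h)⁻¹ = wE Q₀ h := inv_eq_of_mul_eq_one_right (wE_mul_self h)

theorem finrank_mov_wE : finrank F (mov (wE Q₀ h)) = finrank F (LinearMap.range E) := by
  have hi : Function.Injective (iL - iR : (Fin m → F) →ₗ[F] VV m F A) := fun x y e => by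
    simpa using congrArg pL e
  rw [LinearEquiv.finrank_eq (Submodule.equivMapOfInjective _ hi (LinearMap.range E))]
  suffices mov (wE Q₀ h) = (LinearMap.range E).map (iL - iR) by rw [this]
  ext v
  simp only [mem_mov, wE_apply, sub_sub_cancel, Submodule.mem_map, LinearMap.mem_range]
  constructor
  · rintro ⟨x, rfl⟩
    exact ⟨_, ⟨_, rfl⟩, rfl⟩
  · rintro ⟨_, ⟨x, rfl⟩, rfl⟩
    exact ⟨iL x, by simp⟩

end

/-- The full swap. -/
noncomputable abbrev JJ (m : ℕ) (Q₀ : QuadraticForm F A) : OG (sumQF m Q₀) := wE Q₀ proj_one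

theorem JJ_iL (x : Fin m → F) : (JJ m Q₀).1 (iL x) = iR x := ext3 (by simp) (by simp) (by simp)

theorem JJ_iR (x : Fin m → F) : (JJ m Q₀).1 (iR x) = iL x := ext3 (by simp) (by simp) (by simp)

theorem JJ_JJ (v : VV m F A) : (JJ m Q₀).1 ((JJ m Q₀).1 v) = v := ext3 (by simp) (by simp) (by simp)

theorem JJ_conj_mem_UG {u : OG (sumQF m Q₀)} (hu : u ∈ UG _ (LL m F A)) :
    JJ m Q₀ * u * JJ m Q₀ ∈ UG _ (RR m F A) := by
  refine ⟨fun x hx => ?_, fun x hx => ?_⟩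
  · rw [eq_iR hx, OG.mul_apply, OG.mul_apply, JJ_iR, hu.1 _ (iL_mem _), JJ_iL]
  · have := mem_LL.1 (hu.2 ((JJ m Q₀).1 x) (mem_perp_LL.2 (by simpa using mem_perp_RR.1 hx)))
    simpa [mem_RR, OG.mul_apply] using this

theorem JJ_conj_lv_mem_P0 (a : (Fin m → F) ≃ₗ[F] (Fin m → F)) :
    JJ m Q₀ * lv m Q₀ (a, 1) * JJ m Q₀ ∈ P0 _ (LL m F A) :=
  ⟨fun v => by simp [mem_LL], fun v hv => by simp [mem_LL, mem_perp_LL.1 hv]⟩

/-! ### Witt's theorem -/

/-- Standing assumptions. -/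
structure Setup (m : ℕ) (Q₀ : QuadraticForm F A) : Prop where
  nd : ND Q₀
  an : ∀ a, Q₀ a = 0 → a = 0
  le : finrank F A ≤ 2
  hm : 3 ≤ m

variable [FiniteDimensional F A]

theorem Setup.exists_c (S : Setup m Q₀) {t : OG (sumQF m Q₀)} (ht : t ∈ PL _ (LL m F A)) :
    ∃ c : OG Q₀, t * (lv m Q₀ (1, c))⁻¹ ∈ P0 _ (LL m F A) := by
  let c₀ : End F A := pA ∘ₗ en t ∘ₗ iA
  have h1 : ∀ a, pR (t.1 (iA (F := F) a)) = 0 := fun a =>
    mem_perp_LL.1 (PL.perp ht (mem_perp_LL.2 rfl))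
  have h2 : ∀ a, Q₀ (c₀ a) = Q₀ a := fun a => by
    have := OG.map_Q t (iA (F := F) a)
    rw [Q_eq, Q_eq, h1] at this
    simpa [c₀] using this
  have h3 : Function.Injective c₀ := (injective_iff_map_eq_zero _).2 fun a ha =>
    S.an a (by rw [← h2, ha, map_zero])
  let c : OG Q₀ := ⟨LinearEquiv.ofInjectiveEndo c₀ h3, h2⟩
  refine ⟨c, (PL _ _).mul_mem ht ((PL _ _).inv_mem (lv_mem_PL 1 c)), fun x hx => ?_⟩
  obtain ⟨y, rfl⟩ := (lv m Q₀ (1, c)).1.surjective x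
  have hy : pR y = 0 := by rw [← pR_lv_one c]; exact mem_perp_LL.1 hx
  rw [OG.mul_apply, OG.inv_apply_apply, decomp y, hy]
  simp only [map_add, map_zero, add_zero, apply_iL ht, lv_iL, lv_iA, mem_LL, map_sub, pR_iL, h1,
    pR_iA, pA_iL, pA_iA, zero_add, sub_self, true_and]
  exact sub_self _

theorem Setup.exists_U (S : Setup m Q₀) (K : Submodule F (Fin m → F))
    (φ : (Fin m → F) →ₗ[F] VV m F A) (h1 : ∀ y ∈ K, pR (φ y) = y)
    (h2 : ∀ y ∈ K, sumQF m Q₀ (φ y) = 0) :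
    ∃ u ∈ UG (sumQF m Q₀) (LL m F A), ∀ y ∈ K, u.1 (iR y) = φ y := by
  let X : Submodule F (VV m F A) := K.comap pR ⊓ LinearMap.ker pA
  let ψ : X →ₗ[F] VV m F A := (iL ∘ₗ pL + φ ∘ₗ pR) ∘ₗ X.subtype
  have hψ : ∀ x : X, ψ x = iL (pL x.1) + φ (pR x.1) := fun _ => rfl
  have hQ : ∀ x : X, sumQF m Q₀ (ψ x) = sumQF m Q₀ x := by
    intro x
    have h3 : pA (F := F) x.1 = 0 := x.2.2
    rw [hψ, Q_add, h2 _ x.2.1, polar_eq, h1 _ x.2.1]
    simp [Q_eq, h3]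
  obtain ⟨g, -, g2, g3⟩ := (Class.isFormed_of_quadratic (sumQF m Q₀) ((nd_iff _).1 (S.nd.sumQF m))).witt_inj
    X ψ ((injective_iff_map_eq_zero _).2 fun x hx => by
      have e1 := congrArg pR hx
      rw [hψ, map_add, h1 _ x.2.1, pR_iL, zero_add, map_zero] at e1
      have e2 := congrArg pL hx
      rw [hψ, e1, map_zero, add_zero, pL_iL, map_zero] at e2
      exact Subtype.ext (ext3 e2 e1 x.2.2))
    (fun x y => by simp only [polarBilin_apply_apply, polar, ← map_add, hQ]; rfl) hQ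
  let t : OG (sumQF m Q₀) := ⟨g, g2⟩
  have t1 : ∀ x, t.1 (iL x) = iL x := fun x => by
    simpa [hψ] using g3 ⟨iL x, K.zero_mem, rfl⟩
  have t2 : ∀ y ∈ K, t.1 (iR y) = φ y := fun y hy => by
    simpa [hψ] using g3 ⟨iR y, hy, rfl⟩
  obtain ⟨c, hc⟩ := S.exists_c (mem_PL_of_equiv (g := t) 1 t1)
  refine ⟨t * (lv m Q₀ (1, c))⁻¹, ⟨fun x hx => ?_, hc.2⟩, fun y hy => ?_⟩
  · rw [eq_iL hx, ← map_inv, OG.mul_apply, Prod.inv_mk, inv_one, lv_iL]; exact t1 _
  · rw [← map_inv, OG.mul_apply, Prod.inv_mk, inv_one, lv_one_iR, t2 y hy]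

theorem Setup.exists_U' (S : Setup m Q₀) (φ : (Fin m → F) →ₗ[F] VV m F A)
    (h1 : ∀ y, pL (φ y) = y) (h2 : ∀ y, sumQF m Q₀ (φ y) = 0) :
    ∃ u ∈ UG (sumQF m Q₀) (RR m F A), ∀ y, u.1 (iL y) = φ y := by
  obtain ⟨u, hu, h⟩ := S.exists_U ⊤ (en (JJ m Q₀) ∘ₗ φ) (fun y _ => by simp [h1])
    (fun y _ => by simp [h2])
  refine ⟨_, JJ_conj_mem_UG hu, fun y => ?_⟩
  rw [OG.mul_apply, OG.mul_apply, JJ_iL, h y trivial]
  exact JJ_JJ _

/-- The big cell. -/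
def Cell (h : OG (sumQF m Q₀)) : Prop :=
  ∃ u ∈ UG (sumQF m Q₀) (RR m F A), ∃ p ∈ P0 (sumQF m Q₀) (LL m F A), h = u * p

omit [FiniteDimensional F A] in
theorem Cell.mul {h p : OG (sumQF m Q₀)} (hh : Cell h) (hp : p ∈ P0 (sumQF m Q₀) (LL m F A)) :
    Cell (h * p) := by
  obtain ⟨u, hu, q, hq, rfl⟩ := hh
  exact ⟨u, hu, q * p, mul_mem hq hp, mul_assoc _ _ _⟩

theorem Setup.cell (S : Setup m Q₀) {h : OG (sumQF m Q₀)} (h1 : Function.Injective (bL h))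
    (h2 : ∀ a : A, ∃ x y, h.1 (iA (F := F) a + iL x) = iA (F := F) a + iR y) : Cell h := by
  let β := LinearEquiv.ofInjectiveEndo _ h1
  obtain ⟨u, hu, e⟩ := S.exists_U' (en h ∘ₗ iL ∘ₗ (β.symm : End F (Fin m → F)))
    (fun y => β.apply_symm_apply y) (fun y => by simp [Q_eq])
  have p1 : ∀ x, (u⁻¹ * h).1 (iL x) = iL (β x) := fun x => by
    rw [OG.mul_apply, OG.inv_apply_eq_iff, e]; simp
  have p2 := mem_PL_of_equiv β p1
  refine ⟨u, hu, u⁻¹ * h, ⟨p2, fun v hv => ?_⟩, by group⟩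
  obtain ⟨x, y, e1⟩ := h2 (pA (F := F) v)
  have p3 : (u⁻¹ * h).1 (iA (F := F) (pA (F := F) v) + iL x) = iA (F := F) (pA (F := F) v) := by
    have a1 := mem_perp_LL.1 (PL.perp p2 (x := iA (F := F) (pA (F := F) v) + iL x)
      (mem_perp_LL.2 (by simp)))
    have a2 := mem_RR.1 (((UG _ _).inv_mem hu).2 (iA (F := F) (pA (F := F) v) + iR y)
      (mem_perp_RR.2 (by simp)))
    rw [OG.mul_apply, e1] at a1 ⊢
    exact ext3 (by simpa using a2.1) a1 (by simpa [sub_eq_zero] using a2.2)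
  have : v = iA (F := F) (pA (F := F) v) + iL x + iL (pL v - x) :=
    ext3 (by simp) (by simp [mem_perp_LL.1 hv]) (by simp)
  rw [this, map_add, p3, p1]
  simp [mem_LL]

end Cfsg.Agent.Comm.OModel
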