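import Mathlib
import Cfsg.Agent.Comm.OModel
import Cfsg.Agent.Class.Orth.Simple

/-!
Every non-central element of `Ω` is conjugate into the big cell, with non-scalar Levi part of
determinant one.
-/

set_option autoImplicit false

namespace Cfsg.Agent.Comm.OModel

open QuadraticMap Module Matrix Cfsg.Agent.Class.Orth Cfsg.Agent.Comm.OFpf

variable {F A : Type*} [Field F] [AddCommGroup A] [Module F A] {m : ℕ} {Q₀ : QuadraticForm F A}

/-- Coordinate projections. -/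
structure Emb {ρ : Type} [Fintype ρ] (E : End F (Fin m → F)) (P : (Fin m → F) →ₗ[F] (ρ → F))
    (P' : (ρ → F) →ₗ[F] (Fin m → F)) : Prop where
  pp : ∀ t, P (P' t) = t
  adj : ∀ t x, P' t ⬝ᵥ x = t ⬝ᵥ P x
  eq : ∀ x, E x = P' (P x)

section
variable {ρ : Type} [Fintype ρ] {E : End F (Fin m → F)} {P : (Fin m → F) →ₗ[F] (ρ → F)}
  {P' : (ρ → F) →ₗ[F] (Fin m → F)}

theorem Emb.adj' (h : Emb E P P') (t : ρ → F) (x : Fin m → F) : x ⬝ᵥ P' t = P x ⬝ᵥ t := by
  rw [dotProduct_comm, h.adj, dotProduct_comm]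

theorem Emb.proj (h : Emb E P P') : Proj E :=
  ⟨fun x => by simp [h.eq, h.pp], fun x y => by rw [h.eq, h.eq, h.adj, h.adj']⟩

theorem Emb.finrank (h : Emb E P P') : finrank F (LinearMap.range E) = Fintype.card ρ := by
  have : LinearMap.range E = LinearMap.range P' := by
    ext x
    constructor
    · rintro ⟨y, rfl⟩; exact ⟨_, (h.eq y).symm⟩
    · rintro ⟨t, rfl⟩; exact ⟨P' t, by rw [h.eq, h.pp]⟩
  rw [this, LinearMap.finrank_range_of_inj (Function.LeftInverse.injective h.pp),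
    finrank_fintype_fun_eq_card]

end

theorem exists_normal (C : End F (Fin m → F)) :
    ∃ (a b : (Fin m → F) ≃ₗ[F] (Fin m → F)) (E : End F (Fin m → F)) (r : ℕ),
      (∀ x, a (C (b x)) = E x) ∧ ∀ (ρ : Type) [Fintype ρ], Fintype.card ρ = r →
        ∃ (P : (Fin m → F) →ₗ[F] (ρ → F)) (P' : (ρ → F) →ₗ[F] (Fin m → F)), Emb E P P' := by
  obtain ⟨V, U, e, hV, hU, h⟩ := exists_rank_normal_form (LinearMap.toMatrix' C)
  refine ⟨glEquiv _ _ hV.unit, glEquiv _ _ hU.unit, toLin' (V * LinearMap.toMatrix' C * U),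
    (LinearMap.toMatrix' C).rank, fun x => ?_, fun ρ _ hρ => ?_⟩
  · simp [glEquiv_apply, - mulVec_mulVec]
  · let φ := Fintype.equivFinOfCardEq hρ
    refine ⟨LinearMap.funLeft F F fun j => e.symm (.inl (φ j)), LinearMap.funLeft F F e ∘ₗ
      (LinearEquiv.sumArrowLequivProdArrow _ _ F F).symm.toLinearMap ∘ₗ LinearMap.inl F _ _ ∘ₗ
      LinearMap.funLeft F F φ.symm, fun t => ?_, fun t x => ?_, fun x => ?_⟩
    · ext j; simp [LinearMap.funLeft_apply]
    · simp only [dotProduct, ← Equiv.sum_comp e.symm, Fintype.sum_sum_type, ← Equiv.sum_comp φ]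
      simp [LinearMap.funLeft_apply]
    · rw [h, toLin'_apply, submatrix_mulVec_equiv, fromBlocks_mulVec]
      ext i
      rcases hi : e i with j | j <;> simp [LinearMap.funLeft_apply, hi]

variable [FiniteDimensional F A]

theorem exists_wall (hQ : ND Q₀) (c : OG Q₀) (t : ℕ) :
    ∃ (D : End F (Fin (finrank F (mov c)) ⊕ (Fin t ⊕ Fin t) → F))
      (Y : (Fin (finrank F (mov c)) ⊕ (Fin t ⊕ Fin t) → F) →ₗ[F] A), Function.Injective D ∧
      (∀ y, y ⬝ᵥ D y + Q₀ (Y y) = 0) ∧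
      ∀ a, ∃ y, c.1 a - a = Y y ∧ ∀ y', y' ⬝ᵥ D y = - polar Q₀ (Y y') (c.1 a) := by
  obtain ⟨u, hu⟩ := exists_isWallFamily c
  let U : (Fin (finrank F (mov c)) ⊕ (Fin t ⊕ Fin t) → F) →ₗ[F] A :=
    Fintype.linearCombination F u ∘ₗ LinearMap.funLeft F F Sum.inl
  have hU : ∀ y, U y = ∑ i, y (.inl i) • u i := fun y => by
    simp [U, Fintype.linearCombination_apply, LinearMap.funLeft_apply]
  let M : Matrix (Fin (finrank F (mov c)) ⊕ (Fin t ⊕ Fin t)) (Fin (finrank F (mov c)) ⊕ (Fin t ⊕ Fin t))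
    F := fromBlocks (-wallMatrix c u) 0 0 (fromBlocks 0 1 (-1) 0)
  have key : ∀ y y', y' ⬝ᵥ M *ᵥ y = polar Q₀ (U y' - c.1 (U y')) (c.1 (U y)) +
      (∑ i, y' (.inr (.inl i)) * y (.inr (.inr i)) - ∑ i, y' (.inr (.inr i)) * y (.inr (.inl i))) := by
    intro y y'
    have : polar Q₀ (U y' - c.1 (U y')) (c.1 (U y)) = - polar Q₀ (U y') (U y - c.1 (U y)) := by
      rw [polar_sub_left, polar_sub_right, OG.map_polar]; ring
    rw [this, hU, hU, map_sum, ← Finset.sum_sub_distrib, ← polarBilin_apply_apply, map_sum,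
      map_sum]
    simp [M, dotProduct, Fintype.sum_sum_type, mulVec, wallMatrix, Finset.mul_sum, sub_eq_add_neg,
      one_apply]
    rw [Finset.sum_comm, ← Finset.sum_neg_distrib]
    refine Finset.sum_congr rfl fun i _ => ?_
    rw [← Finset.sum_neg_distrib]
    exact Finset.sum_congr rfl fun j _ => by ring
  refine ⟨mulVecLin M, movMap c ∘ₗ U, ?_, fun y => ?_, fun a => ?_⟩
  · refine mulVec_injective_iff_isUnit.2 ((isUnit_iff_isUnit_det _).2 ?_)
    rw [det_fromBlocks_zero₂₁, det_neg]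
    refine (IsUnit.mul (by simp) (hu.det_ne_zero hQ).isUnit).mul ?_
    exact (isUnit_iff_isUnit_det _).1 (IsUnit.of_mul_eq_one (fromBlocks 0 (-1) 1 0) (by
      simp [fromBlocks_multiply]))
  · rw [mulVecLin_apply, key, polar_comm, polar_apply_sub_apply]
    simp [movMap_apply, mul_comm]
  · obtain ⟨k, h1, h2⟩ := hu.exists_coeff a
    have e : U (Sum.elim (-k) 0) = -∑ i, k i • u i := by simp [hU]
    refine ⟨Sum.elim (-k) 0, ?_, fun y' => ?_⟩
    · rw [LinearMap.comp_apply, e, map_neg, ← neg_sub, h2, map_sum]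
      simp [movMap_apply]
    · have h3 := polar_fix_mov c h1 (U y')
      rw [← h1, map_sub, polar_sub_left] at h3
      rw [mulVecLin_apply, key, e, map_neg, polar_neg_right, LinearMap.comp_apply (movMap c),
        movMap_apply, polar_comm _ _ (c.1 a), polar_comm]
      simp only [Sum.elim_inr, Pi.zero_apply, mul_zero, Finset.sum_const_zero]
      linear_combination h3

theorem Setup.rg (S : Setup m Q₀) : ReflGen (sumQF m Q₀) :=
  (S.nd.sumQF m).reflGen (Or.inr (by have := S.hm; simp; omega))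

omit [FiniteDimensional F A] in
theorem Setup.rgp (S : Setup m Q₀) : ReflGen (plusQF m F) :=
  (nd_plusQF m F).reflGen (Or.inr (by have := S.hm; simp; omega))

theorem Setup.lv_mem_iff [Finite F] (S : Setup m Q₀) (a : (Fin m → F) ≃ₗ[F] (Fin m → F)) :
    lv m Q₀ (a, 1) ∈ commutator (OG (sumQF m Q₀)) ↔
      IsSquare (LinearMap.det (a : End F (Fin m → F))) := by
  obtain ⟨M, rfl⟩ := (glEquiv (Fin m) F).surjective a
  have h := prodHom_one_mem_commutator_iff (nd_plusQF m F) S.nd S.rgp S.rg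
    (leviHom m F ((glEquiv (Fin m) F).symm (glEquiv (Fin m) F M)))
  refine h.trans ?_
  rw [MulEquiv.symm_apply_apply, leviHom_mem_commutator_iff S.rgp, ← LinearMap.det_toLin']
  rfl

theorem Setup.dickson_lv (S : Setup m Q₀) (a : (Fin m → F) ≃ₗ[F] (Fin m → F)) (c : OG Q₀) :
    dickson (S.nd.sumQF m) S.rg (lv m Q₀ (a, c)) = (-1) ^ finrank F (mov c) := by
  have h := finrank_mov_prodHom (leviHom m F ((glEquiv (Fin m) F).symm a)) c
  have h1 := dickson_leviHom S.rgp ((glEquiv (Fin m) F).symm a)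
  rw [dickson_apply] at h1 ⊢
  exact (congrArg _ h).trans (by rw [pow_add, h1, one_mul])

theorem Setup.dickson_P0 [Finite F] (S : Setup m Q₀)
    (hU : UG _ (LL m F A) ≤ commutator (OG (sumQF m Q₀))) {p : OG (sumQF m Q₀)}
    (hp : p ∈ P0 _ (LL m F A)) : dickson (S.nd.sumQF m) S.rg p = 1 := by
  obtain ⟨b, -, u, hu, rfl⟩ := exists_lv_mul hp
  rw [map_mul, S.dickson_lv, ((mem_commutator_iff _ S.rg _).1 (hU hu)).1, mov_one]
  simp

theorem Setup.isSquare [Finite F] (S : Setup m Q₀)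
    (hU : UG _ (LL m F A) ≤ commutator (OG (sumQF m Q₀)))
    (hU' : UG _ (RR m F A) ≤ commutator (OG (sumQF m Q₀))) {h : OG (sumQF m Q₀)} (hc : Cell h)
    (hh : h ∈ commutator (OG (sumQF m Q₀))) :
    ∃ s : F, s ≠ 0 ∧ LinearMap.det (bL h) = s * s := by
  obtain ⟨u', hu', p, hp, rfl⟩ := hc
  obtain ⟨b, hb, u, hu, e⟩ := exists_lv_mul hp
  have : lv m Q₀ (b, 1) = u'⁻¹ * (u' * p) * u⁻¹ := by rw [e]; group
  obtain ⟨s, hs⟩ := (S.lv_mem_iff b).1
    (this ▸ mul_mem (mul_mem (inv_mem (hU' hu')) hh) (inv_mem (hU hu)))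
  refine ⟨s, ?_, by rw [bL_UG' hu', ← hb, hs]⟩
  rintro rfl
  exact (LinearEquiv.isUnit_det' b).ne_zero (by rw [hs, mul_zero])

omit [FiniteDimensional F A] in
theorem Setup.mem_LL_of (S : Setup m Q₀) {v : VV m F A} (h1 : pR v = 0) (h2 : sumQF m Q₀ v = 0) :
    v ∈ LL m F A := ⟨h1, S.an _ (by simpa [Q_eq, h1] using h2)⟩

theorem Setup.cell_wc (S : Setup m Q₀) (c : OG Q₀) (t : ℕ) {E : End F (Fin m → F)}
    {P : (Fin m → F) →ₗ[F] (Fin (finrank F (mov c)) ⊕ (Fin t ⊕ Fin t) → F)}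
    {P' : (Fin (finrank F (mov c)) ⊕ (Fin t ⊕ Fin t) → F) →ₗ[F] (Fin m → F)} (h : Emb E P P') :
    ∃ u ∈ UG (sumQF m Q₀) (LL m F A), Cell (u * (wE Q₀ h.proj * lv m Q₀ (1, c))) := by
  obtain ⟨D, Y, h1, h2, h3⟩ := exists_wall S.nd c t
  obtain ⟨u, hu, e⟩ := S.exists_U ⊤ (iR + iL ∘ₗ P' ∘ₗ D ∘ₗ P + iA ∘ₗ Y ∘ₗ P) (fun y _ => by simp)
    (fun y _ => by simp [Q_eq, h.adj, dotProduct_comm (D _), h2])
  have e' : ∀ y, u.1 (iR y) = iR y + iL (P' (D (P y))) + iA (F := F) (Y (P y)) := fun y => e y trivial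
  have a1 : ∀ x, (u * (wE Q₀ h.proj * lv m Q₀ (1, c))).1 (iL x) =
      iL (x - E x + P' (D (P x))) + iR (E x) + iA (F := F) (Y (P x)) := by
    intro x
    have : (wE Q₀ h.proj).1 (iL x) = iL (x - E x) + iR (E x) := ext3 (by simp) (by simp) (by simp)
    rw [OG.mul_apply, OG.mul_apply, lv_iL, LinearEquiv.coe_one, id, this, map_add, hu.1 _ (iL_mem _),
      e', h.eq x, h.pp, map_add]
    abel
  refine ⟨u, hu, S.cell ((injective_iff_map_eq_zero _).2 fun x hx => ?_) fun a => ?_⟩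
  · rw [bL_apply, a1] at hx
    simp only [map_add, pL_iL, pL_iR, pL_iA, add_zero] at hx
    have h4 := congrArg P hx
    rw [map_add, map_sub, h.eq, h.pp, h.pp, sub_self, zero_add, map_zero, ← map_zero D] at h4
    rw [h.eq, h1 h4] at hx
    simpa using hx
  · obtain ⟨y, y1, y2⟩ := h3 a
    obtain ⟨l, hl⟩ : ∃ l, u.1 (iA (F := F) (c.1 a)) = iA (F := F) (c.1 a) + iL l :=
      ⟨_, by rw [← eq_iL (hu.2 _ (mem_perp_LL.2 (pR_iA (c.1 a))))]; abel⟩
    have hP : P l = D y := by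
      refine sub_eq_zero.1 (funext fun i => ?_)
      have := OG.map_polar u (iA (F := F) (c.1 a)) (iR (P' (Pi.single i 1)))
      rw [hl, e', h.pp] at this
      have h5 := y2 (Pi.single i 1)
      simp [polar_eq, h.adj'] at this h5
      rw [polar_comm] at h5
      rw [Pi.sub_apply, Pi.zero_apply, h5]
      linear_combination this
    have a2 : (u * (wE Q₀ h.proj * lv m Q₀ (1, c))).1 (iA (F := F) a) =
        iA (F := F) (c.1 a) + iL l := by
      have : (wE Q₀ h.proj).1 (iA (F := F) (c.1 a)) = iA (F := F) (c.1 a) :=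
        ext3 (by simp) (by simp) (by simp)
      rw [OG.mul_apply, OG.mul_apply, lv_iA, this, hl]
    refine ⟨E l - l - P' y, -P' y, ?_⟩
    rw [map_add, a1, a2]
    refine ext3 ?_ ?_ ?_
    · simp [h.eq, h.pp, hP]
      abel
    · simp [h.eq, h.pp]
    · simp [h.eq, h.pp, ← y1]

omit [FiniteDimensional F A] in
theorem exists_T {d : Fin m → F} (hd : d ⬝ᵥ d = 1) {s : F} (hs : s ≠ 0) :
    ∃ T ∈ P0 (sumQF m Q₀) (LL m F A), LinearMap.det (bL T) = s ∧
      (∀ c, T * lv m Q₀ (1, c) = lv m Q₀ (1, c) * T) ∧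
      ∀ (E : End F (Fin m → F)) (h : Proj E), E d = d → T * wE Q₀ h * T = wE Q₀ h := by
  have hef : IsHyp (sumQF m Q₀) (iL d) (iR d) := ⟨by simp [Q_eq], by simp [Q_eq], by simp [polar_eq, hd]⟩
  set T := hypScale (sumQF m Q₀) (iL d) (iR d) s
  have t1 : ∀ v, pL (T.1 v) = pL v + ((s - 1) * (pL v ⬝ᵥ d)) • d := fun v => by
    simp [T, hef.hypScale_apply hs, polar_eq]
  have t2 : ∀ v, pR (T.1 v) = pR v + ((s⁻¹ - 1) * (pR v ⬝ᵥ d)) • d := fun v => by
    simp [T, hef.hypScale_apply hs, polar_eq]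
  have t3 : ∀ v, pA (F := F) (T.1 v) = pA (F := F) v := fun v => by
    simp [T, hef.hypScale_apply hs, polar_eq]
  refine ⟨T, ⟨mem_PL_of fun x => ⟨by simp [t2], by simp [t3]⟩, fun x hx => ?_⟩, ?_, fun c => ?_,
    fun E h hE => ?_⟩
  · simp [mem_LL, t2, t3, mem_perp_LL.1 hx]
  · have : bL T = LinearMap.transvection ((s - 1) • dotProductBilin F F d) d :=
      LinearMap.ext fun x => by
        simp [bL_apply, t1, LinearMap.transvection.apply, dotProduct_comm x]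
    simp [this, hd]
  · exact OG.ext fun v => ext3 (by simp [t1]) (by simp [t2, pR_lv_one]) (by simp [t3])
  · have h1 : ∀ x, E x ⬝ᵥ d = x ⬝ᵥ d := fun x => by rw [h.symm, hE]
    refine OG.ext fun v => ext3 ?_ ?_ (by simp [t3])
    · simp [t1, t2, h1, hE, hd]
      match_scalars <;> field_simp
      ring
    · simp [t1, t2, h1, hE, hd]
      match_scalars <;> field_simp
      ring

theorem Setup.exists_cell [Finite F] (S : Setup m Q₀)
    (hU : UG _ (LL m F A) ≤ commutator (OG (sumQF m Q₀)))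
    (hU' : UG _ (RR m F A) ≤ commutator (OG (sumQF m Q₀))) {g : OG (sumQF m Q₀)}
    (hg : g ∈ commutator (OG (sumQF m Q₀))) (hg' : g ∉ PL _ (LL m F A)) :
    ∃ q ∈ PL _ (LL m F A), Cell (q * g * q⁻¹) ∧ LinearMap.det (bL (q * g * q⁻¹)) = 1 := by
  obtain ⟨a, b, E, r, hE, hρ⟩ := exists_normal (pR ∘ₗ en g ∘ₗ iL)
  obtain ⟨P, P', emb⟩ := hρ (Fin r) (by simp)
  have pr := emb.proj
  set l₁ := JJ m Q₀ * lv m Q₀ (a, 1) * JJ m Q₀ with hl₁
  have m₁ : l₁ ∈ P0 _ (LL m F A) := JJ_conj_lv_mem_P0 a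
  have m₂ := lv_mem_P0 (Q₀ := Q₀) b
  set g₁ := l₁ * g * lv m Q₀ (b, 1) with hg₁
  have e1 : ∀ x, pR (g₁.1 (iL x)) = E x := fun x => by
    rw [← hE]; simp [hg₁, hl₁, lv_iL]
  obtain ⟨u, hu, e2⟩ := S.exists_U (LinearMap.range E) (en g₁ ∘ₗ iL)
    (by rintro _ ⟨x, rfl⟩; exact (e1 _).trans (pr.idem x)) (fun y _ => by simp [Q_eq])
  have e3 : ∀ x, (u⁻¹ * g₁).1 (iL (E x)) = iR (E x) := fun x => by
    rw [OG.mul_apply, OG.inv_apply_eq_iff, e2 _ ⟨x, rfl⟩]; rfl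
  have e4 : wE Q₀ pr * (u⁻¹ * g₁) ∈ PL _ (LL m F A) := by
    refine mem_PL_of fun x => ?_
    set z := (u⁻¹ * g₁).1 (iL (x - E x)) with hz
    have z1 : z ∈ LL m F A := S.mem_LL_of
      (by rw [hz, OG.mul_apply, pR_UG (inv_mem hu), e1, map_sub, pr.idem, sub_self])
      (by rw [hz, OG.map_Q]; simp [Q_eq])
    have z2 : E (pL z) = 0 := eq_zero_of_dot fun y => by
      have := OG.map_polar (u⁻¹ * g₁) (iL (x - E x)) (iL (E y))
      rw [e3, ← hz] at this
      rw [← pr.symm, dotProduct_comm]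
      simpa [polar_eq] using this
    have : (u⁻¹ * g₁).1 (iL x) = iR (E x) + z := by
      rw [hz, ← e3, ← map_add, ← map_add, add_sub_cancel]
    rw [OG.mul_apply, this]
    simp [mem_LL, pr.idem, z2, (mem_LL.1 z1).1, (mem_LL.1 z1).2]
  obtain ⟨c, hc⟩ := S.exists_c e4
  have hp := conj_mem_P0 (inv_mem (lv_mem_PL 1 c)) hc
  set w := wE Q₀ pr * lv m Q₀ (1, c) with hw
  set p := (lv m Q₀ (1, c))⁻¹ * (wE Q₀ pr * (u⁻¹ * g₁) * (lv m Q₀ (1, c))⁻¹) *
    (lv m Q₀ (1, c))⁻¹⁻¹ * (lv m Q₀ (b, 1))⁻¹ * (u⁻¹ * l₁)⁻¹ with hp₁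
  have m₃ : u⁻¹ * l₁ ∈ P0 _ (LL m F A) := mul_mem (inv_mem (UG_le_P0 _ hu)) m₁
  have m₄ : p ∈ P0 _ (LL m F A) := mul_mem (mul_mem hp (inv_mem m₂)) (inv_mem m₃)
  have e5 : u⁻¹ * l₁ * g * (u⁻¹ * l₁)⁻¹ = w * p := by
    rw [hw, hp₁, hg₁]
    nth_rewrite 1 [← wE_inv pr]
    group
  have hn : (commutator (OG (sumQF m Q₀))).Normal := inferInstance
  have m₅ : w * p ∈ commutator (OG (sumQF m Q₀)) := e5 ▸ hn.conj_mem _ hg _
  have e6 := ((mem_commutator_iff (S.nd.sumQF m) S.rg _).1 m₅).1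
  rw [map_mul, S.dickson_P0 hU m₄, mul_one, hw, map_mul, S.dickson_lv, dickson_apply,
    finrank_mov_wE, emb.finrank, Fintype.card_fin, ← pow_add,
    neg_one_pow_eq_one_iff_even (by decide)] at e6
  have r0 : r ≠ 0 := by
    rintro rfl
    refine hg' (mem_PL_of fun x => S.mem_LL_of ?_ (by simp [Q_eq]))
    have := hE (b.symm x)
    rw [emb.eq, Subsingleton.elim (P _) 0, map_zero] at this
    simpa using this
  have r1 := (Submodule.finrank_le (mov c)).trans S.le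
  obtain ⟨t, ht⟩ : ∃ t, r = finrank F (mov c) + (t + t) :=
    ⟨(r - finrank F (mov c)) / 2, by rw [Nat.even_iff] at e6; omega⟩
  obtain ⟨P₂, P₂', emb₂⟩ := hρ (Fin (finrank F (mov c)) ⊕ (Fin t ⊕ Fin t)) (by simp [ht])
  obtain ⟨v, hv, hcell⟩ := S.cell_wc c t emb₂
  change Cell (v * w) at hcell
  have hv' := UG_le_P0 _ hv
  obtain ⟨s, s0, hs⟩ := S.isSquare hU hU' (hcell.mul (mul_mem m₄ (inv_mem hv')))
    (by simpa only [mul_assoc] using hn.conj_mem _ m₅ v)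
  obtain ⟨T, hT, t1, t2, t3⟩ := exists_T (Q₀ := Q₀) (d := P' (Pi.single ⟨0, by omega⟩ 1))
    (by simp [emb.adj, emb.pp]) s0
  have t4 := t3 E pr (by rw [emb.eq, emb.pp])
  have t5 : T * w = w * T⁻¹ := by
    rw [hw, eq_mul_inv_iff_mul_eq, mul_assoc, mul_assoc, ← t2, ← mul_assoc, ← mul_assoc, t4]
  have e7 : v * T * (u⁻¹ * l₁) * g * (v * T * (u⁻¹ * l₁))⁻¹ = v * w * (T⁻¹ * (p * (T⁻¹ * v⁻¹))) := by
    calc _ = v * T * (u⁻¹ * l₁ * g * (u⁻¹ * l₁)⁻¹) * T⁻¹ * v⁻¹ := by group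
      _ = v * (T * w) * p * T⁻¹ * v⁻¹ := by rw [e5]; group
      _ = _ := by rw [t5]; group
  have t6 : LinearMap.det (bL T⁻¹) = s⁻¹ := by
    have := congrArg LinearMap.det (bL_mul T (inv_mem hT.1))
    rw [mul_inv_cancel, bL_UG (one_mem _), map_one, map_mul, t1] at this
    exact eq_inv_of_mul_eq_one_right this.symm
  have i1 := inv_mem hT
  have i2 := inv_mem hv'
  refine ⟨_, (mul_mem (mul_mem hv' hT) m₃).1, ?_, ?_⟩
  · rw [e7]
    exact hcell.mul (mul_mem i1 (mul_mem m₄ (mul_mem i1 i2)))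
  · rw [bL_mul _ (mul_mem m₄ i2).1, bL_mul _ i2.1, map_mul, map_mul] at hs
    rw [e7, bL_mul _ (mul_mem i1 (mul_mem m₄ (mul_mem i1 i2))).1,
      bL_mul _ (mul_mem m₄ (mul_mem i1 i2)).1, bL_mul _ (mul_mem i1 i2).1, bL_mul _ i2.1]
    simp only [map_mul, t6]
    field_simp
    linear_combination hs

theorem Setup.exists_notMem_PL (S : Setup m Q₀) {g : OG (sumQF m Q₀)} (h1 : g ≠ 1)
    (h2 : g ≠ negOne _) : ∃ q : OG (sumQF m Q₀), q * g * q⁻¹ ∉ PL _ (LL m F A) := by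
  have hm := S.hm
  have hQ := S.nd.sumQF m
  let i₀ : Fin m := ⟨0, by omega⟩
  let i₁ : Fin m := ⟨1, by omega⟩
  obtain ⟨x, hx, hx'⟩ : ∃ x, sumQF m Q₀ x = 0 ∧ ∀ c : F, g.1 x ≠ c • x := by
    by_contra hc
    push Not at hc
    exact (hQ.eq_one_or_negOne (isHyp_sumQF m Q₀ i₀) (by simp; omega) g hc).elim h1 h2
  have hx0 : x ≠ 0 := by rintro rfl; exact hx' 0 (by simp)
  have he : (iL (Pi.single i₀ 1) : VV m F A) ≠ 0 := fun h => by simpa using congrArg pL h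
  by_cases hp : polar (sumQF m Q₀) x (g.1 x) = 0
  · obtain ⟨q, hq⟩ := hQ.witt_family (a := ![x, g.1 x])
      (b := ![iL (Pi.single i₀ 1), iR (Pi.single i₁ 1)])
      ((LinearIndependent.pair_iff' hx0).2 fun c h => hx' c h.symm)
      ((LinearIndependent.pair_iff' he).2 fun c h => by simpa using (congrArg pR h).symm)
      (by
        have : (Pi.single i₀ 1 : Fin m → F) i₁ = 0 := Pi.single_eq_of_ne (by simp [i₀, i₁]) _
        have h4 : (Pi.single i₁ 1 : Fin m → F) i₀ = 0 := Pi.single_eq_of_ne (by simp [i₀, i₁]) _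
        have h' : polar (sumQF m Q₀) (g.1 x) x = 0 := by rw [polar_comm, hp]
        have h3 := polar_self_of_Q_eq_zero hx
        simp only [Fin.forall_fin_two, cons_val_zero, cons_val_one, hp, h', h3, OG.map_polar]
        simp [polar_eq, this, h4, Q_eq])
      (by
        simp only [Fin.forall_fin_two, cons_val_zero, cons_val_one, OG.map_Q, hx]
        simp [Q_eq])
    refine ⟨q, fun h => ?_⟩
    have h0 : q.1 x = iL (Pi.single i₀ 1) := hq 0
    have h1 : q.1 (g.1 x) = iR (Pi.single i₁ 1) := hq 1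
    have := (h _).2 (iL_mem (Pi.single i₀ 1))
    rw [← h0, OG.mul_apply, OG.mul_apply, OG.inv_apply_apply, h1] at this
    simpa using (mem_LL.1 this).1
  · obtain ⟨q, hq⟩ := hQ.witt_vector hx0 he (by rw [hx]; simp [Q_eq])
    refine ⟨q, fun h => hp ?_⟩
    have := (h _).2 (iL_mem (Pi.single i₀ 1))
    rw [← hq, OG.mul_apply, OG.mul_apply, OG.inv_apply_apply] at this
    rw [← OG.map_polar q, hq, eq_iL this]
    simp [polar_eq]

theorem Setup.exists_nonscalar (S : Setup m Q₀) {h : OG (sumQF m Q₀)} (hc : Cell h)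
    (hd : LinearMap.det (bL h) = 1) (hh : h ∉ PL _ (LL m F A)) :
    ∃ q : OG (sumQF m Q₀), Cell (q * h * q⁻¹) ∧ LinearMap.det (bL (q * h * q⁻¹)) = 1 ∧
      ∃ x, bL (q * h * q⁻¹) x ∉ F ∙ x := by
  by_cases hs : ∃ x, bL h x ∉ F ∙ x
  · exact ⟨1, by simpa using hc, by simpa using hd, by simpa using hs⟩
  push Not at hs
  obtain ⟨u, hu, p, hp, rfl⟩ := hc
  rw [bL_UG' hu] at hd hs
  let C : End F (Fin m → F) := pR ∘ₗ en u ∘ₗ iL
  let X : (Fin m → F) →ₗ[F] A := pA ∘ₗ en u ∘ₗ iL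
  have e1 : ∀ x, u.1 (iL x) = iL x + iR (C x) + iA (F := F) (X x) := fun x =>
    ext3 (by simp [pL_UG hu]) (by simp [C]) (by simp [X])
  have e2 : ∀ x y, C x ⬝ᵥ y + C y ⬝ᵥ x + polar Q₀ (X x) (X y) = 0 := fun x y => by
    have := OG.map_polar u (iL x) (iL y)
    rw [e1, e1] at this
    simp [polar_eq] at this
    rw [dotProduct_comm (C y)]
    linear_combination this
  have hm := S.hm
  have hle := S.le
  obtain ⟨d, hd1, hd0⟩ := Submodule.exists_mem_ne_zero_of_ne_bot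
    (X.ker_ne_bot_of_finrank_lt (by simp; omega))
  have hX : X d = 0 := hd1
  have e3 : C d ⬝ᵥ d = 0 := by
    have := OG.map_Q u (iL d)
    rw [e1] at this
    simpa [Q_eq, hX, dotProduct_comm d] using this
  have e4 : ∀ x, C x ⬝ᵥ d = -(C d ⬝ᵥ x) := fun x => by
    have := e2 x d
    rw [hX, polar_zero_right] at this
    linear_combination this
  obtain ⟨e, x₀, f1, f2⟩ : ∃ e x₀, C d ⬝ᵥ e = 0 ∧ (C x₀ ⬝ᵥ e) • d - (C x₀ ⬝ᵥ d) • e ≠ 0 := by
    by_cases hC : C d = 0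
    · obtain ⟨x₀, hx₀⟩ : ∃ x₀, C x₀ ≠ 0 := by
        by_contra hc
        push Not at hc
        exact hh (mul_mem (mem_PL_of fun x => S.mem_LL_of (hc x) (by rw [OG.map_Q]; simp [Q_eq]))
          hp.1)
      obtain ⟨e, he⟩ : ∃ e, e ⬝ᵥ C x₀ ≠ 0 := by
        by_contra hc
        push Not at hc
        exact hx₀ (eq_zero_of_dot hc)
      refine ⟨e, x₀, by simp [hC], ?_⟩
      rw [e4, hC, zero_dotProduct, neg_zero, zero_smul, sub_zero, dotProduct_comm]
      exact smul_ne_zero he hd0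
    · obtain ⟨x₀, hx₀⟩ : ∃ x₀, x₀ ⬝ᵥ C d ≠ 0 := by
        by_contra hc
        push Not at hc
        exact hC (eq_zero_of_dot hc)
      obtain ⟨i, hi⟩ := Function.ne_iff.1 hd0
      let Φ : (Fin m → F) →ₗ[F] F × F := (dotProductBilin F F (C d)).prod (LinearMap.proj i)
      obtain ⟨e, he1, he0⟩ := Submodule.exists_mem_ne_zero_of_ne_bot
        (Φ.ker_ne_bot_of_finrank_lt (by simp; omega))
      have he2 : C d ⬝ᵥ e = 0 := congrArg Prod.fst he1
      have he3 : e i = 0 := congrArg Prod.snd he1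
      refine ⟨e, x₀, he2, fun h0 => ?_⟩
      have h1 := congrFun h0 i
      simp only [Pi.sub_apply, Pi.smul_apply, he3, smul_eq_mul, mul_zero, sub_zero, Pi.zero_apply,
        mul_eq_zero] at h1
      rw [h1.resolve_right hi, zero_smul, zero_sub, neg_eq_zero, e4, neg_smul, neg_eq_zero,
        dotProduct_comm] at h0
      exact smul_ne_zero hx₀ he0 h0
  have f3 : C e ⬝ᵥ d = 0 := by rw [e4, f1, neg_zero]
  set v := eichler (sumQF m Q₀) (iL d) (iL e)
  have v1 : ∀ z, v.1 z = z + iL ((pR z ⬝ᵥ e) • d - (pR z ⬝ᵥ d) • e) := fun z => by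
    rw [eichler_apply (by simp [Q_eq]) (by simp [polar_eq])]
    simp [polar_eq, Q_eq, add_sub_assoc]
  have hv : v ∈ UG _ (LL m F A) := ⟨fun x hx => by simp [v1, (mem_LL.1 hx).1], fun x hx => by
    simp [v1, mem_LL]⟩
  have b1 : ∀ x, bL (v * u) x = x + ((C x ⬝ᵥ e) • d - (C x ⬝ᵥ d) • e) := fun x => by
    simp [bL_apply, v1, e1]
  have b2 : LinearMap.det (bL (v * u)) = 1 := by
    have : bL (v * u) = LinearMap.transvection ((dotProductBilin F F e ∘ₗ C) +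
        (C e ⬝ᵥ e) • (dotProductBilin F F d ∘ₗ C)) d *
        LinearMap.transvection (-(dotProductBilin F F d ∘ₗ C)) e := LinearMap.ext fun x => by
      simp [b1, LinearMap.transvection.apply, dotProduct_comm e, dotProduct_comm d, f3]
      module
    simp [this, dotProduct_comm e, dotProduct_comm d, f1, f3, e3]
  have b3 : Cell (v * u) := by
    refine S.cell ((End.isUnit_iff _).1 ((LinearMap.isUnit_iff_isUnit_det (bL (v * u))).2
      (by simp [b2]))).1 fun a => ?_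
    obtain ⟨y, hy⟩ : ∃ y, u.1 (iA (F := F) a) = iA (F := F) a + iR y :=
      ⟨_, by rw [← eq_iR (hu.2 _ (mem_perp_RR.2 (pL_iA a)))]; abel⟩
    have h1 : y ⬝ᵥ d = 0 := by
      have := OG.map_polar u (iA (F := F) a) (iL d)
      rw [hy, e1] at this
      simpa [polar_eq, hX] using this
    refine ⟨-(y ⬝ᵥ e) • d, y - (y ⬝ᵥ e) • C d, ?_⟩
    rw [OG.mul_apply, map_add, hy, e1, v1]
    exact ext3 (by simp [h1, f1, e3]) (by simp [sub_eq_add_neg]) (by simp [hX])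
  have i1 := UG_le_P0 _ (inv_mem hv)
  have e5 : v * (u * p) * v⁻¹ = v * u * (p * v⁻¹) := by group
  have e6 : bL (v * (u * p) * v⁻¹) = bL (v * u) * bL p := by
    rw [e5, bL_mul _ (mul_mem hp i1).1, bL_mul _ i1.1, bL_UG (inv_mem hv), mul_one]
  refine ⟨v, e5 ▸ b3.mul (mul_mem hp i1), by rw [e6, map_mul, b2, hd, mul_one], x₀, fun h0 => ?_⟩
  obtain ⟨a, ha⟩ := Submodule.mem_span_singleton.1 (hs x₀)
  have a0 : a ≠ 0 := by
    rintro rfl
    rw [zero_smul, ← map_zero (bL p)] at ha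
    rw [← bL_inj hp.1 ha] at f2
    simp at f2
  rw [e6, End.mul_apply, ← ha, map_smul, Submodule.smul_mem_iff _ a0, b1,
    Submodule.add_mem_iff_right _ (Submodule.mem_span_singleton_self _)] at h0
  obtain ⟨k, hk⟩ := Submodule.mem_span_singleton.1 h0
  have k0 : k ≠ 0 := by rintro rfl; exact f2 (by rw [← hk, zero_smul])
  have h1 := congrArg (fun z => C z ⬝ᵥ d) hk
  simp only [map_smul, map_sub, smul_dotProduct, sub_dotProduct, e3, f3, smul_eq_mul, mul_zero,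
    sub_zero, mul_eq_zero, k0, false_or] at h1
  have h2 := congrArg (fun z => C z ⬝ᵥ e) hk
  simp only [map_smul, smul_dotProduct, f1, h1, smul_eq_mul, mul_zero, zero_smul,
    sub_zero, mul_eq_zero, k0, false_or] at h2
  exact f2 (by simp [h1, h2])

theorem Setup.exists_good [Finite F] (S : Setup m Q₀)
    (hU : UG _ (LL m F A) ≤ commutator (OG (sumQF m Q₀)))
    (hU' : UG _ (RR m F A) ≤ commutator (OG (sumQF m Q₀))) {g : OG (sumQF m Q₀)}
    (hg : g ∈ commutator (OG (sumQF m Q₀))) (h1 : g ≠ 1) (h2 : g ≠ negOne _) :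
    ∃ (q : OG (sumQF m Q₀)) (b : (Fin m → F) ≃ₗ[F] (Fin m → F)),
      LinearMap.det (b : End F (Fin m → F)) = 1 ∧ (∃ x, b x ∉ F ∙ x) ∧
      ∃ u ∈ UG _ (LL m F A), ∃ u' ∈ UG _ (RR m F A), q * g * q⁻¹ = u' * lv m Q₀ (b, 1) * u := by
  have hn : (commutator (OG (sumQF m Q₀))).Normal := inferInstance
  obtain ⟨q₁, a1⟩ := S.exists_notMem_PL h1 h2
  obtain ⟨q₂, a2, a3, a4⟩ := S.exists_cell hU hU' (hn.conj_mem _ hg q₁) a1
  obtain ⟨q₃, ⟨u', hu', p, hp, e⟩, a6, a7⟩ := S.exists_nonscalar a3 a4 (fun h => a1 (by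
    simpa [mul_assoc] using mul_mem (mul_mem (inv_mem a2) h) a2))
  obtain ⟨b, hb, u, hu, e'⟩ := exists_lv_mul hp
  rw [e, bL_UG' hu', ← hb] at a6 a7
  exact ⟨q₃ * q₂ * q₁, b, a6, a7, u, hu, u', hu', by rw [mul_assoc u', ← e', ← e]; group⟩

end Cfsg.Agent.Comm.OModel
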