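import Mathlib
import Cfsg.Agent.Comm.SpW

/-!
Monic polynomials of given degree coprime to their reverse, with prescribed constant term.
-/

set_option autoImplicit false

namespace Cfsg.Agent.Comm.OPoly

open Polynomial Cfsg.Agent.Comm.SpW

variable {F : Type*} [Field F]

theorem rev_pow {d : ℕ} {p p' : F[X]} (h : Rev d p p') (N : ℕ) : Rev (N * d) (p ^ N) (p' ^ N) := by
  induction N with
  | zero => simpa using Rev.X_pow (F := F) 0 0
  | succ N ih => simpa only [pow_succ', add_mul, one_mul] using h.mul ih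

theorem cop_pow {p : F[X]} (h : Cop p) (N : ℕ) : Cop (p ^ N) := by
  obtain ⟨h0, d, p', h1, h2⟩ := h
  exact ⟨by simp [coeff_zero_eq_eval_zero] at h0 ⊢; exact fun h => absurd h h0, _, _, rev_pow h1 N,
    h2.pow⟩

theorem cop_eval_ne {p : F[X]} (h : Cop p) {x : F} (hx : x * x = 1) : p.eval x ≠ 0 := by
  intro h0
  have := h.inj (l := Unit) (a := algebraMap F _ x)
    (by rw [aeval_algebraMap_apply, coe_aeval_eq_eval, h0, map_zero]) 1
    (by simp [Algebra.algebraMap_eq_smul_one, smul_smul, hx])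
  exact one_ne_zero this

/-- There is a monic divisor of a power of `P` of degree `n` with product of roots `c`. -/
def Gd (P : F[X]) (n : ℕ) (c : F) : Prop :=
  ∃ p : F[X], p.Monic ∧ p.natDegree = n ∧ (∃ N, p ∣ P ^ N) ∧ (-1) ^ n * p.coeff 0 = c

theorem Gd.mul {P : F[X]} {n n' : ℕ} {c c' : F} (h : Gd P n c) (h' : Gd P n' c') :
    Gd P (n + n') (c * c') := by
  obtain ⟨p, h1, h2, ⟨N, h3⟩, h4⟩ := h
  obtain ⟨p', k1, k2, ⟨N', k3⟩, k4⟩ := h'
  exact ⟨p * p', h1.mul k1, by rw [h1.natDegree_mul k1, h2, k2],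
    ⟨N + N', by rw [pow_add]; exact mul_dvd_mul h3 k3⟩, by rw [mul_coeff_zero, ← h4, ← k4]; ring⟩

theorem Gd.pow {P : F[X]} {n : ℕ} {c : F} (h : Gd P n c) (k : ℕ) : Gd P (k * n) (c ^ k) := by
  induction k with
  | zero => exact ⟨1, monic_one, by simp, ⟨0, by simp⟩, by simp⟩
  | succ k ih => simpa only [add_mul, one_mul, pow_succ] using ih.mul h

theorem Gd.cast {P : F[X]} {n n' : ℕ} {c c' : F} (h : Gd P n c) (h1 : n = n') (h2 : c = c') :
    Gd P n' c' := h1 ▸ h2 ▸ h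

theorem gd_of {P p : F[X]} {n : ℕ} {c : F} (h1 : p.Monic) (h2 : p.natDegree = n) (h3 : p ∣ P)
    (h4 : (-1) ^ n * p.coeff 0 = c) : Gd P n c := ⟨p, h1, h2, ⟨1, by simpa using h3⟩, h4⟩

theorem cop_three' : Cop (X ^ 3 - X + 1 : F[X]) := by
  have r3 : Rev 3 (X ^ 3 - X + 1 : F[X]) (1 - X ^ 2 + X ^ 3) := by
    simpa using ((Rev.X_pow (F := F) 3 0).sub (Rev.X_pow 1 2)).add (Rev.X_pow 0 3)
  exact ⟨by simp, _, _, r3, -X, 1 + X, by ring⟩

theorem exists_gd_two (h2 : (2 : F) = 0) {n : ℕ} (hn : 3 ≤ n) : ∃ P c, Cop P ∧ Gd P n (c : F) := by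
  have g3 := gd_of (p := (X ^ 3 + X + 1 : F[X])) (n := 3) (by monicity!) (by compute_degree!)
    ((dvd_mul_right _ (X ^ 4 + X + 1)).mul_right (X ^ 5 + X ^ 2 + 1)) rfl
  have g4 := gd_of (p := (X ^ 4 + X + 1 : F[X])) (n := 4) (by monicity!) (by compute_degree!)
    ((dvd_mul_left _ (X ^ 3 + X + 1)).mul_right (X ^ 5 + X ^ 2 + 1)) rfl
  have g5 := gd_of (p := (X ^ 5 + X ^ 2 + 1 : F[X])) (n := 5) (by monicity!) (by compute_degree!)
    (dvd_mul_left _ ((X ^ 3 + X + 1) * (X ^ 4 + X + 1))) rfl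
  rcases (show n % 3 = 0 ∨ n % 3 = 1 ∨ n % 3 = 2 by omega) with h | h | h
  · exact ⟨_, _, cop_two h2, (g3.pow (n / 3)).cast (by omega) rfl⟩
  · exact ⟨_, _, cop_two h2, ((g3.pow (n / 3 - 1)).mul g4).cast (by omega) rfl⟩
  · exact ⟨_, _, cop_two h2, ((g3.pow (n / 3 - 1)).mul g5).cast (by omega) rfl⟩

theorem exists_gd_three (h3 : (3 : F) = 0) {n : ℕ} (hn : 2 ≤ n) : ∃ P, Cop P ∧ Gd P n (-1 : F) := by
  by_cases h : n = 3
  · exact ⟨_, cop_three', gd_of (by monicity!) (by rw [h]; compute_degree!) dvd_rfl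
      (by simp [h]; norm_num)⟩
  refine ⟨_, cop_three h3, ?_⟩
  have g2 := gd_of (p := (X ^ 2 - X - 1 : F[X])) (n := 2) (c := -1) (by monicity!)
    (by compute_degree!) ((dvd_mul_right _ (X ^ 3 - X - 1)).mul_right (X ^ 4 + X ^ 2 - 1)) (by simp)
  have g3 := gd_of (p := (X ^ 3 - X - 1 : F[X])) (n := 3) (c := 1) (by monicity!)
    (by compute_degree!) ((dvd_mul_left _ (X ^ 2 - X - 1)).mul_right (X ^ 4 + X ^ 2 - 1))
    (by simp; norm_num)
  have g4 := gd_of (p := (X ^ 4 + X ^ 2 - 1 : F[X])) (n := 4) (c := -1) (by monicity!)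
    (by compute_degree!) (dvd_mul_left _ ((X ^ 2 - X - 1) * (X ^ 3 - X - 1))) (by simp; norm_num)
  have g5 := (g2.mul g2).cast rfl (show (-1 : F) * -1 = 1 by simp)
  rcases (show n % 4 = 0 ∨ n % 4 = 1 ∨ n % 4 = 2 ∨ n % 4 = 3 by omega) with h | h | h | h
  · exact ((g5.pow (n / 4 - 1)).mul g4).cast (by omega) (by simp)
  · exact ((g5.pow (n / 4 - 1)).mul (g2.mul g3)).cast (by omega) (by simp)
  · exact ((g5.pow (n / 4)).mul g2).cast (by omega) (by simp)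
  · exact ((g5.pow (n / 4 - 1)).mul (g3.mul g4)).cast (by omega) (by simp)

theorem exists_gen [Fintype F] :
    ∃ ν : F, ν ≠ 0 ∧ ∀ k, 0 < k → k + 1 < Fintype.card F → ν ^ k ≠ 1 := by
  classical
  obtain ⟨g, hg⟩ := IsCyclic.exists_ofOrder_eq_natCard (α := Fˣ)
  refine ⟨g, g.ne_zero, fun k h0 hk h => ?_⟩
  refine pow_ne_one_of_lt_orderOf h0.ne' (x := g) ?_ (Units.ext (by simpa using h))
  rw [hg, Nat.card_eq_fintype_card, Fintype.card_units]
  omega

theorem exists_gd [Fintype F] {n : ℕ} (hn : 2 ≤ n) (h : Fintype.card F = 2 → 3 ≤ n) :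
    ∃ P c, Cop P ∧ Gd P n (c : F) ∧ IsSquare (-c) := by
  have hc := FiniteField.cast_card_eq_zero F
  have h1 := Fintype.one_lt_card (α := F)
  obtain ⟨ν, ν0, hν⟩ := exists_gen (F := F)
  have g1 : ∀ {P : F[X]}, X - C ν ∣ P → Gd P 1 ν := fun h =>
    gd_of (monic_X_sub_C _) (natDegree_X_sub_C _) h (by simp)
  have g2 : ∀ δ, Gd ((X - C ν) * (X ^ 2 - C δ)) 2 (-δ) := fun δ =>
    gd_of (monic_X_pow_sub_C _ two_ne_zero) natDegree_X_pow_sub_C (dvd_mul_left _ _) (by simp)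
  by_cases h2 : ringChar F = 2
  · by_cases h3 : Fintype.card F = 2
    · obtain ⟨P, c, a1, a2⟩ := exists_gd_two (F := F) (by simpa [h3] using hc) (h h3)
      exact ⟨P, c, a1, a2, FiniteField.isSquare_of_char_two h2 _⟩
    · have := FiniteField.even_card_of_char_two h2
      exact ⟨_, _, cop_lin ν0 (hν 2 two_pos (by omega)), ((g1 dvd_rfl).pow n).cast (by simp) rfl,
        FiniteField.isSquare_of_char_two h2 _⟩
  have h4 := FiniteField.odd_card_of_char_ne_two h2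
  by_cases h3 : Fintype.card F = 3
  · obtain ⟨P, a1, a2⟩ := exists_gd_three (F := F) (by simpa [h3] using hc) hn
    exact ⟨P, _, a1, a2, by simp⟩
  have n2 := hν 2 two_pos (by omega)
  rcases Nat.even_or_odd' n with ⟨k, rfl | rfl⟩
  · by_cases h5 : IsSquare (-1 : F)
    · refine ⟨_, _, cop_lin ν0 n2, ((g1 dvd_rfl).pow (2 * k)).cast (by simp) rfl, ?_⟩
      rw [← neg_one_mul]
      exact h5.mul ⟨ν ^ k, by ring⟩
    · rw [FiniteField.isSquare_neg_one_iff] at h5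
      have n4 := hν 4 (by omega) (by omega)
      refine ⟨_, _, cop_big ν0 n2 (pow_ne_zero 2 ν0) (by rwa [← pow_mul]) (by rwa [← pow_add]),
        (((g1 (dvd_mul_right _ _)).pow (2 * (k - 1))).mul (g2 _)).cast (by omega) rfl,
        ν ^ (k - 1) * ν, by ring⟩
  · have n3 := hν 3 (by omega) (by omega)
    refine ⟨_, _, cop_big ν0 n2 ν0 n2 (by rwa [← pow_succ]),
      (((g1 (dvd_mul_right _ _)).pow (2 * (k - 1) + 1)).mul (g2 _)).cast (by omega) rfl,
      ν ^ (k - 1) * ν, by ring⟩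

theorem exists_poly [Fintype F] {n : ℕ} (hn : 2 ≤ n) (h : Fintype.card F = 2 → 3 ≤ n) :
    ∃ p P : F[X], p.Monic ∧ p.natDegree = n ∧ Cop P ∧ p ∣ P ∧
      IsSquare ((-1) ^ (n + 1) * p.coeff 0) := by
  obtain ⟨P, c, h1, ⟨p, h2, h3, ⟨N, h4⟩, h5⟩, h6⟩ := exists_gd hn h
  exact ⟨p, _, h2, h3, cop_pow h1 N, h4, by rwa [pow_succ', mul_assoc, h5, neg_one_mul]⟩

end Cfsg.Agent.Comm.OPoly
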