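import Mathlib
import Cfsg.Agent.Comm.ONorm
import Cfsg.Agent.Comm.OPoly
import Cfsg.Agent.Comm.OGL32
import Cfsg.Agent.Lin.Cyclic

/-!
Levi elements as quotients of conjugate elements acting without fixed points on the radicals.
-/

set_option autoImplicit false

namespace Cfsg.Agent.Comm.OModel

open QuadraticMap Module Polynomial Cfsg.Agent.Class.Orth Cfsg.Agent.Comm.OFpf
  Cfsg.Agent.Comm.SpW Cfsg.Agent.Comm.OPoly Cfsg.Agent.Lin

variable {F A : Type*} [Field F] [AddCommGroup A] [Module F A] {m : ℕ} {Q₀ : QuadraticForm F A}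

theorem aeval_inter {U V : Type*} [AddCommGroup U] [Module F U] [AddCommGroup V] [Module F V]
    {z : End F U} {y : End F V} (j : U →ₗ[F] V) (hj : ∀ x, j (z x) = y (j x)) (f : F[X]) (e : U) :
    j (aeval z f e) = aeval y f (j e) := ev_intertwine j hj e f

section
variable (a : (Fin m → F) ≃ₗ[F] (Fin m → F)) (γ : OG Q₀) (f : F[X])

theorem pL_aeval (v : VV m F A) :
    pL (aeval (en (lv m Q₀ (a, γ))) f v) = aeval (a : End F (Fin m → F)) f (pL v) :=
  aeval_inter pL (pL_lv a γ) f v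

theorem pA_aeval (v : VV m F A) :
    pA (F := F) (aeval (en (lv m Q₀ (a, γ))) f v) = aeval (en γ) f (pA (F := F) v) :=
  aeval_inter pA (pA_lv a γ) f v

theorem aeval_iL (x : Fin m → F) :
    aeval (en (lv m Q₀ (a, γ))) f (iL x) = iL (aeval (a : End F (Fin m → F)) f x) :=
  (aeval_inter (z := (a : End F (Fin m → F))) (y := en (lv m Q₀ (a, γ))) iL
    (fun x => (lv_iL a γ x).symm) f x).symm

theorem aeval_iA (z : A) :
    aeval (en (lv m Q₀ (a, γ))) f (iA (F := F) z) = iA (F := F) (aeval (en γ) f z) :=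
  (aeval_inter iA (fun x => (lv_iA a γ x).symm) f z).symm

end

variable [FiniteDimensional F A]

theorem pR_aeval {a : (Fin m → F) ≃ₗ[F] (Fin m → F)} (γ : OG Q₀) {π π' : F[X]} {d : ℕ}
    (hr : Rev d π π') (ha : aeval (a : End F (Fin m → F)) π = 0) (v : VV m F A) :
    aeval (en (lv m Q₀ (a, γ))) π' v ∈ perp (sumQF m Q₀) (LL m F A) := fun x hx => by
  rw [← Rev.polar hr, eq_iL hx, aeval_iL, ha]
  simp

theorem aeval_RR {a : (Fin m → F) ≃ₗ[F] (Fin m → F)} (γ : OG Q₀) {π π' : F[X]} {d : ℕ}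
    (hr : Rev d π π') (ha : aeval (a : End F (Fin m → F)) π = 0) {v : VV m F A}
    (hv : v ∈ RR m F A) : aeval (en (lv m Q₀ (a, γ))) π' v = 0 :=
  ext3 (by rw [pL_aeval, (mem_RR.1 hv).1]; simp) (mem_perp_LL.1 (pR_aeval γ hr ha v))
    (by rw [pA_aeval, (mem_RR.1 hv).2]; simp)

theorem Setup.fpf_LL (S : Setup m Q₀) {a : (Fin m → F) ≃ₗ[F] (Fin m → F)} {γ : OG Q₀}
    {π π' ρ u u' : F[X]} {d : ℕ} (hr : Rev d π π') (ha : aeval (a : End F (Fin m → F)) π = 0)
    (hγ : Function.Injective (aeval (en γ) π)) (hb : u * π + u' * π' = ρ)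
    (h : ∃ d, ∀ x, aeval (a : End F (Fin m → F)) ρ x = 0 → x ∈ F ∙ d) :
    Fpf (LL m F A) (lv m Q₀ (a, γ)) := by
  obtain ⟨d, hd⟩ := h
  refine fpf_of (S.nd.sumQF m) ts_LL (lv_mem_PL a γ) (fun x hx => ?_) (fun x hx => ?_)
    (pR_aeval γ hr ha) hb (Or.inl ⟨iL d, fun x hx h => ?_⟩)
  · rw [eq_iL hx, aeval_iL, ha]; simp
  · obtain ⟨z, hz⟩ := LinearMap.injective_iff_surjective.1 hγ (pA (F := F) x)
    exact ⟨iA (F := F) z, mem_perp_LL.2 rfl, by simp [aeval_iA, mem_LL, hz, mem_perp_LL.1 hx]⟩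
  · obtain ⟨c, hc⟩ := Submodule.mem_span_singleton.1 (hd (pL x) (by rw [← pL_aeval a γ, h, map_zero]))
    exact Submodule.mem_span_singleton.2 ⟨c, by rw [← map_smul, hc, ← eq_iL hx]⟩

theorem Setup.fpf_RR (S : Setup m Q₀) {a : (Fin m → F) ≃ₗ[F] (Fin m → F)} {γ : OG Q₀}
    {π π' ρ u u' : F[X]} {d : ℕ} (hr : Rev d π π') (ha : aeval (a : End F (Fin m → F)) π = 0)
    (hγ : Function.Injective (aeval (en γ) π)) (hb : u * π + u' * π' = ρ)
    (h : ∃ e, ∀ x, ∃ (c : F) (x' : Fin m → F), x = c • e + aeval (a : End F (Fin m → F)) ρ x') :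
    Fpf (RR m F A) (lv m Q₀ (a, γ)) := by
  obtain ⟨e, he⟩ := h
  have hγ' : Function.Injective (aeval (en γ) π') := (injective_iff_map_eq_zero _).2 fun y hy => by
    have : (en γ ^ d) y = 0 := S.nd _ fun z => by
      obtain ⟨z, rfl⟩ := LinearMap.injective_iff_surjective.1 hγ z
      rw [polar_comm, Rev.polar hr, hy, polar_zero_right]
    exact (Function.Injective.iterate γ.1.injective d) (by simpa [End.pow_apply] using this)
  refine fpf_of (S.nd.sumQF m) ts_RR (lv_mem_PL' a γ) (fun x hx => aeval_RR γ hr ha hx)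
    (fun x hx => ?_) (fun v => mem_perp_RR.2 (by rw [pL_aeval, ha]; rfl)) ((add_comm _ _).trans hb)
    (Or.inr ⟨iL e, fun v => ?_⟩)
  · obtain ⟨z, hz⟩ := LinearMap.injective_iff_surjective.1 hγ' (pA (F := F) x)
    exact ⟨iA (F := F) z, mem_perp_RR.2 rfl, by simp [aeval_iA, mem_RR, hz, mem_perp_RR.1 hx]⟩
  · obtain ⟨c, x', h⟩ := he (pL v)
    exact ⟨c, iL x', mem_perp_RR.2 (by simp [aeval_iL, h])⟩

theorem Setup.span_eq (S : Setup m Q₀) {x y : A} (hx : x ≠ 0) (hy : ∀ c : F, c • x ≠ y) (z : A) :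
    ∃ s t : F, s • x + t • y = z := by
  have h := (LinearIndependent.pair_iff' hx).2 hy
  have h1 := h.span_eq_top_of_card_eq_finrank' (le_antisymm h.fintype_card_le_finrank
    (by simpa using S.le))
  rw [← Submodule.mem_span_pair]
  simpa [Set.pair_comm] using h1.ge (Submodule.mem_top (x := z))

theorem Setup.inj_aeval (S : Setup m Q₀) {P : F[X]} (hP : Cop P) (γ : OG Q₀) :
    Function.Injective (aeval (en γ) P) := by
  refine (injective_iff_map_eq_zero _).2 fun x hx => by_contra fun hx0 => ?_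
  by_cases h : ∃ c : F, c • x = γ.1 x
  · obtain ⟨c, hc⟩ := h
    have h1 := OG.map_Q γ x
    rw [← hc, Q_smul, mul_left_eq_self₀, pow_two] at h1
    rw [End.aeval_apply_of_mem_apply_eq_smul hc.symm, smul_eq_zero] at hx
    exact cop_eval_ne hP (h1.resolve_right fun h => hx0 (S.an x h)) (hx.resolve_right hx0)
  · push Not at h
    obtain ⟨-, d, P', h1, u, w, h2⟩ := hP
    have h3 : ∀ y, aeval (en γ) P y = 0 → polar Q₀ x y = 0 := by
      intro y hy
      have := congrArg (fun f => aeval (en γ) f y) h2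
      simp only [map_add, mul_comm w, map_mul, LinearMap.add_apply, End.mul_apply, hy, map_zero,
        zero_add, map_one, End.one_apply] at this
      rw [← this, ← Rev.polar h1, hx, polar_zero_left]
    refine hx0 (S.nd x fun z => ?_)
    obtain ⟨s, t, rfl⟩ := S.span_eq hx0 h z
    rw [polar_add_right, polar_smul_right', polar_smul_right', h3 x hx,
      h3 (γ.1 x) ((aeval_inter (en γ) (fun _ => rfl) P x).symm.trans (by rw [hx, map_zero]))]
    simp

theorem Setup.exists_rot [Finite F] (S : Setup m Q₀) :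
    ∃ γ : OG Q₀, lv m Q₀ (1, γ) ∈ commutator (OG (sumQF m Q₀)) ∧
      Function.Injective (en γ + 1 : End F A) := by
  by_cases h2 : (2 : F) = 0
  swap
  · refine ⟨1, by rw [← Prod.one_eq_mk, map_one]; exact one_mem _,
      (injective_iff_map_eq_zero _).2 fun x hx => ?_⟩
    have : (2 : F) • x = 0 := by rw [two_smul]; exact hx
    exact (smul_eq_zero.1 this).resolve_left h2
  rcases subsingleton_or_nontrivial A with h | h
  · exact ⟨1, by rw [← Prod.one_eq_mk, map_one]; exact one_mem _, fun _ _ _ => Subsingleton.elim _ _⟩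
  obtain ⟨x, hx⟩ := exists_ne (0 : A)
  obtain ⟨y, hy⟩ := S.nd.exists_polar_eq hx 1
  have hxx : ∀ x, polar Q₀ x x = 0 := fun x => by rw [polar_self', h2, zero_mul]
  have hxy : ∀ c : F, c • x ≠ y := by
    rintro c rfl
    rw [polar_smul_right', hxx, mul_zero] at hy
    exact zero_ne_one hy
  have hy0 : y ≠ 0 := by simpa using (hxy 0).symm
  have qx : Q₀ x ≠ 0 := fun h => hx (S.an _ h)
  have qy : Q₀ y ≠ 0 := fun h => hy0 (S.an _ h)
  refine ⟨refl Q₀ x * refl Q₀ y, ?_, (injective_iff_map_eq_zero _).2 fun z hz => ?_⟩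
  · rw [commutator_eq_ker_dickson (S.nd.sumQF m) S.rg h2, MonoidHom.mem_ker,
      show ((1 : (Fin m → F) ≃ₗ[F] (Fin m → F)), refl Q₀ x * refl Q₀ y) =
        (1, refl Q₀ x) * (1, refl Q₀ y) by simp, map_mul, map_mul, S.dickson_lv, S.dickson_lv]
    change dicksonFun _ * dicksonFun _ = 1
    rw [dicksonFun_refl S.nd qx, dicksonFun_refl S.nd qy]; simp
  · have h3 : (refl Q₀ x).1 ((refl Q₀ y).1 z) = z := by
      have h4 : (refl Q₀ x).1 ((refl Q₀ y).1 z) + z = 0 := hz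
      have h5 : z + z = 0 := by rw [← two_smul F, h2, zero_smul]
      exact add_right_cancel (h4.trans h5.symm)
    have h4 : (refl Q₀ y).1 z = (refl Q₀ x).1 z := by
      rw [← refl_inv x, eq_comm, OG.inv_apply_eq_iff, h3]
    rw [refl_apply, refl_apply, sub_right_inj] at h4
    have h5 := congrArg (polar Q₀ x) h4
    have h6 := congrArg (fun w => polar Q₀ w y) h4
    simp only [polar_smul_right', polar_smul_left', hxx, hy, mul_zero, mul_one, mul_eq_zero,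
      inv_eq_zero, qx, qy, false_or, zero_eq_mul] at h5 h6
    refine S.nd z fun w => ?_
    obtain ⟨s, t, rfl⟩ := S.span_eq hx hxy w
    rw [polar_add_right, polar_smul_right', polar_smul_right', h5, h6]
    simp

/-- The factorisation property. -/
def Fac (Q₀ : QuadraticForm F A) (b : (Fin m → F) ≃ₗ[F] (Fin m → F)) : Prop :=
  ∃ l₁ l₂ k : OG (sumQF m Q₀), Fpf (RR m F A) l₁ ∧ Fpf (LL m F A) l₂ ∧
    l₂ ∈ commutator (OG (sumQF m Q₀)) ∧ k ∈ commutator (OG (sumQF m Q₀)) ∧ l₁ = k * l₂ * k⁻¹ ∧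
    lv m Q₀ (b, 1) = l₁ * l₂⁻¹

theorem div_add_one (g : F[X]) : ∃ (c : F) (q : F[X]), g = C c + (X + 1) * q :=
  ⟨g.eval (-1), g /ₘ (X - C (-1)), by
    conv_lhs => rw [← modByMonic_add_div g (X - C (-1)), modByMonic_X_sub_C_eq_C_eval]
    simp⟩

theorem Setup.fac_gen [Fintype F] (S : Setup m Q₀) (hq : Fintype.card F = 2 → 4 ≤ m)
    {b : (Fin m → F) ≃ₗ[F] (Fin m → F)} (hb : LinearMap.det (b : End F (Fin m → F)) = 1)
    {v : Fin m → F} (hv : b v ∉ F ∙ v) : Fac Q₀ b := by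
  have hm := S.hm
  obtain ⟨p, P, h1, h2, h3, h4, h5⟩ := exists_poly (F := F) (n := m - 1) (by omega)
    (fun h => by have := hq h; omega)
  obtain ⟨γ, g1, g2⟩ := S.exists_rot
  have hV : finrank F (Fin m → F) = m - 1 + 1 := by simp; omega
  have h0 : p.coeff 0 ≠ 0 := fun h => h3.1 (by obtain ⟨c, rfl⟩ := h4; rw [mul_coeff_zero, h, zero_mul])
  have h6 : p.eval (-1) ≠ 0 := fun h => cop_eval_ne h3 (x := -1) (by simp) (by
    obtain ⟨c, rfl⟩ := h4; rw [eval_mul, h, zero_mul])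
  have hc : (p * (X - C (-1))).coeff 0 = p.coeff 0 := by simp
  obtain ⟨y, e, f, a1, a2, a3, a4, a5⟩ := exists_factor_simple b hv hV h1 h2 h0
    (h1.mul (monic_X_sub_C (-1))) (by rw [h1.natDegree_mul (monic_X_sub_C _), natDegree_X_sub_C, h2])
    h6 (by rw [hb, hc]; simp)
  obtain ⟨x, hx⟩ := a1.conj a3 (a2.trans a4.symm)
  have hx0 : LinearMap.det (x : End F (Fin m → F)) ≠ 0 := (LinearEquiv.isUnit_det' x).ne_zero
  obtain ⟨c, c1, c2⟩ := a5 _ (inv_ne_zero hx0)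
  have hy : LinearMap.det y = (-1) ^ (m - 1 + 1) * p.coeff 0 := by
    rw [LinearMap.det_eq_sign_charpoly_coeff, a2, hc, hV]
  obtain ⟨y, rfl⟩ : ∃ y' : (Fin m → F) ≃ₗ[F] (Fin m → F), (y' : End F (Fin m → F)) = y :=
    ⟨LinearMap.equivOfDetNeZero y (by rw [hy]; simp [h0]), LinearEquiv.coe_ofIsUnitDet _⟩
  have g3 := S.inj_aeval h3 γ
  obtain ⟨-, d, P', r1, u, w, r2⟩ := h3
  have r3 : Rev 1 (X + 1 : F[X]) (X + 1) := by
    simpa [add_comm] using (Rev.X_pow (F := F) 1 0).add (Rev.X_pow 0 1)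
  have r4 : u * (P * (X + 1)) + w * (P' * (X + 1)) = X + 1 := by linear_combination (X + 1) * r2
  have g4 : Function.Injective (aeval (en γ) (P * (X + 1))) := by
    rw [map_mul]
    exact g3.comp (by simpa using g2)
  have k1 : ∀ z : End F (Fin m → F), z.charpoly = p * (X - C (-1)) → aeval z (P * (X + 1)) = 0 := by
    intro z hz
    obtain ⟨c, rfl⟩ := h4
    have := z.aeval_self_charpoly
    rw [hz] at this
    rw [show p * c * (X + 1) = c * (p * (X - C (-1))) by simp; ring, map_mul, this, mul_zero]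
  refine ⟨lv m Q₀ (b * y, γ), lv m Q₀ (y, γ), lv m Q₀ (x * c, 1),
    S.fpf_RR (r1.mul r3) (k1 _ a4) g4 r4 ⟨f, fun z => ?_⟩,
    S.fpf_LL (r1.mul r3) (k1 _ a2) g4 r4 ⟨ev (y : End F (Fin m → F)) e p, fun z hz => ?_⟩,
    ?_, (S.lv_mem_iff _).2 ?_, ?_, ?_⟩
  · obtain ⟨g, rfl⟩ := a3.surj z
    obtain ⟨c, q, rfl⟩ := div_add_one g
    exact ⟨c, ev _ f q, by rw [map_add, ev_mul]; simp [ev_apply]; rfl⟩
  · obtain ⟨g, rfl⟩ := a1.surj z
    rw [← ev_mul, a1.ker_eq, a2, mul_comm p, show (X - C (-1) : F[X]) = X + 1 by simp,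
      mul_dvd_mul_iff_left (by simpa using X_sub_C_ne_zero (-1 : F))] at hz
    obtain ⟨g, rfl⟩ := hz
    obtain ⟨c, q, rfl⟩ := div_add_one g
    refine Submodule.mem_span_singleton.2 ⟨c, ?_⟩
    rw [mul_add, map_add, (a1.ker_eq (p * ((X + 1) * q))).2 ⟨q, by rw [a2]; simp; ring⟩, add_zero,
      mul_comm, ← smul_eq_C_mul, map_smul]
  · rw [show (y, γ) = (y, 1) * (1, γ) by simp, map_mul]
    exact mul_mem ((S.lv_mem_iff y).2 (hy ▸ h5)) g1
  · rw [LinearEquiv.coe_toLinearMap_mul, map_mul, c1, mul_inv_cancel₀ hx0]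
    exact IsSquare.one
  · rw [eq_mul_inv_iff_mul_eq, ← map_mul, ← map_mul]
    congr 1
    refine Prod.ext (LinearEquiv.ext fun z => ?_) (by simp)
    exact ((congrArg x (c2 z)).trans (hx _)).symm
  · rw [eq_mul_inv_iff_mul_eq, ← map_mul]; simp

theorem gen_of_irreducible {V : Type*} [AddCommGroup V] [Module F V] [FiniteDimensional F V]
    {y : End F V} {f : F[X]} (h1 : f.Monic) (h2 : Irreducible f) (h3 : f.natDegree = finrank F V)
    (h4 : aeval y f = 0) {v : V} (hv : v ≠ 0) : Gen y v ∧ y.charpoly = f := by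
  have : Gen y v := by
    intro W hW hi
    have : Nontrivial W := ⟨⟨v, hW⟩, 0, fun h => hv (congrArg Subtype.val h)⟩
    have h5 : aeval (y.restrict hi) f = 0 := LinearMap.ext fun x => Subtype.ext <| by
      have := aeval_inter (z := y.restrict hi) (y := y) W.subtype (fun _ => rfl) f x
      rw [h4] at this
      exact this
    have h6 := LinearMap.minpoly_dvd_charpoly (y.restrict hi)
    rw [← minpoly.eq_of_irreducible_of_monic h2 h5 h1] at h6
    have h7 := natDegree_le_of_dvd h6 (LinearMap.charpoly_monic _).ne_zero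
    rw [LinearMap.charpoly_natDegree, h3] at h7
    exact Submodule.eq_top_of_finrank_eq (le_antisymm W.finrank_le h7)
  exact ⟨this, this.charpoly_eq h1 h3 (by rw [ev_apply, h4]; rfl)⟩

theorem exists_conj_of_irreducible {f : F[X]} (h1 : f.Monic) (h2 : Irreducible f)
    (h3 : f.natDegree = 3) {y z : (Fin 3 → F) ≃ₗ[F] (Fin 3 → F)}
    (hy : aeval (y : End F (Fin 3 → F)) f = 0) (hz : aeval (z : End F (Fin 3 → F)) f = 0) :
    ∃ x, z = x * y * x⁻¹ := by
  have hv : (1 : Fin 3 → F) ≠ 0 := one_ne_zero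
  obtain ⟨a1, a2⟩ := gen_of_irreducible h1 h2 (by simpa using h3) hy hv
  obtain ⟨a3, a4⟩ := gen_of_irreducible h1 h2 (by simpa using h3) hz hv
  obtain ⟨x, hx⟩ := a1.conj a3 (a2.trans a4.symm)
  exact ⟨x, eq_mul_inv_iff_mul_eq.2 (LinearEquiv.ext fun u => (hx u).symm)⟩

theorem Setup.fac_special [Fintype F] [Nontrivial A] (S : Setup 3 Q₀) (hq : Fintype.card F = 2)
    {b : (Fin 3 → F) ≃ₗ[F] (Fin 3 → F)} (hb : LinearMap.det (b : End F (Fin 3 → F)) = 1) :
    Fac Q₀ b := by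
  have h2 : (2 : F) = 0 := by simpa [hq] using FiniteField.cast_card_eq_zero F
  have h2' : (2 : F[X]) = 0 := by rw [← map_ofNat C 2, h2, C_0]
  have hsq : ∀ x : F, x ^ 2 = x := fun x => by simpa [hq] using FiniteField.pow_card x
  have r1 : Rev 3 (X ^ 3 + X + 1 : F[X]) (1 + X ^ 2 + X ^ 3) := by
    simpa using ((Rev.X_pow (F := F) 3 0).add (Rev.X_pow 1 2)).add (Rev.X_pow 0 3)
  have r2 : Rev 3 (1 + X ^ 2 + X ^ 3 : F[X]) (X ^ 3 + X + 1) := by
    simpa using ((Rev.X_pow (F := F) 0 3).add (Rev.X_pow 2 1)).add (Rev.X_pow 3 0)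
  have z1 : (X : F[X]) * (X ^ 3 + X + 1) + (1 + X) * (1 + X ^ 2 + X ^ 3) = 1 := by
    linear_combination (X + X ^ 2 + X ^ 3 + X ^ 4) * h2'
  have z2 := (add_comm _ _).trans z1
  have c1 := S.inj_aeval ⟨by simp, _, _, r1, _, _, z1⟩ 1
  have c2 := S.inj_aeval ⟨by simp, _, _, r2, _, _, z2⟩ 1
  have d1 : (X ^ 3 + X + 1 : F[X]).natDegree = 3 := by compute_degree!
  have d2 : (1 + X ^ 2 + X ^ 3 : F[X]).natDegree = 3 := by compute_degree!
  have m1 : (X ^ 3 + X + 1 : F[X]).Monic := by monicity!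
  have m2 : (1 + X ^ 2 + X ^ 3 : F[X]).Monic := by monicity!
  have i1 : Irreducible (X ^ 3 + X + 1 : F[X]) := by
    rw [irreducible_iff_roots_eq_zero_of_degree_le_three (by omega) (by omega),
      Multiset.eq_zero_iff_forall_notMem]
    intro x hx
    have := (mem_roots m1.ne_zero).1 hx
    simp only [IsRoot, eval_add, eval_pow, eval_X, eval_one] at this
    exact one_ne_zero (by linear_combination this - (x + 1) * hsq x - x * h2 : (1 : F) = 0)
  have i2 : Irreducible (1 + X ^ 2 + X ^ 3 : F[X]) := by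
    rw [irreducible_iff_roots_eq_zero_of_degree_le_three (by omega) (by omega),
      Multiset.eq_zero_iff_forall_notMem]
    intro x hx
    have := (mem_roots m2.ne_zero).1 hx
    simp only [IsRoot, eval_add, eval_pow, eval_X, eval_one] at this
    exact one_ne_zero (by linear_combination this - (x + 2) * hsq x - x * h2 : (1 : F) = 0)
  obtain ⟨M, e1, e2⟩ := OGL32.exists_card_two hq
    (LinearMap.toMatrixAlgEquiv' (b : End F (Fin 3 → F))) ((LinearMap.det_toMatrix' _).trans hb)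
  have e3 : aeval (Matrix.toLinAlgEquiv' M) (X ^ 3 + X + 1 : F[X]) = 0 := by
    simpa using congrArg Matrix.toLinAlgEquiv' e1
  obtain ⟨y, hy⟩ : ∃ y : (Fin 3 → F) ≃ₗ[F] (Fin 3 → F),
      (y : End F (Fin 3 → F)) = Matrix.toLinAlgEquiv' M := by
    refine ⟨LinearEquiv.ofInjectiveEndo (Matrix.toLinAlgEquiv' M)
      ((injective_iff_map_eq_zero _).2 fun x hx => ?_), rfl⟩
    simpa [pow_succ, hx] using LinearMap.congr_fun e3 x
  rw [← hy] at e3
  have e4 : aeval (b * y : (Fin 3 → F) ≃ₗ[F] (Fin 3 → F)).toLinearMap (X ^ 3 + X + 1 : F[X]) = 0 ∨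
      aeval (b * y : (Fin 3 → F) ≃ₗ[F] (Fin 3 → F)).toLinearMap (1 + X ^ 2 + X ^ 3 : F[X]) = 0 := by
    rw [LinearEquiv.coe_toLinearMap_mul, hy]
    refine e2.imp (fun h => ?_) fun h => ?_
    · simpa using congrArg Matrix.toLinAlgEquiv' h
    · simpa using congrArg Matrix.toLinAlgEquiv' h
  have f1 := S.fpf_LL r1 e3 c1 z1 ⟨0, fun x hx => by simpa using hx⟩
  have s1 : ∀ x, lv 3 Q₀ (x, 1) ∈ commutator (OG (sumQF 3 Q₀)) := fun x =>
    (S.lv_mem_iff x).2 (isSquare_of_two_eq_zero h2 _)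
  have s2 : lv 3 Q₀ (b, 1) = lv 3 Q₀ (b * y, 1) * (lv 3 Q₀ (y, 1))⁻¹ := by
    rw [eq_mul_inv_iff_mul_eq, ← map_mul]; simp
  rcases e4 with h | h
  · obtain ⟨x, hx⟩ := exists_conj_of_irreducible m1 i1 d1 e3 h
    exact ⟨_, _, lv 3 Q₀ (x, 1), S.fpf_RR r1 h c1 z1 ⟨0, fun x => ⟨0, x, by simp⟩⟩, f1, s1 _, s1 _,
      by rw [hx, ← map_inv, ← map_mul, ← map_mul]; simp, s2⟩
  · obtain ⟨a, -, u, hu, e5⟩ := exists_lv_mul (JJ_conj_lv_mem_P0 (Q₀ := Q₀) y)
    have j1 : JJ 3 Q₀ * lv 3 Q₀ (y, 1) * JJ 3 Q₀ ∈ PL _ (RR 3 F A) := fun v => by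
      have := lv_mem_PL (Q₀ := Q₀) y 1 ((JJ 3 Q₀).1 v)
      simpa [mem_LL, mem_RR] using this
    obtain rfl : u = 1 := by
      have : u = (lv 3 Q₀ (a, 1))⁻¹ * (JJ 3 Q₀ * lv 3 Q₀ (y, 1) * JJ 3 Q₀) := by rw [e5]; group
      refine eq_one_of_fix (fun x => hu.1 _ (iL_mem x)) (fun z => ?_)
        (this ▸ mul_mem (inv_mem (lv_mem_PL' a 1)) j1)
      rw [this, OG.mul_apply, OG.inv_apply_eq_iff, lv_iA]
      exact ext3 (by simp [pR_lv]) (by simp) (by simp)
    rw [mul_one] at e5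
    have e6 : aeval (a : End F (Fin 3 → F)) (1 + X ^ 2 + X ^ 3 : F[X]) = 0 := LinearMap.ext fun x => by
      have := aeval_inter (z := en (lv 3 Q₀ (y, 1))) (y := en (lv 3 Q₀ (a, 1))) (en (JJ 3 Q₀))
        (fun v => by rw [← e5]; exact congrArg _ (congrArg _ (JJ_JJ v).symm)) (1 + X ^ 2 + X ^ 3) (iR x)
      rw [aeval_RR 1 r1 e3 (iR_mem x), map_zero, LinearEquiv.coe_coe, JJ_iR, aeval_iL] at this
      exact (congrArg pL this).symm
    obtain ⟨x, hx⟩ := exists_conj_of_irreducible m2 i2 d2 e6 h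
    obtain ⟨z, hz⟩ := S.nd.exists_Q_ne_zero
    refine ⟨_, _, lv 3 Q₀ (x, 1) * (JJ 3 Q₀ * lv 3 Q₀ (1, refl Q₀ z)),
      S.fpf_RR r2 h c2 z2 ⟨0, fun x => ⟨0, x, by simp⟩⟩, f1, s1 _, mul_mem (s1 _) ?_, ?_, s2⟩
    · rw [commutator_eq_ker_dickson (S.nd.sumQF 3) S.rg h2, MonoidHom.mem_ker, map_mul,
        S.dickson_lv, dickson_apply, finrank_mov_wE]
      change _ * dicksonFun _ = 1
      rw [dicksonFun_refl S.nd hz, show LinearMap.range (1 : End F (Fin 3 → F)) = ⊤ from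
        LinearMap.range_id]
      simp; rfl
    · have e7 : lv 3 Q₀ (1, refl Q₀ z) * lv 3 Q₀ (y, 1) * (lv 3 Q₀ (1, refl Q₀ z))⁻¹ =
          lv 3 Q₀ (y, 1) := by rw [← map_inv, ← map_mul, ← map_mul]; simp
      calc lv 3 Q₀ (b * y, 1) = lv 3 Q₀ (x, 1) * lv 3 Q₀ (a, 1) * (lv 3 Q₀ (x, 1))⁻¹ := by
            rw [hx, ← map_inv, ← map_mul, ← map_mul]; simp
        _ = _ := by
            rw [← e5]
            nth_rewrite 2 [← show (JJ 3 Q₀)⁻¹ = JJ 3 Q₀ from wE_inv proj_one]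
            nth_rewrite 1 [← e7]
            group

theorem Setup.oComm_of_fac [Finite F] (S : Setup m Q₀)
    (h : ∀ b : (Fin m → F) ≃ₗ[F] (Fin m → F), LinearMap.det (b : End F (Fin m → F)) = 1 →
      (∃ x, b x ∉ F ∙ x) → Fac Q₀ b) {g : OG (sumQF m Q₀)}
    (hg : g ∈ commutator (OG (sumQF m Q₀))) (h1 : g ≠ 1) (h2 : g ≠ negOne _) : OComm g := by
  have hm := S.hm
  let i₀ : Fin m := ⟨0, by omega⟩
  let i₁ : Fin m := ⟨1, by omega⟩
  have hi : i₀ ≠ i₁ := by simp [i₀, i₁]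
  obtain ⟨l₁, l₂, -, f1, f2, -⟩ := h (LinearEquiv.transvection (f := LinearMap.proj i₀)
    (v := Pi.single i₁ 1) (by simp [hi])) (by simp [hi]) ⟨Pi.single i₀ 1, fun hc => by
      obtain ⟨c, hc⟩ := Submodule.mem_span_singleton.1 hc
      simpa [LinearMap.transvection.apply, hi.symm] using congrFun hc i₁⟩
  obtain ⟨q, b, b1, b2, u, hu, u', hu', e⟩ := S.exists_good f2.le f1.le hg h1 h2
  obtain ⟨l₁, l₂, k, f1, f2, f3, f4, f5, f6⟩ := h b b1 b2
  exact OComm.of_conj q (by rw [e, f6]; exact oComm_of_fpf f1 f2 f3 f4 f5 hu hu')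

end Cfsg.Agent.Comm.OModel
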