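import Mathlib
import Cfsg.Agent.Comm.OFac
import Cfsg.Agent.Class.Orth.SymmForm

/-!
The scalar `-1` is a commutator in `Ω`; every element of `Ω` is a commutator.
-/

set_option autoImplicit false

namespace Cfsg.Agent.Comm.ONeg

open QuadraticMap Module Cfsg.Agent.Class.Orth Cfsg.Agent.Comm.OFpf Cfsg.Agent.Comm.OModel

variable {F V : Type*} [Field F] [AddCommGroup V] [Module F V] {Q : QuadraticForm F V}

/-- Isometries supported on `W` and anticommuting there. -/
structure AC (W : Submodule F V) (a b : OG Q) : Prop where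
  ma : ∀ x ∈ W, a.1 x ∈ W
  mb : ∀ x ∈ W, b.1 x ∈ W
  ac : ∀ x ∈ W, a.1 (b.1 x) = - b.1 (a.1 x)
  fa : ∀ x ∈ perp Q W, a.1 x = x
  fb : ∀ x ∈ perp Q W, b.1 x = x

theorem AC.rot {W : Submodule F V} {a b : OG Q} (h : AC W a b) : AC W b (a * b) :=
  ⟨h.mb, fun x hx => h.ma _ (h.mb x hx), fun x hx => by
    rw [OG.mul_apply, OG.mul_apply, h.ac _ (h.mb x hx), neg_neg], h.fb,
    fun x hx => by rw [OG.mul_apply, h.fb x hx, h.fa x hx]⟩

theorem AC.mul {W W' : Submodule F V} {a b a' b' : OG Q} (h : AC W a b) (h' : AC W' a' b')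
    (o : W' ≤ perp Q W) : AC (W ⊔ W') (a * a') (b * b') := by
  have o' : W ≤ perp Q W' := fun x hx y hy => by rw [polar_comm]; exact o hy x hx
  have e1 : ∀ x ∈ W, ∀ y ∈ W', (a * a').1 (x + y) = a.1 x + a'.1 y := fun x hx y hy => by
    rw [OG.mul_apply, map_add, map_add, h'.fa x (o' hx), h.fa _ (o (h'.ma y hy))]
  have e2 : ∀ x ∈ W, ∀ y ∈ W', (b * b').1 (x + y) = b.1 x + b'.1 y := fun x hx y hy => by
    rw [OG.mul_apply, map_add, map_add, h'.fb x (o' hx), h.fb _ (o (h'.mb y hy))]
  refine ⟨fun z hz => ?_, fun z hz => ?_, fun z hz => ?_, fun z hz => ?_, fun z hz => ?_⟩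
  · obtain ⟨x, hx, y, hy, rfl⟩ := Submodule.mem_sup.1 hz
    rw [e1 x hx y hy]
    exact Submodule.add_mem_sup (h.ma x hx) (h'.ma y hy)
  · obtain ⟨x, hx, y, hy, rfl⟩ := Submodule.mem_sup.1 hz
    rw [e2 x hx y hy]
    exact Submodule.add_mem_sup (h.mb x hx) (h'.mb y hy)
  · obtain ⟨x, hx, y, hy, rfl⟩ := Submodule.mem_sup.1 hz
    rw [e1 x hx y hy, e2 x hx y hy, e1 _ (h.mb x hx) _ (h'.mb y hy),
      e2 _ (h.ma x hx) _ (h'.ma y hy), h.ac x hx, h'.ac y hy, neg_add]
  · rw [OG.mul_apply, h'.fa z fun u hu => hz u (Submodule.mem_sup_right hu),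
      h.fa z fun u hu => hz u (Submodule.mem_sup_left hu)]
  · rw [OG.mul_apply, h'.fb z fun u hu => hz u (Submodule.mem_sup_right hu),
      h.fb z fun u hu => hz u (Submodule.mem_sup_left hu)]

theorem ac_plane (h2 : (2 : F) ≠ 0) {u v : V} (hu : Q u = 1) (hv : Q v = 1)
    (huv : polar Q u v = 0) : AC (Submodule.span F {u, v}) (refl Q u) (refl Q (u - v)) := by
  have mu : u ∈ Submodule.span F {u, v} := Submodule.subset_span (by simp)
  have mv : v ∈ Submodule.span F {u, v} := Submodule.subset_span (by simp)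
  have hvu : polar Q v u = 0 := by rw [polar_comm, huv]
  have h3 : Q (u - v) = 2 := by rw [Q_sub, hu, hv, huv]; norm_num
  refine ⟨fun x hx => ?_, fun x hx => ?_, fun x hx => ?_, fun x hx => ?_, fun x hx => ?_⟩
  · rw [refl_apply]; exact sub_mem hx (Submodule.smul_mem _ _ mu)
  · rw [refl_apply]; exact sub_mem hx (Submodule.smul_mem _ _ (sub_mem mu mv))
  · obtain ⟨s, t, rfl⟩ := Submodule.mem_span_pair.1 hx
    simp only [refl_apply, h3, hu, hv, huv, hvu, polar_add_left, polar_sub_left, polar_sub_right,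
      polar_smul_left', polar_self']
    match_scalars <;> field_simp <;> ring
  · exact refl_apply_of_polar_eq_zero (by rw [polar_comm]; exact hx u mu)
  · exact refl_apply_of_polar_eq_zero (by rw [polar_comm]; exact hx _ (sub_mem mu mv))

theorem oComm_negOne [Finite F] [FiniteDimensional F V] (hQ : ND Q) (h2 : (2 : F) ≠ 0)
    (h4 : 4 ≤ finrank F V) (h : negOne Q ∈ commutator (OG Q)) : OComm (negOne Q) := by
  obtain ⟨α, hα⟩ := exists_not_isSquare h2
  obtain ⟨k, hk⟩ : ∃ k, finrank F V = k + 1 := ⟨finrank F V - 1, by omega⟩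
  obtain ⟨b, -, b1, b2, b3⟩ := hQ.ndon_top.exists_orth_family h2 hα k ⊤ (by simpa using hk)
  have b4 : ∀ i, Q (b i) ≠ 0 := fun i => by
    by_cases hi : i = Fin.last k
    · rcases b3 with h | h
      · rw [hi, h]; exact one_ne_zero
      · rw [hi, h]; rintro rfl; exact hα IsSquare.zero
    · rw [b2 i hi]; exact one_ne_zero
  have li : LinearIndependent F b := LinearMap.linearIndependent_of_isOrthoᵢ
    (B := polarBilin Q) (fun i j hij => b1 i j hij) fun i => by
      rw [polarBilin_apply_apply, polar_self']; exact mul_ne_zero h2 (b4 i)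
  let B := basisOfLinearIndependentOfCardEqFinrank li (by simp [hk])
  have hB : ⇑B = b := coe_basisOfLinearIndependentOfCardEqFinrank _ _
  obtain ⟨⟨n, hn⟩, h5⟩ := (negOne_mem_commutator_iff hQ (hQ.reflGen_odd h2) h2 B).1 h
  have b5 : ∀ i, Q (b i) = 1 := by
    have : (Matrix.of fun i j => polar Q (B i) (B j)) = Matrix.diagonal fun i => 2 * Q (b i) := by
      ext i j
      by_cases hij : i = j
      · simp [hij, hB]
      · simp [hij, hB, b1 i j hij]
    rw [this, Matrix.det_diagonal, Finset.prod_mul_distrib, Fin.prod_univ_castSucc fun i => Q (b i),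
      Finset.prod_eq_one (fun i _ => b2 _ (Fin.castSucc_ne_last i)), one_mul, Finset.prod_const,
      Finset.card_univ, Fintype.card_fin, ← hk, hn, pow_add] at h5
    have h6 : Q (b (Fin.last k)) = 1 := b3.resolve_right fun h => hα (by
      obtain ⟨c, hc⟩ := h5
      refine ⟨c / 2 ^ n, ?_⟩
      field_simp
      rw [← h]; linear_combination hc)
    intro i
    by_cases hi : i = Fin.last k
    · rw [hi, h6]
    · exact b2 i hi
  let c : ℕ → V := fun i => if h : i < k + 1 then b ⟨i, h⟩ else 0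
  have c1 : ∀ i < k + 1, Q (c i) = 1 := fun i hi => by simp only [c, dif_pos hi, b5]
  have c2 : ∀ i < k + 1, ∀ j < k + 1, i ≠ j → polar Q (c i) (c j) = 0 := fun i hi j hj hij => by
    simp only [c, dif_pos hi, dif_pos hj]
    exact b1 _ _ (by simpa using hij)
  have c3 : ∀ i, i + 1 < k + 1 → Q (c i - c (i + 1)) = 2 := fun i hi => by
    rw [Q_sub, c1 i (by omega), c1 _ hi, c2 i (by omega) _ hi (by omega)]; norm_num
  let π := Abelianization.of (G := OG Q)
  have p1 : ∀ x y, Q x ≠ 0 → Q x = Q y → π (refl Q x) = π (refl Q y) := fun x y hx hxy => by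
    obtain ⟨g, hg⟩ := hQ.isConj_refl hx (hxy ▸ hx) (by rw [hxy])
    rw [← hg, map_mul, map_mul, map_inv, mul_inv_cancel_comm]
  set s := π (refl Q (c 0))
  set t := π (refl Q (c 0 - c 1))
  have hs : s * s = 1 := by rw [← map_mul, refl_mul_self, map_one]
  have ht : t * t = 1 := by rw [← map_mul, refl_mul_self, map_one]
  let T : ℕ → Abelianization (OG Q) → Abelianization (OG Q) → Prop := fun j x y =>
    ∃ a b : OG Q, AC (Submodule.span F (c '' Set.Iio (2 * j))) a b ∧ π a = x ∧ π b = y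
  have step : ∀ j x y, j < n → T j x y → T (j + 1) (x * s) (y * t) ∧
      T (j + 1) (x * t) (y * (s * t)) ∧ T (j + 1) (x * (s * t)) (y * (t * (s * t))) := by
    rintro j _ _ hj ⟨a, b, hab, rfl, rfl⟩
    have q1 := ac_plane h2 (c1 (2 * j) (by omega)) (c1 (2 * j + 1) (by omega))
      (c2 _ (by omega) _ (by omega) (by omega))
    have q2 : π (refl Q (c (2 * j))) = s :=
      p1 _ _ (by rw [c1 _ (by omega)]; exact one_ne_zero) (by rw [c1 _ (by omega), c1 _ (by omega)])
    have q3 : π (refl Q (c (2 * j) - c (2 * j + 1))) = t :=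
      p1 _ _ (by rw [c3 _ (by omega)]; exact h2) (by rw [c3 _ (by omega), c3 0 (by omega)])
    have q4 : Submodule.span F (c '' Set.Iio (2 * (j + 1))) =
        Submodule.span F (c '' Set.Iio (2 * j)) ⊔ Submodule.span F {c (2 * j), c (2 * j + 1)} := by
      rw [← Submodule.span_union, ← Set.image_pair, ← Set.image_union]
      congr 2
      ext i
      simp only [Set.mem_Iio, Set.mem_union, Set.mem_insert_iff, Set.mem_singleton_iff]
      omega
    have q5 : Submodule.span F {c (2 * j), c (2 * j + 1)} ≤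
        perp Q (Submodule.span F (c '' Set.Iio (2 * j))) := by
      rw [Submodule.span_le]
      intro y hy x hx
      have : Submodule.span F (c '' Set.Iio (2 * j)) ≤ LinearMap.ker (polarBilin Q y) := by
        rw [Submodule.span_le]
        rintro _ ⟨i, hi, rfl⟩
        have hi' : i < 2 * j := hi
        rcases hy with rfl | rfl <;> exact c2 _ (by omega) _ (by omega) (by omega)
      rw [polar_comm]
      exact this hx
    simp only [T, q4]
    exact ⟨⟨_, _, hab.mul q1 q5, by simp only [map_mul, q2], by simp only [map_mul, q3]⟩,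
      ⟨_, _, hab.mul q1.rot q5, by simp only [map_mul, q3], by simp only [map_mul, q2, q3]⟩,
      ⟨_, _, hab.mul q1.rot.rot q5, by simp only [map_mul, q2, q3], by simp only [map_mul, q2, q3]⟩⟩
  have t0 : T 0 1 1 := ⟨1, 1, ⟨fun _ h => h, fun _ h => h, fun x hx => by
    obtain rfl : x = 0 := by simpa using hx
    simp, fun _ _ => rfl, fun _ _ => rfl⟩, map_one _, map_one _⟩
  have t2 : ∀ j, j + 2 ≤ n → T j 1 1 → T (j + 2) 1 1 := fun j hj h => by
    simpa only [one_mul, hs, ht] using (step _ _ _ (by omega) (step _ _ _ (by omega) h).1).1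
  have t3 : 3 ≤ n → T 3 1 1 := fun hj => by
    have := (step _ _ _ (by omega) (step _ _ _ (by omega) (step _ _ _ (by omega) t0).1).2.1).2.2
    rwa [show 1 * s * t * (s * t) = s * s * (t * t) by simp only [one_mul]; ac_rfl,
      show 1 * t * (s * t) * (t * (s * t)) = s * s * (t * t) * (t * t) by simp only [one_mul]; ac_rfl,
      hs, ht, one_mul, one_mul] at this
  have t4 : ∀ j, j ≤ n → j ≠ 1 → T j 1 1 := by
    intro j
    induction j using Nat.strong_induction_on with
    | _ j ih =>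
      intro h1 h2
      by_cases h0 : j = 0
      · exact h0 ▸ t0
      by_cases h3 : j = 3
      · exact h3 ▸ t3 (by omega)
      obtain ⟨i, rfl⟩ : ∃ i, j = i + 2 := ⟨j - 2, by omega⟩
      exact t2 i h1 (ih i (by omega) (by omega) (by omega))
  obtain ⟨x, y, hxy, hx, hy⟩ := t4 n le_rfl (by omega)
  have top : Submodule.span F (c '' Set.Iio (2 * n)) = ⊤ := by
    rw [eq_top_iff, ← B.span_eq, hB]
    refine Submodule.span_mono ?_
    rintro _ ⟨i, rfl⟩
    exact ⟨i, show (i : ℕ) < 2 * n by omega, by simp only [c, dif_pos i.2]⟩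
  refine ⟨x, (QuotientGroup.eq_one_iff x).1 hx, y, (QuotientGroup.eq_one_iff y).1 hy, ?_⟩
  rw [eq_mul_inv_iff_mul_eq, eq_mul_inv_iff_mul_eq]
  exact OG.ext fun v => (hxy.ac v (top ▸ Submodule.mem_top)).symm

theorem oComm_all {A : Type*} [AddCommGroup A] [Module F A] [FiniteDimensional F A] [Fintype F]
    {m : ℕ} {Q₀ : QuadraticForm F A} (S : Setup m Q₀)
    (h : Fintype.card F = 2 → m = 3 → Nontrivial A) :
    ∀ g ∈ commutator (OG (sumQF m Q₀)), OComm g := by
  intro g hg
  have hm := S.hm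
  by_cases h1 : g = 1
  · exact ⟨1, one_mem _, 1, one_mem _, by simp [h1]⟩
  by_cases h2 : g = negOne _
  · subst h2
    refine oComm_negOne (S.nd.sumQF m) (fun h => h1 (OG.ext fun v => ?_)) (by simp; omega) hg
    rw [negOne_apply, OG.one_apply, neg_eq_iff_add_eq_zero, ← two_smul F, h, zero_smul]
  refine S.oComm_of_fac (fun b hb ⟨v, hv⟩ => ?_) hg h1 h2
  by_cases h3 : Fintype.card F = 2 ∧ m = 3
  · obtain ⟨h3, rfl⟩ := h3
    have := h h3 rfl
    exact S.fac_special h3 hb
  · exact S.fac_gen (fun h => by by_contra; exact h3 ⟨h, by omega⟩) hb hv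

end Cfsg.Agent.Comm.ONeg
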