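import Mathlib

/-!
An isometry `g` of a symplectic space has a Lagrangian `L = Lp ⊕ Lm` with a Lagrangian complement
`L'` containing `(g - 1) Lp` and `(g + 1) Lm`.
-/

set_option autoImplicit false

namespace Cfsg.Agent.Comm.SpLag

open Polynomial

universe u

variable {F : Type*} [Field F] {V : Type u} [AddCommGroup V] [Module F V]

/-- An alternating form with an isometry `g` and its inverse `gi`. -/
structure Iso (B : LinearMap.BilinForm F V) (g gi : Module.End F V) : Prop where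
  alt : ∀ x, B x x = 0
  mul_inv : g * gi = 1
  inv_mul : gi * g = 1
  pres : ∀ x y, B (g x) (g y) = B x y

variable {B : LinearMap.BilinForm F V} {g gi : Module.End F V}

theorem Iso.skew (h : Iso B g gi) (x y : V) : B x y = -B y x := by
  have := h.alt (x + y)
  simp only [map_add, LinearMap.add_apply, h.alt] at this
  linear_combination this

theorem Iso.g_gi (h : Iso B g gi) (x : V) : g (gi x) = x := by
  rw [← Module.End.mul_apply, h.mul_inv]; rfl

theorem Iso.gi_g (h : Iso B g gi) (x : V) : gi (g x) = x := by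
  rw [← Module.End.mul_apply, h.inv_mul]; rfl

theorem Iso.adj (h : Iso B g gi) (x y : V) : B (g x) y = B x (gi y) := by
  rw [← h.pres x, h.g_gi]

theorem Iso.adj' (h : Iso B g gi) (x y : V) : B (gi x) y = B x (g y) := by
  rw [← h.pres (gi x), h.g_gi]

theorem Iso.neg (h : Iso B g gi) : Iso B (-g) (-gi) :=
  ⟨h.alt, by simp [h.mul_inv], by simp [h.inv_mul], fun x y => by simp [h.pres]⟩

theorem Iso.comm (h : Iso B g gi) : Commute g gi := by
  rw [Commute, SemiconjBy, h.mul_inv, h.inv_mul]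

theorem Iso.inj (h : Iso B g gi) : Function.Injective g := fun x y e => by
  rw [← h.gi_g x, e, h.gi_g]

theorem Iso.gi_mem [FiniteDimensional F V] (h : Iso B g gi) {W : Submodule F V}
    (hW : ∀ x ∈ W, g x ∈ W) {x : V} (hx : x ∈ W) : gi x ∈ W := by
  have hi : Function.Injective (g.restrict hW) := by
    intro a b e
    apply Subtype.ext
    apply h.inj
    simpa using congrArg Subtype.val e
  obtain ⟨y, hy⟩ := LinearMap.injective_iff_surjective.1 hi ⟨x, hx⟩
  have : g y = x := by simpa using congrArg Subtype.val hy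
  rw [← this, h.gi_g]; exact y.2

/-- Self-adjoint operators `S` with `B (S x) x = 0`. -/
structure SA (B : LinearMap.BilinForm F V) (S : Module.End F V) : Prop where
  alt : ∀ x, B x x = 0
  adj : ∀ x y, B (S x) y = B x (S y)
  alt' : ∀ x, B (S x) x = 0

theorem SA.adj_pow {S : Module.End F V} (h : SA B S) (n : ℕ) (x y : V) :
    B ((S ^ n) x) y = B x ((S ^ n) y) := by
  induction n generalizing x y with
  | zero => simp
  | succ n ih =>
    conv_lhs => rw [pow_succ', Module.End.mul_apply, h.adj, ih]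
    rw [pow_succ, Module.End.mul_apply]

theorem SA.alt_pow {S : Module.End F V} (h : SA B S) (n : ℕ) (x : V) : B ((S ^ n) x) x = 0 := by
  obtain ⟨k, rfl | rfl⟩ := Nat.even_or_odd' n
  · rw [two_mul, pow_add, Module.End.mul_apply, h.adj_pow, h.alt]
  · rw [two_mul, add_assoc, pow_add, Module.End.mul_apply, h.adj_pow, pow_succ',
      Module.End.mul_apply, h.alt']

theorem SA.adj_aeval {S : Module.End F V} (h : SA B S) (a : F[X]) (x y : V) :
    B (aeval S a x) y = B x (aeval S a y) := by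
  induction a using Polynomial.induction_on' with
  | add p q hp hq => simp [hp, hq]
  | monomial n c => simp [aeval_monomial, h.adj_pow]

theorem SA.alt_aeval {S : Module.End F V} (h : SA B S) (a : F[X]) (x : V) :
    B (aeval S a x) x = 0 := by
  induction a using Polynomial.induction_on' with
  | add p q hp hq => simp [hp, hq]
  | monomial n c => simp [aeval_monomial, h.alt_pow]

theorem Iso.sa (h : Iso B g gi) : SA B (g + gi) :=
  ⟨h.alt, fun x y => by simp [h.adj, h.adj', add_comm], fun x => by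
    simp only [LinearMap.add_apply, map_add, h.adj' x, h.skew x (g x)]; ring⟩

theorem Iso.sa' (h : Iso B g gi) : SA B (g + gi - 2) :=
  ⟨h.alt, fun x y => by
    have := h.sa.adj x y
    simp only [LinearMap.sub_apply, map_sub, this, Module.End.ofNat_apply, map_nsmul,
      LinearMap.smul_apply], fun x => by
    have := h.sa.alt' x
    simp only [LinearMap.sub_apply, map_sub, this, Module.End.ofNat_apply, map_nsmul,
      LinearMap.smul_apply, h.alt]
    simp⟩

/-- The cyclic subspace `F[S] y`. -/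
noncomputable def cyc (S : Module.End F V) (y : V) : Submodule F V :=
  LinearMap.range ((LinearMap.applyₗ y) ∘ₗ (aeval S : F[X] →ₐ[F] Module.End F V).toLinearMap)

theorem mem_cyc {S : Module.End F V} {y x : V} : x ∈ cyc S y ↔ ∃ a : F[X], aeval S a y = x :=
  Iff.rfl

theorem self_mem_cyc (S : Module.End F V) (y : V) : y ∈ cyc S y := ⟨1, by simp⟩

theorem aeval_mem {S : Module.End F V} {W : Submodule F V} (hW : ∀ x ∈ W, S x ∈ W) (a : F[X])
    {x : V} (hx : x ∈ W) : aeval S a x ∈ W := by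
  have hp : ∀ n : ℕ, (S ^ n) x ∈ W := by
    intro n
    induction n with
    | zero => simpa using hx
    | succ n ih => rw [pow_succ', Module.End.mul_apply]; exact hW _ ih
  induction a using Polynomial.induction_on' with
  | add p q hp hq => simpa using W.add_mem hp hq
  | monomial n c => simpa [aeval_monomial] using W.smul_mem c (hp n)

theorem aeval_aeval (S : Module.End F V) (a c : F[X]) (y : V) :
    aeval S a (aeval S c y) = aeval S (a * c) y := by
  rw [map_mul, Module.End.mul_apply]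

theorem cyc_inv (S : Module.End F V) (y : V) : ∀ x ∈ cyc S y, S x ∈ cyc S y := by
  rintro _ ⟨a, rfl⟩
  exact ⟨X * a, by simp⟩

theorem cyc_le {S : Module.End F V} {W : Submodule F V} (hW : ∀ x ∈ W, S x ∈ W) {y : V}
    (hy : y ∈ W) : cyc S y ≤ W := by
  rintro _ ⟨a, rfl⟩
  exact aeval_mem hW a hy

theorem comm_aeval {S k : Module.End F V} (h : Commute k S) (a : F[X]) (y : V) :
    k (aeval S a y) = aeval S a (k y) := by
  have : Commute k (aeval S a) := by
    induction a using Polynomial.induction_on' with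
    | add p q hp hq => rw [map_add]; exact hp.add_right hq
    | monomial n c =>
      rw [aeval_monomial]
      exact (Algebra.commute_algebraMap_right c k).mul_right (h.pow_right n)
  rw [← Module.End.mul_apply, this.eq, Module.End.mul_apply]

theorem sup_inv {S : Module.End F V} {W W' : Submodule F V} (hW : ∀ x ∈ W, S x ∈ W)
    (hW' : ∀ x ∈ W', S x ∈ W') : ∀ x ∈ W ⊔ W', S x ∈ W ⊔ W' := by
  intro x hx
  obtain ⟨a, ha, b, hb, rfl⟩ := Submodule.mem_sup.1 hx
  rw [map_add]
  exact Submodule.add_mem_sup (hW a ha) (hW' b hb)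

theorem map_cyc_mem {S k : Module.End F V} (h : Commute k S) {W : Submodule F V}
    (hW : ∀ x ∈ W, S x ∈ W) {y : V} (hy : k y ∈ W) : ∀ x ∈ cyc S y, k x ∈ W := by
  rintro _ ⟨a, rfl⟩
  change k (aeval S a y) ∈ W
  rw [comm_aeval h]
  exact aeval_mem hW a hy

theorem SA.iso_cyc {S : Module.End F V} (h : SA B S) (y : V) :
    ∀ x ∈ cyc S y, ∀ z ∈ cyc S y, B x z = 0 := by
  rintro _ ⟨a, rfl⟩ _ ⟨c, rfl⟩
  change B (aeval S a y) (aeval S c y) = 0
  rw [← h.adj_aeval, aeval_aeval, h.alt_aeval]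

theorem SA.iso_cyc_sup {S : Module.End F V} (h : SA B S) {y z : V}
    (hyz : ∀ x ∈ cyc S y, B x z = 0) :
    ∀ x ∈ cyc S y ⊔ cyc S z, ∀ x' ∈ cyc S y ⊔ cyc S z, B x x' = 0 := by
  have skew : ∀ x y, B x y = -B y x := fun x y => by
    have := h.alt (x + y)
    simp only [map_add, LinearMap.add_apply, h.alt] at this
    linear_combination this
  have key : ∀ x ∈ cyc S y, ∀ x' ∈ cyc S z, B x x' = 0 := by
    rintro x hx _ ⟨c, rfl⟩
    change B x (aeval S c z) = 0
    rw [← h.adj_aeval]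
    exact hyz _ (aeval_mem (cyc_inv S y) c hx)
  intro x hx x' hx'
  obtain ⟨a, ha, b, hb, rfl⟩ := Submodule.mem_sup.1 hx
  obtain ⟨a', ha', b', hb', rfl⟩ := Submodule.mem_sup.1 hx'
  simp only [map_add, LinearMap.add_apply, h.iso_cyc y a ha a' ha', h.iso_cyc z b hb b' hb',
    key a ha b' hb', skew b a', key a' ha' b hb]
  simp

/-- The decomposition of `W`. -/
structure Dec0 (B : LinearMap.BilinForm F V) (g : Module.End F V) (W Lp Lm L' : Submodule F V) :
    Prop where
  isoL : ∀ x ∈ Lp ⊔ Lm, ∀ y ∈ Lp ⊔ Lm, B x y = 0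
  isoL' : ∀ x ∈ L', ∀ y ∈ L', B x y = 0
  sup : Lp ⊔ Lm ⊔ L' = W
  hp : ∀ x ∈ Lp, g x - x ∈ L'
  hm : ∀ x ∈ Lm, g x + x ∈ L'

/-- The decomposition of `W`, with symmetric form `B (g x) y` on `L`. -/
structure Dec (B : LinearMap.BilinForm F V) (g : Module.End F V) (W Lp Lm L' : Submodule F V) :
    Prop extends Dec0 B g W Lp Lm L' where
  symm : ∀ x ∈ Lp ⊔ Lm, ∀ y ∈ Lp ⊔ Lm, B (g x) y = B (g y) x
  invol : (∀ x ∈ Lp ⊔ Lm, ∀ y ∈ Lp ⊔ Lm, B (g x) y = 0) → ∀ x ∈ W, g (g x) = x

theorem Dec0.of_neg {W Lp Lm L' : Submodule F V} (h : Dec0 B (-g) W Lp Lm L') :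
    Dec0 B g W Lm Lp L' where
  isoL := by rw [sup_comm]; exact h.isoL
  isoL' := h.isoL'
  sup := by rw [sup_comm Lm]; exact h.sup
  hp x hx := by
    have := L'.neg_mem (h.hm x hx)
    simpa [sub_eq_add_neg, add_comm] using this
  hm x hx := by
    have := L'.neg_mem (h.hp x hx)
    simpa [sub_eq_add_neg, add_comm] using this

theorem Dec.of_neg {W Lp Lm L' : Submodule F V} (h : Dec B (-g) W Lp Lm L') :
    Dec B g W Lm Lp L' where
  toDec0 := h.toDec0.of_neg
  symm := by
    rw [sup_comm]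
    intro x hx y hy
    simpa using h.symm x hx y hy
  invol := by
    rw [sup_comm]
    intro hh x hx
    simpa using h.invol (fun x hx y hy => by simpa using hh x hx y hy) x hx

theorem Dec.mk_one (hI : Iso B g gi) {W L L' : Submodule F V}
    (h1 : ∀ x ∈ L, ∀ y ∈ L, B x y = 0) (h2 : ∀ x ∈ L', ∀ y ∈ L', B x y = 0) (h3 : L ⊔ L' = W)
    (h4 : ∀ x ∈ L, g x - x ∈ L')
    (h5 : (∀ x ∈ L, ∀ y ∈ L, B (g x) y = 0) → ∀ x ∈ W, g (g x) = x) : Dec B g W L ⊥ L' where
  isoL := by simpa using h1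
  isoL' := h2
  sup := by simpa using h3
  hp := h4
  hm x hx := by
    rw [(Submodule.mem_bot F).1 hx]; simp
  symm := by
    rw [sup_bot_eq]
    intro x hx y hy
    have := h2 _ (h4 x hx) _ (h4 y hy)
    simp only [map_sub, LinearMap.sub_apply, hI.pres, h1 x hx y hy, hI.skew x (g y)] at this
    linear_combination -this
  invol := by simpa using h5

theorem Dec.add {W₁ Lp₁ Lm₁ L₁ W₂ Lp₂ Lm₂ L₂ : Submodule F V} (hI : Iso B g gi)
    (h₁ : Dec B g W₁ Lp₁ Lm₁ L₁) (h₂ : Dec B g W₂ Lp₂ Lm₂ L₂) (i₁ : ∀ x ∈ W₁, g x ∈ W₁)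
    (i₂ : ∀ x ∈ W₂, g x ∈ W₂) (ho : ∀ x ∈ W₁, ∀ y ∈ W₂, B x y = 0) :
    Dec B g (W₁ ⊔ W₂) (Lp₁ ⊔ Lp₂) (Lm₁ ⊔ Lm₂) (L₁ ⊔ L₂) := by
  have ho' : ∀ x ∈ W₁, ∀ y ∈ W₂, B y x = 0 := fun x hx y hy => by
    rw [hI.skew, ho x hx y hy, neg_zero]
  have e : Lp₁ ⊔ Lp₂ ⊔ (Lm₁ ⊔ Lm₂) = (Lp₁ ⊔ Lm₁) ⊔ (Lp₂ ⊔ Lm₂) := sup_sup_sup_comm _ _ _ _
  have a₁ : Lp₁ ⊔ Lm₁ ≤ W₁ := h₁.sup ▸ le_sup_left
  have a₂ : Lp₂ ⊔ Lm₂ ≤ W₂ := h₂.sup ▸ le_sup_left
  have b₁ : L₁ ≤ W₁ := h₁.sup ▸ le_sup_right
  have b₂ : L₂ ≤ W₂ := h₂.sup ▸ le_sup_right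
  refine ⟨⟨?_, ?_, ?_, ?_, ?_⟩, ?_, ?_⟩
  · rw [e]
    intro x hx y hy
    obtain ⟨a, ha, b, hb, rfl⟩ := Submodule.mem_sup.1 hx
    obtain ⟨a', ha', b', hb', rfl⟩ := Submodule.mem_sup.1 hy
    simp only [map_add, LinearMap.add_apply, h₁.isoL a ha a' ha', h₂.isoL b hb b' hb',
      ho a (a₁ ha) b' (a₂ hb'), ho' a' (a₁ ha') b (a₂ hb), add_zero]
  · intro x hx y hy
    obtain ⟨a, ha, b, hb, rfl⟩ := Submodule.mem_sup.1 hx
    obtain ⟨a', ha', b', hb', rfl⟩ := Submodule.mem_sup.1 hy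
    simp only [map_add, LinearMap.add_apply, h₁.isoL' a ha a' ha', h₂.isoL' b hb b' hb',
      ho a (b₁ ha) b' (b₂ hb'), ho' a' (b₁ ha') b (b₂ hb), add_zero]
  · rw [e, sup_sup_sup_comm, h₁.sup, h₂.sup]
  · intro x hx
    obtain ⟨a, ha, b, hb, rfl⟩ := Submodule.mem_sup.1 hx
    have : g (a + b) - (a + b) = (g a - a) + (g b - b) := by rw [map_add]; abel
    rw [this]
    exact Submodule.add_mem_sup (h₁.hp a ha) (h₂.hp b hb)
  · intro x hx
    obtain ⟨a, ha, b, hb, rfl⟩ := Submodule.mem_sup.1 hx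
    have : g (a + b) + (a + b) = (g a + a) + (g b + b) := by rw [map_add]; abel
    rw [this]
    exact Submodule.add_mem_sup (h₁.hm a ha) (h₂.hm b hb)
  · rw [e]
    intro x hx y hy
    obtain ⟨a, ha, b, hb, rfl⟩ := Submodule.mem_sup.1 hx
    obtain ⟨a', ha', b', hb', rfl⟩ := Submodule.mem_sup.1 hy
    simp only [map_add, LinearMap.add_apply, h₁.symm a ha a' ha', h₂.symm b hb b' hb',
      ho _ (i₁ a (a₁ ha)) b' (a₂ hb'), ho' a' (a₁ ha') _ (i₂ b (a₂ hb)),
      ho _ (i₁ a' (a₁ ha')) b (a₂ hb), ho' a (a₁ ha) _ (i₂ b' (a₂ hb')), add_zero, zero_add]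
  · rw [e]
    intro hh x hx
    obtain ⟨a, ha, b, hb, rfl⟩ := Submodule.mem_sup.1 hx
    rw [map_add, map_add,
      h₁.invol (fun x hx y hy => hh x (Submodule.mem_sup_left hx) y (Submodule.mem_sup_left hy)) a ha,
      h₂.invol (fun x hx y hy => hh x (Submodule.mem_sup_right hx) y (Submodule.mem_sup_right hy))
        b hb]

theorem Dec.map {W : Submodule F V} (hW : ∀ x ∈ W, g x ∈ W) {Lp Lm L' : Submodule F W}
    (h : Dec (B.restrict W) (g.restrict hW) ⊤ Lp Lm L') :
    Dec B g W (Lp.map W.subtype) (Lm.map W.subtype) (L'.map W.subtype) := by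
  refine ⟨⟨?_, ?_, ?_, ?_, ?_⟩, ?_, ?_⟩
  · rw [← Submodule.map_sup]
    rintro _ ⟨x, hx, rfl⟩ _ ⟨y, hy, rfl⟩
    exact h.isoL x hx y hy
  · rintro _ ⟨x, hx, rfl⟩ _ ⟨y, hy, rfl⟩
    exact h.isoL' x hx y hy
  · rw [← Submodule.map_sup, ← Submodule.map_sup, h.sup, Submodule.map_top,
      Submodule.range_subtype]
  · rintro _ ⟨x, hx, rfl⟩
    exact ⟨_, h.hp x hx, rfl⟩
  · rintro _ ⟨x, hx, rfl⟩
    exact ⟨_, h.hm x hx, rfl⟩
  · rw [← Submodule.map_sup]
    rintro _ ⟨x, hx, rfl⟩ _ ⟨y, hy, rfl⟩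
    exact h.symm x hx y hy
  · rw [← Submodule.map_sup]
    intro hh x hx
    have := h.invol (fun x hx y hy => hh _ ⟨x, hx, rfl⟩ _ ⟨y, hy, rfl⟩) ⟨x, hx⟩ trivial
    exact congrArg Subtype.val this

/-- A non-zero non-degenerate invariant subspace with a decomposition. -/
def Comp (B : LinearMap.BilinForm F V) (g : Module.End F V) : Prop :=
  ∃ W Lp Lm L' : Submodule F V, W ≠ ⊥ ∧ (∀ x ∈ W, g x ∈ W) ∧
    (∀ x ∈ W, (∀ y ∈ W, B x y = 0) → x = 0) ∧ Dec B g W Lp Lm L'

theorem Comp.of_neg (h : Comp B (-g)) : Comp B g := by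
  obtain ⟨W, Lp, Lm, L', h1, h2, h3, h4⟩ := h
  exact ⟨W, Lm, Lp, L', h1, fun x hx => by simpa using h2 x hx, h3, h4.of_neg⟩

theorem Iso.iso_sub (hI : Iso B g gi) {x y : V} (h0 : B x y = 0) (h1 : B (g x) y = B (g y) x) :
    B (g x - x) (g y - y) = 0 := by
  simp only [map_sub, LinearMap.sub_apply, hI.pres, h0, hI.skew x (g y), h1]
  ring

theorem exists_mul_eq_top {S : Module.End F V} {r : F[X]} (hr : Irreducible r) {e : ℕ}
    (he : aeval S r ^ (e + 1) = 0) {a : F[X]} (ha : aeval S a ≠ 0) :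
    ∃ c : F[X], aeval S (c * a) = aeval S r ^ e := by
  have ha0 : a ≠ 0 := by rintro rfl; simp at ha
  obtain ⟨k, a', hk, rfl⟩ := WfDvdMonoid.max_power_factor ha0 hr
  have hke : k ≤ e := by
    by_contra hh
    apply ha
    obtain ⟨j, rfl⟩ := Nat.exists_eq_add_of_le (Nat.succ_le_of_lt (not_le.1 hh))
    rw [map_mul, map_pow, pow_add, he, zero_mul, zero_mul]
  obtain ⟨j, rfl⟩ := Nat.exists_eq_add_of_le hke
  obtain ⟨u, w, huw⟩ : IsCoprime (r ^ (k + j + 1)) a' :=
    ((hr.coprime_iff_not_dvd).2 hk).pow_left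
  refine ⟨r ^ j * w, ?_⟩
  have : r ^ j * w * (r ^ k * a') = r ^ (k + j) - r ^ (k + j) * u * r ^ (k + j + 1) := by
    linear_combination r ^ (k + j) * huw
  rw [this, map_sub, map_mul, map_pow, map_pow, he, mul_zero, sub_zero]

/-- The cyclic case. -/
theorem Iso.comp_cyc (hI : Iso B g gi) {S : Module.End F V} (hS : SA B S) (hgS : Commute g S)
    (c₀ : F) (hc₀ : ∀ x, g (g x) = S (g x) + c₀ • g x - x) (hc₁ : ∀ x, gi x = S x + c₀ • x - g x)
    {r : F[X]} (hr : Irreducible r) {e : ℕ}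
    (he : aeval S r ^ (e + 1) = 0) {v : V} (hv : B (g ((aeval S r ^ e) v)) v ≠ 0) : Comp B g := by
  have hL := hS.iso_cyc v
  have hadj : ∀ (a : F[X]) (x y : V), B (g (aeval S a x)) y = B (g x) (aeval S a y) := by
    intro a x y
    rw [comm_aeval hgS, hS.adj_aeval]
  have hsymm : ∀ x ∈ cyc S v, ∀ y ∈ cyc S v, B (g x) y = B (g y) x := by
    intro x hx y hy
    rw [hI.adj, hc₁, map_sub, map_add, map_smul, hL x hx y hy, hL x hx _ (cyc_inv S v y hy),
      hI.skew x]
    simp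
  have hnd : ∀ x ∈ cyc S v, (∀ y ∈ cyc S v, B (g x) y = 0) → x = 0 := by
    rintro _ ⟨a, rfl⟩ hx
    change aeval S a v = 0
    by_contra hne
    have ha : aeval S a ≠ 0 := fun h0 => hne (by rw [h0]; rfl)
    obtain ⟨c, hc⟩ := exists_mul_eq_top hr he ha
    apply hv
    rw [← hc, ← aeval_aeval, hadj]
    exact hx _ ⟨c, rfl⟩
  have hcomm : Commute (g - 1) S := hgS.sub_left (Commute.one_left S)
  have hL' : ∀ x ∈ cyc S (g v - v), ∃ y ∈ cyc S v, x = g y - y := by
    rintro _ ⟨a, rfl⟩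
    refine ⟨aeval S a v, ⟨a, rfl⟩, ?_⟩
    change aeval S a (g v - v) = _
    rw [map_sub, comm_aeval hgS]
  have hSW := sup_inv (cyc_inv S v) (cyc_inv S (g v - v))
  have hvW : v ∈ cyc S v ⊔ cyc S (g v - v) := Submodule.mem_sup_left (self_mem_cyc S v)
  have hgvW : g v ∈ cyc S v ⊔ cyc S (g v - v) := by
    have := Submodule.add_mem_sup (self_mem_cyc S v) (self_mem_cyc S (g v - v))
    simpa using this
  have hgW : ∀ x ∈ cyc S v ⊔ cyc S (g v - v), g x ∈ cyc S v ⊔ cyc S (g v - v) := by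
    intro x hx
    obtain ⟨a, ha, b, hb, rfl⟩ := Submodule.mem_sup.1 hx
    rw [map_add]
    refine add_mem (map_cyc_mem hgS hSW hgvW a ha) (map_cyc_mem hgS hSW ?_ b hb)
    rw [map_sub, hc₀]
    exact sub_mem (sub_mem (add_mem (hSW _ hgvW) (Submodule.smul_mem _ _ hgvW)) hvW) hgvW
  refine ⟨cyc S v ⊔ cyc S (g v - v), cyc S v, ⊥, cyc S (g v - v), ?_, hgW, ?_,
    Dec.mk_one hI hL (hS.iso_cyc _) rfl ?_ ?_⟩
  · intro h0
    rw [h0, Submodule.mem_bot] at hvW
    apply hv; rw [hvW]; simp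
  · intro x hx hxW
    obtain ⟨a, ha, b, hb, rfl⟩ := Submodule.mem_sup.1 hx
    obtain ⟨y, hy, rfl⟩ := hL' b hb
    have hy0 : y = 0 := by
      apply hnd y hy
      intro z hz
      have := hxW z (Submodule.mem_sup_left hz)
      simpa [hL a ha z hz, hL y hy z hz] using this
    subst hy0
    simp only [map_zero, sub_zero, add_zero] at hxW ⊢
    apply hnd a ha
    intro z hz
    rw [hsymm a ha z hz, hI.skew, hxW _ (hgW z (Submodule.mem_sup_left hz)), neg_zero]
  · intro x hx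
    have := map_cyc_mem hcomm (cyc_inv S (g v - v)) (y := v) (self_mem_cyc S (g v - v)) x hx
    simpa using this
  · intro hh
    exact absurd (hh _ ⟨r ^ e, by simp⟩ v (self_mem_cyc S v)) hv

theorem top_not_mem {M N : Module.End F V} (hMN : Commute N M) {v' σ : V} {t : ℕ}
    (ht : (M ^ t) v' = 0) (hσ : ∀ j, j + 1 = t → N ((M ^ j) v') = σ) (hN : N σ = 0)
    (h0 : σ ≠ 0) : σ ∉ cyc M v' := by
  rintro ⟨a, ha⟩
  have key : ∀ j, j ≤ t → ∃ c : F[X], (M ^ j) (aeval M c v') = σ := by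
    intro j
    induction j with
    | zero => exact fun _ => ⟨a, ha⟩
    | succ j ih =>
      intro hj
      obtain ⟨c, hc⟩ := ih (by omega)
      obtain ⟨k, rfl⟩ := Nat.exists_eq_add_of_le hj
      have e1 : aeval M c v' = M (aeval M c.divX v') + c.coeff 0 • v' := by
        conv_lhs => rw [← X_mul_divX_add c, map_add, map_mul, aeval_X, aeval_C]
        simp
      have e2 : N ((M ^ k) σ) = 0 := by
        rw [← Module.End.mul_apply, (hMN.pow_right k).eq, Module.End.mul_apply, hN, map_zero]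
      have e3 : (M ^ (j + 1 + k)) (aeval M c.divX v') = 0 := by
        rw [comm_aeval ((Commute.refl M).pow_left _), ht, map_zero]
      have e4 : (M ^ k) σ = c.coeff 0 • (M ^ (j + k)) v' := by
        rw [← hc, e1, map_add, map_add, map_smul, map_smul, ← Module.End.mul_apply (M ^ j),
          ← Module.End.mul_apply (M ^ k), ← Module.End.mul_apply (M ^ k), ← pow_succ, ← pow_add,
          ← pow_add, add_comm k, e3, zero_add, add_comm k]
      rw [e4, map_smul, hσ _ (by omega)] at e2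
      have e5 : c.coeff 0 = 0 := (smul_eq_zero.1 e2).resolve_right h0
      refine ⟨c.divX, ?_⟩
      rw [pow_succ, Module.End.mul_apply, ← hc, e1, e5, zero_smul, add_zero]
  obtain ⟨c, hc⟩ := key t le_rfl
  rw [comm_aeval ((Commute.refl M).pow_left _), ht, map_zero] at hc
  exact h0 hc.symm

theorem Iso.nondeg_two (hI : Iso B g gi) {W : Submodule F V}
    (hW' : ∀ x ∈ W, gi x ∈ W) {s : ℕ} (hs : (g - 1) ^ (s + 1) = 0)
    (halt : ∀ x, B (((g - 1) ^ s) x) x = 0) {v w : V} (hv : v ∈ W) (hw : w ∈ W)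
    (hvw : B (((g - 1) ^ s) v) w ≠ 0)
    (hgen : ∀ y ∈ W, ∃ (α γ : F) (y' : V), y' ∈ W ∧ y = α • v + γ • w + (g - 1) y') :
    ∀ x ∈ W, (∀ y ∈ W, B x y = 0) → x = 0 := by
  intro x hx hxW
  have hrad : ∀ k : ℕ, ∀ y ∈ W, B (((g - 1) ^ k) x) y = 0 := by
    intro k
    induction k with
    | zero => simpa using hxW
    | succ k ih =>
      intro y hy
      rw [pow_succ', Module.End.mul_apply, LinearMap.sub_apply, map_sub, LinearMap.sub_apply,
        hI.adj, ih _ (hW' y hy), Module.End.one_apply, ih y hy, sub_zero]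
  have hwv : B (((g - 1) ^ s) w) v = -B (((g - 1) ^ s) v) w := by
    have := halt (v + w)
    simp only [map_add, LinearMap.add_apply, halt] at this
    linear_combination this
  have key : ∀ j, j ≤ s + 1 → ∃ y ∈ W, ((g - 1) ^ j) y = x := by
    intro j
    induction j with
    | zero => exact fun _ => ⟨x, hx, rfl⟩
    | succ j ih =>
      intro hj
      obtain ⟨y, hy, hyx⟩ := ih (by omega)
      obtain ⟨α, γ, y', hy', rfl⟩ := hgen y hy
      obtain ⟨k, hk⟩ := Nat.exists_eq_add_of_le (Nat.le_of_succ_le_succ hj)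
      have e1 : ((g - 1) ^ k) x = α • ((g - 1) ^ s) v + γ • ((g - 1) ^ s) w := by
        rw [← hyx, ← Module.End.mul_apply, ← pow_add, add_comm k, ← hk, map_add, map_add,
          map_smul, map_smul, ← Module.End.mul_apply, ← pow_succ, hs]
        simp
      have e2 := hrad k w hw
      have e3 := hrad k v hv
      rw [e1] at e2 e3
      simp only [map_add, map_smul, LinearMap.add_apply, LinearMap.smul_apply, halt, hwv,
        smul_eq_mul, mul_zero, add_zero, zero_add, mul_neg, neg_eq_zero] at e2 e3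
      have hα : α = 0 := (mul_eq_zero.1 e2).resolve_right hvw
      have hγ : γ = 0 := (mul_eq_zero.1 e3).resolve_right hvw
      refine ⟨y', hy', ?_⟩
      rw [← hyx, hα, hγ, pow_succ, Module.End.mul_apply]
      simp
  obtain ⟨y, -, hy⟩ := key (s + 1) le_rfl
  rw [← hy, hs]; rfl

theorem Iso.M_eq (hI : Iso B g gi) : g + gi - 2 = (g - 1) * (g - 1) * gi := by
  have h2 : (2 : Module.End F V) = 1 + 1 := one_add_one_eq_two.symm
  rw [h2]
  simp only [sub_mul, mul_sub, mul_assoc, hI.mul_inv, mul_one, one_mul]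
  abel

theorem Iso.M_mul (hI : Iso B g gi) : (g + gi - 2) * g = (g - 1) * (g - 1) := by
  rw [hI.M_eq, mul_assoc, hI.inv_mul, mul_one]

theorem Iso.comm_M (hI : Iso B g gi) : Commute g (g + gi - 2) :=
  ((Commute.refl g).add_right hI.comm).sub_right (Commute.ofNat_right g 2)

theorem Iso.comm_M' (hI : Iso B g gi) : Commute gi (g + gi - 2) :=
  ((hI.comm.symm).add_right (Commute.refl gi)).sub_right (Commute.ofNat_right gi 2)

theorem Iso.comp_two [FiniteDimensional F V] (hI : Iso B g gi) {s : ℕ}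
    (hs : (g - 1) ^ (s + 1) = 0) (halt : ∀ x, B (((g - 1) ^ s) x) x = 0) {v w z z' : V}
    (hvw : B (((g - 1) ^ s) v) w ≠ 0)
    (hz : ∀ x ∈ cyc (g + gi - 2) v, B x z = 0)
    (hz' : ∀ x ∈ cyc (g + gi - 2) ((g - 1) v), B x z' = 0)
    (hNz : (g - 1) z ∈ cyc (g + gi - 2) z')
    (hw : w ∈ cyc (g + gi - 2) z ⊔ cyc (g + gi - 2) z')
    (hgz' : g z' ∈ cyc (g + gi - 2) z ⊔ cyc (g + gi - 2) z')
    (h1 : ∃ γ δ : F, z = γ • w + (g - 1) (δ • w)) (h2 : ∃ γ δ : F, z' = γ • w + (g - 1) (δ • w)) :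
    Comp B g := by
  set M := g + gi - 2 with hM
  have hS : SA B M := hI.sa'
  have hgM : Commute g M := hI.comm_M
  have hNM : Commute (g - 1) M := hgM.sub_left (Commute.one_left M)
  set L := cyc M v ⊔ cyc M z with hL
  set L' := cyc M ((g - 1) v) ⊔ cyc M z' with hL'
  have hML : ∀ x ∈ L, M x ∈ L := sup_inv (cyc_inv M v) (cyc_inv M z)
  have hML' : ∀ x ∈ L', M x ∈ L' := sup_inv (cyc_inv M _) (cyc_inv M z')
  have hMW : ∀ x ∈ L ⊔ L', M x ∈ L ⊔ L' := sup_inv hML hML'
  have hle : cyc M z ⊔ cyc M z' ≤ L ⊔ L' := sup_le_sup le_sup_right le_sup_right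
  have hNL : ∀ x ∈ L, (g - 1) x ∈ L' := by
    intro x hx
    obtain ⟨a, ha, b, hb, rfl⟩ := Submodule.mem_sup.1 hx
    rw [map_add]
    exact add_mem (map_cyc_mem hNM hML' (Submodule.mem_sup_left (self_mem_cyc M _)) a ha)
      (map_cyc_mem hNM hML' (Submodule.mem_sup_right hNz) b hb)
  have hgL : ∀ x ∈ L, g x ∈ L ⊔ L' := by
    intro x hx
    have := Submodule.add_mem_sup hx (hNL x hx)
    simpa using this
  have hvL : v ∈ L := Submodule.mem_sup_left (self_mem_cyc M v)
  have hvW : v ∈ L ⊔ L' := Submodule.mem_sup_left hvL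
  have hgW : ∀ x ∈ L ⊔ L', g x ∈ L ⊔ L' := by
    intro x hx
    obtain ⟨a, ha, b, hb, rfl⟩ := Submodule.mem_sup.1 hx
    obtain ⟨c, hc, d, hd, rfl⟩ := Submodule.mem_sup.1 hb
    rw [map_add, map_add]
    refine add_mem (hgL a ha) (add_mem (map_cyc_mem hgM hMW ?_ c hc)
      (map_cyc_mem hgM hMW (hle hgz') d hd))
    have : g ((g - 1) v) = (g - 1) v + M (g v) := by
      rw [← Module.End.mul_apply M, hI.M_mul, Module.End.mul_apply]
      simp
    rw [this]
    exact add_mem (Submodule.mem_sup_right (hNL v hvL)) (hMW _ (hgL v hvL))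
  have hgiW : ∀ x ∈ L ⊔ L', gi x ∈ L ⊔ L' := fun x hx => hI.gi_mem hgW hx
  have hNW : ∀ x ∈ L ⊔ L', (g - 1) x ∈ L ⊔ L' := fun x hx => by
    simpa using sub_mem (hgW x hx) hx
  have hwW : w ∈ L ⊔ L' := hle hw
  -- generation modulo `N W`
  have hgen : ∀ y ∈ L ⊔ L', ∃ (α γ : F) (y' : V), y' ∈ L ⊔ L' ∧
      y = α • v + γ • w + (g - 1) y' := by
    let Z : Submodule F V := Submodule.span F {v} ⊔ Submodule.span F {w} ⊔ (L ⊔ L').map (g - 1)
    have hZ : ∀ y ∈ L ⊔ L', y ∈ Z → cyc M y ≤ Z := by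
      rintro y hy hyZ _ ⟨a, rfl⟩
      change aeval M a y ∈ Z
      have e1 : aeval M a y = M (aeval M a.divX y) + a.coeff 0 • y := by
        conv_lhs => rw [← X_mul_divX_add a, map_add, map_mul, aeval_X, aeval_C]
        simp
      rw [e1]
      refine add_mem (Submodule.mem_sup_right ⟨(g - 1) (gi (aeval M a.divX y)),
        hNW _ (hgiW _ (aeval_mem hMW _ hy)), ?_⟩) (Z.smul_mem _ hyZ)
      generalize aeval M a.divX y = x
      rw [hM, hI.M_eq]
      rfl
    have hvZ : v ∈ Z :=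
      Submodule.mem_sup_left (Submodule.mem_sup_left (Submodule.mem_span_singleton_self v))
    have hwZ : w ∈ Z :=
      Submodule.mem_sup_left (Submodule.mem_sup_right (Submodule.mem_span_singleton_self w))
    have hzZ : ∀ z : V, (∃ γ δ : F, z = γ • w + (g - 1) (δ • w)) → z ∈ Z := by
      rintro _ ⟨γ, δ, rfl⟩
      exact add_mem (Z.smul_mem _ hwZ) (Submodule.mem_sup_right ⟨_, Submodule.smul_mem _ _ hwW, rfl⟩)
    have hWZ : L ⊔ L' ≤ Z := by
      refine sup_le (sup_le (hZ v hvW hvZ) (hZ z ?_ (hzZ z h1))) (sup_le (hZ _ (hNW v hvW) ?_)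
        (hZ z' ?_ (hzZ z' h2)))
      · exact hle (Submodule.mem_sup_left (self_mem_cyc M z))
      · exact Submodule.mem_sup_right ⟨v, hvW, rfl⟩
      · exact hle (Submodule.mem_sup_right (self_mem_cyc M z'))
    intro y hy
    obtain ⟨a, ha, _, ⟨y', hy', rfl⟩, rfl⟩ := Submodule.mem_sup.1 (hWZ hy)
    obtain ⟨b, hb, c, hc, rfl⟩ := Submodule.mem_sup.1 ha
    obtain ⟨α, rfl⟩ := Submodule.mem_span_singleton.1 hb
    obtain ⟨γ, rfl⟩ := Submodule.mem_span_singleton.1 hc
    exact ⟨α, γ, y', hy', rfl⟩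
  have hnd := hI.nondeg_two hgiW hs halt hvW hwW hvw hgen
  have hiL := hS.iso_cyc_sup hz
  have hiL' := hS.iso_cyc_sup hz'
  refine ⟨L ⊔ L', L, ⊥, L', ?_, hgW, hnd, Dec.mk_one hI hiL hiL' rfl (by simpa using hNL) ?_⟩
  · intro h0
    rw [h0, Submodule.mem_bot] at hvW
    apply hvw; rw [hvW]; simp
  · intro hh x hx
    have hNv : (g - 1) v = 0 := by
      apply hnd _ (hNW v hvW)
      intro y hy
      obtain ⟨a, ha, b, hb, rfl⟩ := Submodule.mem_sup.1 hy
      rw [map_add, hiL' _ (hNL v hvL) b hb]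
      simp [hh v hvL a ha, hiL v hvL a ha]
    have hs0 : s = 0 := by
      rcases s with _ | s
      · rfl
      · exfalso
        apply hvw
        rw [pow_succ, Module.End.mul_apply, hNv]; simp
    subst hs0
    have : g = 1 := by simpa [sub_eq_zero] using hs
    simp [this]

theorem exists_orth [FiniteDimensional F V] (hnd : B.Nondegenerate) {U : Submodule F V} {σ : V}
    (hσ : σ ∉ U) : ∃ w, (∀ x ∈ U, B x w = 0) ∧ B σ w ≠ 0 := by
  obtain ⟨φ, hφ, hU⟩ := Submodule.exists_dual_map_eq_bot_of_notMem hσ inferInstance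
  obtain ⟨w, hw⟩ := (B.flip.toDual hnd.flip).surjective φ
  refine ⟨w, fun x hx => ?_, ?_⟩
  · have : φ x = 0 := by
      have : φ x ∈ U.map φ := ⟨x, hx, rfl⟩
      rwa [hU, Submodule.mem_bot] at this
    rw [← hw] at this
    exact this
  · rw [← hw] at hφ
    exact hφ

/-- The unipotent case. -/
theorem Iso.comp_unip [FiniteDimensional F V] [Nontrivial V] (hI : Iso B g gi)
    (hnd : B.Nondegenerate) (hnil : IsNilpotent (g + gi - 2)) : Comp B g := by
  set M := g + gi - 2 with hM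
  have hgM : Commute g M := hI.comm_M
  have hNM : Commute (g - 1) M := hgM.sub_left (Commute.one_left M)
  have hNg : Commute (g - 1) g := (Commute.refl g).sub_left (Commute.one_left g)
  have hNgi : Commute (g - 1) gi := hI.comm.sub_left (Commute.one_left gi)
  have hMg : ∀ k : ℕ, M ^ k * g ^ k = (g - 1) ^ (2 * k) := by
    intro k
    rw [← hgM.symm.mul_pow, hI.M_mul, pow_mul, sq]
  have hMk : ∀ k : ℕ, M ^ k = (g - 1) ^ (2 * k) * gi ^ k := by
    intro k
    rw [← hMg, mul_assoc, ← hI.comm.mul_pow, hI.mul_inv, one_pow, mul_one]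
  have hN : ∃ n, (g - 1) ^ (n + 1) = 0 := by
    obtain ⟨n, hn⟩ := hnil
    exact ⟨2 * n, by rw [pow_succ, ← hMg, hn, zero_mul, zero_mul]⟩
  classical
  set s := Nat.find hN with hsdef
  have hs : (g - 1) ^ (s + 1) = 0 := Nat.find_spec hN
  have hs' : (g - 1) ^ s ≠ 0 := by
    rcases hs0 : s with _ | k
    · simp
    · exact Nat.find_min hN (by omega)
  have htop : ∀ k : ℕ, (g - 1) ^ s * gi ^ k = (g - 1) ^ s := by
    have h1 : (g - 1) ^ s * g = (g - 1) ^ s := by
      rw [pow_succ, mul_sub, mul_one, sub_eq_zero] at hs; exact hs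
    have h2 : (g - 1) ^ s * gi = (g - 1) ^ s := by
      conv_lhs => rw [← h1, mul_assoc, hI.mul_inv, mul_one]
    intro k
    induction k with
    | zero => simp
    | succ k ih => rw [pow_succ, ← mul_assoc, ih, h2]
  obtain ⟨v, hv⟩ : ∃ v, ((g - 1) ^ s) v ≠ 0 := by
    by_contra hh
    push Not at hh
    exact hs' (LinearMap.ext hh)
  have hNσ : (g - 1) (((g - 1) ^ s) v) = 0 := by
    rw [← Module.End.mul_apply, ← pow_succ', hs]; rfl
  have hMe : M ^ (s / 2 + 1) = 0 := by
    obtain ⟨j, hj⟩ := Nat.exists_eq_add_of_le (show s + 1 ≤ 2 * (s / 2 + 1) by omega)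
    rw [hMk, hj, pow_add, hs, zero_mul, zero_mul]
  by_cases hA : ∃ v, B (g ((M ^ (s / 2)) v)) v ≠ 0
  · obtain ⟨v, hv⟩ := hA
    refine hI.comp_cyc hI.sa' hgM 2 ?_ ?_ irreducible_X (e := s / 2) (v := v) (by simpa using hMe)
      (by simpa using hv)
    · intro x
      simp [hI.gi_g, two_smul]
    · intro x
      simp [two_smul]
  push Not at hA
  obtain ⟨e, he | he⟩ := Nat.even_or_odd' s
  · have he2 : s / 2 = e := by omega
    rw [he2] at hA hMe
    have hP : M ^ e = (g - 1) ^ s := by rw [hMk, ← he, htop]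
    have halt : ∀ x, B (((g - 1) ^ s) x) x = 0 := fun x => by
      rw [← hP]; exact hI.sa'.alt_pow e x
    have hnot : ((g - 1) ^ s) v ∉ cyc M (gi ((g - 1) v)) := by
      refine top_not_mem hNM (t := e) ?_ ?_ hNσ hv
      · rw [← Module.End.mul_apply gi, ← hNgi.eq, ← Module.End.mul_apply, hP, ← mul_assoc,
          ← pow_succ, hs]
        simp
      · intro j hj
        rw [← hP, ← hj, pow_succ, ← Module.End.mul_apply, hNM.pow_right, Module.End.mul_apply,
          Module.End.mul_apply]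
        congr 1
        rw [hM, hI.M_eq, mul_assoc, hNgi.eq]
        rfl
    obtain ⟨w, hw, hw'⟩ := exists_orth hnd hnot
    have hz : ∀ x ∈ cyc M v, B x ((g - 1) w) = 0 := by
      intro x hx
      have h1 := map_cyc_mem (hI.comm_M'.mul_left hNM) (cyc_inv M (gi ((g - 1) v))) (y := v)
        (self_mem_cyc M _) x hx
      have h2 := hw _ h1
      simp only [Module.End.mul_apply, LinearMap.sub_apply, Module.End.one_apply, map_sub,
        hI.gi_g, hI.adj'] at h2 ⊢
      linear_combination -h2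
    have hNN : (g - 1) ((g - 1) w) = M (g w) := by
      rw [← Module.End.mul_apply M, hI.M_mul, Module.End.mul_apply]
    refine hI.comp_two hs halt hw' (z := (g - 1) w) (z' := g w) hz ?_ ?_ ?_ ?_
      ⟨0, 1, by simp⟩ ⟨1, 1, by simp⟩
    · intro x hx
      rw [← hI.adj']
      exact hw _ (map_cyc_mem hI.comm_M' (cyc_inv M _) (self_mem_cyc M _) x hx)
    · rw [hNN]; exact cyc_inv M _ _ (self_mem_cyc M _)
    · have := sub_mem (Submodule.mem_sup_right (S := cyc M ((g - 1) w)) (self_mem_cyc M (g w)))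
        (Submodule.mem_sup_left (self_mem_cyc M ((g - 1) w)))
      simpa using this
    · have : g (g w) = g w + (g - 1) w + M (g w) := by rw [← hNN]; simp
      rw [this]
      exact add_mem (add_mem (Submodule.mem_sup_right (self_mem_cyc M _))
        (Submodule.mem_sup_left (self_mem_cyc M _)))
        (Submodule.mem_sup_right (cyc_inv M _ _ (self_mem_cyc M _)))
  · have he2 : s / 2 = e := by omega
    rw [he2] at hA hMe
    have hP : (g - 1) * M ^ e = (g - 1) ^ s := by
      rw [hMk, ← mul_assoc, ← pow_succ', ← he, htop]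
    have halt : ∀ x, B (((g - 1) ^ s) x) x = 0 := fun x => by
      rw [← hP, Module.End.mul_apply, LinearMap.sub_apply, map_sub, LinearMap.sub_apply, hA,
        Module.End.one_apply, hI.sa'.alt_pow e x, sub_zero]
    have hnot : ((g - 1) ^ s) v ∉ cyc M v := by
      refine top_not_mem hNM (t := e + 1) ?_ ?_ hNσ hv
      · rw [hMe]; rfl
      · intro j hj
        obtain rfl : j = e := by omega
        rw [← hP]; rfl
    obtain ⟨w, hw, hw'⟩ := exists_orth hnd hnot
    have hNN : (g - 1) ((g - 1) w) = M (g w) := by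
      rw [← Module.End.mul_apply M, hI.M_mul, Module.End.mul_apply]
    have hgw : g w ∈ cyc M w ⊔ cyc M ((g - 1) w) := by
      have := Submodule.add_mem_sup (self_mem_cyc M w) (self_mem_cyc M ((g - 1) w))
      simpa using this
    refine hI.comp_two hs halt hw' (z := w) (z' := (g - 1) w) hw ?_ (self_mem_cyc M _)
      (Submodule.mem_sup_left (self_mem_cyc M _)) ?_ ⟨1, 0, by simp⟩ ⟨0, 1, by simp⟩
    · rintro _ ⟨a, rfl⟩
      change B (aeval M a ((g - 1) v)) _ = 0
      rw [← comm_aeval hNM]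
      have h1 : B (aeval M a v) w = 0 := hw _ ⟨a, rfl⟩
      have h2 : B (M (aeval M a v)) w = 0 := hw _ (cyc_inv M v _ ⟨a, rfl⟩)
      generalize aeval M a v = x at h1 h2
      simp only [hM, LinearMap.sub_apply, LinearMap.add_apply, Module.End.one_apply, map_sub,
        map_add, hI.pres, h1, hI.adj', Module.End.ofNat_apply, map_nsmul,
        LinearMap.smul_apply] at h2 ⊢
      simp only [nsmul_zero] at h2
      linear_combination -h2
    · have : g ((g - 1) w) = (g - 1) w + M (g w) := by rw [← hNN]; simp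
      rw [this]
      exact add_mem (Submodule.mem_sup_right (self_mem_cyc M _))
        (sup_inv (cyc_inv M _) (cyc_inv M _) _ hgw)

theorem Iso.comp [FiniteDimensional F V] [Nontrivial V] (hI : Iso B g gi) (hnd : B.Nondegenerate)
    (H : ∀ a : F[X], IsNilpotent (aeval (g + gi) a) ∨ IsUnit (aeval (g + gi) a)) : Comp B g := by
  have hp := H (X - 2)
  have hm := H (X + 2)
  simp only [map_sub, map_add, aeval_X, map_ofNat] at hp hm
  rcases hp with hp | hp
  · exact hI.comp_unip hnd hp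
  rcases hm with hm | hm
  · refine Comp.of_neg (hI.neg.comp_unip hnd ?_)
    have : -g + -gi - 2 = -(g + gi + 2) := by abel
    rw [this]; exact hm.neg
  -- an irreducible polynomial with nilpotent value
  obtain ⟨r, hr, hrn⟩ : ∃ r : F[X], Irreducible r ∧ IsNilpotent (aeval (g + gi) r) := by
    by_contra hh
    push Not at hh
    have key : ∀ a : F[X], a ≠ 0 → IsUnit (aeval (g + gi) a) := by
      intro a
      induction a using WfDvdMonoid.induction_on_irreducible with
      | zero => exact fun h => absurd rfl h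
      | unit u hu => exact fun _ => hu.map _
      | mul a i ha hi ih =>
        intro _
        rw [map_mul]
        exact ((H i).resolve_left (hh i hi)).mul (ih ha)
    have := key _ (minpoly.ne_zero (Algebra.IsIntegral.isIntegral (R := F) (g + gi)))
    rw [minpoly.aeval] at this
    exact not_isUnit_zero this
  have hN : ∃ n, aeval (g + gi) r ^ (n + 1) = 0 := by
    obtain ⟨n, hn⟩ := hrn
    exact ⟨n, by rw [pow_succ, hn, zero_mul]⟩
  classical
  set e := Nat.find hN with hedef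
  have he : aeval (g + gi) r ^ (e + 1) = 0 := Nat.find_spec hN
  have he' : aeval (g + gi) r ^ e ≠ 0 := by
    rcases he0 : e with _ | k
    · simp
    · exact Nat.find_min hN (by omega)
  have hgT : Commute g (g + gi) := (Commute.refl g).add_right hI.comm
  by_cases hA : ∃ v, B (g ((aeval (g + gi) r ^ e) v)) v ≠ 0
  · obtain ⟨v, hv⟩ := hA
    refine hI.comp_cyc hI.sa hgT 0 ?_ ?_ hr he hv
    · intro x; simp [hI.gi_g]
    · intro x; simp
  exfalso
  push Not at hA
  apply he'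
  rw [← map_pow] at hA ⊢
  have h1 : ∀ x, g (aeval (g + gi) (r ^ e) x) = gi (aeval (g + gi) (r ^ e) x) := by
    intro y
    rw [← sub_eq_zero]
    apply hnd.1
    intro x
    have := hA (x + y)
    simp only [map_add, LinearMap.add_apply, hA, zero_add, add_zero] at this
    rw [map_sub, LinearMap.sub_apply, hI.adj', hI.sa.adj_aeval (r ^ e) y, ← comm_aeval hgT,
      hI.skew y]
    linear_combination this
  have h2 : (g + gi - 2) * ((g + gi + 2) * aeval (g + gi) (r ^ e)) = 0 := by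
    ext x
    have h3 := h1 x
    have h4 := h1 (g x)
    rw [← comm_aeval hgT] at h4
    simp only [Module.End.mul_apply, LinearMap.zero_apply]
    generalize aeval (g + gi) (r ^ e) x = y at h3 h4
    simp only [LinearMap.sub_apply, LinearMap.add_apply, Module.End.ofNat_apply, map_add,
      map_nsmul, ← h3, h4, hI.gi_g]
    abel
  rw [hp.mul_right_eq_zero, hm.mul_right_eq_zero] at h2
  exact h2

theorem Iso.restrict (hI : Iso B g gi) {W : Submodule F V} (hW : ∀ x ∈ W, g x ∈ W)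
    (hW' : ∀ x ∈ W, gi x ∈ W) : Iso (B.restrict W) (g.restrict hW) (gi.restrict hW') :=
  ⟨fun x => hI.alt x, by ext x; simp [hI.g_gi], by ext x; simp [hI.gi_g],
    fun x y => hI.pres x y⟩

theorem Iso.nondeg_restrict (hI : Iso B g gi) {W : Submodule F V}
    (h : ∀ x ∈ W, (∀ y ∈ W, B x y = 0) → x = 0) : (B.restrict W).Nondegenerate :=
  ⟨fun x hx => Subtype.ext (h x x.2 fun y hy => hx ⟨y, hy⟩),
    fun x hx => Subtype.ext (h x x.2 fun y hy => by
      rw [hI.skew]; exact neg_eq_zero.2 (hx ⟨y, hy⟩))⟩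

theorem exists_dec (n : ℕ) : ∀ {V : Type u} [AddCommGroup V] [Module F V] [FiniteDimensional F V]
    {B : LinearMap.BilinForm F V} {g gi : Module.End F V}, Module.finrank F V = n → Iso B g gi →
    B.Nondegenerate → ∃ Lp Lm L', Dec B g ⊤ Lp Lm L' := by
  induction n using Nat.strong_induction_on with
  | _ n ih =>
  intro V _ _ _ B g gi hn hI hnd
  have sub : ∀ W : Submodule F V, W ≠ ⊤ → (∀ x ∈ W, g x ∈ W) →
      (∀ x ∈ W, (∀ y ∈ W, B x y = 0) → x = 0) → ∃ Lp Lm L', Dec B g W Lp Lm L' := by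
    intro W hW h1 h2
    obtain ⟨Lp, Lm, L', h⟩ := ih _ (hn ▸ Submodule.finrank_lt hW) rfl
      (hI.restrict h1 (fun x hx => hI.gi_mem h1 hx)) (hI.nondeg_restrict h2)
    exact ⟨_, _, _, h.map h1⟩
  rcases subsingleton_or_nontrivial V with hV | hV
  · refine ⟨⊥, ⊥, ⊥, ⟨⟨by simp, by simp, Subsingleton.elim _ _, by simp, by simp⟩, by simp,
      fun _ x _ => Subsingleton.elim _ _⟩⟩
  have hC : Comp B g := by
    by_cases H : ∀ a : F[X], IsNilpotent (aeval (g + gi) a) ∨ IsUnit (aeval (g + gi) a)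
    · exact hI.comp hnd H
    · push Not at H
      obtain ⟨a, h1, h2⟩ := H
      obtain ⟨k, hk⟩ := ((LinearMap.eventually_isCompl_ker_pow_range_pow (aeval (g + gi) a)).and
        (Filter.eventually_gt_atTop 0)).exists
      rw [← map_pow] at hk
      have hgT : Commute g (g + gi) := (Commute.refl g).add_right hI.comm
      have i1 : ∀ x ∈ LinearMap.ker (aeval (g + gi) (a ^ k)),
          g x ∈ LinearMap.ker (aeval (g + gi) (a ^ k)) := by
        intro x hx
        rw [LinearMap.mem_ker] at hx ⊢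
        rw [← comm_aeval hgT, hx, map_zero]
      have i2 : ∀ x ∈ LinearMap.ker (aeval (g + gi) (a ^ k)),
          (∀ y ∈ LinearMap.ker (aeval (g + gi) (a ^ k)), B x y = 0) → x = 0 := by
        intro x hx hx'
        apply hnd.1
        intro y
        obtain ⟨b, hb, _, ⟨c, rfl⟩, rfl⟩ := Submodule.mem_sup.1
          (show y ∈ _ from hk.1.sup_eq_top ▸ Submodule.mem_top)
        rw [map_add, hx' b hb, ← hI.sa.adj_aeval, LinearMap.mem_ker.1 hx]
        simp
      obtain ⟨Lp, Lm, L', h⟩ := sub _ (by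
        intro ht
        apply h1
        exact ⟨k, by rw [← map_pow]; exact LinearMap.ker_eq_top.1 ht⟩) i1 i2
      refine ⟨_, Lp, Lm, L', ?_, i1, i2, h⟩
      intro hb
      apply h2
      have : IsUnit (aeval (g + gi) a ^ k) := by
        rw [← map_pow]; exact (LinearMap.isUnit_iff_ker_eq_bot _).2 hb
      exact (isUnit_pow_iff hk.2.ne').1 this
  obtain ⟨W, Lp, Lm, L', h1, h2, h3, h4⟩ := hC
  have hrefl : B.IsRefl := fun x y h => by rw [hI.skew, h, neg_zero]
  have hc : IsCompl W (B.orthogonal W) :=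
    LinearMap.BilinForm.isCompl_orthogonal_of_restrict_nondegenerate hrefl (hI.nondeg_restrict h3)
  have i1 : ∀ x ∈ B.orthogonal W, g x ∈ B.orthogonal W := by
    intro x hx y hy
    have := hx _ (hI.gi_mem h2 hy)
    change B y (g x) = 0
    rw [← hI.adj']; exact this
  obtain ⟨Lp', Lm', L'', h5⟩ := sub (B.orthogonal W) (by
    intro ht
    rw [ht] at hc
    exact h1 (eq_bot_of_isCompl_top hc)) i1 (by
    intro x hx hx'
    apply hnd.1
    intro y
    obtain ⟨b, hb, c, hc', rfl⟩ := Submodule.mem_sup.1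
      (show y ∈ _ from hc.sup_eq_top ▸ Submodule.mem_top)
    rw [map_add, hx' c hc', hI.skew, hx b hb]
    simp)
  have := Dec.add hI h4 h5 h2 i1 (fun x hx y hy => hy x hx)
  rw [hc.sup_eq_top] at this
  exact ⟨_, _, _, this⟩

theorem Dec0.disjoint_L (hnd : B.Nondegenerate) {Lp Lm L' : Submodule F V}
    (h : Dec0 B g ⊤ Lp Lm L') {x : V} (hx : x ∈ Lp ⊔ Lm) (hx' : ∀ y ∈ L', B x y = 0) : x = 0 := by
  apply hnd.1
  intro y
  obtain ⟨a, ha, b, hb, rfl⟩ := Submodule.mem_sup.1 (show y ∈ _ from h.sup ▸ Submodule.mem_top)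
  rw [map_add, h.isoL x hx a ha, hx' b hb, add_zero]

theorem Dec0.disjoint_L' (hnd : B.Nondegenerate) {Lp Lm L' : Submodule F V}
    (h : Dec0 B g ⊤ Lp Lm L') {x : V} (hx : x ∈ L') (hx' : ∀ y ∈ Lp ⊔ Lm, B y x = 0) : x = 0 := by
  apply hnd.2
  intro y
  obtain ⟨a, ha, b, hb, rfl⟩ := Submodule.mem_sup.1 (show y ∈ _ from h.sup ▸ Submodule.mem_top)
  rw [map_add, LinearMap.add_apply, h.isoL' b hb x hx, hx' a ha, add_zero]

theorem Dec0.disjoint (hnd : B.Nondegenerate) (h2 : (2 : F) ≠ 0) {Lp Lm L' : Submodule F V}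
    (h : Dec0 B g ⊤ Lp Lm L') : Disjoint Lp Lm := by
  rw [Submodule.disjoint_def]
  intro x hp hm
  have h1 : (2 : F) • x ∈ L' := by
    have := sub_mem (h.hm x hm) (h.hp x hp)
    rwa [show g x + x - (g x - x) = (2 : F) • x by rw [two_smul]; abel] at this
  have h3 : x ∈ L' := (L'.smul_mem_iff h2).1 h1
  exact h.disjoint_L hnd (Submodule.mem_sup_left hp) (h.isoL' x h3)

theorem Dec.cross (hI : Iso B g gi) (h2 : (2 : F) ≠ 0) {W Lp Lm L' : Submodule F V}
    (h : Dec B g W Lp Lm L') {x y : V} (hx : x ∈ Lm) (hy : y ∈ Lp) : B (g x) y = 0 := by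
  have hx' : x ∈ Lp ⊔ Lm := Submodule.mem_sup_right hx
  have hy' : y ∈ Lp ⊔ Lm := Submodule.mem_sup_left hy
  have h1 := h.isoL' _ (h.hm x hx) _ (h.hp y hy)
  simp only [map_add, map_sub, LinearMap.add_apply, hI.pres, h.isoL x hx' y hy', hI.skew x (g y),
    ← h.symm x hx' y hy'] at h1
  have : 2 * B (g x) y = 0 := by linear_combination -h1
  exact (mul_eq_zero.1 this).resolve_left h2

/-- Moving one vector from `Lp` to `Lm`. -/
theorem Dec.flip [FiniteDimensional F V] (hI : Iso B g gi) (h2 : (2 : F) ≠ 0)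
    {Lp Lm L' : Submodule F V} (h : Dec B g ⊤ Lp Lm L') {y : V} (hy : y ∈ Lp)
    (hyy : B (g y) y ≠ 0) :
    ∃ Lp' Lm' L'' : Submodule F V, Dec0 B g ⊤ Lp' Lm' L'' ∧ Lp' ⊔ Lm' = Lp ⊔ Lm ∧
      Module.finrank F Lp' + 1 = Module.finrank F Lp := by
  have hy' : y ∈ Lp ⊔ Lm := Submodule.mem_sup_left hy
  let φ : V →ₗ[F] F := B (g y)
  let t : V →ₗ[F] V := LinearMap.id + (2 / B (g y) y) • (B.flip y).smulRight y
  have ht : ∀ x, t x = x + (2 / B (g y) y * B x y) • y := fun x => by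
    simp [t, smul_smul]
  have hsup : (Lp ⊓ LinearMap.ker φ) ⊔ Submodule.span F {y} = Lp := by
    apply le_antisymm (sup_le inf_le_left ((Submodule.span_singleton_le_iff_mem _ _).2 hy))
    intro x hx
    have : x = (x - (φ x / φ y) • y) + (φ x / φ y) • y := by abel
    rw [this]
    refine Submodule.add_mem_sup ⟨sub_mem hx (Lp.smul_mem _ hy), ?_⟩
      (Submodule.smul_mem _ _ (Submodule.mem_span_singleton_self y))
    have hφ : φ y ≠ 0 := hyy
    simp [hφ]
  have hL : (Lp ⊓ LinearMap.ker φ) ⊔ (Lm ⊔ Submodule.span F {y}) = Lp ⊔ Lm := by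
    rw [sup_comm Lm, ← sup_assoc, hsup]
  refine ⟨Lp ⊓ LinearMap.ker φ, Lm ⊔ Submodule.span F {y}, L'.map t, ⟨?_, ?_, ?_, ?_, ?_⟩, hL, ?_⟩
  · rw [hL]; exact h.isoL
  · rintro _ ⟨a, ha, rfl⟩ _ ⟨b, hb, rfl⟩
    simp only [ht, map_add, map_smul, LinearMap.add_apply, LinearMap.smul_apply, smul_eq_mul,
      h.isoL' a ha b hb, hI.alt, hI.skew y b]
    ring
  · rw [hL, eq_top_iff, ← h.sup]
    refine sup_le le_sup_left fun x hx => ?_
    have : x = -((2 / B (g y) y * B x y) • y) + t x := by rw [ht]; abel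
    rw [this]
    exact Submodule.add_mem_sup (neg_mem (Submodule.smul_mem _ _ hy')) ⟨x, hx, rfl⟩
  · rintro x ⟨hx, hx'⟩
    have hx'' : x ∈ Lp ⊔ Lm := Submodule.mem_sup_left hx
    refine ⟨_, h.hp x hx, ?_⟩
    have : B (g x) y = 0 := by rw [h.symm x hx'' y hy']; exact hx'
    rw [ht, map_sub, LinearMap.sub_apply, this, h.isoL x hx'' y hy']
    simp
  · intro x hx
    obtain ⟨a, ha, b, hb, rfl⟩ := Submodule.mem_sup.1 hx
    obtain ⟨c, rfl⟩ := Submodule.mem_span_singleton.1 hb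
    have : g (a + c • y) + (a + c • y) = (g a + a) + c • (g y + y) := by
      rw [map_add, map_smul, smul_add]; abel
    rw [this]
    refine add_mem ⟨_, h.hm a ha, ?_⟩ (Submodule.smul_mem _ _ ⟨_, h.hp y hy, ?_⟩)
    · rw [ht, map_add, LinearMap.add_apply, h.cross hI h2 ha hy,
        h.isoL a (Submodule.mem_sup_right ha) y hy']
      simp
    · rw [ht, map_sub, LinearMap.sub_apply, hI.alt, sub_zero, div_mul_cancel₀ _ hyy, two_smul]
      abel
  · have hy0 : y ≠ 0 := by rintro rfl; simp at hyy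
    have := Submodule.finrank_sup_add_finrank_inf_eq (Lp ⊓ LinearMap.ker φ) (Submodule.span F {y})
    rw [hsup, finrank_span_singleton hy0] at this
    have h0 : (Lp ⊓ LinearMap.ker φ) ⊓ Submodule.span F {y} = ⊥ := by
      rw [eq_bot_iff]
      rintro x ⟨⟨-, hx⟩, hx'⟩
      obtain ⟨c, rfl⟩ := Submodule.mem_span_singleton.1 hx'
      have : c * B (g y) y = 0 := by simpa [φ] using hx
      rw [(mul_eq_zero.1 this).resolve_right hyy]; simp
    rw [h0, finrank_bot] at this
    omega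

theorem exists_diag_ne (h2 : (2 : F) ≠ 0) {β : V → V → F} {U : Submodule F V}
    (hadd : ∀ x y z, β (x + y) z = β x z + β y z) (hadd' : ∀ x y z, β z (x + y) = β z x + β z y)
    (hs : ∀ x ∈ U, ∀ y ∈ U, β x y = β y x) (h : ∀ y ∈ U, β y y = 0) :
    ∀ x ∈ U, ∀ y ∈ U, β x y = 0 := by
  intro x hx y hy
  have := h _ (add_mem hx hy)
  rw [hadd, hadd', hadd', h x hx, h y hy, hs y hy x hx] at this
  have : 2 * β x y = 0 := by linear_combination this
  exact (mul_eq_zero.1 this).resolve_left h2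

/-- Final form: an even number of signs `-1`, or an involution preserving `L`. -/
theorem Iso.exists_dec0 [FiniteDimensional F V] (hI : Iso B g gi) (hnd : B.Nondegenerate) :
    ∃ Lp Lm L', Dec0 B g ⊤ Lp Lm L' ∧ Disjoint Lp Lm ∧ ((2 : F) = 0 → Lm = ⊥) ∧
      (Even (Module.finrank F Lm) ∨
        ((∀ x ∈ Lp ⊔ Lm, ∀ y ∈ Lp ⊔ Lm, B (g x) y = 0) ∧ g * g = 1)) := by
  obtain ⟨Lp, Lm, L', h⟩ := exists_dec _ rfl hI hnd
  by_cases h2 : (2 : F) = 0
  · refine ⟨Lp ⊔ Lm, ⊥, L', ⟨by simpa using h.isoL, h.isoL', by simpa using h.sup, ?_, ?_⟩,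
      disjoint_bot_right, fun _ => rfl, Or.inl (by simp)⟩
    · intro x hx
      obtain ⟨a, ha, b, hb, rfl⟩ := Submodule.mem_sup.1 hx
      have : g (a + b) - (a + b) = (g a - a) + (g b + b) - (2 : F) • b := by
        rw [map_add, two_smul]; abel
      rw [this, h2, zero_smul, sub_zero]
      exact add_mem (h.hp a ha) (h.hm b hb)
    · intro x hx
      rw [(Submodule.mem_bot F).1 hx]; simp
  have hd := h.toDec0.disjoint hnd h2
  by_cases he : Even (Module.finrank F Lm)
  · exact ⟨Lp, Lm, L', h.toDec0, hd, fun h => absurd h h2, Or.inl he⟩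
  by_cases hp : ∃ y ∈ Lp, B (g y) y ≠ 0
  · obtain ⟨y, hy, hyy⟩ := hp
    obtain ⟨Lp', Lm', L'', h3, h4, h5⟩ := h.flip hI h2 hy hyy
    have hd' := h3.disjoint hnd h2
    refine ⟨Lp', Lm', L'', h3, hd', fun h => absurd h h2, Or.inl ?_⟩
    have e1 := Submodule.finrank_sup_add_finrank_inf_eq Lp Lm
    have e2 := Submodule.finrank_sup_add_finrank_inf_eq Lp' Lm'
    rw [hd.eq_bot, finrank_bot] at e1
    rw [hd'.eq_bot, finrank_bot, h4] at e2
    rw [Nat.even_iff] at he ⊢
    omega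
  by_cases hm : ∃ y ∈ Lm, B (g y) y ≠ 0
  · obtain ⟨y, hy, hyy⟩ := hm
    have h' : Dec B (-g) ⊤ Lm Lp L' := Dec.of_neg (by rwa [neg_neg])
    obtain ⟨Lm', Lp', L'', h3, h4, h5⟩ := h'.flip hI.neg h2 hy (by simpa using hyy)
    have h6 := h3.of_neg
    refine ⟨Lp', Lm', L'', h6, h6.disjoint hnd h2, fun h => absurd h h2, Or.inl ?_⟩
    rw [Nat.even_iff] at he ⊢
    omega
  push Not at hp hm
  have hz : ∀ x ∈ Lp ⊔ Lm, ∀ y ∈ Lp ⊔ Lm, B (g x) y = 0 := by
    have k1 := exists_diag_ne h2 (β := fun x y => B (g x) y) (U := Lp) (by simp) (by simp)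
      (fun x hx y hy => h.symm x (Submodule.mem_sup_left hx) y (Submodule.mem_sup_left hy)) hp
    have k2 := exists_diag_ne h2 (β := fun x y => B (g x) y) (U := Lm) (by simp) (by simp)
      (fun x hx y hy => h.symm x (Submodule.mem_sup_right hx) y (Submodule.mem_sup_right hy)) hm
    intro x hx y hy
    obtain ⟨a, ha, b, hb, rfl⟩ := Submodule.mem_sup.1 hx
    obtain ⟨a', ha', b', hb', rfl⟩ := Submodule.mem_sup.1 hy
    simp only [map_add, LinearMap.add_apply, k1 a ha a' ha', k2 b hb b' hb', h.cross hI h2 hb ha',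
      h.symm a (Submodule.mem_sup_left ha) b' (Submodule.mem_sup_right hb'), h.cross hI h2 hb' ha,
      add_zero]
  exact ⟨Lp, Lm, L', h.toDec0, hd, fun h => absurd h h2,
    Or.inr ⟨hz, LinearMap.ext fun x => h.invol hz x trivial⟩⟩

/-- A symplectic basis adapted to the decomposition. -/
theorem Dec0.exists_basis [FiniteDimensional F V] (hnd : B.Nondegenerate)
    {Lp Lm L' : Submodule F V} (h : Dec0 B g ⊤ Lp Lm L') (hd : Disjoint Lp Lm) {m : ℕ}
    (hm : Module.finrank F V = 2 * m) :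
    ∃ (e f : Fin m → V) (σ : Fin m → Bool), (∀ i, e i ∈ Lp ⊔ Lm) ∧ (∀ i, f i ∈ L') ∧
      (∀ i j, B (e i) (f j) = if i = j then -1 else 0) ∧
      (∀ i, g (e i) - (if σ i then -1 else 1 : F) • e i ∈ L') ∧
      (Finset.univ.filter fun i => σ i = true).card = Module.finrank F Lm := by
  classical
  let bp := Module.finBasis F Lp
  let bm := Module.finBasis F Lm
  let ι := Fin (Module.finrank F Lp) ⊕ Fin (Module.finrank F Lm)
  let e : ι → V := Sum.elim (fun i => (bp i : V)) (fun i => (bm i : V))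
  have he : ∀ i, e i ∈ Lp ⊔ Lm := by
    rintro (i | i)
    · exact Submodule.mem_sup_left (bp i).2
    · exact Submodule.mem_sup_right (bm i).2
  have hspan : ∀ y : V, (∀ i, B (e i) y = 0) → ∀ x ∈ Lp ⊔ Lm, B x y = 0 := by
    intro y hy x hx
    obtain ⟨a, ha, b, hb, rfl⟩ := Submodule.mem_sup.1 hx
    have e1 : a = ∑ i, bp.repr ⟨a, ha⟩ i • (bp i : V) := by
      have := congrArg Subtype.val (bp.sum_repr ⟨a, ha⟩).symm
      rwa [Submodule.coe_sum] at this
    have e2 : b = ∑ i, bm.repr ⟨b, hb⟩ i • (bm i : V) := by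
      have := congrArg Subtype.val (bm.sum_repr ⟨b, hb⟩).symm
      rwa [Submodule.coe_sum] at this
    have k1 : ∀ i, B (bp i : V) y = 0 := fun i => hy (Sum.inl i)
    have k2 : ∀ i, B (bm i : V) y = 0 := fun i => hy (Sum.inr i)
    rw [e1, e2]
    simp [k1, k2]
  let Φ : L' →ₗ[F] (ι → F) := LinearMap.pi fun i => (B (e i)) ∘ₗ L'.subtype
  have hΦ : Function.Injective Φ := by
    rw [← LinearMap.ker_eq_bot, eq_bot_iff]
    intro y hy
    rw [Submodule.mem_bot]
    apply Subtype.ext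
    exact h.disjoint_L' hnd y.2 (hspan y fun i => congrFun (LinearMap.mem_ker.1 hy) i)
  have hL : Module.finrank F ↥(Lp ⊔ Lm) = Fintype.card ι := by
    have := Submodule.finrank_sup_add_finrank_inf_eq Lp Lm
    rw [hd.eq_bot, finrank_bot] at this
    simpa [ι] using this
  have hdis : (Lp ⊔ Lm) ⊓ L' = ⊥ := by
    rw [eq_bot_iff]
    rintro x ⟨hx, hx'⟩
    exact h.disjoint_L hnd hx (h.isoL' x hx')
  have hsum := Submodule.finrank_sup_add_finrank_inf_eq (Lp ⊔ Lm) L'
  rw [hdis, finrank_bot, h.sup, finrank_top, hL, hm] at hsum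
  have h1 : Module.finrank F L' ≤ Fintype.card ι := by
    simpa using LinearMap.finrank_le_finrank_of_injective hΦ
  have h2 : Fintype.card ι ≤ Module.finrank F L' := by
    let Ψ : ↥(Lp ⊔ Lm) →ₗ[F] Module.Dual F L' := B.compl₁₂ (Lp ⊔ Lm).subtype L'.subtype
    have hΨ : Function.Injective Ψ := by
      rw [← LinearMap.ker_eq_bot, eq_bot_iff]
      intro x hx
      rw [Submodule.mem_bot]
      apply Subtype.ext
      exact h.disjoint_L hnd x.2 fun y hy => LinearMap.congr_fun (LinearMap.mem_ker.1 hx) ⟨y, hy⟩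
    have := LinearMap.finrank_le_finrank_of_injective hΨ
    rwa [hL, Subspace.dual_finrank_eq] at this
  have hsurj : Function.Surjective Φ :=
    (LinearMap.injective_iff_surjective_of_finrank_eq_finrank (by simp; omega)).1 hΦ
  choose f hf using fun j : ι => hsurj (Pi.single j (-1))
  have hcard : Fintype.card ι = m := by omega
  let q : Fin m ≃ ι := (Fintype.equivFinOfCardEq hcard).symm
  refine ⟨fun i => e (q i), fun j => f (q j), fun i => (q i).isRight, fun i => he _,
    fun j => (f (q j)).2, ?_, ?_, ?_⟩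
  · intro i j
    have := congrFun (hf (q j)) (q i)
    rw [Pi.single_apply] at this
    simpa [Φ] using this
  · intro i
    beta_reduce
    rcases q i with k | k
    · simpa [e] using h.hp _ (bp k).2
    · simpa [e] using h.hm _ (bm k).2
  · rw [Finset.card_bijective (t := Finset.univ.filter fun i : ι => i.isRight = true) q
      q.bijective (by simp)]
    rw [Finset.card_filter, Fintype.sum_sum_type]
    simp

end Cfsg.Agent.Comm.SpLag
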