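import Mathlib
import Cfsg.Agent.Comm.SpLag
import Cfsg.Agent.Comm.SpW

/-!
Every element of `Sp(2m, q)` is a commutator, apart from `Sp(2,2)`, `Sp(2,3)`, `Sp(4,2)`.
-/

set_option autoImplicit false

namespace Cfsg.Agent.Comm.SpOre

open Matrix Polynomial Cfsg Cfsg.Agent.Comm.Sp4 Cfsg.Agent.Comm.SpW Cfsg.Agent.Comm.SpLag
  Cfsg.Agent.Class.Sp

variable {F : Type*} [Field F] {m : ℕ}

/-- The symplectic form as a bilinear form. -/
def bil (m : ℕ) (F : Type*) [Field F] : LinearMap.BilinForm F (Fin m ⊕ Fin m → F) :=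
  LinearMap.mk₂ F (sympForm m F) form_add_left form_smul_left form_add_right form_smul_right

theorem bil_apply (u v : Fin m ⊕ Fin m → F) : bil m F u v = sympForm m F u v := rfl

theorem exists_conj_diag (g : Matrix.symplecticGroup (Fin m) F) :
    ∃ (g' : Matrix.symplecticGroup (Fin m) F) (σ : Fin m → Bool) (B C D : Matrix (Fin m) (Fin m) F),
      IsConj g g' ∧ g'.1 = fromBlocks (diagonal (sgn F σ)) B C D ∧
      ((2 : F) = 0 → (Finset.univ.filter fun i => σ i = true).card = 0) ∧
      (Even (Finset.univ.filter fun i => σ i = true).card ∨ (C = 0 ∧ g' * g' = 1)) := by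
  have hI : Iso (bil m F) (Matrix.toLin' g.1) (Matrix.toLin' (g⁻¹).1) := by
    refine ⟨fun x => form_self x, ?_, ?_, fun x y => form_smul_smul g x y⟩
    · rw [Module.End.mul_eq_comp, ← Matrix.toLin'_mul, ← Submonoid.coe_mul, mul_inv_cancel]
      simp [Module.End.one_eq_id]
    · rw [Module.End.mul_eq_comp, ← Matrix.toLin'_mul, ← Submonoid.coe_mul, inv_mul_cancel]
      simp [Module.End.one_eq_id]
  have hnd : (bil m F).Nondegenerate :=
    ⟨fun x hx => eq_zero_of_form_left hx, fun x hx => eq_zero_of_form_right hx⟩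
  obtain ⟨Lp, Lm, L', h, hd, h2, h3⟩ := hI.exists_dec0 hnd
  obtain ⟨e, f, σ, he, hf, hef, hg, hc⟩ := h.exists_basis hnd hd (m := m) (by simp [two_mul])
  let H : Matrix (Fin m ⊕ Fin m) (Fin m ⊕ Fin m) F := Matrix.of fun a c => Sum.elim e f c a
  have hH : H ∈ Matrix.symplecticGroup (Fin m) F := by
    rw [SymplecticGroup.mem_iff']
    ext c c'
    have : (Hᵀ * Matrix.J (Fin m) F * H) c c' =
        sympForm m F (Sum.elim e f c) (Sum.elim e f c') := by
      rw [Matrix.mul_assoc]; rfl
    rw [this]
    rcases c with i | i <;> rcases c' with j | j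
    · simpa [Matrix.J, bil_apply] using h.isoL _ (he i) _ (he j)
    · simpa [Matrix.J, one_apply, apply_ite, bil_apply] using hef i j
    · have := hef j i
      rw [bil_apply, form_skew] at this
      simp only [Sum.elim_inr, Sum.elim_inl, Matrix.J, fromBlocks_apply₂₁, one_apply]
      rw [neg_eq_iff_eq_neg] at this
      rw [this]
      by_cases hij : i = j
      · simp [hij]
      · simp [hij, Ne.symm hij]
    · simpa [Matrix.J, bil_apply] using h.isoL' _ (hf i) _ (hf j)
  let k : Matrix.symplecticGroup (Fin m) F := ⟨H, hH⟩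
  have hk : ∀ c, k • (Pi.single c 1 : Fin m ⊕ Fin m → F) = Sum.elim e f c := by
    intro c
    ext a
    simp [k, H]
  have hent : ∀ c c', sympForm m F ((k⁻¹ * g * k) • (Pi.single c 1 : Fin m ⊕ Fin m → F))
      (Pi.single c' 1) = sympForm m F (g • Sum.elim e f c) (Sum.elim e f c') := by
    intro c c'
    rw [← form_smul_smul k, ← mul_smul, ← mul_assoc, ← mul_assoc, mul_inv_cancel, one_mul, mul_smul,
      hk, hk]
  have hcol : ∀ a c, ((k⁻¹ * g * k) • (Pi.single c 1 : Fin m ⊕ Fin m → F)) a =
      (k⁻¹ * g * k).1 a c := by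
    intro a c
    simp [smul_def]
  refine ⟨k⁻¹ * g * k, σ, (k⁻¹ * g * k).1.toBlocks₁₂, (k⁻¹ * g * k).1.toBlocks₂₁,
    (k⁻¹ * g * k).1.toBlocks₂₂, isConj_iff.2 ⟨k⁻¹, by simp⟩, ?_, ?_, ?_⟩
  · conv_lhs => rw [← fromBlocks_toBlocks (k⁻¹ * g * k).1]
    congr 1
    ext i j
    have h1 := hent (Sum.inl j) (Sum.inr i)
    rw [form_single_inr_right, hcol] at h1
    have h4 := h.isoL' _ (hg j) _ (hf i)
    rw [map_sub, LinearMap.sub_apply, map_smul, LinearMap.smul_apply, hef, sub_eq_zero] at h4
    have h5 : sympForm m F (g • e j) (f i) = _ := h4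
    simp only [Sum.elim_inl, Sum.elim_inr] at h1
    rw [h5, neg_eq_iff_eq_neg] at h1
    change (k⁻¹ * g * k).1 (Sum.inl i) (Sum.inl j) = _
    rw [h1, diagonal_apply]
    by_cases hij : i = j
    · simp [hij, sgn]
    · simp [hij, Ne.symm hij]
  · intro h0
    rw [hc, h2 h0, finrank_bot]
  · rcases h3 with h3 | ⟨h3, h4⟩
    · left; rwa [hc]
    · right
      constructor
      · ext i j
        have h1 := hent (Sum.inl j) (Sum.inl i)
        rw [form_single_inl_right, hcol] at h1
        exact h1.trans (h3 _ (he j) _ (he i))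
      · have : g * g = 1 := by
          apply Subtype.ext
          apply Matrix.toLin'.injective
          rw [Submonoid.coe_mul, Matrix.toLin'_mul, ← Module.End.mul_eq_comp, h4]
          simp [Module.End.one_eq_id]
        calc k⁻¹ * g * k * (k⁻¹ * g * k) = k⁻¹ * (g * g) * k := by group
          _ = 1 := by rw [this]; group

/-- Elements with diagonal blocks. -/
def dg (p q r s : Fin m → F) (h : ∀ i, p i * s i - r i * q i = 1) :
    Matrix.symplecticGroup (Fin m) F :=
  ⟨fromBlocks (diagonal p) (diagonal q) (diagonal r) (diagonal s), by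
    rw [SymplecticGroup.fromBlocks_mem_iff]
    simp only [diagonal_transpose, diagonal_mul_diagonal, mul_comm, true_and, diagonal_sub]
    rw [← diagonal_one]
    congr 1
    ext i
    rw [← h i]; ring⟩

theorem isComm_invol [Finite F] (h2 : (2 : F) ≠ 0) {g : Matrix.symplecticGroup (Fin m) F}
    {σ : Fin m → Bool} {B D : Matrix (Fin m) (Fin m) F}
    (hg : g.1 = fromBlocks (diagonal (sgn F σ)) B 0 D) (hgg : g * g = 1) : IsComm g := by
  set A := diagonal (sgn F σ) with hA
  have hAA : A * A = 1 := by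
    rw [hA, diagonal_mul_diagonal, ← diagonal_one]
    congr 1
    ext i
    simp only [sgn]
    split_ifs <;> simp
  have hAt : Aᵀ = A := diagonal_transpose _
  have hm := g.2
  rw [hg] at hm
  obtain ⟨-, k2, k3⟩ := SymplecticGroup.fromBlocks_mem_iff.1 hm
  have hD : D = A := by
    rw [hAt, transpose_zero, Matrix.zero_mul, sub_zero] at k3
    rw [← Matrix.one_mul D, ← hAA, Matrix.mul_assoc, k3, Matrix.mul_one]
  subst hD
  have h1 := congrArg Subtype.val hgg
  rw [Submonoid.coe_mul, hg, fromBlocks_multiply, OneMemClass.coe_one, ← fromBlocks_one] at h1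
  have h3 : A * B + B * A = 0 := (fromBlocks_inj.1 h1).2.1
  have hS : ((2 : F)⁻¹ • (A * B))ᵀ = (2 : F)⁻¹ • (A * B) := by
    rw [transpose_smul, transpose_mul, hAt, k2, hAt]
  refine IsComm.of_isConj (isConj_up g _ hS) ?_
  have h4 := conj_up hg _ hS
  have h5 : -((A + (2 : F)⁻¹ • (A * B) * 0) * (2 : F)⁻¹ • (A * B)) + (B + (2 : F)⁻¹ • (A * B) * A)
      = 0 := by
    have e1 : A * B * A = -B := by
      rw [Matrix.mul_assoc, ← neg_eq_of_add_eq_zero_right h3, Matrix.mul_neg, ← Matrix.mul_assoc,
        hAA, Matrix.one_mul]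
    rw [Matrix.mul_zero, add_zero, Matrix.mul_smul, ← Matrix.mul_assoc, hAA, Matrix.one_mul,
      Matrix.smul_mul, e1]
    have : B = (2 : F)⁻¹ • B + (2 : F)⁻¹ • B := by
      rw [← add_smul, ← two_mul, mul_inv_cancel₀ h2, one_smul]
    linear_combination (norm := module) this
  rw [h5] at h4
  simp only [Matrix.mul_zero, add_zero, Matrix.zero_mul, neg_zero, zero_add] at h4
  obtain ⟨a, b, hab⟩ := KSG.M2.norm_surj (t := (0 : F)) (d := 1) (Or.inl (by
    have : (4 : F) = 2 * 2 := by norm_num
    simp [this, h2])) (-1)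
  refine ⟨dg (fun i => if σ i then 0 else 1) (fun i => if σ i then -1 else 0)
    (fun i => if σ i then 1 else 0) (fun i => if σ i then 0 else 1)
    (fun i => by split_ifs <;> simp),
    dg (fun i => if σ i then a else 1) (fun i => if σ i then b else 0)
    (fun i => if σ i then b else 0) (fun i => if σ i then -a else 1)
    (fun i => by
      split_ifs
      · linear_combination -hab
      · simp), ?_⟩
  rw [eq_mul_inv_iff_mul_eq, eq_mul_inv_iff_mul_eq]
  apply Subtype.ext
  rw [Submonoid.coe_mul, Submonoid.coe_mul, h4]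
  simp only [Submonoid.coe_mul, dg, fromBlocks_multiply, hA, diagonal_mul_diagonal,
    Matrix.zero_mul, add_zero, zero_add, diagonal_add]
  congr 1 <;> congr 1 <;> ext i <;> simp only [sgn] <;> split_ifs <;> simp

theorem isComm [Fintype F] (hm : 1 ≤ m) (h1 : m = 1 → 4 ≤ Fintype.card F)
    (h2 : m = 2 → 3 ≤ Fintype.card F) (g : Matrix.symplecticGroup (Fin m) F) : IsComm g := by
  obtain ⟨g', σ, B, C, D, hc, hg, k1, k2⟩ := exists_conj_diag g
  refine IsComm.of_isConj hc ?_
  by_cases he : Even (Finset.univ.filter fun i => σ i = true).card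
  · have hsum : (Finset.univ.filter fun i => σ i = false).card +
        (Finset.univ.filter fun i => σ i = true).card = m := by
      have := Finset.card_filter_add_card_filter_not (s := Finset.univ) (fun i => σ i = false)
      simpa using this
    have hq := Fintype.one_lt_card (α := F)
    rcases (show Fintype.card F = 2 ∨ Fintype.card F = 3 ∨ 4 ≤ Fintype.card F by omega) with
      h | h | h
    · have : CharP F 2 := charP_of_card_eq_prime h
      have h0 := k1 (CharP.cast_eq_zero F 2)
      obtain ⟨p, hp, hG⟩ := G_two (F := F) (s := (Finset.univ.filter fun i => σ i = false).card)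
        (by omega)
      exact W.isComm hp hg (G.w σ (h0 ▸ hG))
    · have : Fact (Nat.Prime 3) := ⟨Nat.prime_three⟩
      have : CharP F 3 := charP_of_card_eq_prime h
      obtain ⟨p, τ, hp, hG⟩ := G_three (F := F) (s := (Finset.univ.filter fun i => σ i = false).card)
        (by omega) he
      exact W.isComm hp hg (G.w σ hG)
    · obtain ⟨p, hp, hG⟩ := G_big h (s := (Finset.univ.filter fun i => σ i = false).card) he k1
      exact W.isComm hp hg (G.w σ hG)
  · obtain ⟨rfl, k3⟩ := k2.resolve_left he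
    refine isComm_invol (fun h0 => he ?_) hg k3
    rw [k1 h0]; simp

end Cfsg.Agent.Comm.SpOre
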