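import Mathlib
import Cfsg.Agent.Class.U.Basic

/-!
Central elements of `SU` are commutators.
-/

set_option autoImplicit false

namespace Cfsg.Agent.Comm.UCent

open Matrix Polynomial Cfsg.Agent.Class.U

variable {F : Type*} [Field F] {q : ℕ} [UF F q]

local notation "σ" => conj F q

variable (q) in
/-- Unitary matrices. -/
def Un {κ : Type*} [Fintype κ] [DecidableEq κ] (M : Matrix κ κ F) : Prop := Mᵀ * M.map σ = 1

theorem un_block {κ ι : Type*} [Fintype κ] [DecidableEq κ] [Fintype ι] [DecidableEq ι]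
    {M : ι → Matrix κ κ F} (h : ∀ i, Un q (M i)) : Un q (blockDiagonal M) := by
  rw [Un, blockDiagonal_transpose, blockDiagonal_map _ _ (map_zero σ), ← blockDiagonal_mul,
    ← blockDiagonal_one]
  exact congrArg _ (funext h)

theorem block {κ : Type*} [Fintype κ] [DecidableEq κ] (h : ℕ) {ζ : F} (hζ : ζ * σ ζ = 1)
    (Y R : Matrix κ κ F) (hY : Un q Y) (hR : Un q R) (hYR : Y * R = ζ ^ (h + 1) • (R * Y)) :
    ∃ x y : Matrix (κ × Fin (h + 1)) (κ × Fin (h + 1)) F, Un q x ∧ Un q y ∧
      x.det = ((-1) ^ h) ^ Fintype.card κ * R.det ∧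
      y.det = (ζ ^ ((h + 1) * h / 2)) ^ Fintype.card κ * Y.det ^ (h + 1) ∧ y * x = ζ • (x * y) := by
  let ρ := finRotate (h + 1)
  let τ : Equiv.Perm (κ × Fin (h + 1)) := Equiv.prodCongrRight fun _ => ρ.symm
  let Ys : Fin (h + 1) → Matrix κ κ F := fun j => ζ ^ (j : ℕ) • Y
  let Rs : Fin (h + 1) → Matrix κ κ F := fun j => if j = Fin.last h then R else 1
  refine ⟨(blockDiagonal Rs).submatrix τ id, blockDiagonal Ys, ?_, un_block fun j => ?_, ?_, ?_, ?_⟩
  · have : Un q (blockDiagonal Rs) := un_block fun j => by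
      by_cases hj : j = Fin.last h
      · simpa [Rs, hj] using hR
      · simp [Rs, hj, Un]
    rw [Un, transpose_submatrix, ← submatrix_map, submatrix_mul_equiv, this, submatrix_id_id]
  · have : (Ys j).map σ = σ ζ ^ (j : ℕ) • Y.map σ := by ext; simp [Ys]
    rw [Un, this, transpose_smul, smul_mul_smul_comm, hY, ← mul_pow, hζ, one_pow, one_smul]
  · rw [det_permute, det_blockDiagonal, Equiv.Perm.sign_prodCongrRight]
    congr 1
    · simp [ρ, sign_finRotate]
    · rw [Fin.prod_univ_castSucc]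
      simp [Rs, Fin.castSucc_ne_last]
  · rw [det_blockDiagonal]
    simp only [Ys, det_smul, Finset.prod_mul_distrib, Finset.prod_const, Finset.card_univ,
      Fintype.card_fin, Finset.prod_pow]
    congr 2
    rw [Finset.prod_pow_eq_pow_sum, Fin.sum_univ_eq_sum_range (fun i => i), Finset.sum_range_id]
    simp
  · have h1 : blockDiagonal Ys = (blockDiagonal fun j => Ys (ρ j)).submatrix τ τ := by
      ext ⟨a, i⟩ ⟨b, j⟩
      simp [τ, blockDiagonal_apply]
    have h2 : blockDiagonal Ys = (blockDiagonal Ys).submatrix (Equiv.refl _) id := rfl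
    conv_lhs => rw [h1, submatrix_mul_equiv, ← blockDiagonal_mul]
    conv_rhs => rw [h2, show (blockDiagonal Rs).submatrix τ id =
      (blockDiagonal Rs).submatrix τ (Equiv.refl _) from rfl, submatrix_mul_equiv,
      ← blockDiagonal_mul]
    change _ = (ζ • blockDiagonal fun k => Rs k * Ys k).submatrix τ id
    rw [← blockDiagonal_smul]
    congr 2
    funext j
    by_cases hj : j = Fin.last h
    · subst hj
      simp [Ys, Rs, ρ, hYR, smul_smul, pow_succ']
    · have : ((ρ j : Fin (h + 1)) : ℕ) = j + 1 := by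
        simp only [ρ]
        rw [coe_finRotate, if_neg hj]
      simp [Ys, Rs, hj, this, smul_smul, pow_succ']

theorem exists_ab (h2 : (-1 : F) ≠ 1) {ζ : F} (hζ : ζ * σ ζ = 1) :
    ∃ a b : F, σ a = -a ∧ σ b = ζ * b ∧ b * b * ζ - a * a = 1 := by
  have : Finite F := UF.finite q
  obtain ⟨ε, ε0, hε⟩ := exists_trace_zero F q
  obtain ⟨β, β0, hβ⟩ := exists_conj_div_eq hζ
  let K := (conj F q).eqLocusField (RingHom.id F)
  have := Fintype.ofFinite K
  have hodd : Fintype.card K % 2 = 1 := FiniteField.odd_card_of_char_ne_two fun h4 => by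
    have h5 : ((2 : ℕ) : K) = 0 := (ringChar.spec K 2).2 (by rw [h4])
    have h6 : (2 : F) = 0 := by
      have := congrArg K.subtype h5
      rwa [map_natCast, map_zero, Nat.cast_ofNat] at this
    exact h2 (by linear_combination -h6)
  let u : K := ⟨ε * σ ε, by simp [K, conj_conj, mul_comm]⟩
  let v : K := ⟨β * σ β, by simp [K, conj_conj, mul_comm]⟩
  have u0 : u ≠ 0 := fun h => by simpa [u, ε0] using congrArg Subtype.val h
  have v0 : v ≠ 0 := fun h => by simpa [v, β0] using congrArg Subtype.val h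
  obtain ⟨s, t, h⟩ := FiniteField.exists_root_sum_quadratic (R := K)
    (f := C u * X ^ 2 + C 0 * X + C (-1)) (g := C v * X ^ 2) (degree_quadratic u0)
    (degree_C_mul_X_pow 2 v0) hodd
  have h' := congrArg Subtype.val h
  have s1 : σ s = s := s.2
  have t1 : σ t = t := t.2
  simp [u, v, hβ, show σ ε = -ε by linear_combination hε] at h'
  exact ⟨s * ε, t * β, by rw [map_mul, s1]; linear_combination (s : F) * hε,
    by rw [map_mul, t1, hβ]; ring, by linear_combination h'⟩

theorem scalar (n : ℕ) (hn : 1 ≤ n) {ζ : F} (hζ : ζ ^ n = 1) (hζ' : ζ * σ ζ = 1) :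
    ∃ x y : Matrix (Fin n) (Fin n) F, Un q x ∧ Un q y ∧ x.det = 1 ∧ y.det = 1 ∧
      y * x = ζ • (x * y) := by
  classical
  suffices h : ∃ (ι : Type) (_ : Fintype ι) (_ : DecidableEq ι), Fintype.card ι = n ∧
      ∃ x y : Matrix ι ι F, Un q x ∧ Un q y ∧ x.det = 1 ∧ y.det = 1 ∧ y * x = ζ • (x * y) by
    obtain ⟨ι, _, _, hc, x, y, u1, u2, h1, h2, h3⟩ := h
    let e := Fintype.equivFinOfCardEq hc
    have : ∀ z : Matrix ι ι F, Un q z → Un q (reindexAlgEquiv F F e z) := fun z hz => by
      rw [Un, coe_reindexAlgEquiv, reindex_apply, transpose_submatrix, ← submatrix_map,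
        submatrix_mul_equiv, hz, submatrix_one_equiv]
    refine ⟨reindexAlgEquiv F F e x, reindexAlgEquiv F F e y, this x u1, this y u2, by simp [h1],
      by simp [h2], ?_⟩
    rw [← map_mul, ← map_mul, h3, map_smul]
  by_cases h1 : ζ ^ (n * (n - 1) / 2) = 1
  · obtain ⟨h, rfl⟩ : ∃ h, n = h + 1 := ⟨n - 1, by omega⟩
    obtain ⟨x, y, u1, u2, a1, a2, a3⟩ := block (κ := Unit) h hζ' 1 ((-1 : F) ^ h • 1) (by simp [Un])
      (by ext; simp [mul_apply, ← mul_pow]) (by simp [hζ])
    refine ⟨Unit × Fin (h + 1), inferInstance, inferInstance, by simp, x, y, u1, u2, ?_, ?_, a3⟩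
    · rw [a1]; simp [← mul_pow]
    · rw [a2]; simpa using h1
  · rcases Nat.even_or_odd' n with ⟨k, rfl | rfl⟩
    swap
    · exfalso; apply h1
      rw [show (2 * k + 1) * (2 * k + 1 - 1) / 2 = (2 * k + 1) * k by
        rw [Nat.add_sub_cancel, mul_left_comm, Nat.mul_div_cancel_left _ two_pos], pow_mul, hζ,
        one_pow]
    have h2 : ζ ^ k = -1 := by
      have : ζ ^ k * ζ ^ k = 1 := by rw [← pow_add, ← two_mul, hζ]
      rcases mul_self_eq_one_iff.1 this with h | h
      · exfalso; apply h1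
        rw [mul_assoc, Nat.mul_div_cancel_left _ two_pos, pow_mul, h, one_pow]
      · exact h
    have h3 : (-1 : F) ≠ 1 := fun h => by
      apply h1
      rw [mul_assoc, Nat.mul_div_cancel_left _ two_pos, pow_mul, h2, h, one_pow]
    obtain ⟨a, b, ha, hb, hab⟩ := exists_ab h3 hζ'
    obtain ⟨h, rfl⟩ : ∃ h, k = h + 1 := ⟨k - 1, by omega⟩
    obtain ⟨x, y, u1, u2, a1, a2, a3⟩ := block (κ := Fin 2) h hζ' !![0, ζ; 1, 0]
      !![a, b * ζ; -b, -a] (by
        ext i j; fin_cases i <;> fin_cases j <;> simp [Matrix.mul_apply, hζ']) (by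
        ext i j; fin_cases i <;> fin_cases j <;> simp [Matrix.mul_apply, ha, hb]
        · linear_combination hab
        · linear_combination a * b * hζ'
        · ring
        · linear_combination hab + b * b * ζ * hζ') (by
      rw [h2]; ext i j; fin_cases i <;> fin_cases j <;> simp [Matrix.mul_apply, mul_comm])
    refine ⟨Fin 2 × Fin (h + 1), inferInstance, inferInstance, by simp, x, y, u1, u2, ?_, ?_, a3⟩
    · rw [a1, det_fin_two_of, Fintype.card_fin, ← pow_mul, mul_comm h, pow_mul]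
      linear_combination hab
    · rw [a2, det_fin_two_of, Fintype.card_fin, ← pow_mul,
        Nat.div_mul_cancel (by rw [mul_comm]; exact (Nat.even_mul_succ_self h).two_dvd), pow_mul,
        h2, zero_mul, mul_one, zero_sub, neg_pow ζ, h2, pow_succ]
      have : ((-1 : F) ^ h) * (-1) ^ h = 1 := by rw [← mul_pow]; simp
      linear_combination this

end Cfsg.Agent.Comm.UCent
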