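import Mathlib
import Cfsg.Agent.Comm.OGL32
import Cfsg.Agent.Class.FieldTransport

/-!
Elements of `SL₂(4)` and `SL₃(4)` as quotients of two elements of order five, seven.
-/

set_option autoImplicit false

namespace Cfsg.Agent.Comm.UGL4

open Matrix Cfsg.Agent.Class Cfsg.Agent.Comm.OGL32

/-- A generator. -/
def w : GF4 := ⟨0, 1⟩

/-- Its square. -/
def u : GF4 := ⟨1, 1⟩

/-- Some elements of order seven. -/
def L3 : List (Matrix (Fin 3) (Fin 3) GF4) := [!![0, u, 0; 1, u, w; u, 0, u],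
  !![w, w, w; 1, 0, 1; 1, w, w], !![0, u, w; 1, u, 0; 0, w, u], !![u, 1, w; 1, u, u; u, 1, 0],
  !![1, 1, 0; 1, w, u; 1, 0, u], !![0, w, 1; w, u, 1; 1, 1, u], !![0, u, u; 0, 1, w; u, 1, 1],
  !![0, u, 1; u, 0, w; 0, w, 0], !![1, u, w; 1, w, w; 1, 0, u], !![1, 1, 0; w, u, w; 0, w, w],
  !![u, u, w; 1, u, 0; 0, u, 0], !![1, w, 0; w, w, u; 0, u, u], !![u, u, w; 1, u, u; w, 1, 0],
  !![0, u, w; w, u, 0; 1, 1, u], !![u, 1, 0; u, w, w; 1, 1, 1], !![0, 1, w; u, 0, w; 0, 1, 0],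
  !![0, 1, u; 0, w, w; w, w, w], !![1, u, 1; 1, w, u; 1, 1, u], !![0, w, 1; u, w, u; 0, 1, w],
  !![1, 0, 1; u, 1, u; 1, w, 0], !![1, 0, u; w, w, 0; w, w, u], !![1, w, w; w, u, 0; 1, 0, w],
  !![0, 1, 0; 1, u, w; 1, 1, u], !![0, u, 1; 0, 1, 1; u, u, 1], !![u, 0, 1; u, u, 1; w, 1, 0],
  !![1, 0, u; w, 1, 0; 0, 1, 0], !![u, u, u; 1, w, u; 0, u, 1]]

/-- Some elements of order five. -/
def L2 : List (Matrix (Fin 2) (Fin 2) GF4) := [!![0, 1; 1, w], !![1, u; u, u], !![w, w; u, 0],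
  !![1, w; 1, u], !![0, u; w, w], !![1, 1; w, u]]

theorem mem_L3 : L3.all (fun a => t₁ a = 0 ∧ t₂ a = 1 ∧ a 0 0 * a 1 1 * a 2 2 -
    a 0 0 * a 1 2 * a 2 1 - a 0 1 * a 1 0 * a 2 2 + a 0 1 * a 1 2 * a 2 0 + a 0 2 * a 1 0 * a 2 1 -
    a 0 2 * a 1 1 * a 2 0 = 1) = true := by
  decide +kernel

/-- The product, written out. -/
def pr (a b c d e f : GF4) (x : Matrix (Fin 3) (Fin 3) GF4) : Matrix (Fin 3) (Fin 3) GF4 :=
  !![a * x 1 0 + b * x 2 0, a * x 1 1 + b * x 2 1, a * x 1 2 + b * x 2 2;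
    x 0 0 + c * x 1 0 + d * x 2 0, x 0 1 + c * x 1 1 + d * x 2 1, x 0 2 + c * x 1 2 + d * x 2 2;
    e * x 1 0 + f * x 2 0, e * x 1 1 + f * x 2 1, e * x 1 2 + f * x 2 2]

theorem cover3 : ∀ a b e f : GF4, b * e - a * f = 1 → ∀ c d, L3.any (fun x =>
    (t₁ (pr a b c d e f x) = 0 ∧ t₂ (pr a b c d e f x) = 1) ∨
      (t₁ (pr a b c d e f x) = 1 ∧ t₂ (pr a b c d e f x) = 0)) = true := by
  decide +kernel

theorem cover2 : ∀ a b c d : GF4, a * d - b * c = 1 → L2.any (fun x => x * x + w • x + 1 = 0 ∧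
    ((!![a, b; c, d] * x) * (!![a, b; c, d] * x) + w • (!![a, b; c, d] * x) + 1 = 0 ∨
      1 + (w + 1) • (!![a, b; c, d] * x) + (!![a, b; c, d] * x) * (!![a, b; c, d] * x) = 0)) = true := by
  decide +kernel

theorem exists_gf4 (M : Matrix (Fin 3) (Fin 3) GF4) (hM : M.det = 1) (h0 : M 0 0 = 0)
    (h1 : M 1 0 = 1) (h2 : M 2 0 = 0) : ∃ x : Matrix (Fin 3) (Fin 3) GF4, x ^ 3 + x + 1 = 0 ∧
      ((M * x) ^ 3 + M * x + 1 = 0 ∨ 1 + (M * x) ^ 2 + (M * x) ^ 3 = 0) := by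
  obtain ⟨x, hx, h⟩ := List.any_eq_true.1 (cover3 (M 0 1) (M 0 2) (M 2 1) (M 2 2) (by
    rw [← hM, det_fin_three, h0, h1, h2]; ring) (M 1 1) (M 1 2))
  replace h := of_decide_eq_true h
  rw [show pr (M 0 1) (M 0 2) (M 1 1) (M 1 2) (M 2 1) (M 2 2) x = M * x by
    ext i j : 1
    fin_cases i <;> fin_cases j <;> simp [pr, mul_apply, Fin.sum_univ_three, h0, h1, h2]] at h
  obtain ⟨h1, h7, h2⟩ := of_decide_eq_true (List.all_eq_true.1 mem_L3 x hx)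
  rw [← det_fin_three] at h2
  have h4 : ∀ s : GF4, s + s = 0 := by decide
  have h3 : ∀ y : Matrix (Fin 3) (Fin 3) GF4, y + y = 0 := fun y => by
    ext i j : 1; exact h4 _
  refine ⟨x, ?_, ?_⟩
  · rw [ch, h1, h7, h2]
    simp only [one_smul, zero_smul]
    exact Eq.trans (by abel) (h3 1)
  rw [ch, det_mul, hM, h2]
  rcases h with ⟨h5, h6⟩ | ⟨h5, h6⟩ <;> rw [h5, h6]
  · left
    simp only [one_smul, zero_smul, mul_one]
    exact Eq.trans (by abel) (h3 1)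
  · right
    simp only [one_smul, zero_smul, sub_zero, mul_one]
    rw [← add_assoc, add_assoc 1, h3, add_zero, h3]

variable {F : Type*} [Field F] [Fintype F]

theorem exists_three (hF : Fintype.card F = 4) (M : Matrix (Fin 3) (Fin 3) F) (hM : M.det = 1)
    (h0 : M 0 0 = 0) (h1 : M 1 0 = 1) (h2 : M 2 0 = 0) :
    ∃ x : Matrix (Fin 3) (Fin 3) F, x ^ 3 + x + 1 = 0 ∧
      ((M * x) ^ 3 + M * x + 1 = 0 ∨ 1 + (M * x) ^ 2 + (M * x) ^ 3 = 0) := by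
  let φ := (ringEquivGF4 hF).symm
  let ψ : Matrix (Fin 3) (Fin 3) GF4 ≃+* Matrix (Fin 3) (Fin 3) F := φ.mapMatrix
  obtain ⟨M, rfl⟩ := ψ.surjective M
  obtain ⟨x, h1, h2⟩ := exists_gf4 M (φ.injective (by
    rw [map_one, ← hM]; exact RingEquiv.map_det φ M)) (φ.injective (h0.trans (map_zero φ).symm))
    (φ.injective (h1.trans (map_one φ).symm)) (φ.injective (h2.trans (map_zero φ).symm))
  refine ⟨ψ x, by simpa using congrArg ψ h1, h2.imp (fun h => ?_) fun h => ?_⟩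
  · simpa using congrArg ψ h
  · simpa using congrArg ψ h

theorem exists_two (hF : Fintype.card F = 4) : ∃ ω : F, ω ^ 2 + ω + 1 = 0 ∧
    ∀ M : Matrix (Fin 2) (Fin 2) F, M.det = 1 → ∃ x : Matrix (Fin 2) (Fin 2) F,
      x ^ 2 + ω • x + 1 = 0 ∧ ((M * x) ^ 2 + ω • (M * x) + 1 = 0 ∨
        1 + (ω + 1) • (M * x) + (M * x) ^ 2 = 0) := by
  let φ := (ringEquivGF4 hF).symm
  let ψ : Matrix (Fin 2) (Fin 2) GF4 ≃+* Matrix (Fin 2) (Fin 2) F := φ.mapMatrix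
  have hψ : ∀ (c : GF4) x, ψ (c • x) = φ c • ψ x := fun c x => by ext i j; simp [ψ]
  refine ⟨φ w, by simpa using congrArg φ (show w ^ 2 + w + 1 = 0 by decide), fun M hM => ?_⟩
  obtain ⟨M, rfl⟩ := ψ.surjective M
  obtain ⟨x, -, h⟩ := List.any_eq_true.1 (cover2 (M 0 0) (M 0 1) (M 1 0) (M 1 1) (φ.injective (by
    rw [map_one, ← hM, ← det_fin_two]; exact RingEquiv.map_det φ M)))
  obtain ⟨h1, h2⟩ := of_decide_eq_true h
  rw [← eta_fin_two M] at h2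
  refine ⟨ψ x, by simpa [hψ, sq] using congrArg ψ h1, h2.imp (fun h => ?_) fun h => ?_⟩
  · simpa only [hψ, sq, map_add, map_mul, map_one, map_zero] using congrArg ψ h
  · simpa only [hψ, sq, map_add, map_mul, map_one, map_zero] using congrArg ψ h

end Cfsg.Agent.Comm.UGL4
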