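import Mathlib
import Cfsg.Agent.Comm.OFpf
import Cfsg.Agent.Class.FormedSpU

/-!
Unipotent radicals of stabilisers of subspaces in isometry groups of formed spaces, and elements
acting on them without fixed points.
-/

set_option autoImplicit false

namespace Cfsg.Agent.Comm.UFpf

open Polynomial Module Cfsg.Agent.Class
open scoped commutatorElement

variable {F V : Type*} [Field F] [AddCommGroup V] [Module F V] {σ : F →+* F}
  {B : V →ₛₗ[σ] V →ₗ[F] F} {Q : V → F}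

/-- The underlying endomorphism. -/
abbrev en (g : Isom B Q) : End F V := (g.1 : V →ₗ[F] V)

theorem inv_apply_eq_iff (g : Isom B Q) (x y : V) : (g⁻¹).1 x = y ↔ x = g.1 y :=
  LinearEquiv.symm_apply_eq g.1

/-- Isometries stabilising `L`. -/
def PL (B : V →ₛₗ[σ] V →ₗ[F] F) (Q : V → F) (L : Submodule F V) : Subgroup (Isom B Q) where
  carrier := {w | ∀ x, w.1 x ∈ L ↔ x ∈ L}
  mul_mem' {a b} ha hb x := (ha _).trans (hb x)
  one_mem' _ := Iff.rfl
  inv_mem' {a} ha x := by rw [← ha, Isom.apply_inv_apply]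

theorem PL.perp {L : Submodule F V} {w : Isom B Q} (h : w ∈ PL B Q L) {x : V} (hx : x ∈ perp B L) :
    w.1 x ∈ perp B L := fun u hu => by
  rw [← Isom.apply_inv_apply w u, Isom.map_B w]
  exact hx _ (((PL B Q L).inv_mem h u).2 hu)

/-- Isometries stabilising `L` and trivial on `L^⊥ / L`. -/
def P0 (B : V →ₛₗ[σ] V →ₗ[F] F) (Q : V → F) (L : Submodule F V) : Subgroup (Isom B Q) where
  carrier := {w | w ∈ PL B Q L ∧ ∀ x ∈ perp B L, w.1 x - x ∈ L}
  mul_mem' {a b} ha hb := ⟨(PL B Q L).mul_mem ha.1 hb.1, fun x hx => by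
    have : (a * b).1 x - x = (a.1 (b.1 x) - b.1 x) + (b.1 x - x) := by rw [Isom.mul_apply]; abel
    rw [this]
    exact L.add_mem (ha.2 _ (PL.perp hb.1 hx)) (hb.2 x hx)⟩
  one_mem' := ⟨(PL B Q L).one_mem, fun x _ => by simp⟩
  inv_mem' {a} ha := ⟨(PL B Q L).inv_mem ha.1, fun x hx => by
    have := L.neg_mem (ha.2 _ (PL.perp ((PL B Q L).inv_mem ha.1) hx))
    rwa [Isom.apply_inv_apply, neg_sub] at this⟩

theorem mem_PL_of_fix {L : Submodule F V} {w : Isom B Q} (h : ∀ x ∈ L, w.1 x = x) :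
    w ∈ PL B Q L :=
  fun x => ⟨fun hx => by
    have := h _ hx
    rwa [← w.1.injective this], fun hx => by rwa [h x hx]⟩

/-- Isometries trivial on `L` and on `L^⊥ / L`. -/
def UG (B : V →ₛₗ[σ] V →ₗ[F] F) (Q : V → F) (L : Submodule F V) : Subgroup (Isom B Q) where
  carrier := {w | (∀ x ∈ L, w.1 x = x) ∧ ∀ x ∈ perp B L, w.1 x - x ∈ L}
  mul_mem' {a b} ha hb := ⟨fun x hx => by rw [Isom.mul_apply, hb.1 x hx, ha.1 x hx],
    ((P0 B Q L).mul_mem ⟨mem_PL_of_fix ha.1, ha.2⟩ ⟨mem_PL_of_fix hb.1, hb.2⟩).2⟩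
  one_mem' := ⟨fun _ _ => rfl, fun x _ => by simp⟩
  inv_mem' {a} ha := ⟨fun x hx => by rw [inv_apply_eq_iff, ha.1 x hx],
    ((P0 B Q L).inv_mem ⟨mem_PL_of_fix ha.1, ha.2⟩).2⟩

theorem UG_le_P0 (L : Submodule F V) : UG B Q L ≤ P0 B Q L := fun _ h => ⟨mem_PL_of_fix h.1, h.2⟩

theorem conj_mem_P0 {L : Submodule F V} {l w : Isom B Q} (hl : l ∈ PL B Q L) (hw : w ∈ P0 B Q L) :
    l * w * l⁻¹ ∈ P0 B Q L := by
  have hi := (PL B Q L).inv_mem hl
  refine ⟨(PL B Q L).mul_mem ((PL B Q L).mul_mem hl hw.1) hi, fun x hx => ?_⟩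
  have := (hl _).2 (hw.2 _ (PL.perp hi hx))
  rwa [map_sub, Isom.apply_inv_apply] at this

theorem conj_mem_UG {L : Submodule F V} {l w : Isom B Q} (hl : l ∈ PL B Q L) (hw : w ∈ UG B Q L) :
    l * w * l⁻¹ ∈ UG B Q L :=
  ⟨fun x hx => by
    rw [Isom.mul_apply, Isom.mul_apply, hw.1 _ (((PL B Q L).inv_mem hl x).2 hx),
      Isom.apply_inv_apply],
    (conj_mem_P0 hl (UG_le_P0 L hw)).2⟩

theorem UG.sub_mem_perp {L : Submodule F V} {w : Isom B Q} (hw : w ∈ UG B Q L) (v : V) :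
    w.1 v - v ∈ perp B L := fun u hu => by
  rw [map_sub, ← hw.1 u hu, Isom.map_B w, hw.1 u hu, sub_self]

/-- The conjugate reverse of a polynomial. -/
noncomputable def dag (σ : F →+* F) (d : ℕ) (p : F[X]) : F[X] := reflect d (p.map σ)

theorem dag_mul {d d' : ℕ} {p p' : F[X]} (h : p.natDegree ≤ d) (h' : p'.natDegree ≤ d') :
    dag σ (d + d') (p * p') = dag σ d p * dag σ d' p' := by
  rw [dag, Polynomial.map_mul, reflect_mul _ _ (natDegree_map_le.trans h) (natDegree_map_le.trans h')]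
  rfl

theorem B_pow (l : Isom B Q) (i : ℕ) (x y : V) : B ((en l ^ i) x) ((en l ^ i) y) = B x y := by
  induction i with
  | zero => rfl
  | succ i ih => rw [pow_succ', End.mul_apply, End.mul_apply, ← ih]; exact Isom.map_B l _ _

theorem B_aeval {d : ℕ} {p : F[X]} (h : p.natDegree ≤ d) (l : Isom B Q) (x y : V) :
    B (aeval (en l) p x) ((en l ^ d) y) = B x (aeval (en l) (dag σ d p) y) := by
  conv_lhs => rw [p.as_sum_range' (d + 1) (by omega)]
  conv_rhs => rw [dag, p.as_sum_range' (d + 1) (by omega), Polynomial.map_sum]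
  have : ∀ s : Finset ℕ, ∀ f : ℕ → F[X], reflect d (∑ i ∈ s, f i) = ∑ i ∈ s, reflect d (f i) := by
    intro s f
    induction s using Finset.induction_on with
    | empty => simp
    | insert a s ha ih => rw [Finset.sum_insert ha, Finset.sum_insert ha, reflect_add, ih]
  simp only [this, map_sum, LinearMap.sum_apply]
  refine Finset.sum_congr rfl fun i hi => ?_
  have hi' : i ≤ d := by simpa [Nat.lt_succ_iff] using hi
  rw [Polynomial.map_monomial, ← C_mul_X_pow_eq_monomial, ← C_mul_X_pow_eq_monomial,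
    reflect_C_mul_X_pow, revAt_le hi', show en l ^ d = en l ^ i * en l ^ (d - i) by
      rw [← pow_add, Nat.add_sub_cancel' hi']]
  simp [B_pow]

/-- `l` normalises `UG B Q L` and acts on it without fixed points. -/
def Fpf (L : Submodule F V) (l : Isom B Q) : Prop :=
  l ∈ PL B Q L ∧ ∀ w ∈ UG B Q L, w * l = l * w → w = 1

theorem fpf_of [FiniteDimensional F V] {ε : F} {τ : F →+ F} (hB : IsFormed σ B Q ε τ)
    {L : Submodule F V} {l : Isom B Q}
    (hl : l ∈ PL B Q L) {π π' : F[X]} (h1 : ∀ x ∈ L, aeval (en l) π x = 0)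
    (h2 : ∀ x ∈ perp B L, ∃ y ∈ perp B L, x - aeval (en l) π y ∈ L)
    (h3 : ∀ v, aeval (en l) π' v ∈ perp B L) (h4 : IsCoprime π π') : Fpf L l := by
  refine ⟨hl, fun w hw hc => ?_⟩
  let N : End F V := en w - 1
  have hN : ∀ v, N v = w.1 v - v := fun v => rfl
  have cN : Commute N (en l) := by
    refine Commute.sub_left ?_ (Commute.one_left _)
    exact LinearMap.ext fun v => congrArg (fun g : Isom B Q => g.1 v) hc
  have a1 : ∀ x ∈ perp B L, N x = 0 := by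
    intro x hx
    obtain ⟨y, hy, hy'⟩ := h2 x hx
    have e1 : N (x - aeval (en l) π y) = 0 := by rw [hN, hw.1 _ hy', sub_self]
    rw [map_sub, OFpf.comm_aeval cN, h1 (N y) (hw.2 y hy), sub_zero] at e1
    exact e1
  have a1' : ∀ x ∈ perp B L, w.1 x = x := fun x hx => sub_eq_zero.1 (a1 x hx)
  have a2 : ∀ v, N v ∈ L := by
    intro v
    rw [← hB.perp_perp L]
    intro y hy
    rw [hN, map_sub, ← a1' y hy, Isom.map_B w, a1' y hy, sub_self]
  obtain ⟨u, u', h4⟩ := h4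
  refine Isom.ext' fun v => sub_eq_zero.1 (show N v = 0 from ?_)
  rw [show N v = aeval (en l) (1 : F[X]) (N v) by simp, ← h4, map_add, map_mul,
    map_mul, LinearMap.add_apply, End.mul_apply, End.mul_apply,
    h1 _ (a2 v), ← OFpf.comm_aeval cN π', a1 _ (h3 v), map_zero, map_zero, add_zero]

theorem finite_isom [Finite F] [FiniteDimensional F V] : Finite (Isom B Q) := by
  have : Finite V := Module.finite_of_finite F
  exact Finite.of_injective (fun g : Isom B Q => (g.1 : V → V))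
    fun g h e => Isom.ext' (congrFun e)

theorem Fpf.conj [Finite F] [FiniteDimensional F V] {L : Submodule F V} {l : Isom B Q} (h : Fpf L l)
    {u : Isom B Q} (hu : u ∈ UG B Q L) : ∃ v ∈ UG B Q L, u * l = v * l * v⁻¹ := by
  have := finite_isom (B := B) (Q := Q)
  let φ : UG B Q L → UG B Q L := fun v =>
    ⟨v.1 * (l * (v.1)⁻¹ * l⁻¹), (UG B Q L).mul_mem v.2 (conj_mem_UG h.1 ((UG B Q L).inv_mem v.2))⟩
  have hi : Function.Injective φ := by
    intro a b e
    have e1 : a.1 * (l * (a.1)⁻¹ * l⁻¹) = b.1 * (l * (b.1)⁻¹ * l⁻¹) := congrArg Subtype.val e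
    have := h.2 ((b.1)⁻¹ * a.1) ((UG B Q L).mul_mem ((UG B Q L).inv_mem b.2) a.2) (by
      calc (b.1)⁻¹ * a.1 * l = (b.1)⁻¹ * (a.1 * (l * (a.1)⁻¹ * l⁻¹)) * l * a.1 := by group
        _ = _ := by rw [e1]; group)
    exact Subtype.ext (inv_mul_eq_one.1 this).symm
  obtain ⟨v, hv⟩ := Finite.injective_iff_surjective.1 hi ⟨u, hu⟩
  have e1 : v.1 * (l * (v.1)⁻¹ * l⁻¹) = u := congrArg Subtype.val hv
  exact ⟨v.1, v.2, by rw [← e1]; group⟩

/-- The determinant. -/
noncomputable def dt : Isom B Q →* F :=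
  (LinearMap.det : End F V →* F).comp ⟨⟨en, rfl⟩, fun _ _ => rfl⟩

theorem dt_apply (g : Isom B Q) : dt g = LinearMap.det (en g) := rfl

theorem dt_ne_zero (g : Isom B Q) : dt g ≠ 0 := ((Group.isUnit g).map dt).ne_zero

theorem dt_conj (a g : Isom B Q) : dt (a * g * a⁻¹) = dt g := by
  rw [map_mul, map_mul, mul_right_comm, ← map_mul, mul_inv_cancel, map_one, one_mul]

theorem Fpf.dt [Finite F] [FiniteDimensional F V] {L : Submodule F V} {l : Isom B Q} (h : Fpf L l)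
    {u : Isom B Q} (hu : u ∈ UG B Q L) : dt u = 1 := by
  obtain ⟨v, -, hv⟩ := h.conj hu
  have := congrArg UFpf.dt hv
  rwa [dt_conj, map_mul, mul_eq_right₀ (dt_ne_zero l)] at this

/-- Commutators of elements of determinant one. -/
def SComm (g : Isom B Q) : Prop := ∃ a b, dt a = 1 ∧ dt b = 1 ∧ g = a * b * a⁻¹ * b⁻¹

theorem SComm.of_conj {g : Isom B Q} (c : Isom B Q) (h : SComm (c * g * c⁻¹)) : SComm g := by
  obtain ⟨a, b, ha, hb, e⟩ := h
  refine ⟨c⁻¹ * a * c⁻¹⁻¹, c⁻¹ * b * c⁻¹⁻¹, by rwa [dt_conj], by rwa [dt_conj], ?_⟩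
  have : g = c⁻¹ * (a * b * a⁻¹ * b⁻¹) * c := by rw [← e]; group
  rw [this]; group

theorem sComm_of_fpf [Finite F] [FiniteDimensional F V] {L L' : Submodule F V}
    {l₁ l₂ k u u' : Isom B Q} (h₁ : Fpf L' l₁) (h₂ : Fpf L l₂) (hl : dt l₂ = 1) (hk : dt k = 1)
    (e : l₁ = k * l₂ * k⁻¹) (hu : u ∈ UG B Q L) (hu' : u' ∈ UG B Q L') :
    SComm (u' * (l₁ * l₂⁻¹) * u) := by
  obtain ⟨v', hv', e1⟩ := h₁.conj hu'
  obtain ⟨v, hv, e2⟩ := h₂.conj ((UG B Q L).inv_mem hu)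
  refine ⟨v' * k * v⁻¹, v * l₂ * v⁻¹, by
    rw [map_mul, map_mul, h₁.dt hv', hk, h₂.dt (inv_mem hv), one_mul, one_mul], by rwa [dt_conj], ?_⟩
  calc u' * (l₁ * l₂⁻¹) * u = (u' * l₁) * (u⁻¹ * l₂)⁻¹ := by group
    _ = _ := by rw [e1, e2, e]; group

end Cfsg.Agent.Comm.UFpf
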