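import Mathlib
import Cfsg.Agent.Comm.UFpf

/-!
The hermitian space `L ⊕ L' ⊕ A` with `A` anisotropic: Levi elements, swaps, the big cell.
-/

set_option autoImplicit false

namespace Cfsg.Agent.Comm.UModel

open Module Matrix Cfsg.Agent.Class Cfsg.Agent.Class.U Cfsg.Agent.Comm.UFpf

attribute [local simp] Isom.mul_apply Isom.one_apply conj_conj

variable {F A : Type*} [Field F] [AddCommGroup A] [Module F A] {m : ℕ} {q : ℕ} [UF F q]

local notation "σ" => conj F q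

variable (q) in
/-- The standard hermitian pairing. -/
def hs : (Fin m → F) →ₛₗ[σ] (Fin m → F) →ₗ[F] F :=
  LinearMap.mk₂'ₛₗ σ (RingHom.id F) (fun x y => ∑ i, σ (x i) * y i)
    (fun _ _ _ => by simp [add_mul, Finset.sum_add_distrib])
    (fun _ _ _ => by simp [Finset.mul_sum, mul_assoc])
    (fun _ _ _ => by simp [mul_add, Finset.sum_add_distrib])
    (fun _ _ _ => by simp [Finset.mul_sum, mul_left_comm])

theorem hs_apply (x y : Fin m → F) : hs q x y = ∑ i, σ (x i) * y i := rfl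

@[simp] theorem conj_hs (x y : Fin m → F) : σ (hs q x y) = hs q y x := by
  simp [hs_apply, mul_comm]

@[simp] theorem hs_single (i : Fin m) (y : Fin m → F) : hs q (Pi.single i 1) y = y i := by
  rw [hs_apply, Finset.sum_eq_single i] <;> simp +contextual

theorem eq_zero_of_hs {x : Fin m → F} (h : ∀ y, hs q y x = 0) : x = 0 :=
  funext fun i => by simpa using h (Pi.single i 1)

theorem hs_zero_comm {x y : Fin m → F} (h : hs q x y = 0) : hs q y x = 0 := by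
  rw [← conj_hs, h, map_zero]

theorem eq_of_hs {x x' : Fin m → F} (h : ∀ y, hs q y x = hs q y x') : x = x' :=
  funext fun i => by simpa using h (Pi.single i 1)

variable (q) in
/-- The adjoint. -/
noncomputable def adj (a : End F (Fin m → F)) : End F (Fin m → F) :=
  toLin' ((LinearMap.toMatrix' a).map σ)ᵀ

theorem hs_adj (a : End F (Fin m → F)) (x y : Fin m → F) : hs q x (adj q a y) = hs q (a x) y := by
  rw [← LinearMap.toMatrix'_mulVec a]
  simp only [adj, hs_apply, toLin'_apply, mulVec, dotProduct, transpose_apply, map_apply, map_sum,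
    map_mul, Finset.mul_sum, Finset.sum_mul]
  rw [Finset.sum_comm]
  exact Finset.sum_congr rfl fun i _ => Finset.sum_congr rfl fun j _ => by ring

theorem det_adj (a : End F (Fin m → F)) : LinearMap.det (adj q a) = σ (LinearMap.det a) := by
  rw [adj, LinearMap.det_toLin', det_transpose, ← RingHom.mapMatrix_apply, ← RingHom.map_det,
    LinearMap.det_toMatrix']

variable (q) in
/-- The inverse adjoint. -/
noncomputable def dg :
    ((Fin m → F) ≃ₗ[F] (Fin m → F)) →* ((Fin m → F) ≃ₗ[F] (Fin m → F)) where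
  toFun a := LinearEquiv.ofLinearMap (adj q (a.symm : End F (Fin m → F))) (adj q (a : End F (Fin m → F)))
    (LinearMap.ext fun x => eq_of_hs (q := q) fun y => by simp [hs_adj])
    (LinearMap.ext fun x => eq_of_hs (q := q) fun y => by simp [hs_adj])
  map_one' := LinearEquiv.ext fun x => eq_of_hs (q := q) fun y => by simp [hs_adj]; rfl
  map_mul' a b := LinearEquiv.ext fun x => eq_of_hs (q := q) fun y => by simp [hs_adj]; rfl

theorem hs_dg (a : (Fin m → F) ≃ₗ[F] (Fin m → F)) (x y : Fin m → F) :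
    hs q x (dg q a y) = hs q (a.symm x) y := hs_adj _ _ _

@[simp] theorem hs_apply_dg (a : (Fin m → F) ≃ₗ[F] (Fin m → F)) (x y : Fin m → F) :
    hs q (a x) (dg q a y) = hs q x y := by simp [hs_dg]

@[simp] theorem hs_dg_apply (a : (Fin m → F) ≃ₗ[F] (Fin m → F)) (x y : Fin m → F) :
    hs q (dg q a x) (a y) = hs q x y := by rw [← conj_hs, hs_apply_dg, conj_hs]

@[simp] theorem dg_dg (a : (Fin m → F) ≃ₗ[F] (Fin m → F)) : dg q (dg q a) = a :=
  LinearEquiv.ext fun x => eq_of_hs (q := q) fun y => by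
    obtain ⟨y, rfl⟩ := (dg q a).surjective y
    rw [hs_apply_dg, hs_dg_apply]

theorem det_dg (a : (Fin m → F) ≃ₗ[F] (Fin m → F)) :
    LinearMap.det (dg q a : End F (Fin m → F)) = (σ (LinearMap.det (a : End F (Fin m → F))))⁻¹ := by
  rw [← map_inv₀, ← eq_inv_of_mul_eq_one_left (LinearEquiv.det_symm_mul_det a)]
  exact det_adj _

/-- The underlying space. -/
abbrev VV (m : ℕ) (F A : Type*) := (Fin m → F) × (Fin m → F) × A

/-- Projection to `L`. -/
def pL : VV m F A →ₗ[F] (Fin m → F) := LinearMap.fst F _ _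

/-- Projection to `L'`. -/
def pR : VV m F A →ₗ[F] (Fin m → F) := LinearMap.fst F _ _ ∘ₗ LinearMap.snd F _ _

/-- Projection to `A`. -/
def pA : VV m F A →ₗ[F] A := LinearMap.snd F _ _ ∘ₗ LinearMap.snd F _ _

/-- Inclusion of `L`. -/
def iL : (Fin m → F) →ₗ[F] VV m F A := LinearMap.inl F _ _

/-- Inclusion of `L'`. -/
def iR : (Fin m → F) →ₗ[F] VV m F A := LinearMap.inr F _ _ ∘ₗ LinearMap.inl F _ _

/-- Inclusion of `A`. -/
def iA : A →ₗ[F] VV m F A := LinearMap.inr F _ _ ∘ₗ LinearMap.inr F _ _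

@[simp] theorem pL_iL (x : Fin m → F) : pL (iL x : VV m F A) = x := rfl
@[simp] theorem pR_iL (x : Fin m → F) : pR (iL x : VV m F A) = 0 := rfl
@[simp] theorem pA_iL (x : Fin m → F) : pA (F := F) (iL x : VV m F A) = 0 := rfl
@[simp] theorem pL_iR (x : Fin m → F) : pL (iR x : VV m F A) = 0 := rfl
@[simp] theorem pR_iR (x : Fin m → F) : pR (iR x : VV m F A) = x := rfl
@[simp] theorem pA_iR (x : Fin m → F) : pA (F := F) (iR x : VV m F A) = 0 := rfl
@[simp] theorem pL_iA (a : A) : pL (iA (F := F) a : VV m F A) = 0 := rfl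
@[simp] theorem pR_iA (a : A) : pR (iA (F := F) a : VV m F A) = 0 := rfl
@[simp] theorem pA_iA (a : A) : pA (F := F) (iA (F := F) a : VV m F A) = a := rfl

theorem ext3 {v w : VV m F A} (h1 : pL v = pL w) (h2 : pR v = pR w)
    (h3 : pA (F := F) v = pA (F := F) w) : v = w :=
  Prod.ext h1 (Prod.ext h2 h3)

theorem decomp (v : VV m F A) : v = iL (pL v) + iR (pR v) + iA (F := F) (pA (F := F) v) :=
  ext3 (by simp) (by simp) (by simp)

/-- The form. -/
def BB (m : ℕ) (B₀ : A →ₛₗ[σ] A →ₗ[F] F) : VV m F A →ₛₗ[σ] VV m F A →ₗ[F] F :=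
  LinearMap.mk₂'ₛₗ σ (RingHom.id F)
    (fun v w => hs q (pL v) (pR w) + hs q (pR v) (pL w) + B₀ (pA (F := F) v) (pA (F := F) w))
    (fun _ _ _ => by simp; ring) (fun _ _ _ => by simp; ring)
    (fun _ _ _ => by simp; ring) (fun _ _ _ => by simp; ring)

variable {B₀ : A →ₛₗ[conj F q] A →ₗ[F] F}

theorem BB_eq (v w : VV m F A) :
    BB m B₀ v w = hs q (pL v) (pR w) + hs q (pR v) (pL w) + B₀ (pA (F := F) v) (pA (F := F) w) := rfl

/-- The unitary group. -/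
abbrev GG (m : ℕ) (B₀ : A →ₛₗ[σ] A →ₗ[F] F) := Isom (BB m B₀) fun x => BB m B₀ x x

/-- An isometry. -/
def mkG (g : VV m F A ≃ₗ[F] VV m F A) (h : ∀ x y, BB m B₀ (g x) (g y) = BB m B₀ x y) : GG m B₀ :=
  ⟨g, h, fun x => h x x⟩

/-- The subspace `L`. -/
def LL (m : ℕ) (F A : Type*) [Field F] [AddCommGroup A] [Module F A] : Submodule F (VV m F A) :=
  LinearMap.ker pR ⊓ LinearMap.ker pA

/-- The subspace `L'`. -/
def RR (m : ℕ) (F A : Type*) [Field F] [AddCommGroup A] [Module F A] : Submodule F (VV m F A) :=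
  LinearMap.ker pL ⊓ LinearMap.ker pA

/-- The radical of the stabiliser of `L`. -/
abbrev UL (m : ℕ) (B₀ : A →ₛₗ[σ] A →ₗ[F] F) : Subgroup (GG m B₀) := UG _ _ (LL m F A)

/-- The radical of the stabiliser of `L'`. -/
abbrev UR (m : ℕ) (B₀ : A →ₛₗ[σ] A →ₗ[F] F) : Subgroup (GG m B₀) := UG _ _ (RR m F A)

/-- The stabiliser of `L`. -/
abbrev PP (m : ℕ) (B₀ : A →ₛₗ[σ] A →ₗ[F] F) : Subgroup (GG m B₀) := PL _ _ (LL m F A)

/-- The stabiliser of `L`, trivial on `A`. -/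
abbrev PO (m : ℕ) (B₀ : A →ₛₗ[σ] A →ₗ[F] F) : Subgroup (GG m B₀) := P0 _ _ (LL m F A)

theorem mem_LL {v : VV m F A} : v ∈ LL m F A ↔ pR v = 0 ∧ pA (F := F) v = 0 := Iff.rfl

theorem mem_RR {v : VV m F A} : v ∈ RR m F A ↔ pL v = 0 ∧ pA (F := F) v = 0 := Iff.rfl

theorem iL_mem (x : Fin m → F) : iL x ∈ LL m F A := ⟨rfl, rfl⟩

theorem iR_mem (x : Fin m → F) : iR x ∈ RR m F A := ⟨rfl, rfl⟩

theorem eq_iL {v : VV m F A} (h : v ∈ LL m F A) : v = iL (pL v) := ext3 rfl h.1 h.2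

theorem eq_iR {v : VV m F A} (h : v ∈ RR m F A) : v = iR (pR v) := ext3 h.1 rfl h.2

theorem mem_perp_LL {v : VV m F A} : v ∈ perp (BB m B₀) (LL m F A) ↔ pR v = 0 :=
  ⟨fun h => eq_zero_of_hs (q := q) fun y => by simpa [BB_eq] using h _ (iL_mem y),
    fun h u hu => by simp [BB_eq, h, (mem_LL.1 hu).1, (mem_LL.1 hu).2]⟩

theorem mem_perp_RR {v : VV m F A} : v ∈ perp (BB m B₀) (RR m F A) ↔ pL v = 0 :=
  ⟨fun h => eq_zero_of_hs (q := q) fun y => by simpa [BB_eq] using h _ (iR_mem y),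
    fun h u hu => by simp [BB_eq, h, (mem_RR.1 hu).1, (mem_RR.1 hu).2]⟩

theorem pR_UG {u : GG m B₀} (hu : u ∈ UL m B₀) (v : VV m F A) :
    pR (u.1 v) = pR v := by
  have := mem_perp_LL.1 (UG.sub_mem_perp hu v)
  rwa [map_sub, sub_eq_zero] at this

theorem pL_UG {u : GG m B₀} (hu : u ∈ UR m B₀) (v : VV m F A) :
    pL (u.1 v) = pL v := by
  have := mem_perp_RR.1 (UG.sub_mem_perp hu v)
  rwa [map_sub, sub_eq_zero] at this

theorem mem_PL_of_equiv {g : GG m B₀} (b : (Fin m → F) ≃ₗ[F] (Fin m → F))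
    (h : ∀ x, g.1 (iL x) = iL (b x)) : g ∈ PP m B₀ := fun v =>
  ⟨fun hv => by
    have : g.1 v = g.1 (iL (b.symm (pL (g.1 v)))) := by rw [h, b.apply_symm_apply, ← eq_iL hv]
    rw [g.1.injective this]; exact iL_mem _,
  fun hv => by rw [eq_iL hv, h]; exact iL_mem _⟩

/-- The `L`-block. -/
noncomputable def bL (g : GG m B₀) : End F (Fin m → F) := pL ∘ₗ en g ∘ₗ iL

theorem bL_apply (g : GG m B₀) (x : Fin m → F) : bL g x = pL (g.1 (iL x)) := rfl

theorem apply_iL {g : GG m B₀} (h : g ∈ PP m B₀) (x : Fin m → F) :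
    g.1 (iL x) = iL (bL g x) := eq_iL ((h _).2 (iL_mem x))

theorem bL_inj {g : GG m B₀} (h : g ∈ PP m B₀) : Function.Injective (bL g) := by
  intro x y e
  have : g.1 (iL x) = g.1 (iL y) := by rw [apply_iL h, apply_iL h, e]
  simpa using congrArg pL (g.1.injective this)

theorem mem_PL_of {g : GG m B₀} (h : ∀ x, g.1 (iL x) ∈ LL m F A) :
    g ∈ PP m B₀ := by
  have hi : Function.Injective (bL g) := by
    intro x y e
    have : g.1 (iL x) = g.1 (iL y) := by rw [eq_iL (h x), eq_iL (h y), ← bL_apply, e]; rfl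
    simpa using congrArg pL (g.1.injective this)
  exact mem_PL_of_equiv (LinearEquiv.ofInjectiveEndo _ hi) fun x => eq_iL (h x)

theorem bL_mul (g : GG m B₀) {p : GG m B₀} (h : p ∈ PP m B₀) :
    bL (g * p) = bL g * bL p :=
  LinearMap.ext fun x => by rw [bL_apply, Isom.mul_apply, apply_iL h]; rfl

theorem bL_UG {u : GG m B₀} (h : u ∈ UL m B₀) : bL u = 1 :=
  LinearMap.ext fun x => by rw [bL_apply, h.1 _ (iL_mem x)]; rfl

theorem bL_UG' {u : GG m B₀} (h : u ∈ UR m B₀) (g : GG m B₀) : bL (u * g) = bL g :=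
  LinearMap.ext fun x => by rw [bL_apply, Isom.mul_apply, pL_UG h]; rfl

/-! ### Levi elements -/

/-- Scalars of norm one. -/
def U1 (F : Type*) [Field F] (q : ℕ) [UF F q] : Subgroup Fˣ where
  carrier := {c | conj F q c * c = 1}
  mul_mem' {a b} ha hb := by
    change conj F q ((a * b : Fˣ) : F) * ((a * b : Fˣ) : F) = 1
    rw [Units.val_mul, map_mul, mul_mul_mul_comm, ha, hb, one_mul]
  one_mem' := by simp
  inv_mem' {a} ha := by
    change conj F q ((a⁻¹ : Fˣ) : F) * ((a⁻¹ : Fˣ) : F) = 1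
    rw [Units.val_inv_eq_inv_val, map_inv₀, ← mul_inv, ha, inv_one]

/-- A scalar of norm one. -/
def mkU (c : F) (h : σ c * c = 1) : U1 F q := ⟨Units.mk0 c (right_ne_zero_of_mul_eq_one h), h⟩

/-- Levi elements. -/
noncomputable def lv (m : ℕ) (B₀ : A →ₛₗ[σ] A →ₗ[F] F) :
    ((Fin m → F) ≃ₗ[F] (Fin m → F)) × U1 F q →* GG m B₀ where
  toFun a := mkG (a.1.prodCongr ((dg q a.1).prodCongr (LinearEquiv.smulOfUnit a.2.1))) fun x y => by
    change hs q (a.1 (pL x)) (dg q a.1 (pR y)) + hs q (dg q a.1 (pR x)) (a.1 (pL y)) +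
      B₀ ((a.2.1 : F) • pA (F := F) x) ((a.2.1 : F) • pA (F := F) y) = _
    have : σ a.2.1 * a.2.1 = 1 := a.2.2
    simp [BB_eq]
    linear_combination B₀ (pA (F := F) x) (pA (F := F) y) * this
  map_one' := Isom.ext' fun v => ext3 rfl (congrArg (fun a => a (pR v)) (map_one (dg q)))
    (one_smul _ _)
  map_mul' a b := Isom.ext' fun v => ext3 rfl
    (congrArg (fun a => a (pR v)) (map_mul (dg q) a.1 b.1)) (mul_smul _ _ _)

section
variable (a : (Fin m → F) ≃ₗ[F] (Fin m → F)) (γ : U1 F q) (v : VV m F A)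

@[simp] theorem pL_lv : pL ((lv m B₀ (a, γ)).1 v) = a (pL v) := rfl

@[simp] theorem pR_lv : pR ((lv m B₀ (a, γ)).1 v) = dg q a (pR v) := rfl

@[simp] theorem pA_lv : pA (F := F) ((lv m B₀ (a, γ)).1 v) = (γ.1 : F) • pA (F := F) v := rfl

theorem lv_iL (x : Fin m → F) : (lv m B₀ (a, γ)).1 (iL x) = iL (a x) :=
  ext3 (by simp) (by simp) (by simp)

theorem lv_iR (x : Fin m → F) : (lv m B₀ (a, γ)).1 (iR x) = iR (dg q a x) :=
  ext3 (by simp) (by simp) (by simp)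

theorem lv_iA (z : A) : (lv m B₀ (a, γ)).1 (iA (F := F) z) = iA (F := F) ((γ.1 : F) • z) :=
  ext3 (by simp) (by simp) (by simp)

theorem lv_mem_PL : lv m B₀ (a, γ) ∈ PP m B₀ := mem_PL_of_equiv a (lv_iL a γ)

theorem lv_mem_PL' : lv m B₀ (a, γ) ∈ PL _ _ (RR m F A) := fun v => by
  simp [mem_RR]

theorem bL_lv : bL (lv m B₀ (a, γ)) = (a : End F (Fin m → F)) :=
  LinearMap.ext fun x => by simp [bL_apply]

theorem lv_mem_P0 : lv m B₀ (a, 1) ∈ PO m B₀ :=
  ⟨lv_mem_PL a 1, fun x hx => by simp [mem_LL, mem_perp_LL.1 hx]⟩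

theorem dt_lv [FiniteDimensional F A] : dt (lv m B₀ (a, γ)) = LinearMap.det (a : End F (Fin m → F)) *
    (σ (LinearMap.det (a : End F (Fin m → F))))⁻¹ * (γ.1 : F) ^ finrank F A := by
  have : en (lv m B₀ (a, γ)) = (a : End F (Fin m → F)).prodMap
      ((dg q a : End F (Fin m → F)).prodMap ((γ.1 : F) • LinearMap.id)) := rfl
  rw [dt_apply, this, LinearMap.det_prodMap, LinearMap.det_prodMap, det_dg, LinearMap.det_smul,
    LinearMap.det_id, mul_one, mul_assoc]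

end

theorem exists_lv_mul {p : GG m B₀} (hp : p ∈ PO m B₀) :
    ∃ (b : (Fin m → F) ≃ₗ[F] (Fin m → F)), (b : End F (Fin m → F)) = bL p ∧
      ∃ u ∈ UL m B₀, p = lv m B₀ (b, 1) * u := by
  let b := LinearEquiv.ofInjectiveEndo _ (bL_inj hp.1)
  refine ⟨b, rfl, (lv m B₀ (b, 1))⁻¹ * p, ⟨fun x hx => ?_,
    ((P0 _ _ _).mul_mem ((P0 _ _ _).inv_mem (lv_mem_P0 b)) hp).2⟩, by group⟩
  rw [eq_iL hx, Isom.mul_apply, inv_apply_eq_iff, apply_iL hp.1, lv_iL]; rfl

/-! ### Swaps -/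

variable (q) in
/-- Symmetric idempotents. -/
structure Proj (E : End F (Fin m → F)) : Prop where
  idem : ∀ x, E (E x) = E x
  symm : ∀ x y, hs q (E x) y = hs q x (E y)

theorem proj_one : Proj q (1 : End F (Fin m → F)) := ⟨fun _ => rfl, fun _ _ => rfl⟩

/-- The swap as a linear map. -/
def wL (A : Type*) [AddCommGroup A] [Module F A] (E : End F (Fin m → F)) : End F (VV m F A) :=
  1 - (iL - iR) ∘ₗ E ∘ₗ (pL - pR)

theorem wL_apply (E : End F (Fin m → F)) (v : VV m F A) :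
    wL A E v = v - (iL (E (pL v - pR v)) - iR (E (pL v - pR v))) := rfl

/-- The swap along `E`. -/
noncomputable def wE (B₀ : A →ₛₗ[σ] A →ₗ[F] F) {E : End F (Fin m → F)} (h : Proj q E) : GG m B₀ :=
  mkG (LinearEquiv.ofInvolutive (wL A E) fun v =>
    ext3 (by simp [wL_apply, h.idem]; abel) (by simp [wL_apply, h.idem]; abel) (by simp [wL_apply]))
   fun v w => by
    change BB m B₀ (wL A E v) (wL A E w) = _
    simp [BB_eq, wL_apply, h.idem, h.symm]
    ring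

section
variable {E : End F (Fin m → F)} (h : Proj q E) (v : VV m F A)

theorem wE_apply : (wE B₀ h).1 v = v - (iL (E (pL v - pR v)) - iR (E (pL v - pR v))) := rfl

@[simp] theorem pL_wE : pL ((wE B₀ h).1 v) = pL v - E (pL v) + E (pR v) := by
  simp [wE_apply]; abel

@[simp] theorem pR_wE : pR ((wE B₀ h).1 v) = pR v - E (pR v) + E (pL v) := by
  simp [wE_apply]; abel

@[simp] theorem pA_wE : pA (F := F) ((wE B₀ h).1 v) = pA (F := F) v := by simp [wE_apply]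

theorem wE_mul_self : wE B₀ h * wE B₀ h = 1 :=
  Isom.ext' fun v => ext3 (by simp [h.idem]) (by simp [h.idem]) (by simp)

theorem wE_inv : (wE B₀ h)⁻¹ = wE B₀ h := inv_eq_of_mul_eq_one_right (wE_mul_self h)

end

/-- The full swap. -/
noncomputable abbrev JJ (m : ℕ) (B₀ : A →ₛₗ[σ] A →ₗ[F] F) : GG m B₀ := wE B₀ proj_one

theorem JJ_iL (x : Fin m → F) : (JJ m B₀).1 (iL x) = iR x := ext3 (by simp) (by simp) (by simp)

theorem JJ_iR (x : Fin m → F) : (JJ m B₀).1 (iR x) = iL x := ext3 (by simp) (by simp) (by simp)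

theorem JJ_JJ (v : VV m F A) : (JJ m B₀).1 ((JJ m B₀).1 v) = v := ext3 (by simp) (by simp) (by simp)

theorem JJ_conj_mem_UG {u : GG m B₀} (hu : u ∈ UL m B₀) :
    JJ m B₀ * u * JJ m B₀ ∈ UR m B₀ := by
  refine ⟨fun x hx => ?_, fun x hx => ?_⟩
  · rw [eq_iR hx, Isom.mul_apply, Isom.mul_apply, JJ_iR, hu.1 _ (iL_mem _), JJ_iL]
  · have := mem_LL.1 (hu.2 ((JJ m B₀).1 x) (mem_perp_LL.2 (by simpa using mem_perp_RR.1 hx)))
    simpa [mem_RR] using this

theorem JJ_conj_lv (a : (Fin m → F) ≃ₗ[F] (Fin m → F)) (γ : U1 F q) :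
    JJ m B₀ * lv m B₀ (a, γ) * (JJ m B₀)⁻¹ = lv m B₀ (dg q a, γ) := by
  rw [wE_inv]
  exact Isom.ext' fun v => ext3 (by simp) (by simp) (by simp)

/-! ### Witt's theorem -/

/-- Standing assumptions. -/
structure Setup (B₀ : A →ₛₗ[σ] A →ₗ[F] F) : Prop where
  herm : ∀ x y, σ (B₀ x y) = B₀ y x
  an : ∀ a, B₀ a a = 0 → a = 0
  le : finrank F A ≤ 1

theorem Setup.conj_BB (S : Setup B₀) (x y : VV m F A) : σ (BB m B₀ x y) = BB m B₀ y x := by
  simp [BB_eq, S.herm]; ring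

theorem Setup.formed (S : Setup B₀) (m : ℕ) : IsHermSpace q (BB m B₀) := by
  have : ∀ x : VV m F A, (∀ y, BB m B₀ y x = 0) → x = 0 := fun x h =>
    ext3 (eq_zero_of_hs (q := q) fun y => by simpa [BB_eq] using h (iR y))
      (eq_zero_of_hs (q := q) fun y => by simpa [BB_eq] using h (iL y))
      (S.an _ (by simpa [BB_eq] using h (iA (F := F) (pA (F := F) x))))
  exact isFormed_of_hermitian (conj_ne_id F q) conj_conj ⟨S.conj_BB⟩
    ⟨fun x h => this x fun y => by rw [← S.conj_BB, h, map_zero], this⟩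

theorem Setup.mem_LL_of (S : Setup B₀) {v : VV m F A} (h1 : pR v = 0) (h2 : BB m B₀ v v = 0) :
    v ∈ LL m F A := ⟨h1, S.an _ (by simpa [BB_eq, h1] using h2)⟩

variable [FiniteDimensional F A]

theorem Setup.exists_c (S : Setup B₀) {t : GG m B₀} (ht : t ∈ PP m B₀) :
    ∃ c : U1 F q, t * (lv m B₀ (1, c))⁻¹ ∈ PO m B₀ := by
  have h1 : ∀ a, pR (t.1 (iA (F := F) a)) = 0 := fun a =>
    mem_perp_LL.1 (PL.perp ht (mem_perp_LL.2 rfl))
  obtain ⟨c, hc⟩ : ∃ c : U1 F q, ∀ a, pA (F := F) (t.1 (iA (F := F) a)) = (c.1 : F) • a := by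
    obtain ⟨a₀, h⟩ := finrank_le_one_iff.1 S.le
    by_cases h0 : a₀ = 0
    · refine ⟨1, fun a => ?_⟩
      obtain ⟨c, rfl⟩ := h a
      simp [h0]
    obtain ⟨c, hc⟩ := h (pA (F := F) (t.1 (iA (F := F) a₀)))
    have h2 := Isom.map_B t (iA (F := F) a₀) (iA (F := F) a₀)
    rw [BB_eq, h1, ← hc] at h2
    refine ⟨mkU c (mul_right_cancel₀ (fun h => h0 (S.an _ h)) (by
      simpa [BB_eq, mul_left_comm, mul_assoc] using h2)), fun a => ?_⟩
    obtain ⟨s, rfl⟩ := h a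
    rw [map_smul, map_smul, map_smul, ← hc, smul_comm]; rfl
  refine ⟨c, (PL _ _ _).mul_mem ht ((PL _ _ _).inv_mem (lv_mem_PL 1 c)), fun x hx => ?_⟩
  obtain ⟨y, rfl⟩ := (lv m B₀ (1, c)).1.surjective x
  have hy : pR y = 0 := by simpa using mem_perp_LL.1 hx
  rw [Isom.mul_apply, Isom.inv_apply_apply, decomp y, hy]
  simp [apply_iL ht, mem_LL, h1, hc]

theorem Setup.exists_U (S : Setup B₀) (K : Submodule F (Fin m → F))
    (φ : (Fin m → F) →ₗ[F] VV m F A) (h1 : ∀ y ∈ K, pR (φ y) = y)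
    (h2 : ∀ y ∈ K, ∀ z ∈ K, BB m B₀ (φ y) (φ z) = 0) :
    ∃ u ∈ UL m B₀, ∀ y ∈ K, u.1 (iR y) = φ y := by
  let X : Submodule F (VV m F A) := K.comap pR ⊓ LinearMap.ker pA
  let ψ : X →ₗ[F] VV m F A := (iL ∘ₗ pL + φ ∘ₗ pR) ∘ₗ X.subtype
  have hψ : ∀ x : X, ψ x = iL (pL x.1) + φ (pR x.1) := fun _ => rfl
  have hQ : ∀ x y : X, BB m B₀ (ψ x) (ψ y) = BB m B₀ x y := by
    intro x y
    have h3 : pA (F := F) x.1 = 0 := x.2.2
    simp only [hψ, map_add, LinearMap.add_apply, h2 _ x.2.1 _ y.2.1]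
    simp [BB_eq, h3, h1 _ x.2.1, h1 _ y.2.1, add_comm]
  obtain ⟨g, g1, -, g3⟩ := (S.formed m).witt_inj
    X ψ ((injective_iff_map_eq_zero _).2 fun x hx => by
      have e1 := congrArg pR hx
      rw [hψ, map_add, h1 _ x.2.1, pR_iL, zero_add, map_zero] at e1
      have e2 := congrArg pL hx
      rw [hψ, e1, map_zero, add_zero, pL_iL, map_zero] at e2
      exact Subtype.ext (ext3 e2 e1 x.2.2)) hQ fun x => hQ x x
  let t : GG m B₀ := mkG g g1
  have t1 : ∀ x, t.1 (iL x) = iL x := fun x => by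
    simpa [hψ, t, mkG] using g3 ⟨iL x, K.zero_mem, rfl⟩
  have t2 : ∀ y ∈ K, t.1 (iR y) = φ y := fun y hy => by
    simpa [hψ, t, mkG] using g3 ⟨iR y, hy, rfl⟩
  obtain ⟨c, hc⟩ := S.exists_c (mem_PL_of_equiv (g := t) 1 t1)
  refine ⟨t * (lv m B₀ (1, c))⁻¹, ⟨fun x hx => ?_, hc.2⟩, fun y hy => ?_⟩
  · rw [eq_iL hx, ← map_inv, Isom.mul_apply, Prod.inv_mk, inv_one, lv_iL]; exact t1 _
  · rw [← map_inv, Isom.mul_apply, Prod.inv_mk, inv_one, lv_iR, map_one]; exact t2 y hy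

theorem Setup.exists_U' (S : Setup B₀) (φ : (Fin m → F) →ₗ[F] VV m F A)
    (h1 : ∀ y, pL (φ y) = y) (h2 : ∀ y z, BB m B₀ (φ y) (φ z) = 0) :
    ∃ u ∈ UR m B₀, ∀ y, u.1 (iL y) = φ y := by
  obtain ⟨u, hu, h⟩ := S.exists_U ⊤ (en (JJ m B₀) ∘ₗ φ) (fun y _ => by simp [h1])
    (fun y _ z _ => (Isom.map_B (JJ m B₀) _ _).trans (h2 y z))
  refine ⟨_, JJ_conj_mem_UG hu, fun y => ?_⟩
  rw [Isom.mul_apply, Isom.mul_apply, JJ_iL, h y trivial]
  exact JJ_JJ _

/-- The big cell. -/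
def Cell (h : GG m B₀) : Prop :=
  ∃ u ∈ UR m B₀, ∃ p ∈ PO m B₀, h = u * p

omit [FiniteDimensional F A] in
theorem Cell.mul {h p : GG m B₀} (hh : Cell h) (hp : p ∈ PO m B₀) :
    Cell (h * p) := by
  obtain ⟨u, hu, q, hq, rfl⟩ := hh
  exact ⟨u, hu, q * p, mul_mem hq hp, mul_assoc _ _ _⟩

theorem Setup.cell (S : Setup B₀) {h : GG m B₀} (h1 : Function.Injective (bL h))
    (h2 : ∀ a : A, ∃ x y, h.1 (iA (F := F) a + iL x) = iA (F := F) a + iR y) : Cell h := by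
  let β := LinearEquiv.ofInjectiveEndo _ h1
  obtain ⟨u, hu, e⟩ := S.exists_U' (en h ∘ₗ iL ∘ₗ (β.symm : End F (Fin m → F)))
    (fun y => β.apply_symm_apply y) (fun y z => (Isom.map_B h _ _).trans (by simp [BB_eq]))
  have p1 : ∀ x, (u⁻¹ * h).1 (iL x) = iL (β x) := fun x => by
    rw [Isom.mul_apply, inv_apply_eq_iff, e]; simp
  have p2 := mem_PL_of_equiv β p1
  refine ⟨u, hu, u⁻¹ * h, ⟨p2, fun v hv => ?_⟩, by group⟩
  obtain ⟨x, y, e1⟩ := h2 (pA (F := F) v)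
  have p3 : (u⁻¹ * h).1 (iA (F := F) (pA (F := F) v) + iL x) = iA (F := F) (pA (F := F) v) := by
    have a1 := mem_perp_LL.1 (PL.perp p2 (x := iA (F := F) (pA (F := F) v) + iL x)
      (mem_perp_LL.2 (by simp)))
    have a2 := mem_RR.1 (((UG _ _ _).inv_mem hu).2 (iA (F := F) (pA (F := F) v) + iR y)
      (mem_perp_RR.2 (by simp)))
    rw [Isom.mul_apply, e1] at a1 ⊢
    exact ext3 (by simpa using a2.1) a1 (by simpa [sub_eq_zero] using a2.2)
  have : v = iA (F := F) (pA (F := F) v) + iL x + iL (pL v - x) :=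
    ext3 (by simp) (by simp [mem_perp_LL.1 hv]) (by simp)
  rw [this, map_add, p3, p1]
  simp [mem_LL]

end Cfsg.Agent.Comm.UModel
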