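import Mathlib
import Cfsg.Agent.Comm.UModel

/-!
Every non-central element of `SU` is conjugate into the big cell, with Levi part of
determinant one.
-/

set_option autoImplicit false

namespace Cfsg.Agent.Comm.UModel

open Module Matrix Cfsg.Agent.Class Cfsg.Agent.Class.U Cfsg.Agent.Comm.UFpf

attribute [local simp] Isom.mul_apply Isom.one_apply conj_conj

variable {F A : Type*} [Field F] [AddCommGroup A] [Module F A] {m : ℕ} {q : ℕ} [UF F q]
  {B₀ : A →ₛₗ[conj F q] A →ₗ[F] F}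

local notation "σ" => conj F q

variable (q) in
/-- Coordinate projections. -/
structure Emb {r : ℕ} (E : End F (Fin m → F)) (P : (Fin m → F) →ₗ[F] (Fin r → F))
    (P' : (Fin r → F) →ₗ[F] (Fin m → F)) : Prop where
  pp : ∀ t, P (P' t) = t
  adj : ∀ t x, hs q (P' t) x = hs q t (P x)
  eq : ∀ x, E x = P' (P x)

section
variable {r : ℕ} {E : End F (Fin m → F)} {P : (Fin m → F) →ₗ[F] (Fin r → F)}
  {P' : (Fin r → F) →ₗ[F] (Fin m → F)}

theorem Emb.adj' (h : Emb q E P P') (t : Fin r → F) (x : Fin m → F) :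
    hs q x (P' t) = hs q (P x) t := by
  rw [← conj_hs, h.adj, conj_hs]

theorem Emb.proj (h : Emb q E P P') : Proj q E :=
  ⟨fun x => by simp [h.eq, h.pp], fun x y => by rw [h.eq, h.eq, h.adj, h.adj']⟩

end

variable (q) in
theorem exists_normal (C : End F (Fin m → F)) :
    ∃ (a b : (Fin m → F) ≃ₗ[F] (Fin m → F)) (E : End F (Fin m → F)) (r : ℕ)
      (P : (Fin m → F) →ₗ[F] (Fin r → F)) (P' : (Fin r → F) →ₗ[F] (Fin m → F)),
      (∀ x, a (C (b x)) = E x) ∧ Emb q E P P' := by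
  obtain ⟨V, U, e, hV, hU, h⟩ := exists_rank_normal_form (LinearMap.toMatrix' C)
  refine ⟨Orth.glEquiv _ _ hV.unit, Orth.glEquiv _ _ hU.unit, toLin' (V * LinearMap.toMatrix' C * U),
    (LinearMap.toMatrix' C).rank, LinearMap.funLeft F F fun j => e.symm (.inl j),
    LinearMap.funLeft F F e ∘ₗ (LinearEquiv.sumArrowLequivProdArrow _ _ F F).symm.toLinearMap ∘ₗ
      LinearMap.inl F _ _, fun x => ?_, fun t => ?_, fun t x => ?_, fun x => ?_⟩
  · simp [Orth.glEquiv_apply, - mulVec_mulVec]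
  · ext j; simp [LinearMap.funLeft_apply]
  · simp only [hs_apply, ← Equiv.sum_comp e.symm, Fintype.sum_sum_type]
    simp [LinearMap.funLeft_apply]
  · rw [h, toLin'_apply, submatrix_mulVec_equiv, fromBlocks_mulVec]
    ext i
    rcases hi : e i with j | j <;> simp [LinearMap.funLeft_apply, hi]

theorem exists_T {d : Fin m → F} (hd : hs q d d = 1) {s : F} (hs0 : s ≠ 0) :
    ∃ a : (Fin m → F) ≃ₗ[F] (Fin m → F), LinearMap.det (a : End F (Fin m → F)) = s ∧
      ∀ (E : End F (Fin m → F)) (h : Proj q E), E d = d →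
        lv m B₀ (a, 1) * wE B₀ h = wE B₀ h * lv m B₀ (dg q a, 1) := by
  have hun : IsUnit (1 + hs q d ((s - 1) • d)) := by simpa [hd] using hs0
  have h0 : σ s ≠ 0 := conj_ne_zero.2 hs0
  set a := LinearEquiv.dilatransvection hun
  have t1 : ∀ x, a x = x + ((s - 1) * hs q d x) • d := fun x => by
    simp [a, LinearEquiv.dilatransvection.apply, smul_smul, mul_comm]
  have t2 : ∀ y, dg q a y = y + (((σ s)⁻¹ - 1) * hs q d y) • d := fun y =>
    eq_of_hs (q := q) fun x => by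
      obtain ⟨x, rfl⟩ := a.surjective x
      rw [hs_apply_dg, t1]
      simp [hd]
      field_simp
      ring
  refine ⟨a, ?_, fun E h hE => ?_⟩
  · rw [LinearEquiv.dilatransvection.coe_toLinearMap, LinearMap.transvection.det]
    simp [hd]
  · have h1 : ∀ x, hs q d (E x) = hs q d x := fun x => by rw [← h.symm, hE]
    refine Isom.ext' fun v => ext3 ?_ ?_ (by simp)
    · simp [t1, t2, h1, hE]
      module
    · simp [t1, t2, h1, hE]
      module

variable [FiniteDimensional F A]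

theorem Setup.exists_wall (S : Setup B₀) (c : U1 F q) {r : ℕ} (i₀ : Fin r) :
    ∃ (D : End F (Fin r → F)) (Y : (Fin r → F) →ₗ[F] A), Function.Injective D ∧
      (∀ y z, hs q (D y) z + hs q y (D z) + B₀ (Y y) (Y z) = 0) ∧
      ∀ a, ∃ y, (c.1 : F) • a - a = Y y ∧ ∀ y', hs q y' (D y) = - B₀ (Y y') ((c.1 : F) • a) := by
  obtain ⟨ε, ε0, hε⟩ := exists_trace_zero F q
  by_cases h : ∀ a : A, (c.1 : F) • a = a
  · refine ⟨ε • 1, 0, smul_right_injective _ ε0, fun y z => ?_, fun a => ⟨0, by simp [h], by simp⟩⟩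
    simp
    linear_combination hs q y z * hε
  push Not at h
  obtain ⟨a₀, h⟩ := h
  have h0 : a₀ ≠ 0 := by rintro rfl; simp at h
  have h1 : (c.1 : F) - 1 ≠ 0 := fun e => h (by rw [sub_eq_zero.1 e, one_smul])
  have h2 : σ c.1 * c.1 = 1 := c.2
  have h3 : σ c.1 - 1 ≠ 0 := by simpa using (conj_ne_zero (q := q)).2 h1
  have h4 : B₀ a₀ a₀ ≠ 0 := fun e => h0 (S.an _ e)
  set δ := -(c.1 * B₀ a₀ a₀) / (c.1 - 1) with hδ
  have h5 : δ ≠ 0 := by simp [hδ, h1, h4]
  have h6 : σ δ + δ + B₀ a₀ a₀ = 0 := by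
    simp only [hδ, map_div₀, map_neg, map_mul, map_sub, map_one, S.herm]
    field_simp
    linear_combination -(B₀ a₀ a₀) * h2
  have h7 : ∀ y : Fin r → F, hs q y (Pi.single i₀ 1) = σ (y i₀) := fun y => by
    rw [← conj_hs, hs_single]
  refine ⟨ε • 1 + (δ - ε) • (LinearMap.proj i₀).smulRight (Pi.single i₀ 1),
    (LinearMap.proj i₀).smulRight a₀, (injective_iff_map_eq_zero _).2 fun y hy => ?_,
    fun y z => ?_, fun a => ?_⟩
  · have := congrFun hy i₀
    have h8 : y i₀ = 0 := by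
      refine (mul_eq_zero.1 ?_).resolve_left h5
      simp at this
      linear_combination this
    simpa [h8, ε0] using hy
  · simp [h7]
    linear_combination (hs q y z - σ (y i₀) * z i₀) * hε + σ (y i₀) * z i₀ * h6
  · obtain ⟨s, rfl⟩ := (finrank_eq_one_iff_of_nonzero' a₀ h0).1
      (le_antisymm S.le (finrank_pos_iff_exists_ne_zero.2 ⟨a₀, h0⟩)) a
    refine ⟨((c.1 - 1) * s) • Pi.single i₀ 1, by simp; module, fun y' => ?_⟩
    simp [h7, hδ]
    field_simp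
    ring

theorem Setup.isNorm (hU : ∀ u ∈ UL m B₀, dt u = 1) (hU' : ∀ u ∈ UR m B₀, dt u = 1) {h : GG m B₀}
    (hc : Cell h) (hh : dt h = 1) : ∃ s : F, s ≠ 0 ∧ LinearMap.det (bL h) = s * σ s := by
  obtain ⟨u', hu', p, hp, rfl⟩ := hc
  obtain ⟨b, hb, u, hu, e⟩ := exists_lv_mul hp
  have h0 := (LinearEquiv.isUnit_det' b).ne_zero
  rw [e, map_mul, map_mul, hU' _ hu', hU _ hu, dt_lv] at hh
  obtain ⟨s, hs⟩ := exists_norm_eq (q := q) (μ := LinearMap.det (b : End F (Fin m → F))) (by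
    have := (conj_ne_zero (q := q)).2 h0
    simp only [OneMemClass.coe_one, Units.val_one, one_pow, mul_one, one_mul] at hh
    field_simp at hh
    exact hh.symm)
  refine ⟨s, ?_, by rw [bL_UG' hu', ← hb, hs]⟩
  rintro rfl
  exact h0 (by rw [← hs, zero_mul])

theorem Setup.cell_wc (S : Setup B₀) (c : U1 F q) {r : ℕ} (i₀ : Fin r) {E : End F (Fin m → F)}
    {P : (Fin m → F) →ₗ[F] (Fin r → F)} {P' : (Fin r → F) →ₗ[F] (Fin m → F)} (h : Emb q E P P') :
    ∃ u ∈ UL m B₀, Cell (u * (wE B₀ h.proj * lv m B₀ (1, c))) := by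
  obtain ⟨D, Y, h1, h2, h3⟩ := S.exists_wall c i₀
  obtain ⟨u, hu, e⟩ := S.exists_U ⊤ (iR + iL ∘ₗ P' ∘ₗ D ∘ₗ P + iA ∘ₗ Y ∘ₗ P) (fun y _ => by simp)
    (fun y _ z _ => by simp [BB_eq, h.adj, h.adj']; linear_combination h2 (P y) (P z))
  have e' : ∀ y, u.1 (iR y) = iR y + iL (P' (D (P y))) + iA (F := F) (Y (P y)) := fun y => e y trivial
  have a1 : ∀ x, (u * (wE B₀ h.proj * lv m B₀ (1, c))).1 (iL x) =
      iL (x - E x + P' (D (P x))) + iR (E x) + iA (F := F) (Y (P x)) := by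
    intro x
    have : (wE B₀ h.proj).1 (iL x) = iL (x - E x) + iR (E x) := ext3 (by simp) (by simp) (by simp)
    rw [Isom.mul_apply, Isom.mul_apply, lv_iL, LinearEquiv.coe_one, id, this, map_add,
      hu.1 _ (iL_mem _), e', h.eq x, h.pp, map_add]
    abel
  refine ⟨u, hu, S.cell ((injective_iff_map_eq_zero _).2 fun x hx => ?_) fun a => ?_⟩
  · rw [bL_apply, a1] at hx
    simp only [map_add, pL_iL, pL_iR, pL_iA, add_zero] at hx
    have h4 := congrArg P hx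
    rw [map_add, map_sub, h.eq, h.pp, h.pp, sub_self, zero_add, map_zero, ← map_zero D] at h4
    rw [h.eq, h1 h4] at hx
    simpa using hx
  · obtain ⟨y, y1, y2⟩ := h3 a
    obtain ⟨l, hl⟩ : ∃ l, u.1 (iA (F := F) ((c.1 : F) • a)) = iA (F := F) ((c.1 : F) • a) + iL l :=
      ⟨_, by rw [← eq_iL (hu.2 _ (mem_perp_LL.2 (pR_iA ((c.1 : F) • a))))]; abel⟩
    have hP : P l = D y := by
      refine eq_of_hs (q := q) fun t => ?_
      have := Isom.map_B u (iR (P' t)) (iA (F := F) ((c.1 : F) • a))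
      rw [hl, e', h.pp] at this
      rw [y2]
      simp [BB_eq, h.adj] at this ⊢
      linear_combination this
    have a2 : (u * (wE B₀ h.proj * lv m B₀ (1, c))).1 (iA (F := F) a) =
        iA (F := F) ((c.1 : F) • a) + iL l := by
      have : (wE B₀ h.proj).1 (iA (F := F) ((c.1 : F) • a)) = iA (F := F) ((c.1 : F) • a) :=
        ext3 (by simp) (by simp) (by simp)
      rw [Isom.mul_apply, Isom.mul_apply, lv_iA, this, hl]
    refine ⟨E l - l - P' y, -P' y, ?_⟩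
    rw [map_add, a1, a2]
    refine ext3 ?_ ?_ ?_
    · simp [h.eq, h.pp, hP]
      abel
    · simp [h.eq, h.pp]
    · simp [h.eq, h.pp, ← y1]

theorem Setup.exists_cell (S : Setup B₀) (hU : ∀ u ∈ UL m B₀, dt u = 1)
    (hU' : ∀ u ∈ UR m B₀, dt u = 1) {g : GG m B₀} (hg : dt g = 1) (hg' : g ∉ PP m B₀) :
    ∃ k ∈ PP m B₀, Cell (k * g * k⁻¹) ∧ LinearMap.det (bL (k * g * k⁻¹)) = 1 := by
  obtain ⟨a, b, E, r, P, P', hE, emb⟩ := exists_normal q (pR ∘ₗ en g ∘ₗ iL)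
  have pr := emb.proj
  set l₁ := lv m B₀ (dg q a, 1) with hl₁
  have m₁ : l₁ ∈ PO m B₀ := lv_mem_P0 _
  have m₂ := lv_mem_P0 (B₀ := B₀) b
  set g₁ := l₁ * g * lv m B₀ (b, 1) with hg₁
  have e1 : ∀ x, pR (g₁.1 (iL x)) = E x := fun x => by
    rw [← hE]; simp [hg₁, hl₁, lv_iL]
  obtain ⟨u, hu, e2⟩ := S.exists_U (LinearMap.range E) (en g₁ ∘ₗ iL)
    (by rintro _ ⟨x, rfl⟩; exact (e1 _).trans (pr.idem x))
    (fun y _ z _ => (Isom.map_B g₁ _ _).trans (by simp [BB_eq]))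
  have e3 : ∀ x, (u⁻¹ * g₁).1 (iL (E x)) = iR (E x) := fun x => by
    rw [Isom.mul_apply, inv_apply_eq_iff, e2 _ ⟨x, rfl⟩]; rfl
  have e4 : wE B₀ pr * (u⁻¹ * g₁) ∈ PP m B₀ := by
    refine mem_PL_of fun x => ?_
    set z := (u⁻¹ * g₁).1 (iL (x - E x)) with hz
    have z1 : z ∈ LL m F A := S.mem_LL_of
      (by rw [hz, Isom.mul_apply, pR_UG (inv_mem hu), e1, map_sub, pr.idem, sub_self])
      (by rw [hz, Isom.map_B (u⁻¹ * g₁)]; simp [BB_eq])
    have z2 : E (pL z) = 0 := eq_zero_of_hs (q := q) fun y => by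
      have := Isom.map_B (u⁻¹ * g₁) (iL (E y)) (iL (x - E x))
      rw [e3, ← hz] at this
      rw [← pr.symm]
      simpa [BB_eq] using this
    have : (u⁻¹ * g₁).1 (iL x) = iR (E x) + z := by
      rw [hz, ← e3, ← map_add, ← map_add, add_sub_cancel]
    rw [Isom.mul_apply, this]
    simp [mem_LL, pr.idem, z2, (mem_LL.1 z1).1, (mem_LL.1 z1).2]
  obtain ⟨c, hc⟩ := S.exists_c e4
  have hp := conj_mem_P0 (inv_mem (lv_mem_PL 1 c)) hc
  set w := wE B₀ pr * lv m B₀ (1, c) with hw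
  set p := (lv m B₀ (1, c))⁻¹ * (wE B₀ pr * (u⁻¹ * g₁) * (lv m B₀ (1, c))⁻¹) *
    (lv m B₀ (1, c))⁻¹⁻¹ * (lv m B₀ (b, 1))⁻¹ * (u⁻¹ * l₁)⁻¹ with hp₁
  have m₃ : u⁻¹ * l₁ ∈ PO m B₀ := mul_mem (inv_mem (UG_le_P0 _ hu)) m₁
  have m₄ : p ∈ PO m B₀ := mul_mem (mul_mem hp (inv_mem m₂)) (inv_mem m₃)
  have e5 : u⁻¹ * l₁ * g * (u⁻¹ * l₁)⁻¹ = w * p := by
    rw [hw, hp₁, hg₁]
    nth_rewrite 1 [← wE_inv pr]
    group
  have m₅ : dt (w * p) = 1 := by rw [← e5, dt_conj, hg]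
  have r0 : r ≠ 0 := by
    rintro rfl
    refine hg' (mem_PL_of fun x => S.mem_LL_of ?_ ((Isom.map_B g _ _).trans (by simp [BB_eq])))
    have := hE (b.symm x)
    rw [emb.eq, Subsingleton.elim (P _) 0, map_zero] at this
    simpa using this
  obtain ⟨v, hv, hcell⟩ := S.cell_wc c ⟨0, by omega⟩ emb
  change Cell (v * w) at hcell
  have hv' := UG_le_P0 _ hv
  obtain ⟨s, s0, hs⟩ := Setup.isNorm hU hU' (hcell.mul (mul_mem m₄ (inv_mem hv')))
    (by simpa only [mul_assoc] using (dt_conj v _).trans m₅)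
  obtain ⟨t, t1, t3⟩ := exists_T (B₀ := B₀) (d := P' (Pi.single ⟨0, by omega⟩ 1))
    (by simp [emb.adj, emb.pp]) s0
  have t4 := t3 E pr (by rw [emb.eq, emb.pp])
  have t5 : lv m B₀ (t, 1) * w = w * lv m B₀ (dg q t, 1) := by
    rw [hw, ← mul_assoc, t4, mul_assoc, mul_assoc, ← map_mul, ← map_mul]; simp
  have e7 : v * lv m B₀ (t, 1) * (u⁻¹ * l₁) * g * (v * lv m B₀ (t, 1) * (u⁻¹ * l₁))⁻¹ =
      v * w * (lv m B₀ (dg q t, 1) * (p * (lv m B₀ (t⁻¹, 1) * v⁻¹))) := by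
    have : lv m B₀ (t⁻¹, 1) = (lv m B₀ (t, 1))⁻¹ := by rw [← map_inv]; simp
    calc _ = v * lv m B₀ (t, 1) * (u⁻¹ * l₁ * g * (u⁻¹ * l₁)⁻¹) * (lv m B₀ (t, 1))⁻¹ * v⁻¹ := by group
      _ = v * (lv m B₀ (t, 1) * w) * p * (lv m B₀ (t, 1))⁻¹ * v⁻¹ := by rw [e5]; group
      _ = _ := by rw [t5, this]; group
  have i0 := lv_mem_P0 (B₀ := B₀) (dg q t)
  have i1 := lv_mem_P0 (B₀ := B₀) t⁻¹
  have i2 := inv_mem hv'
  refine ⟨_, (mul_mem (mul_mem hv' (lv_mem_P0 t)) m₃).1, ?_, ?_⟩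
  · rw [e7]
    exact hcell.mul (mul_mem i0 (mul_mem m₄ (mul_mem i1 i2)))
  · rw [bL_mul _ (mul_mem m₄ i2).1, bL_mul _ i2.1, map_mul, map_mul] at hs
    rw [e7, bL_mul _ (mul_mem i0 (mul_mem m₄ (mul_mem i1 i2))).1,
      bL_mul _ (mul_mem m₄ (mul_mem i1 i2)).1, bL_mul _ (mul_mem i1 i2).1, bL_mul _ i2.1]
    have t6 : LinearMap.det (t⁻¹ : (Fin m → F) ≃ₗ[F] (Fin m → F)).toLinearMap = s⁻¹ := by
      rw [← t1]; exact eq_inv_of_mul_eq_one_left (LinearEquiv.det_symm_mul_det t)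
    have := (conj_ne_zero (q := q)).2 s0
    simp only [map_mul, bL_lv, det_dg, t1, t6]
    field_simp
    linear_combination hs

theorem Setup.exists_notMem_PL (S : Setup B₀) (hm : 1 ≤ m) {g : GG m B₀} {x : VV m F A}
    (hx : BB m B₀ x x = 0) (hx' : ∀ c : F, g.1 x ≠ c • x) : ∃ k : GG m B₀, k * g * k⁻¹ ∉ PP m B₀ := by
  have hB := S.formed m
  let i₀ : Fin m := ⟨0, by omega⟩
  have hx0 : x ≠ 0 := by rintro rfl; exact hx' 0 (by simp)
  have he : (iL (Pi.single i₀ 1) : VV m F A) ≠ 0 := fun h => by simpa using congrArg pL h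
  by_cases hp : BB m B₀ x (g.1 x) = 0 ∧ 2 ≤ m
  · let i₁ : Fin m := ⟨1, by omega⟩
    have h5 : ∀ i j, BB m B₀ (![iL (Pi.single i₀ 1), iR (Pi.single i₁ 1)] i)
        (![iL (Pi.single i₀ 1), iR (Pi.single i₁ 1)] j) = BB m B₀ (![x, g.1 x] i) (![x, g.1 x] j) := by
      have : (Pi.single i₀ 1 : Fin m → F) i₁ = 0 := Pi.single_eq_of_ne (by simp [i₀, i₁]) _
      have h4 : (Pi.single i₁ 1 : Fin m → F) i₀ = 0 := Pi.single_eq_of_ne (by simp [i₀, i₁]) _
      simp only [Fin.forall_fin_two, cons_val_zero, cons_val_one, hp.1, hB.refl hp.1, hx,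
        Isom.map_B g]
      simp [BB_eq, this, h4]
    obtain ⟨k, k1, -, hk⟩ := hB.witt_family (a := ![x, g.1 x])
      (b := ![iL (Pi.single i₀ 1), iR (Pi.single i₁ 1)])
      ((LinearIndependent.pair_iff' hx0).2 fun c h => hx' c h.symm)
      ((LinearIndependent.pair_iff' he).2 fun c h => by simpa using (congrArg pR h).symm)
      h5 fun i => h5 i i
    refine ⟨mkG k k1, fun h => ?_⟩
    have h0 : (mkG k k1).1 x = iL (Pi.single i₀ 1) := hk 0
    have h1 : (mkG k k1).1 (g.1 x) = iR (Pi.single i₁ 1) := hk 1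
    have := (h _).2 (iL_mem (Pi.single i₀ 1))
    rw [← h0, Isom.mul_apply, Isom.mul_apply, Isom.inv_apply_apply, h1] at this
    simpa using (mem_LL.1 this).1
  · obtain ⟨k, k1, -, hk⟩ := hB.witt_vector hx0 he (by rw [hx]; simp [BB_eq])
    have h0 : (mkG k k1).1 x = iL (Pi.single i₀ 1) := hk
    refine ⟨mkG k k1, fun h => hp ?_⟩
    have := (h _).2 (iL_mem (Pi.single i₀ 1))
    rw [← h0, Isom.mul_apply, Isom.mul_apply, Isom.inv_apply_apply] at this
    refine ⟨by rw [← Isom.map_B (mkG k k1), h0, eq_iL this]; simp [BB_eq], ?_⟩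
    by_contra h2
    obtain rfl : m = 1 := by omega
    refine hx' (pL ((mkG k k1).1 (g.1 x)) i₀) ((mkG k k1).1.injective ?_)
    rw [map_smul, h0, ← map_smul]
    refine (eq_iL this).trans (congrArg iL (funext fun i => ?_))
    simp [Subsingleton.elim i i₀]

omit [FiniteDimensional F A] in
theorem exists_isotropic_skew {K : Submodule F (Fin m → F)} (hK : 2 ≤ finrank F K)
    (C : End F (Fin m → F)) (h : ∀ x ∈ K, ∀ y ∈ K, hs q (C x) y + hs q x (C y) = 0) :
    ∃ d ∈ K, d ≠ 0 ∧ hs q d (C d) = 0 := by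
  obtain ⟨x, hx, hx0⟩ := K.exists_mem_ne_zero_of_ne_bot (by rintro rfl; simp at hK)
  by_cases h1 : hs q x (C x) = 0
  · exact ⟨x, hx, hx0, h1⟩
  obtain ⟨y, hy, hy0⟩ := Submodule.exists_mem_ne_zero_of_ne_bot
    (((hs q x ∘ₗ C).domRestrict K).ker_ne_bot_of_finrank_lt (by simp; omega))
  have h2 : hs q x (C y) = 0 := hy
  have h3 : hs q y (C x) = 0 := hs_zero_comm (by simpa [h2] using h x hx y y.2)
  have h4 : ∀ z ∈ K, σ (hs q z (C z)) = - hs q z (C z) := fun z hz => by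
    rw [conj_hs]; linear_combination h z hz z hz
  obtain ⟨s, hs'⟩ := exists_norm_eq (q := q) (μ := - hs q y (C y) / hs q x (C x)) (by
    rw [map_div₀, map_neg, h4 x hx, h4 y y.2, neg_div_neg_eq])
  refine ⟨s • x + y, K.add_mem (K.smul_mem _ hx) y.2, fun h5 => ?_, ?_⟩
  · have h6 := congrArg (fun z => hs q x (C z)) h5
    simp [h1, h2] at h6
    simp [h6] at h5
    exact hy0 h5
  · simp [h2, h3]
    field_simp at hs'
    linear_combination hs'

theorem Setup.exists_perturb (S : Setup B₀) (hm : finrank F A + 2 ≤ m) {h : GG m B₀} (hc : Cell h)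
    (hh : h ∉ PP m B₀) : ∃ k : GG m B₀, Cell (k * h * k⁻¹) ∧
      ∃ (f : Dual F (Fin m → F)) (d : Fin m → F), f ≠ 0 ∧ d ≠ 0 ∧ f d = 0 ∧
        bL (k * h * k⁻¹) = LinearMap.transvection f d * bL h := by
  obtain ⟨u, hu, p, hp, rfl⟩ := hc
  let C : End F (Fin m → F) := pR ∘ₗ en u ∘ₗ iL
  let X : (Fin m → F) →ₗ[F] A := pA ∘ₗ en u ∘ₗ iL
  have e1 : ∀ x, u.1 (iL x) = iL x + iR (C x) + iA (F := F) (X x) := fun x =>
    ext3 (by simp [pL_UG hu]) (by simp [C]) (by simp [X])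
  have e2 : ∀ x y, hs q (C x) y + hs q x (C y) + B₀ (X x) (X y) = 0 := fun x y => by
    have := Isom.map_B u (iL x) (iL y)
    rw [e1, e1] at this
    simp [BB_eq] at this
    linear_combination this
  obtain ⟨d, hd1, hd0, e3⟩ := exists_isotropic_skew (q := q) (K := LinearMap.ker X) (by
    have := X.finrank_range_add_finrank_ker
    have := (LinearMap.range X).finrank_le
    simp only [finrank_fintype_fun_eq_card, Fintype.card_fin] at *
    omega) C fun x _ y hy => by simpa [show X y = 0 from hy] using e2 x y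
  have hX : X d = 0 := hd1
  have e4 : ∀ x, hs q d (C x) = - hs q (C d) x := fun x => by
    have := e2 d x
    rw [hX, map_zero, LinearMap.zero_apply] at this
    linear_combination this
  obtain ⟨e, f, f0, f1, f2⟩ : ∃ (e : Fin m → F) (f : Dual F (Fin m → F)), f ≠ 0 ∧ hs q e (C d) = 0 ∧
      ∀ x, hs q e (C x) • d - hs q d (C x) • e = f x • d := by
    by_cases hC : C d = 0
    · obtain ⟨x₀, hx₀⟩ : ∃ x₀, C x₀ ≠ 0 := by
        by_contra hc
        push Not at hc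
        exact hh (mul_mem (mem_PL_of fun x => S.mem_LL_of (hc x)
          ((Isom.map_B u _ _).trans (by simp [BB_eq]))) hp.1)
      obtain ⟨e, he⟩ : ∃ e, hs q e (C x₀) ≠ 0 := by
        by_contra hc
        push Not at hc
        exact hx₀ (eq_zero_of_hs hc)
      exact ⟨e, hs q e ∘ₗ C, fun h => he (LinearMap.congr_fun h x₀), by simp [hC],
        fun x => by simp [e4, hC]⟩
    · obtain ⟨s, hs'⟩ := exists_conj_ne F q
      refine ⟨s • d, (σ s - s) • hs q d ∘ₗ C, fun h => hC (eq_zero_of_hs (q := q) fun x => ?_),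
        by simp [e3], fun x => by simp; module⟩
      have := LinearMap.congr_fun h x
      simp [sub_eq_zero, hs', e4] at this
      exact hs_zero_comm this
  obtain ⟨v, hv, v0⟩ := S.exists_U ⊤ (iR + iL ∘ₗ ((hs q e).smulRight d - (hs q d).smulRight e))
    (fun y _ => by simp) (fun y _ z _ => by simp [BB_eq]; ring)
  have v1 : ∀ z, v.1 z = z + iL (hs q e (pR z) • d - hs q d (pR z) • e) := by
    have v2 : ∀ a, v.1 (iA (F := F) a) = iA (F := F) a := fun a => by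
      have h1 := hv.2 _ (mem_perp_LL.2 (pR_iA a))
      refine ext3 (eq_zero_of_hs (q := q) fun y => ?_) (by simpa using h1.1)
        (by simpa [sub_eq_zero] using (mem_LL.1 h1).2)
      have := Isom.map_B v (iR y) (iA (F := F) a)
      rw [v0 y trivial] at this
      simpa [BB_eq, pR_UG hv] using this
    intro z
    conv_lhs => rw [decomp z]
    rw [map_add, map_add, hv.1 _ (iL_mem _), v0 _ trivial, v2]
    exact ext3 (by simp) (by simp) (by simp)
  have f3 : f d = 0 := by simpa [f1, e3, hd0] using (f2 d).symm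
  have b1 : bL (v * u) = LinearMap.transvection f d := LinearMap.ext fun x => by
    simp [bL_apply, v1, e1, f2, LinearMap.transvection.apply]
  have b3 : Cell (v * u) := by
    refine S.cell (by rw [b1]; exact (LinearEquiv.transvection f3).injective) fun a => ?_
    obtain ⟨y, hy⟩ : ∃ y, u.1 (iA (F := F) a) = iA (F := F) a + iR y :=
      ⟨_, by rw [← eq_iR (hu.2 _ (mem_perp_RR.2 (pL_iA a)))]; abel⟩
    have h1 : hs q d y = 0 := by
      have := Isom.map_B u (iL d) (iA (F := F) a)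
      rw [hy, e1] at this
      simpa [BB_eq, hX] using this
    refine ⟨-hs q e y • d, y - hs q e y • C d, ?_⟩
    rw [Isom.mul_apply, map_add, hy, e1, v1]
    exact ext3 (by simp [h1, f1, e3]) (by simp [sub_eq_add_neg]) (by simp [hX])
  have i1 := UG_le_P0 _ (inv_mem hv)
  have e5 : v * (u * p) * v⁻¹ = v * u * (p * v⁻¹) := by group
  refine ⟨v, e5 ▸ b3.mul (mul_mem hp i1), f, d, f0, hd0, f3, ?_⟩
  rw [e5, bL_mul _ (mul_mem hp i1).1, bL_mul _ i1.1, bL_UG (inv_mem hv), mul_one, b1, bL_UG' hu]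

/-- Every element of determinant one has property `G`, possibly after a perturbation. -/
def Ok (A : Type*) [AddCommGroup A] [Module F A] (G : ((Fin m → F) ≃ₗ[F] (Fin m → F)) → Prop) : Prop :=
  ∀ b : (Fin m → F) ≃ₗ[F] (Fin m → F), LinearMap.det (b : End F (Fin m → F)) = 1 → G b ∨
    (finrank F A + 2 ≤ m ∧ ∀ (f : Dual F (Fin m → F)) (d : Fin m → F) (h : f d = 0), f ≠ 0 → d ≠ 0 →
      G (LinearEquiv.transvection h * b))

theorem Setup.exists_good (S : Setup B₀) (hU : ∀ u ∈ UL m B₀, dt u = 1)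
    (hU' : ∀ u ∈ UR m B₀, dt u = 1) {G : ((Fin m → F) ≃ₗ[F] (Fin m → F)) → Prop} (hG : Ok A G)
    {g : GG m B₀} (hg : dt g = 1) (hg' : g ∉ PP m B₀) :
    ∃ (k : GG m B₀) (b : (Fin m → F) ≃ₗ[F] (Fin m → F)), G b ∧
      ∃ u ∈ UL m B₀, ∃ u' ∈ UR m B₀, k * g * k⁻¹ = u' * lv m B₀ (b, 1) * u := by
  obtain ⟨q₂, a2, a3, a4⟩ := S.exists_cell hU hU' hg hg'
  have key : ∀ {h : GG m B₀}, Cell h → ∃ b : (Fin m → F) ≃ₗ[F] (Fin m → F),
      (b : End F (Fin m → F)) = bL h ∧ ∃ u ∈ UL m B₀, ∃ u' ∈ UR m B₀, h = u' * lv m B₀ (b, 1) * u := by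
    rintro _ ⟨u', hu', p, hp, rfl⟩
    obtain ⟨b, hb, u, hu, e'⟩ := exists_lv_mul hp
    exact ⟨b, by rw [bL_UG' hu', hb], u, hu, u', hu', by rw [mul_assoc, ← e']⟩
  obtain ⟨b, hb, h⟩ := key a3
  rcases hG b (hb ▸ a4) with h1 | ⟨h1, h2⟩
  · exact ⟨q₂, b, h1, h⟩
  obtain ⟨q₃, a5, f, d, f0, d0, fd, a6⟩ := S.exists_perturb h1 a3 (fun h => hg' (by
    simpa [mul_assoc] using mul_mem (mul_mem (inv_mem a2) h) a2))
  obtain ⟨b', hb', h'⟩ := key a5
  refine ⟨q₃ * q₂, b', ?_, by simpa only [_root_.mul_inv_rev, mul_assoc] using h'⟩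
  rw [show b' = LinearEquiv.transvection fd * b from
    LinearEquiv.toLinearMap_injective (by rw [hb', a6, ← hb]; rfl)]
  exact h2 f d fd f0 d0

end Cfsg.Agent.Comm.UModel
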