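import Mathlib
import Cfsg.Agent.Comm.UFpf

/-!
Monic polynomials of given degree coprime to their conjugate reverse.
-/

set_option autoImplicit false

namespace Cfsg.Agent.Comm.UPoly

open Polynomial Cfsg.Agent.Class.U Cfsg.Agent.Comm.UFpf

variable {F : Type*} [Field F] {q : ℕ} [UF F q]

local notation "σ" => conj F q

variable (q) in
/-- `p` is coprime to its conjugate reverse. -/
def Cp (p : F[X]) : Prop := ∃ d, p.natDegree ≤ d ∧ IsCoprime p (dag σ d p)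

theorem dag_pow {d : ℕ} {p : F[X]} (h : p.natDegree ≤ d) (N : ℕ) :
    dag σ (N * d) (p ^ N) = dag σ d p ^ N := by
  induction N with
  | zero => simp [dag]
  | succ N ih =>
    rw [pow_succ, pow_succ, add_mul, one_mul,
      dag_mul (natDegree_pow_le.trans (Nat.mul_le_mul_left N h)) h, ih]

theorem Cp.pow {p : F[X]} (h : Cp q p) (N : ℕ) : Cp q (p ^ N) := by
  obtain ⟨d, h1, h2⟩ := h
  exact ⟨N * d, natDegree_pow_le.trans (Nat.mul_le_mul_left N h1), dag_pow (q := q) h1 N ▸ h2.pow⟩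

theorem eval_dag {d : ℕ} {p : F[X]} (h : p.natDegree ≤ d) {x : F} (hx : x ≠ 0) :
    (dag σ d p).eval x = x ^ d * σ (p.eval (σ x)⁻¹) := by
  let _ := invertibleOfNonzero (inv_ne_zero hx)
  have := eval₂_reflect_mul_pow (RingHom.id F) x⁻¹ d (p.map σ) (natDegree_map_le.trans h)
  rw [invOf_eq_inv, inv_inv, eval₂_id, eval₂_id] at this
  rw [← eval_map_apply, map_inv₀, conj_conj, ← this, dag, inv_pow]
  field_simp

theorem Cp.eval_ne {p : F[X]} (h : Cp q p) {x : F} (hx : σ x * x = 1) :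
    ∃ d, p.natDegree ≤ d ∧ IsCoprime p (dag σ d p) ∧ p.eval x ≠ 0 ∧ (dag σ d p).eval x ≠ 0 := by
  obtain ⟨d, h1, h2⟩ := h
  have h0 := right_ne_zero_of_mul_eq_one hx
  have h3 := eval_dag (q := q) h1 h0
  rw [← eq_inv_of_mul_eq_one_right hx] at h3
  have h4 : p.eval x ≠ 0 := fun h => by
    obtain ⟨u, v, e⟩ := h2
    simpa [h, h3] using congrArg (eval x) e
  exact ⟨d, h1, h2, h4, by simp [h3, h0, h4]⟩

theorem dag_dag (d : ℕ) (p : F[X]) : dag σ d (dag σ d p) = p := by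
  ext i
  simp [dag, conj_conj]

theorem dag_one (a : F) : dag σ 1 (X - C a) = 1 - C (σ a) * X := by
  have := reflect_C_mul_X_pow (R := F) 1 1 (c := 1)
  simp only [dag, Polynomial.map_sub, map_X, map_C, reflect_sub, reflect_C]
  simp_all

theorem dag_two (a b : F) : dag σ 2 (X ^ 2 + C a * X + C b) = 1 + C (σ a) * X + C (σ b) * X ^ 2 := by
  have h1 := reflect_C_mul_X_pow (R := F) 2 1 (c := σ a)
  simp only [dag, Polynomial.map_add, Polynomial.map_mul, Polynomial.map_pow, map_X, map_C,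
    reflect_add, reflect_C, reflect_monomial]
  simp_all

theorem dag_three (a b c : F) : dag σ 3 (X ^ 3 + C a * X ^ 2 + C b * X + C c) =
    1 + C (σ a) * X + C (σ b) * X ^ 2 + C (σ c) * X ^ 3 := by
  have h1 := reflect_C_mul_X_pow (R := F) 3 1 (c := σ b)
  simp only [dag, Polynomial.map_add, Polynomial.map_mul, Polynomial.map_pow, map_X, map_C,
    reflect_add, reflect_C, reflect_monomial, reflect_C_mul_X_pow]
  simp_all

theorem coprime_dag {p : F[X]} (h1 : p.Monic) (h2 : Irreducible p)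
    (h3 : σ (p.coeff 0) * p.coeff 0 ≠ 1) : IsCoprime p (dag σ p.natDegree p) := by
  refine h2.coprime_iff_not_dvd.2 fun ⟨c, hc⟩ => h3 ?_
  have e0 : (dag σ p.natDegree p).coeff 0 = 1 := by simp [dag, h1.coeff_natDegree]
  have e1 : (dag σ p.natDegree p).coeff p.natDegree = σ (p.coeff 0) := by simp [dag]
  have c0 : c ≠ 0 := by rintro rfl; simp [hc] at e0
  have e2 : (dag σ p.natDegree p).natDegree ≤ p.natDegree :=
    natDegree_reflect_le.trans (max_le le_rfl natDegree_map_le)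
  rw [hc, h1.natDegree_mul' c0] at e2
  rw [eq_C_of_natDegree_eq_zero (show c.natDegree = 0 by omega)] at hc
  rw [hc, coeff_mul_C] at e0 e1
  rw [← e1, h1.coeff_natDegree, one_mul, mul_comm, e0]

omit [UF F q] in
theorem exists_irreducible [Finite F] {d : ℕ} (hd : 1 ≤ d) : ∃ p : F[X], p.Monic ∧ Irreducible p ∧
    p.natDegree = d ∧ p.coeff 0 ≠ 0 ∧ ∀ k, 0 < k → k < Nat.card Fˣ → ((-1) ^ d * p.coeff 0) ^ k ≠ 1 := by
  obtain ⟨l, hl⟩ := CharP.exists F
  have := Fact.mk (CharP.char_is_prime F l)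
  have : NeZero d := ⟨by omega⟩
  let K := FiniteField.Extension F l d
  obtain ⟨θ, hθ⟩ := IsCyclic.exists_generator (α := Kˣ)
  have hi : IsIntegral F (θ : K) := .of_finite F _
  have h1 : Algebra.adjoin F {(θ : K)} = ⊤ := by
    rw [eq_top_iff]
    intro x _
    by_cases hx : x = 0
    · simp [hx]
    obtain ⟨n, hn⟩ := (mem_powers_iff_mem_zpowers.2 (hθ (Units.mk0 x hx)))
    rw [show x = (θ : K) ^ n by simpa using (congrArg Units.val hn).symm]
    exact pow_mem (Algebra.self_mem_adjoin_singleton F _) n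
  let pb := PowerBasis.ofAdjoinEqTop hi h1
  have h2 : pb.dim = d := by rw [← pb.finrank]; exact FiniteField.finrank_extension F l d
  have h3 := Algebra.PowerBasis.norm_gen_eq_coeff_zero_minpoly pb
  rw [h2, show pb.gen = θ from rfl] at h3
  refine ⟨minpoly F (θ : K), minpoly.monic hi, minpoly.irreducible hi,
    (pb.natDegree_minpoly).trans h2, minpoly.coeff_zero_ne_zero hi θ.ne_zero, fun k k0 hk h => ?_⟩
  obtain ⟨x, x0, hx⟩ := exists_pow_ne_one (F := F) k0.ne' hk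
  obtain ⟨y, hy⟩ := FiniteField.unitsMap_norm_surjective F K (Units.mk0 x x0)
  obtain ⟨n, rfl⟩ := (mem_powers_iff_mem_zpowers.2 (hθ y))
  refine hx ?_
  rw [show x = Algebra.norm F (θ : K) ^ n by simpa using (congrArg Units.val hy).symm, ← pow_mul,
    mul_comm, pow_mul, h3, h, one_pow]

omit [UF F q] in
theorem coprime_lin {p : F[X]} {a : F} (h : p.eval a ≠ 0) : IsCoprime (X - C a) p :=
  (irreducible_X_sub_C a).coprime_iff_not_dvd.2 (by rwa [dvd_iff_isRoot])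

theorem card_gt (hq : 3 ≤ q) : q + 1 < Nat.card Fˣ := by
  rw [card_units F q]
  exact lt_mul_right (by omega) (by omega)

theorem exists_poly (hq : 3 ≤ q) {d : ℕ} (hd : 1 ≤ d) : ∃ (p : F[X]) (μ : F), p.Monic ∧
    p.natDegree = d ∧ p.eval μ ≠ 0 ∧ -μ * p.coeff 0 = 1 ∧ Cp q (p * (X - C μ)) := by
  have : Finite F := UF.finite q
  obtain ⟨p, h1, h2, h3, h0, h4⟩ := exists_irreducible (F := F) hd
  have hc := card_gt (F := F) hq
  have h5 : σ (p.coeff 0) * p.coeff 0 ≠ 1 := fun h => h4 (q + 1) (by omega) hc (by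
    rw [← mul_conj_eq_pow, map_mul, map_pow, map_neg, map_one, mul_mul_mul_comm, ← mul_pow,
      mul_comm (p.coeff 0), h]
    simp)
  have h0' := (conj_ne_zero (q := q)).2 h0
  have h6 : p.eval (-(p.coeff 0)⁻¹) ≠ 0 ∧ p.eval (-σ (p.coeff 0)) ≠ 0 := by
    by_cases h : d = 1
    · subst h
      rw [h1.eq_X_add_C h3]
      simp only [eval_add, eval_X, eval_C, coeff_add, coeff_X_zero, coeff_C_zero, zero_add]
      refine ⟨fun e => h4 2 two_pos (by omega) ?_, fun e => h4 (q - 1) (by omega) (by omega) ?_⟩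
      · field_simp at e
        linear_combination e
      · refine (conj_eq_self_iff (by simpa using h0)).1 ?_
        simp only [pow_one, neg_mul, one_mul, map_neg]
        linear_combination e
    · have : ∀ x, p.eval x ≠ 0 := fun x hx => h (by
        rw [← h3]; exact natDegree_eq_of_degree_eq_some (degree_eq_one_of_irreducible_of_root h2 hx))
      exact ⟨this _, this _⟩
  refine ⟨p, -(p.coeff 0)⁻¹, h1, h3, h6.1, by simp [h0], d + 1, natDegree_mul_le.trans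
    (by rw [h3, natDegree_X_sub_C]), ?_⟩
  have h7 : (1 : F[X]) - C (σ (-(p.coeff 0)⁻¹)) * X = C (σ (p.coeff 0))⁻¹ * (X - C (-σ (p.coeff 0))) := by
    rw [mul_sub, ← C_mul]
    simp [h0']
    ring
  rw [dag_mul h3.le (natDegree_X_sub_C _).le, dag_one, h7]
  have h8 := (isUnit_C.2 (inv_ne_zero h0').isUnit)
  refine IsCoprime.mul_left (IsCoprime.mul_right (h3 ▸ coprime_dag h1 h2 h5) ?_) (coprime_lin ?_)
  · exact (isCoprime_mul_unit_left_right h8 _ _).2 (coprime_lin h6.2).symm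
  · rw [eval_mul, eval_dag h3.le (by simpa using h0)]
    simp only [map_neg, map_inv₀, inv_neg, inv_inv, eval_mul, eval_C, eval_sub, eval_X, eval_neg]
    refine mul_ne_zero (by simp [h0, h6.2]) (mul_ne_zero (inv_ne_zero h0') fun e => h5 ?_)
    field_simp at e
    linear_combination e

theorem two_eq_zero (F : Type*) [Field F] [UF F 2] : (2 : F) = 0 := by
  have := add_pow_q (F := F) (q := 2) 1 1
  linear_combination this

theorem cp_quad [UF F 2] {ω : F} (h : ω ^ 2 + ω + 1 = 0) :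
    dag (conj F 2) 2 (X ^ 2 + C ω * X + 1) = 1 + C (ω + 1) * X + X ^ 2 ∧
      IsCoprime (X ^ 2 + C ω * X + 1) (1 + C (ω + 1) * X + X ^ 2) := by
  have h2 : (2 : F[X]) = 0 := by rw [← map_ofNat C 2, two_eq_zero, C_0]
  have h3 : conj F 2 ω = ω + 1 := by
    rw [conj_apply]; linear_combination h - (ω + 1) * two_eq_zero F
  have hW : C ω ^ 2 + C ω + 1 = 0 := by simpa using congrArg C h
  have h4 := dag_two (q := 2) ω 1
  simp only [map_one, one_mul, h3] at h4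
  refine ⟨h4, ?_⟩
  rw [C_add, C_1]
  generalize C ω = W at hW
  exact ⟨1 + W + X, W + X, by linear_combination (2 * X) * hW + (W + X ^ 2 + 2 * W * X ^ 2 + X ^ 3) * h2⟩

theorem cp_cubic [UF F 2] : dag (conj F 2) 3 (X ^ 3 + X + 1) = 1 + X ^ 2 + X ^ 3 ∧
    IsCoprime (X ^ 3 + X + 1 : F[X]) (1 + X ^ 2 + X ^ 3) := by
  have h2 : (2 : F[X]) = 0 := by rw [← map_ofNat C 2, two_eq_zero, C_0]
  have h4 := dag_three (F := F) (q := 2) 0 1 1
  simp only [map_one, one_mul, map_zero, zero_mul, add_zero] at h4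
  exact ⟨h4, X, 1 + X, by linear_combination (X + X ^ 2 + X ^ 3 + X ^ 4) * h2⟩

theorem exists_poly_two [UF F 2] {ω : F} (h : ω ^ 2 + ω + 1 = 0) {n : ℕ} (hn : 2 ≤ n) :
    ∃ p P : F[X], p.Monic ∧ p.natDegree = n ∧ IsCoprime p (X ^ 2 + X + C ω) ∧
      p.coeff 0 * ω = 1 ∧ Cp 2 P ∧ p * (X ^ 2 + X + C ω) ∣ P := by
  have h1 := two_eq_zero F
  have h2 : (2 : F[X]) = 0 := by rw [← map_ofNat C 2, h1, C_0]
  have h3 : conj F 2 ω = ω + 1 := by rw [conj_apply]; linear_combination h - (ω + 1) * h1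
  have h4 : conj F 2 (ω + 1) = ω := by rw [← h3, conj_conj]
  have hW : C ω ^ 2 + C ω + 1 = 0 := by simpa using congrArg C h
  have d1 := dag_two (q := 2) 1 ω
  have d2 := dag_two (q := 2) 1 (ω + 1)
  have d3 := dag_two (q := 2) ω 1
  have d4 := dag_three (q := 2) 1 1 (ω + 1)
  simp only [map_one, one_mul, h3, h4] at d1 d2 d3 d4
  set r : F[X] := X ^ 2 + X + C ω with hr
  set t : F[X] := X ^ 2 + X + C (ω + 1) with ht
  set s : F[X] := X ^ 2 + C ω * X + 1 with hs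
  set c : F[X] := X ^ 3 + X ^ 2 + X + C (ω + 1) with hc
  have n1 : r.natDegree = 2 := by rw [hr]; compute_degree!
  have n2 : t.natDegree = 2 := by rw [ht]; compute_degree!
  have n3 : s.natDegree = 2 := by rw [hs]; compute_degree!
  have n4 : c.natDegree = 3 := by rw [hc]; compute_degree!
  have m2 : t.Monic := by rw [ht]; monicity!
  have m3 : s.Monic := by rw [hs]; monicity!
  have m4 : c.Monic := by rw [hc]; monicity!
  have c1 : Cp 2 (r * t * s * c) := by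
    have a1 : (r * t).natDegree ≤ 2 + 2 := natDegree_mul_le.trans (by omega)
    have a2 : (r * t * s).natDegree ≤ 2 + 2 + 2 := natDegree_mul_le.trans (by omega)
    refine ⟨2 + 2 + 2 + 3, natDegree_mul_le.trans (by omega), ?_⟩
    rw [dag_mul a2 n4.le, dag_mul a1 n3.le, dag_mul n1.le n2.le, d1, d2, d3, d4, hr, ht, hs, hc, C_add,
      C_1]
    generalize C ω = W at hW
    exact ⟨1 + W + X + W * X ^ 2 + X ^ 3 + X ^ 4 + W * X ^ 4 + X ^ 5 + W * X ^ 5 + X ^ 7 + W * X ^ 7,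
      1 + W + W * X ^ 5 + X ^ 6 + W * X ^ 6 + W * X ^ 7, by linear_combination (2 * W + W ^ 2 + 5
      * X + 4 * W * X + 2 * W ^ 2 * X + W ^ 3 * X + 11 * X ^ 2 + 11 * W * X ^ 2 + 6 * W ^ 2 * X ^
      2 + 30 * X ^ 3 + 20 * W * X ^ 3 + 4 * W ^ 2 * X ^ 3 + W ^ 3 * X ^ 3 + 45 * X ^ 4 + 27 * W *
      X ^ 4 + 7 * W ^ 2 * X ^ 4 + 54 * X ^ 5 + 35 * W * X ^ 5 + 7 * W ^ 2 * X ^ 5 + W ^ 3 * X ^ 5
      + 52 * X ^ 6 + 38 * W * X ^ 6 + 10 * W ^ 2 * X ^ 6 + W ^ 3 * X ^ 6 + 50 * X ^ 7 + 38 * W * X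
      ^ 7 + 12 * W ^ 2 * X ^ 7 + 62 * X ^ 8 + 31 * W * X ^ 8 + 8 * W ^ 2 * X ^ 8 + 2 * W ^ 3 * X ^
      8 + 72 * X ^ 9 + 34 * W * X ^ 9 + 6 * W ^ 2 * X ^ 9 + 75 * X ^ 10 + 37 * W * X ^ 10 + 4 * W
      ^ 2 * X ^ 10 + 66 * X ^ 11 + 38 * W * X ^ 11 + 5 * W ^ 2 * X ^ 11 + 40 * X ^ 12 + 33 * W * X
      ^ 12 + 8 * W ^ 2 * X ^ 12 + 16 * X ^ 13 + 22 * W * X ^ 13 + 8 * W ^ 2 * X ^ 13 + W ^ 3 * X ^
      13 + 3 * X ^ 14 + 8 * W * X ^ 14 + 7 * W ^ 2 * X ^ 14 + W ^ 3 * X ^ 14 - X ^ 15 + 3 * W * X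
      ^ 15 + 2 * W ^ 2 * X ^ 15 + W ^ 3 * X ^ 15 - X ^ 16 + W ^ 2 * X ^ 16) * hW + (W * X + X ^ 2
      + 4 * W * X ^ 2 - 4 * X ^ 3 + 3 * W * X ^ 3 - 8 * X ^ 4 + 4 * W * X ^ 4 - 11 * X ^ 5 + 2 * W
      * X ^ 5 - 9 * X ^ 6 + 4 * W * X ^ 6 - 6 * X ^ 7 + 8 * W * X ^ 7 - 9 * X ^ 8 + 12 * W * X ^ 8
      - 12 * X ^ 9 + 11 * W * X ^ 9 - 15 * X ^ 10 + 7 * W * X ^ 10 - 15 * X ^ 11 - 8 * X ^ 12 - 2
      * W * X ^ 12 - X ^ 13 - W * X ^ 13 + 2 * X ^ 14 + 2 * W * X ^ 14 + 2 * X ^ 15 + W * X ^ 15 +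
      X ^ 16 + W * X ^ 16) * h2⟩
  have c2 : IsCoprime (t * s * c) r := by
    rw [hr, ht, hs, hc, C_add, C_1]
    generalize C ω = W at hW
    exact ⟨W + X, 1 + X + X ^ 2 + X ^ 3 + W * X ^ 3 + W * X ^ 4 + X ^ 5 + X ^ 6, by
      linear_combination (1 + W + 2 * X + W * X + W ^ 2 * X + 4 * X ^ 2 + 4 * W * X ^ 2 + 8 * X ^ 3 + 2 * W * X ^ 3 +
      7 * X ^ 4 + W * X ^ 4 + 4 * X ^ 5 + X ^ 6) * hW + (- 1 + W * X - X ^ 3 + W * X ^ 3 + 2 * W *
      X ^ 4 + X ^ 5 + 4 * W * X ^ 5 + 2 * X ^ 6 + 3 * W * X ^ 6 + 2 * X ^ 7 + W * X ^ 7 + X ^ 8) *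
      h2⟩
  have key : ∀ p : F[X], p ∣ t * c → p.Monic → p.coeff 0 = ω + 1 → ∀ k, p.natDegree + k * 2 = n →
      ∃ p P : F[X], p.Monic ∧ p.natDegree = n ∧ IsCoprime p r ∧ p.coeff 0 * ω = 1 ∧ Cp 2 P ∧
        p * r ∣ P := fun p b1 b2 b3 k b4 => by
    have b5 : p * s ^ k ∣ (t * s * c) ^ (k + 1) := by
      rw [pow_succ']
      exact mul_dvd_mul (b1.trans ⟨s, by ring⟩) (pow_dvd_pow_of_dvd ⟨t * c, by ring⟩ k)
    refine ⟨p * s ^ k, _, b2.mul (m3.pow k), by rw [b2.natDegree_mul (m3.pow k), m3.natDegree_pow,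
      n3, b4], c2.pow_left.of_isCoprime_of_dvd_left b5, ?_, c1.pow (k + 1), ?_⟩
    · rw [mul_coeff_zero, b3, coeff_zero_eq_eval_zero, eval_pow]
      simp [hs]
      linear_combination h - h1
    · rw [show r * t * s * c = t * s * c * r by ring, mul_pow]
      exact mul_dvd_mul b5 (dvd_pow_self r (by omega))
  rcases Nat.even_or_odd' n with ⟨k, rfl | rfl⟩
  · exact key t (dvd_mul_right _ _) m2 (by simp [ht]) (k - 1) (by omega)
  · exact key c (dvd_mul_left _ _) m4 (by simp [hc]) (k - 1) (by omega)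

end Cfsg.Agent.Comm.UPoly
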