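import Mathlib
import Cfsg.Agent.Comm.UNorm
import Cfsg.Agent.Comm.UPoly
import Cfsg.Agent.Comm.UGL4
import Cfsg.Agent.Comm.OFac
import Cfsg.Agent.Lin.Factor2

/-!
Levi elements as quotients of conjugate elements acting without fixed points on the radicals.
-/

set_option autoImplicit false

namespace Cfsg.Agent.Comm.UModel

open Module Polynomial Cfsg.Agent.Class Cfsg.Agent.Class.U Cfsg.Agent.Comm.UFpf
  Cfsg.Agent.Comm.UPoly Cfsg.Agent.Lin

attribute [local simp] Isom.mul_apply Isom.one_apply conj_conj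

variable {F A : Type*} [Field F] [AddCommGroup A] [Module F A] {m : ℕ} {q : ℕ} [UF F q]
  {B₀ : A →ₛₗ[conj F q] A →ₗ[F] F}

local notation "σ" => conj F q

section
variable (a : (Fin m → F) ≃ₗ[F] (Fin m → F)) (γ : U1 F q) (f : F[X])

theorem pL_aeval (v : VV m F A) :
    pL (aeval (en (lv m B₀ (a, γ))) f v) = aeval (a : End F (Fin m → F)) f (pL v) :=
  OModel.aeval_inter pL (pL_lv a γ) f v

theorem pR_aeval (v : VV m F A) :
    pR (aeval (en (lv m B₀ (a, γ))) f v) = aeval (dg q a : End F (Fin m → F)) f (pR v) :=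
  OModel.aeval_inter pR (pR_lv a γ) f v

theorem pA_aeval (v : VV m F A) :
    pA (F := F) (aeval (en (lv m B₀ (a, γ))) f v) = f.eval (γ.1 : F) • pA (F := F) v := by
  rw [OModel.aeval_inter (y := (γ.1 : F) • (1 : End F A)) pA (pA_lv a γ) f v]
  exact End.aeval_apply_of_mem_apply_eq_smul rfl

theorem aeval_iA (z : A) :
    aeval (en (lv m B₀ (a, γ))) f (iA (F := F) z) = iA (F := F) (f.eval (γ.1 : F) • z) :=
  ext3 (by simp [pL_aeval]) (by simp [pR_aeval]) (by simp [pA_aeval])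

end

theorem aeval_dg {a : (Fin m → F) ≃ₗ[F] (Fin m → F)} {π : F[X]} {d : ℕ} (hd : π.natDegree ≤ d)
    (ha : aeval (a : End F (Fin m → F)) π = 0) :
    aeval (dg q a : End F (Fin m → F)) (dag σ d π) = 0 :=
  LinearMap.ext fun y => eq_zero_of_hs (q := q) fun x => by
    have := B_aeval hd (lv m (0 : F →ₛₗ[σ] F →ₗ[F] F) (a, 1)) (iL x) (iR y)
    simpa [BB_eq, pL_aeval, pR_aeval, ha] using this.symm

variable (q) in
/-- Annihilated by a polynomial coprime to its conjugate reverse. -/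
def Good (a : (Fin m → F) ≃ₗ[F] (Fin m → F)) : Prop :=
  ∃ π : F[X], Cp q π ∧ aeval (a : End F (Fin m → F)) π = 0

theorem Good.of_inter {a b x : (Fin m → F) ≃ₗ[F] (Fin m → F)} (h : Good q a)
    (e : ∀ u, x (a u) = b (x u)) : Good q b := by
  obtain ⟨π, h1, h2⟩ := h
  refine ⟨π, h1, LinearMap.ext fun u => ?_⟩
  obtain ⟨u, rfl⟩ := x.surjective u
  have := OModel.aeval_inter (z := (a : End F (Fin m → F))) (y := (b : End F (Fin m → F)))
    (x : End F (Fin m → F)) e π u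
  simpa [h2] using this.symm

variable [FiniteDimensional F A]

theorem Setup.fpf (S : Setup B₀) {a : (Fin m → F) ≃ₗ[F] (Fin m → F)} (h : Good q a) (γ : U1 F q) :
    Fpf (LL m F A) (lv m B₀ (a, γ)) ∧ Fpf (RR m F A) (lv m B₀ (a, γ)) := by
  obtain ⟨π, h1, h2⟩ := h
  obtain ⟨d, h3, h4, h5, h6⟩ := h1.eval_ne γ.2
  have h7 := aeval_dg (q := q) h3 h2
  refine ⟨fpf_of (S.formed m) (lv_mem_PL a γ) (fun x hx => ?_) (fun x hx => ?_) (fun v => ?_) h4,
    fpf_of (S.formed m) (lv_mem_PL' a γ) (fun x hx => ?_) (fun x hx => ?_) (fun v => ?_) h4.symm⟩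
  · exact ext3 (by simp [pL_aeval, h2]) (by simp [pR_aeval, (mem_LL.1 hx).1])
      (by simp [pA_aeval, (mem_LL.1 hx).2])
  · exact ⟨iA (F := F) ((π.eval (γ.1 : F))⁻¹ • pA (F := F) x), mem_perp_LL.2 rfl, by
      simp [aeval_iA, mem_LL, mem_perp_LL.1 hx, h5]⟩
  · exact mem_perp_LL.2 (by simp [pR_aeval, h7])
  · exact ext3 (by simp [pL_aeval, (mem_RR.1 hx).1]) (by simp [pR_aeval, h7])
      (by simp [pA_aeval, (mem_RR.1 hx).2])
  · exact ⟨iA (F := F) (((dag σ d π).eval (γ.1 : F))⁻¹ • pA (F := F) x), mem_perp_RR.2 rfl, by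
      simp [aeval_iA, mem_RR, mem_perp_RR.1 hx, h6]⟩
  · exact mem_perp_RR.2 (by simp [pL_aeval, h2])

/-- The factorisation property. -/
def Fac (B₀ : A →ₛₗ[σ] A →ₗ[F] F) (b : (Fin m → F) ≃ₗ[F] (Fin m → F)) : Prop :=
  ∃ (y : (Fin m → F) ≃ₗ[F] (Fin m → F)) (γ : U1 F q) (k : GG m B₀), Good q y ∧ Good q (b * y) ∧
    dt (lv m B₀ (y, γ)) = 1 ∧ dt k = 1 ∧ lv m B₀ (b * y, γ) = k * lv m B₀ (y, γ) * k⁻¹

theorem dt_lv_one {a : (Fin m → F) ≃ₗ[F] (Fin m → F)}
    (h : σ (LinearMap.det (a : End F (Fin m → F))) = LinearMap.det (a : End F (Fin m → F))) :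
    dt (lv m B₀ (a, 1)) = 1 := by
  simp [dt_lv, h, (LinearEquiv.isUnit_det' a).ne_zero]

omit [FiniteDimensional F A] in
theorem lv_conj {a b x : (Fin m → F) ≃ₗ[F] (Fin m → F)} (e : ∀ u, x (a u) = b (x u)) (γ : U1 F q) :
    lv m B₀ (b, γ) = lv m B₀ (x, 1) * lv m B₀ (a, γ) * (lv m B₀ (x, 1))⁻¹ := by
  rw [eq_mul_inv_iff_mul_eq, ← map_mul, ← map_mul]
  congr 1
  exact Prod.ext (LinearEquiv.ext fun z => (e z).symm) (by simp)

/-- The centraliser has all determinants. -/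
def Cd (y : End F (Fin m → F)) : Prop :=
  ∀ s : F, s ≠ 0 → ∃ c : (Fin m → F) ≃ₗ[F] (Fin m → F),
    LinearMap.det (c : End F (Fin m → F)) = s ∧ ∀ x, c (y x) = y (c x)

omit [UF F q] in
theorem exists_conj_det {y z : End F (Fin m → F)} {e f : Fin m → F} (h1 : Gen y e) (h2 : Gen z f)
    (h3 : y.charpoly = z.charpoly) (h4 : Cd y) : ∃ x : (Fin m → F) ≃ₗ[F] (Fin m → F),
      LinearMap.det (x : End F (Fin m → F)) = 1 ∧ ∀ u, x (y u) = z (x u) := by
  obtain ⟨x, hx⟩ := h1.conj h2 h3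
  have hx0 : LinearMap.det (x : End F (Fin m → F)) ≠ 0 := (LinearEquiv.isUnit_det' x).ne_zero
  obtain ⟨c, c1, c2⟩ := h4 _ (inv_ne_zero hx0)
  exact ⟨x * c, by rw [LinearEquiv.coe_toLinearMap_mul, map_mul, c1, mul_inv_cancel₀ hx0],
    fun u => (congrArg x (c2 u)).trans (hx _)⟩

theorem fac_of_gen {b : (Fin m → F) ≃ₗ[F] (Fin m → F)} {y : End F (Fin m → F)} {e f : Fin m → F}
    {P Q : F[X]} (h1 : Gen y e) (h2 : Gen ((b : End F (Fin m → F)) * y) f) (h3 : y.charpoly = P)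
    (h4 : ((b : End F (Fin m → F)) * y).charpoly = P) (h5 : Cd y) (h6 : P.coeff 0 = 1)
    (h7 : Cp q Q) (h8 : P ∣ Q) : Fac B₀ b := by
  have hy : LinearMap.det y = (-1) ^ m := by
    rw [LinearMap.det_eq_sign_charpoly_coeff, h3, h6]; simp
  obtain ⟨x, x1, x2⟩ := exists_conj_det h1 h2 (h3.trans h4.symm) h5
  obtain ⟨y, rfl⟩ : ∃ y' : (Fin m → F) ≃ₗ[F] (Fin m → F), (y' : End F (Fin m → F)) = y :=
    ⟨LinearMap.equivOfDetNeZero y (by simp [hy]), LinearEquiv.coe_ofIsUnitDet _⟩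
  have g : Good q y := ⟨Q, h7, by
    obtain ⟨c, rfl⟩ := h8
    rw [map_mul, ← h3, LinearMap.aeval_self_charpoly, zero_mul]⟩
  exact ⟨y, 1, lv m B₀ (x, 1), g, g.of_inter x2, dt_lv_one (by simp [hy]), dt_lv_one (by simp [x1]),
    lv_conj x2 1⟩

theorem fac_big (hq : 3 ≤ q) (hm : 2 ≤ m) {b : (Fin m → F) ≃ₗ[F] (Fin m → F)}
    (hb : LinearMap.det (b : End F (Fin m → F)) = 1) {v : Fin m → F} (hv : b v ∉ F ∙ v) :
    Fac B₀ b := by
  obtain ⟨p, μ, h1, h2, h3, h4, h5⟩ := exists_poly (F := F) hq (d := m - 1) (by omega)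
  have hc : (p * (X - C μ)).coeff 0 = 1 := by rw [← h4]; simp [mul_comm]
  obtain ⟨y, e, f, a1, a2, a3, a4, a5⟩ := exists_factor_simple b hv (n := m - 1) (by simp; omega) h1 h2
    (right_ne_zero_of_mul_eq_one h4) (h1.mul (monic_X_sub_C μ))
    (by rw [h1.natDegree_mul (monic_X_sub_C _), natDegree_X_sub_C, h2]) h3 (by rw [hb, hc, h4, one_mul])
  exact fac_of_gen a1 a3 a2 a4 a5 hc h5 dvd_rfl

theorem exists_norm_ne (hq : 3 ≤ q) : ∃ δ : F, δ ≠ 0 ∧ σ δ * δ ≠ 1 := by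
  have : Finite F := UF.finite q
  obtain ⟨x, h1, h2⟩ := exists_pow_ne_one (F := F) (d := q + 1) (by omega) (card_gt hq)
  exact ⟨x, h1, by rwa [mul_comm, mul_conj_eq_pow]⟩

theorem exists_dt (hA : finrank F A = 1) (y : (Fin m → F) ≃ₗ[F] (Fin m → F)) :
    ∃ γ, dt (lv m B₀ (y, γ)) = 1 := by
  have h0 := (LinearEquiv.isUnit_det' y).ne_zero
  have h1 := (conj_ne_zero (q := q)).2 h0
  refine ⟨mkU (σ (LinearMap.det (y : End F (Fin m → F))) / LinearMap.det (y : End F (Fin m → F)))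
    (by simp [h0]), ?_⟩
  simp [dt_lv, hA, mkU]
  field_simp

theorem fac_dim_one (hq : 3 ≤ q) (hA : finrank F A = 1) :
    Fac B₀ (1 : (Fin m → F) ≃ₗ[F] (Fin m → F)) := by
  obtain ⟨δ, h0, h1⟩ := exists_norm_ne (F := F) hq
  obtain ⟨γ, h⟩ := exists_dt (B₀ := B₀) hA (LinearEquiv.smulOfNeZero F (Fin m → F) δ h0)
  have g : Good q (LinearEquiv.smulOfNeZero F (Fin m → F) δ h0) := by
    refine ⟨X - C δ, ⟨1, (natDegree_X_sub_C _).le, coprime_lin ?_⟩, LinearMap.ext fun x => by simp⟩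
    simpa [dag_one, sub_eq_zero] using h1.symm
  exact ⟨_, γ, 1, g, by rwa [one_mul], h, map_one _, by simp⟩

theorem fac_neg (hq : 3 ≤ q) (hA : finrank F A = 1) {b : (Fin 2 → F) ≃ₗ[F] (Fin 2 → F)}
    (hb : ∀ x, b x = -x) : Fac B₀ b := by
  obtain ⟨δ, h0, h1⟩ := exists_norm_ne (F := F) hq
  let y : (Fin 2 → F) ≃ₗ[F] (Fin 2 → F) := Matrix.toLin'OfInv (M' := !![0, δ; 1, 0])
    (M := !![0, 1; δ⁻¹, 0]) (by simp [h0, ← Matrix.one_fin_two]) (by simp [h0, ← Matrix.one_fin_two])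
  let x : (Fin 2 → F) ≃ₗ[F] (Fin 2 → F) := Matrix.toLin'OfInv (M := !![1, 0; 0, -1])
    (M' := !![1, 0; 0, -1]) (by simp [← Matrix.one_fin_two]) (by simp [← Matrix.one_fin_two])
  have y1 : ∀ u, y u = ![δ * u 1, u 0] := fun u => by
    ext i; fin_cases i <;> simp [y, Matrix.vecHead, Matrix.vecTail]
  have x1 : ∀ u, x u = ![u 0, -u 1] := fun u => by
    ext i; fin_cases i <;> simp [x, Matrix.vecHead, Matrix.vecTail]
  have x2 : LinearMap.det (x : End F (Fin 2 → F)) = -1 :=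
    (LinearMap.det_toLin' !![1, 0; 0, -1]).trans (by simp)
  have e : ∀ u, x (y u) = (b * y) (x u) := fun u => by simp [x1, y1, hb]
  have g : Good q y := by
    refine ⟨X ^ 2 + C 0 * X + C (-δ), ⟨2, by compute_degree, ?_⟩, LinearMap.ext fun u => ?_⟩
    · have h2 := sub_ne_zero.2 h1.symm
      refine ⟨C (σ δ / (1 - σ δ * δ)), C (1 - σ δ * δ)⁻¹, ?_⟩
      have : C (1 - σ δ * δ)⁻¹ * (1 - C (σ δ) * C δ) = 1 := by
        rw [← C_mul, ← C_1, ← C_sub, ← C_mul, inv_mul_cancel₀ h2]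
      rw [dag_two, div_eq_mul_inv, C_mul]
      simp only [map_zero, map_neg]
      linear_combination this
    · ext i; fin_cases i <;> simp [sq, y1]
  obtain ⟨γ, h⟩ := exists_dt (B₀ := B₀) hA y
  exact ⟨y, γ, lv 2 B₀ (x, 1), g, g.of_inter e, h, dt_lv_one (by simp [x2]), lv_conj e γ⟩

section
variable [UF F 2] {B₀ : A →ₛₗ[conj F 2] A →ₗ[F] F}

theorem norm_eq_one {x : F} (hx : x ≠ 0) : conj F 2 x * x = 1 := by
  have : Finite F := UF.finite 2
  have h := card_units F 2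
  rw [mul_comm, mul_conj_eq_pow]
  simpa [h] using congrArg Units.val (pow_card_eq_one' (x := Units.mk0 x hx))

theorem cd_of {y c : End F (Fin m → F)} (h : Commute c y)
    (hc : LinearMap.det c ^ 2 + LinearMap.det c + 1 = 0) : Cd y := by
  intro s hs
  have h0 : LinearMap.det c ≠ 0 := fun e => by simp [e] at hc
  obtain ⟨k, hk⟩ : ∃ k : ℕ, LinearMap.det c ^ k = s := by
    have h1 := norm_eq_one hs
    rw [conj_apply] at h1
    have : (s - 1) * ((s - LinearMap.det c) * (s - LinearMap.det c ^ 2)) = 0 := by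
      linear_combination h1 + (s * (LinearMap.det c) - s ^ 2 + 1 - LinearMap.det c) * hc
    rcases mul_eq_zero.1 this with e | e
    · exact ⟨0, by rw [pow_zero, sub_eq_zero.1 e]⟩
    rcases mul_eq_zero.1 e with e | e
    · exact ⟨1, by rw [pow_one, sub_eq_zero.1 e]⟩
    · exact ⟨2, (sub_eq_zero.1 e).symm⟩
  obtain ⟨c', hc'⟩ : ∃ c' : (Fin m → F) ≃ₗ[F] (Fin m → F), (c' : End F (Fin m → F)) = c ^ k :=
    ⟨LinearMap.equivOfDetNeZero _ (by simp [h0]), LinearEquiv.coe_ofIsUnitDet _⟩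
  refine ⟨c', by rw [hc', map_pow, hk], fun x => ?_⟩
  have := LinearMap.congr_fun (h.pow_left k).eq x
  rwa [← hc'] at this

theorem cd_of_eval {y : End F (Fin m → F)} {a : F}
    (h : y.charpoly.eval a ^ 2 + y.charpoly.eval a + 1 = 0) : Cd y :=
  cd_of (c := algebraMap F _ a - y) ((Algebra.commute_algebraMap_left a y).sub_left (.refl y))
    (by rwa [← LinearMap.eval_charpoly])

theorem irr_of_cp {f : F[X]} (h : Cp 2 f) (h0 : f.coeff 0 = 1) (h1 : f.Monic) (h2 : 2 ≤ f.natDegree)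
    (h3 : f.natDegree ≤ 3) : Irreducible f := by
  rw [irreducible_iff_roots_eq_zero_of_degree_le_three h2 h3, Multiset.eq_zero_iff_forall_notMem]
  intro x hx
  have h4 : f.eval x = 0 := (mem_roots h1.ne_zero).1 hx
  obtain ⟨-, -, -, h5, -⟩ := h.eval_ne (norm_eq_one (x := x) (by
    rintro rfl
    rw [← coeff_zero_eq_eval_zero, h0] at h4
    exact one_ne_zero h4))
  exact h5 h4

theorem fac_swap (h2 : 2 ≤ m) (h3 : m ≤ 3) {f f' : F[X]} (hf : dag (conj F 2) m f = f')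
    (hc : IsCoprime f f') (m1 : f.Monic) (m2 : f'.Monic) (d1 : f.natDegree = m)
    (d2 : f'.natDegree = m) (c1 : f.coeff 0 = 1) (c2 : f'.coeff 0 = 1) {a : F}
    (e1 : f.eval a ^ 2 + f.eval a + 1 = 0) (e2 : f'.eval a ^ 2 + f'.eval a + 1 = 0)
    {b : (Fin m → F) ≃ₗ[F] (Fin m → F)} {y : End F (Fin m → F)} (hy : aeval y f = 0)
    (hb : aeval ((b : End F (Fin m → F)) * y) f = 0 ∨ aeval ((b : End F (Fin m → F)) * y) f' = 0) :
    Fac B₀ b := by
  have p1 : Cp 2 f := ⟨m, d1.le, hf ▸ hc⟩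
  have p2 : Cp 2 f' := ⟨m, d2.le, by rw [← hf, dag_dag, hf]; exact hc.symm⟩
  have i1 := irr_of_cp p1 c1 m1 (by omega) (by omega)
  have i2 := irr_of_cp p2 c2 m2 (by omega) (by omega)
  have hv : (1 : Fin m → F) ≠ 0 := fun h => one_ne_zero (congrFun h ⟨0, by omega⟩)
  obtain ⟨a1, a2⟩ := OModel.gen_of_irreducible m1 i1 (by simpa using d1) hy hv
  rcases hb with hb | hb
  · obtain ⟨a3, a4⟩ := OModel.gen_of_irreducible m1 i1 (by simpa using d1) hb hv
    exact fac_of_gen a1 a3 a2 a4 (cd_of_eval (a2 ▸ e1)) c1 p1 dvd_rfl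
  have hy' : LinearMap.det y = (-1) ^ m := by
    rw [LinearMap.det_eq_sign_charpoly_coeff, a2, c1]; simp
  obtain ⟨y, rfl⟩ : ∃ y' : (Fin m → F) ≃ₗ[F] (Fin m → F), (y' : End F (Fin m → F)) = y :=
    ⟨LinearMap.equivOfDetNeZero y (by simp [hy']), LinearEquiv.coe_ofIsUnitDet _⟩
  obtain ⟨a3, a4⟩ := OModel.gen_of_irreducible m2 i2 (by simpa using d2) hb hv
  obtain ⟨a5, a6⟩ := OModel.gen_of_irreducible m2 i2 (by simpa using d2)
    (hf ▸ aeval_dg (q := 2) d1.le hy) hv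
  obtain ⟨x, x1, x2⟩ := exists_conj_det a5 a3 (a6.trans a4.symm) (cd_of_eval (a6 ▸ e2))
  have j : dt (JJ m B₀) = 1 := by
    have := congrArg dt (wE_mul_self (B₀ := B₀) (m := m) proj_one)
    rw [map_mul, map_one] at this
    refine sub_eq_zero.1 (pow_eq_zero_iff two_ne_zero |>.1 ?_)
    linear_combination this - (dt (JJ m B₀) - 1) * two_eq_zero F
  refine ⟨y, 1, lv m B₀ (x, 1) * JJ m B₀, ⟨f, p1, hy⟩, ⟨f', p2, hb⟩, dt_lv_one (by simp [hy']),
    by rw [map_mul, j, dt_lv_one (by simp [x1]), one_mul], ?_⟩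
  rw [lv_conj (a := dg 2 y) (b := b * y) x2, ← JJ_conj_lv]
  group

theorem card_four [Fintype F] : Fintype.card F = 4 := by
  rw [← Nat.card_eq_fintype_card, UF.card_eq (q := 2)]; rfl

theorem fac_two {b : (Fin 2 → F) ≃ₗ[F] (Fin 2 → F)}
    (hb : LinearMap.det (b : End F (Fin 2 → F)) = 1) : Fac B₀ b := by
  have : Finite F := UF.finite 2
  have := Fintype.ofFinite F
  obtain ⟨ω, hω, h⟩ := UGL4.exists_two (F := F) card_four
  obtain ⟨M, e1, e2⟩ := h (LinearMap.toMatrixAlgEquiv' (b : End F (Fin 2 → F)))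
    ((LinearMap.det_toMatrix' _).trans hb)
  obtain ⟨c1, c2⟩ := cp_quad hω
  have h2 := two_eq_zero F
  refine fac_swap le_rfl (by omega) c1 c2 (by monicity!) (by monicity!) (by compute_degree!)
    (by compute_degree!) (by simp) (by simp) (a := 1) ?_ ?_ (y := Matrix.toLinAlgEquiv' M) ?_
    (e2.imp (fun h => ?_) fun h => ?_)
  · simp; linear_combination hω + (2 * ω + 3) * h2
  · simp; linear_combination hω + (3 * ω + 6) * h2
  · simpa [← Algebra.smul_def] using congrArg Matrix.toLinAlgEquiv' e1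
  · simpa [← Algebra.smul_def] using congrArg Matrix.toLinAlgEquiv' h
  · have := congrArg Matrix.toLinAlgEquiv' h
    simp only [map_add, map_mul, map_smul, map_pow, map_one, map_zero,
      Matrix.toLinAlgEquiv'_toMatrixAlgEquiv'] at this
    rw [map_add, map_add, map_mul, aeval_C, map_pow, aeval_X, map_one, ← Algebra.smul_def, this]

theorem exists_omega : ∃ ω : F, ω ^ 2 + ω + 1 = 0 := by
  have : Finite F := UF.finite 2
  have := Fintype.ofFinite F
  obtain ⟨ω, hω, -⟩ := UGL4.exists_two (F := F) card_four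
  exact ⟨ω, hω⟩

theorem fac_three {b : (Fin 3 → F) ≃ₗ[F] (Fin 3 → F)}
    (hb : LinearMap.det (b : End F (Fin 3 → F)) = 1) {v : Fin 3 → F} (hv : b v ∉ F ∙ v) :
    Fac B₀ b := by
  have : Finite F := UF.finite 2
  have := Fintype.ofFinite F
  obtain ⟨ω, hω⟩ := exists_omega (F := F)
  obtain ⟨w, -, hw⟩ := exists_notMem_of_lt (D := Submodule.span F {v, b v}) (W := ⊤)
    (by have := finrank_span_pair_le (F := F) v (b v); simp; omega)
  have v0 : v ≠ 0 := by rintro rfl; simp at hv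
  have li : LinearIndependent F (Fin.snoc ![v, b v] w : Fin 3 → Fin 3 → F) :=
    linearIndependent_finSnoc.2 ⟨(LinearIndependent.pair_iff' v0).2
      fun c e => hv (Submodule.mem_span_singleton.2 ⟨c, e⟩), by rwa [Matrix.range_cons_cons_empty]⟩
  let B := basisOfLinearIndependentOfCardEqFinrank li (by simp)
  have hB : ⇑B = _ := coe_basisOfLinearIndependentOfCardEqFinrank li _
  have h1 : ∀ i, LinearMap.toMatrixAlgEquiv B (b : End F (Fin 3 → F)) i 0 = B.repr (B 1) i := fun i => by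
    rw [LinearMap.toMatrixAlgEquiv_apply, hB]; rfl
  obtain ⟨M, e1, e2⟩ := UGL4.exists_three card_four
    (LinearMap.toMatrixAlgEquiv B (b : End F (Fin 3 → F))) ((LinearMap.det_toMatrix B _).trans hb)
    (by simp [h1]) (by simp [h1]) (by simp [h1])
  obtain ⟨c1, c2⟩ := cp_cubic (F := F)
  have h2 := two_eq_zero F
  refine fac_swap (by omega) le_rfl c1 c2 (by monicity!) (by monicity!) (by compute_degree!)
    (by compute_degree!) (by simp) (by simp) (a := ω) ?_ ?_ (y := Matrix.toLinAlgEquiv B M) ?_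
    (e2.imp (fun h => ?_) fun h => ?_)
  · simp; linear_combination (- 3 + 2 * ω + 2 * ω ^ 2 - ω ^ 3 + ω ^ 4) * hω + (3 + 2 * ω) * h2
  · simp; linear_combination (1 + 3 * ω - ω ^ 2 + ω ^ 3 + ω ^ 4) * hω + (1 - 2 * ω) * h2
  · simpa using congrArg (Matrix.toLinAlgEquiv B) e1
  · simpa using congrArg (Matrix.toLinAlgEquiv B) h
  · simpa using congrArg (Matrix.toLinAlgEquiv B) h

theorem fac_four (hm : 4 ≤ m) {b : (Fin m → F) ≃ₗ[F] (Fin m → F)}
    (hb : LinearMap.det (b : End F (Fin m → F)) = 1)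
    (h : Gd2 (b.symm : End F (Fin m → F)).dualMap) : Fac B₀ b := by
  obtain ⟨ω, hω⟩ := exists_omega (F := F)
  obtain ⟨p, P, h1, h2, h3, h4, h5, h6⟩ := exists_poly_two hω (n := m - 2) (by omega)
  have h7 : (X ^ 2 + X + C ω).Monic := by monicity!
  have h8 : (X ^ 2 + X + C ω).natDegree = 2 := by compute_degree!
  have h9 : (X ^ 2 + X + C ω).coeff 0 = ω := by simp
  obtain ⟨y, e, f, a1, a2, a3, a4, c, a5, a6⟩ := exists_factor2 b h (n := m - 2) (by simp; omega) h1 h2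
    (left_ne_zero_of_mul_eq_one h4) (h1.mul h7) (by rw [h1.natDegree_mul h7, h2, h8]) h7 h8 h3
    (by rw [hb, one_mul, mul_coeff_zero])
  exact fac_of_gen a1 a3 a2 a4 (cd_of a6 (by rwa [a5, h9])) (by rw [mul_coeff_zero, h9, h4]) h5 h6

end

omit [UF F q] in
theorem scalar_or (b : (Fin m → F) ≃ₗ[F] (Fin m → F)) :
    (∃ v, b v ∉ F ∙ v) ∨ (∃ c : F, ∀ v, b v = c • v) ∧
      ∀ (f : Dual F (Fin m → F)) (d : Fin m → F) (h : f d = 0), f ≠ 0 → d ≠ 0 →
        ∃ v, (LinearEquiv.transvection h * b) v ∉ F ∙ v := by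
  refine or_iff_not_imp_left.2 fun hc => ?_
  push Not at hc
  obtain ⟨c, e⟩ := (b : End F (Fin m → F)).exists_eq_smul_id_of_forall_notLinearIndependent
    fun v hv => by
      obtain ⟨c, e⟩ := Submodule.mem_span_singleton.1 (hc v)
      exact (LinearIndependent.pair_iff' (hv.ne_zero 0)).1 hv c e
  have e' : ∀ v, b v = c • v := fun v => LinearMap.congr_fun e v
  refine ⟨⟨c, e'⟩, fun f d h f0 d0 => ?_⟩
  obtain ⟨v, hv⟩ := DFunLike.ne_iff.1 f0
  refine ⟨v, fun h1 => ?_⟩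
  have c0 : c ≠ 0 := by
    rintro rfl
    exact d0 (b.injective (by simp [e']))
  obtain ⟨a, ha⟩ := Submodule.mem_span_singleton.1 h1
  have h2 := congrArg f ha
  simp [e', LinearMap.transvection.apply, h] at h2 ha
  rcases h2 with rfl | h2
  · simp [c0, d0] at ha
    exact hv ha
  · exact hv h2

theorem Setup.ok (S : Setup B₀) (hm : 1 ≤ m) (h1 : m = 1 → finrank F A = 1 ∧ q ≠ 2) :
    Ok A (Fac B₀ : ((Fin m → F) ≃ₗ[F] (Fin m → F)) → Prop) := by
  intro b hb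
  have hA := S.le
  have hd : ∀ (f : Dual F (Fin m → F)) (d : Fin m → F) (h : f d = 0),
      LinearMap.det ((LinearEquiv.transvection h * b : (Fin m → F) ≃ₗ[F] (Fin m → F)) :
        End F (Fin m → F)) = 1 := fun f d h => by
    rw [LinearEquiv.coe_toLinearMap_mul, map_mul, hb]; simp [h]
  rcases (two_le_q F q).eq_or_lt with rfl | hq
  · rcases (show m = 2 ∨ m = 3 ∨ 4 ≤ m by by_contra; exact (h1 (by omega)).2 rfl) with rfl | rfl | h4
    · exact Or.inl (fac_two hb)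
    · rcases scalar_or b with ⟨v, hv⟩ | ⟨-, h⟩
      · exact Or.inl (fac_three hb hv)
      · exact Or.inr ⟨by omega, fun f d e f0 d0 => (h f d e f0 d0).elim fun v => fac_three (hd f d e)⟩
    · refine or_iff_not_imp_left.2 fun h => ⟨by omega, fun f d e f0 d0 => fac_four h4 (hd f d e) ?_⟩
      have := gd2_add (by simpa using h4) (fun h' => h (fac_four h4 hb h'))
        (f := Dual.eval F _ (b.symm (-d))) (d := f)
        (fun h => d0 (by simpa using (eval_apply_eq_zero_iff F _).1 h)) f0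
      convert this using 1
      ext φ : 1
      refine LinearMap.ext fun x => ?_
      change φ (b.symm ((LinearEquiv.transvection e).symm x)) = _
      rw [LinearEquiv.transvection.symm_eq e (by simp [e])]
      simp [LinearMap.transvection.apply, mul_comm]
  have h2 : ∀ c : F, (∀ v, b v = c • v) → c ^ m = 1 := fun c h => by
    rw [← hb, show (b : End F (Fin m → F)) = c • LinearMap.id from LinearMap.ext h]; simp
  have h3 : (∀ v, b v = (1 : F) • v) → finrank F A = 1 → Fac B₀ b := fun h h' => by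
    rw [show b = 1 from LinearEquiv.ext (by simpa using h)]
    exact fac_dim_one hq h'
  rcases scalar_or b with ⟨v, hv⟩ | ⟨⟨c, hc⟩, h⟩
  · refine Or.inl (fac_big hq ?_ hb hv)
    by_contra h
    obtain rfl : m = 1 := by omega
    have v0 : v ≠ 0 := by rintro rfl; simp at hv
    exact hv (Submodule.mem_span_singleton.2 ((finrank_eq_one_iff_of_nonzero' v v0).1 (by simp) _))
  by_cases h4 : finrank F A + 2 ≤ m
  · exact Or.inr ⟨h4, fun f d e f0 d0 => (h f d e f0 d0).elim fun v => fac_big hq (by omega) (hd f d e)⟩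
  left
  have h5 := h2 c hc
  rcases (show m = 1 ∨ m = 2 ∧ finrank F A = 1 by omega) with rfl | ⟨rfl, h6⟩
  · exact h3 (by simpa [show c = 1 by simpa using h5] using hc) (h1 rfl).1
  · rcases sq_eq_one_iff.1 h5 with rfl | rfl
    · exact h3 hc h6
    · exact fac_neg hq h6 (by simpa using hc)

theorem Setup.sComm (S : Setup B₀) (hm : 1 ≤ m) (h1 : m = 1 → finrank F A = 1 ∧ q ≠ 2)
    {g : GG m B₀} (hg : dt g = 1) {x : VV m F A} (hx : BB m B₀ x x = 0)
    (hx' : ∀ c : F, g.1 x ≠ c • x) : SComm g := by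
  have : Finite F := UF.finite q
  have ok := S.ok hm h1
  obtain ⟨b, y, -, -, hy, -⟩ : ∃ b : (Fin m → F) ≃ₗ[F] (Fin m → F), Fac B₀ b := by
    rcases ok 1 (by simp) with h | ⟨h, h'⟩
    · exact ⟨_, h⟩
    · let i₀ : Fin m := ⟨0, by omega⟩
      let i₁ : Fin m := ⟨1, by omega⟩
      exact ⟨_, h' (LinearMap.proj i₀) (Pi.single i₁ 1) (by simp [i₀, i₁])
        (fun e => by simpa using LinearMap.congr_fun e 1) (by simp)⟩
  obtain ⟨k₁, a1⟩ := S.exists_notMem_PL hm hx hx'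
  obtain ⟨k₂, b, ⟨y, γ, k, b1, b2, b3, b4, b5⟩, u, hu, u', hu', e⟩ := S.exists_good
    (fun u hu => (S.fpf hy 1).1.dt hu) (fun u hu => (S.fpf hy 1).2.dt hu) ok (by rwa [dt_conj]) a1
  refine SComm.of_conj k₁ (SComm.of_conj k₂ ?_)
  rw [e, show lv m B₀ (b, 1) = lv m B₀ (b * y, γ) * (lv m B₀ (y, γ))⁻¹ by
    rw [eq_mul_inv_iff_mul_eq, ← map_mul]; simp]
  exact sComm_of_fpf (S.fpf b2 γ).2 (S.fpf b1 γ).1 b3 b4 b5 hu hu'

end Cfsg.Agent.Comm.UModel
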